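import Cfsg.Agent.Fus.AbelIdxP2
set_option autoImplicit false
set_option maxHeartbeats 400000

/-!
# Essential subgroups over `p`-groups with a unique abelian subgroup of index `p`, II (helper88)
-/

namespace Cfsg.Agent.Fus

open Cfsg Cfsg.FusionSystem

variable {Ω : Type*} [Group Ω] {S : Subgroup Ω} {F : FusionSystem S} {p : ℕ}

theorem relIndex_mul_card {B Z : Subgroup Ω} [Finite B] : Nat.card ↥(Z ⊓ B) * Z.relIndex B = Nat.card B := by
  have h1 := Subgroup.card_mul_index (Z.subgroupOf B)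
  rw [← h1]
  congr 1
  have h2 : Z.subgroupOf B = (Z ⊓ B).subgroupOf B := (Subgroup.inf_subgroupOf_right Z B).symm
  rw [h2]
  exact (Nat.card_congr (Subgroup.subgroupOfEquivOfLe (inf_le_right : Z ⊓ B ≤ B)).toEquiv).symm

namespace AIP

variable {A : Subgroup Ω} (h : AIP p S A)

include h

/-- common facts about essential subgroups outside `A` -/
theorem ess_facts [Finite S] [Fact p.Prime] (hS : IsPGroup p S) (hF : F.IsSaturated p) {P : Subgroup Ω} {x : Ω}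
    (hP : AEss F p A P x) : P.relIndex (normalizerIn S P) = p ∧ zc2 S ≤ A ∧ (zc S).relIndex (zc2 S) = p ∧
      (P ⊓ A = zc S ∨ P ⊓ A = zc2 S) := by
  by_cases hab : ∀ x ∈ P, ∀ y ∈ P, x * y = y * x
  · obtain ⟨-, h2, -, h4⟩ := h.type_one hS hF hP hab
    have h5 := h.zc2_le_of_relIndex hS h4
    rw [inf_eq_left.mpr h5] at h4
    exact ⟨h2, h5, h4, Or.inl (h.inf_eq_zc hS hP hab)⟩
  · obtain ⟨-, h2, h3, h4⟩ := h.type_two hS hF hP hab
    have h5 := h.zc2_le_of_relIndex hS h4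
    rw [inf_eq_left.mpr h5] at h4 h3
    exact ⟨h2, h5, h4, Or.inr h3⟩

theorem eq_sup [Finite S] [Fact p.Prime] (hS : IsPGroup p S) {P : Subgroup Ω} (hPS : P ≤ S) {x : Ω} (hx : x ∈ P)
    (hxA : x ∉ A) : P = (P ⊓ A) ⊔ Subgroup.zpowers x := by
  refine le_antisymm (fun y hy => ?_) (sup_le inf_le_left (Subgroup.zpowers_le.mpr hx))
  obtain ⟨j, hj⟩ := h.gen_inf hS hPS hx hxA hy
  have h1 := Subgroup.mul_mem ((P ⊓ A) ⊔ Subgroup.zpowers x) ((le_sup_left : P ⊓ A ≤ _) hj)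
    ((le_sup_right : Subgroup.zpowers x ≤ _) (Subgroup.pow_mem _ (Subgroup.mem_zpowers x) j))
  rwa [inv_mul_cancel_right] at h1

theorem zc_inf_comm [Finite S] [Fact p.Prime] (hS : IsPGroup p S) {x : Ω} (hx : x ∈ S) (hxA : x ∉ A) :
    zc S ⊓ ⁅S, S⁆ = h.kim hS hx (zc2 S ⊓ A) := by
  ext y
  constructor
  · rintro ⟨hy, hy'⟩
    rw [← h.kim_A hS hx hxA] at hy'
    obtain ⟨b, hb, -, rfl⟩ := (h.mem_kim hS hx).mp hy'
    refine (h.mem_kim hS hx).mpr ⟨b, hb, ?_, rfl⟩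
    rw [← h.kpre_zc hS hx hxA]
    exact (h.mem_kpre hS hx).mpr ⟨hb, hy⟩
  · intro hy
    obtain ⟨b, hb, hb', rfl⟩ := (h.mem_kim hS hx).mp hy
    rw [← h.kpre_zc hS hx hxA] at hb'
    refine ⟨((h.mem_kpre hS hx).mp hb').2, ?_⟩
    rw [← h.kim_A hS hx hxA]
    exact (h.mem_kim hS hx).mpr ⟨b, hb, hb, rfl⟩

theorem card_zc_inf_comm [Finite S] [Fact p.Prime] (hS : IsPGroup p S) {x : Ω} (hx : x ∈ S) (hxA : x ∉ A) :
    Nat.card ↥(zc S ⊓ ⁅S, S⁆) = (zc S).relIndex (zc2 S ⊓ A) := by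
  rw [h.zc_inf_comm hS hx hxA, ← h.card_kim hS hx hxA inf_le_right]

theorem comm_le [Finite S] [Fact p.Prime] (hS : IsPGroup p S) : ⁅S, S⁆ ≤ A := by
  obtain ⟨x, hx, hxA⟩ := h.exists_out
  rw [← h.kim_A hS hx hxA]
  exact h.kim_le hS hx A

/-- `|A : Z(S) S'| = p` -/
theorem relIndex_sup_comm [Finite S] [Fact p.Prime] (hS : IsPGroup p S) (hp1 : Nat.card ↥(zc S ⊓ ⁅S, S⁆) = p) :
    (zc S ⊔ ⁅S, S⁆).relIndex A = p := by
  obtain ⟨x, hx, hxA⟩ := h.exists_out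
  have hDA := h.comm_le hS
  have hDf : Finite ↥⁅S, S⁆ := finite_of_le (hDA.trans h.AS)
  have hsA : zc S ⊔ ⁅S, S⁆ ≤ A := sup_le (h.zc_le hS) hDA
  have h1 : zc S ⊔ ⁅S, S⁆ = h.kpre hS hx (h.kim hS hx ⁅S, S⁆) := by
    apply le_antisymm
    · refine sup_le (fun z hz => ?_) (fun z hz => ?_)
      · refine (h.mem_kpre hS hx).mpr ⟨h.zc_le hS hz, ?_⟩
        have h2 := (mem_zc.mp ((zc S).inv_mem hz)).2 x hx
        rw [h2, mul_inv_cancel_right, mul_inv_cancel]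
        exact Subgroup.one_mem _
      · exact (h.mem_kpre hS hx).mpr ⟨hDA hz, (h.mem_kim hS hx).mpr ⟨z, hDA hz, hz, rfl⟩⟩
    · intro y hy
      obtain ⟨hyA, hy'⟩ := (h.mem_kpre hS hx).mp hy
      obtain ⟨b, hb, hbD, hby⟩ := (h.mem_kim hS hx).mp hy'
      -- `y b⁻¹` is central
      have h2 : y * b⁻¹ ∈ zc S := by
        rw [← h.kpre_bot hS hx hxA, h.mem_kpre hS hx]
        refine ⟨A.mul_mem hyA (A.inv_mem hb), ?_⟩
        rw [Subgroup.mem_bot]
        have h3 := map_mul (h.kap hS hx) ⟨y, hyA⟩ (⟨b, hb⟩ : A)⁻¹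
        rw [map_inv, h.kap_apply, h.kap_apply, h.kap_apply] at h3
        have h4 : y * b⁻¹ * (x * (y * b⁻¹)⁻¹ * x⁻¹) = y * (x * y⁻¹ * x⁻¹) * (b * (x * b⁻¹ * x⁻¹))⁻¹ := h3
        rw [h4, hby, mul_inv_cancel]
      have e : y = (y * b⁻¹) * b := by group
      rw [e]
      exact Subgroup.mul_mem _ ((le_sup_left : zc S ≤ _) h2) ((le_sup_right : ⁅S, S⁆ ≤ _) hbD)
  rw [h1, h.kpre_relIndex hS hx le_rfl, h.kim_A hS hx hxA]
  have h2 := relIndex_mul_card (B := ⁅S, S⁆) (Z := zc S)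
  have h3 := relIndex_mul_card (B := ⁅S, S⁆) (Z := h.kim hS hx ⁅S, S⁆)
  have h4 : h.kim hS hx ⁅S, S⁆ ≤ ⁅S, S⁆ := by
    nth_rewrite 2 [← h.kim_A hS hx hxA]
    exact h.kim_mono hS hx hDA
  rw [inf_eq_left.mpr h4, ← h.card_kim hS hx hxA hDA] at h3
  rw [hp1, mul_comm, ← h3] at h2
  have h5 : 0 < (zc S).relIndex ⁅S, S⁆ := Nat.pos_of_ne_zero Subgroup.index_ne_zero_of_finite
  exact (Nat.eq_of_mul_eq_mul_left h5 h2).symm

/-- the series `A, κ(A), κ²(A), …` -/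
def ser [Finite S] [Fact p.Prime] (hS : IsPGroup p S) {x : Ω} (hx : x ∈ S) (n : ℕ) : Subgroup Ω :=
  (h.kim hS hx)^[n] A

theorem ser_succ [Finite S] [Fact p.Prime] (hS : IsPGroup p S) {x : Ω} (hx : x ∈ S) (n : ℕ) :
    h.ser hS hx (n + 1) = h.kim hS hx (h.ser hS hx n) := Function.iterate_succ_apply' _ _ _

theorem ser_le [Finite S] [Fact p.Prime] (hS : IsPGroup p S) {x : Ω} (hx : x ∈ S) (n : ℕ) :
    h.ser hS hx n ≤ A := by
  cases n with
  | zero => exact le_rfl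
  | succ n => rw [h.ser_succ]; exact h.kim_le hS hx _

open scoped commutatorElement in
theorem ser_le_lcs [Finite S] [Fact p.Prime] (hS : IsPGroup p S) {x : Ω} (hx : x ∈ S) (n : ℕ) :
    h.ser hS hx n ≤ Subgroup.lowerCentralSeries S n := by
  induction n with
  | zero => exact h.AS
  | succ n ih =>
    intro y hy
    rw [h.ser_succ] at hy
    obtain ⟨b, hb, hb', rfl⟩ := (h.mem_kim hS hx).mp hy
    rw [Subgroup.lowerCentralSeries_succ]
    have e : b * (x * b⁻¹ * x⁻¹) = ⁅b, x⁆ := by rw [commutatorElement_def]; group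
    rw [e]
    exact Subgroup.commutator_mem_commutator (ih hb') hx

theorem ser_anti [Finite S] [Fact p.Prime] (hS : IsPGroup p S) {x : Ω} (hx : x ∈ S) (n : ℕ) :
    h.ser hS hx (n + 1) ≤ h.ser hS hx n := by
  induction n with
  | zero => exact h.kim_le hS hx _
  | succ n ih => rw [h.ser_succ, h.ser_succ]; exact h.kim_mono hS hx (by rw [← h.ser_succ]; exact ih)

theorem card_ser [Finite S] [Fact p.Prime] (hS : IsPGroup p S) {x : Ω} (hx : x ∈ S) (hxA : x ∉ A)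
    (hp1 : Nat.card ↥(zc S ⊓ ⁅S, S⁆) = p) (n : ℕ) :
    Nat.card (h.ser hS hx 1) ≤ p ^ n * Nat.card (h.ser hS hx (n + 1)) := by
  have hSf : Finite ↥(zc S ⊓ ⁅S, S⁆) := finite_of_le (inf_le_left.trans fun _ h => h.1)
  have hle : ∀ n, h.ser hS hx (n + 1) ≤ ⁅S, S⁆ := by
    intro n
    induction n with
    | zero => exact (h.kim_A hS hx hxA).le
    | succ n ih => exact (h.ser_anti hS hx (n + 1)).trans ih
  induction n with
  | zero => rw [pow_zero, one_mul]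
  | succ n ih =>
    refine ih.trans ?_
    rw [pow_succ, mul_assoc]
    refine Nat.mul_le_mul_left _ ?_
    have hf : Finite ↥(h.ser hS hx (n + 1)) := finite_of_le ((h.ser_le hS hx (n + 1)).trans h.AS)
    have h1 := relIndex_mul_card (B := h.ser hS hx (n + 1)) (Z := zc S)
    rw [h.card_kim hS hx hxA (h.ser_le hS hx (n + 1)), ← h.ser_succ] at h1
    rw [← h1]
    refine Nat.mul_le_mul_right _ ?_
    exact (Nat.card_le_card_of_injective (Subgroup.inclusion (inf_le_inf_left _ (hle n)))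
      (Subgroup.inclusion_injective _)).trans hp1.le

/-- maximal class -/
theorem ser_not_le [Finite S] [Fact p.Prime] (hS : IsPGroup p S) {x : Ω} (hx : x ∈ S) (hxA : x ∉ A)
    (hp1 : Nat.card ↥(zc S ⊓ ⁅S, S⁆) = p) {m : ℕ} (hm : (zc S).relIndex A = p ^ (m + 1)) :
    ¬ h.ser hS hx m ≤ zc S := by
  intro hle
  have hp : p.Prime := Fact.out
  have h1 := h.card_ser hS hx hxA hp1 m
  have h2 : Nat.card (h.ser hS hx 1) = p ^ (m + 1) := by
    rw [← hm]
    exact (h.card_kim hS hx hxA le_rfl).symm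
  have h3 : Nat.card (h.ser hS hx (m + 1)) = 1 := by
    have h4 := h.card_kim hS hx hxA (h.ser_le hS hx m)
    rw [Subgroup.relIndex_eq_one.mpr hle, ← h.ser_succ] at h4
    exact h4.symm
  rw [h2, h3, mul_one] at h1
  exact absurd h1 (not_le.mpr (Nat.pow_lt_pow_right hp.one_lt (Nat.lt_succ_self m)))

end AIP

theorem aip_of [Fact p.Prime] {A : Subgroup Ω} (hna : ¬ IsMulCommutative ↥S)
    (hA : A ≤ S ∧ IsMulCommutative ↥A ∧ (A.subgroupOf S).index = p)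
    (huniq : ∀ B : Subgroup Ω, B ≤ S → IsMulCommutative ↥B → (B.subgroupOf S).index = p → B = A) : AIP p S A where
  AS := hA.1
  ab x hx y hy := by
    have h1 := hA.2.1.is_comm.comm (⟨x, hx⟩ : A) ⟨y, hy⟩
    exact congrArg Subtype.val h1
  idx := hA.2.2
  uniq B hB hab hi := huniq B hB ⟨⟨fun x y => Subtype.ext (hab x x.2 y y.2)⟩⟩ hi
  na := by
    by_contra hall
    push Not at hall
    exact hna ⟨⟨fun x y => Subtype.ext (hall x x.2 y y.2)⟩⟩

theorem map_commutator_subtype (S : Subgroup Ω) : (commutator ↥S).map S.subtype = ⁅S, S⁆ := by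
  rw [commutator_def, Subgroup.map_commutator, ← MonoidHom.range_eq_map, Subgroup.range_subtype]

end Cfsg.Agent.Fus
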