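import Cfsg.Agent.Fus.AbelIdxP3
import Cfsg.Agent.Fus.TopExt
set_option autoImplicit false
set_option maxHeartbeats 400000

/-!
# Fusion systems over `p`-groups with a unique abelian subgroup `A` of index `p`, `A` not essential (helper88)
-/

namespace Cfsg.Agent.Fus

open Cfsg Cfsg.FusionSystem

variable {Ω : Type*} [Group Ω] {S : Subgroup Ω} {F : FusionSystem S} {p : ℕ}

/-- Frattini argument for the action on an invariant central subgroup. -/
theorem exists_norm_ext [Finite S] [Fact p.Prime] (hS : IsPGroup p S) (hF : F.IsSaturated p) {P Z : Subgroup Ω}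
    (hP : F.IsFullyNormalized P) (hZP : Z ≤ P) (hZ : Z ≤ zc S) (hinv : ∀ α ∈ F.autGroup P, ∀ z ∈ Z, ofAut α z ∈ Z)
    {α : MulAut P} (hα : α ∈ F.autGroup P) :
    ∃ g, IsMap F (normalizerIn S P) g ∧ img P g = P ∧ ∀ z ∈ Z, g z = ofAut α z := by
  have hPS := hP.1
  have hPf : Finite P := finite_of_le hPS
  have hA : Finite (MulAut P) := finite_mulAut
  obtain ⟨-, R, hR⟩ := sat_fullyAutomized hS hF hP
  let K : Subgroup (F.autGroup P) :=
    { carrier := {κ | ∀ z ∈ Z, ofAut (κ : MulAut P) z = z}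
      one_mem' := fun z hz => ofAut_one (hZP hz)
      mul_mem' := by
        intro κ κ' h h' z hz
        show ofAut ((κ : MulAut P) * (κ' : MulAut P)) z = z
        rw [ofAut_mul _ _ (hZP hz), h' z hz, h z hz]
      inv_mem' := by
        intro κ h z hz
        show ofAut ((κ : MulAut P)⁻¹) z = z
        have h1 := ofAut_inv_apply (κ : MulAut P) (hZP hz)
        rwa [h z hz] at h1 }
  have hK : K.Normal := by
    constructor
    intro κ hκ g z hz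
    show ofAut ((g : MulAut P) * (κ : MulAut P) * (g : MulAut P)⁻¹) z = z
    have h1 := hinv _ (Subgroup.inv_mem _ g.2) z hz
    rw [ofAut_mul _ _ (hZP hz), ofAut_mul _ _ (hZP h1), hκ _ h1, ofAut_apply_inv _ (hZP hz)]
  have hRK : (R : Subgroup (F.autGroup P)) ≤ K := by
    intro u hu z hz
    rw [hR] at hu
    obtain ⟨s, hs, hsu⟩ := mem_autInducedBy'.mp (show (u : MulAut P) ∈ autInducedBy S P from hu)
    rw [hsu z (hZP hz), (mem_zc.mp (hZ hz)).2 s hs, mul_inv_cancel_right]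
  have h1 := Sylow.normalizer_sup_eq_top' R hRK
  have h2 : (⟨α, hα⟩ : F.autGroup P) ∈ Subgroup.normalizer (R : Set (F.autGroup P)) ⊔ K := by
    rw [h1]; trivial
  rw [← SetLike.mem_coe, Subgroup.mul_normal] at h2
  obtain ⟨ν, hν, κ, hκ, hνκ⟩ := h2
  have hνκ' : (ν : MulAut P) * κ = α := congrArg Subtype.val hνκ
  have hext : ∃ g, IsMap F (normalizerIn S P) g ∧ ∀ x ∈ P, g x = ofAut (ν : MulAut P) x := by
    have hm := isMap_ofAut hPS ν.2
    refine recep_exists_extend_of_le (sat_receptive' hS hF hP) hm (img_ofAut _) (le_normalizerIn hPS) fun n hn' => ?_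
    refine ⟨hn'.1, hn'.2, ?_⟩
    have h1 : (⟨conjAut n hn'.2, conjAut_mem_autGroup hPS hn'.1 hn'.2⟩ : F.autGroup P) ∈ (R : Subgroup (F.autGroup P)) := by
      rw [hR]; exact conjAut_mem hn'.1 hn'.2
    have h3 := (Subgroup.mem_normalizer_iff.mp hν _).mp h1
    have hR' : ∀ u : F.autGroup P, u ∈ (R : Subgroup (F.autGroup P)) → (u : MulAut P) ∈ autInducedBy S P := by
      intro u hu
      rw [hR] at hu
      exact hu
    obtain ⟨m, hm1, hm2⟩ := mem_autInducedBy'.mp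
      (show (ν : MulAut P) * conjAut n hn'.2 * (ν : MulAut P)⁻¹ ∈ autInducedBy S P from hR' _ h3)
    refine ⟨m, hm1, fun x hx => ?_⟩
    have h2 := hm2 (ofAut ν x) (ofAut_mem _ hx)
    rw [mul_assoc, ofAut_mul _ _ (ofAut_mem _ hx), ofAut_mul _ _ (ofAut_mem _ hx), ofAut_inv_apply _ hx,
      ofAut_conjAut n hn'.2 hx] at h2
    exact h2
  obtain ⟨g, hg, hgν⟩ := hext
  refine ⟨g, hg, by rw [img_congr hgν, img_ofAut], fun z hz => ?_⟩
  rw [hgν z (hZP hz), ← hνκ', ofAut_mul _ _ (hZP hz), hκ z hz]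

namespace AIP

variable {A : Subgroup Ω} (h : AIP p S A)

include h

theorem kap_pow [Finite S] [Fact p.Prime] (hS : IsPGroup p S) {x : Ω} (hx : x ∈ S) {s : Ω} (hs : s ∈ A) (i : ℕ) :
    s ^ i * x * (s ^ i)⁻¹ = (s * x * s⁻¹ * x⁻¹) ^ i * x := by
  have h1 := map_pow (h.kap hS hx) ⟨s, hs⟩ i
  rw [h.kap_apply, h.kap_apply] at h1
  have h2 : s ^ i * (x * (s ^ i)⁻¹ * x⁻¹) = (s * (x * s⁻¹ * x⁻¹)) ^ i := h1
  have e : s * x * s⁻¹ * x⁻¹ = s * (x * s⁻¹ * x⁻¹) := by group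
  rw [e, ← h2]; group

/-- no essential subgroup contains `N_S(P)`, `P` of type (ii) -/
theorem no_above_two [Finite S] [Fact p.Prime] (hS : IsPGroup p S) (hF : F.IsSaturated p) {P : Subgroup Ω} {x : Ω}
    (hP : AEss F p A P x) (h2 : P ⊓ A = zc2 S) : ∀ Q, F.IsEssential p Q → ¬ normalizerIn S P ≤ Q := by
  intro Q hQ hle
  have hPS := hP.ess.1.1
  have hPN : P ≤ normalizerIn S P := le_normalizerIn hPS
  have hlt : P < normalizerIn S P := lt_normalizerIn hS (lt_of_le_of_ne hPS (essential_ne_self hS hF hP.ess))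
  have hQE : AEss F p A Q x := ⟨hQ, hle (hPN hP.xP), hP.xA⟩
  obtain ⟨-, -, -, h4⟩ := h.ess_facts hS hF hQE
  have h5 : Q ⊓ A ≤ zc2 S := by
    rcases h4 with h4 | h4
    · rw [h4]; exact zc_le_zc2
    · rw [h4]
  apply hlt.not_ge
  intro m hm
  obtain ⟨j, hj⟩ := h.gen_inf hS (normalizerIn_le (S := S) P) (hPN hP.xP) hP.xA hm
  have h6 : m * (x ^ j)⁻¹ ∈ P ⊓ A := by
    rw [h2]; exact h5 ⟨hle hj.1, hj.2⟩
  have h7 := P.mul_mem h6.1 (P.pow_mem hP.xP j)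
  rwa [inv_mul_cancel_right] at h7

/-- no essential subgroup contains `N_S(P)`, `P` of type (i) -/
theorem no_above_one [Finite S] [Fact p.Prime] (hS : IsPGroup p S) (hF : F.IsSaturated p) {P : Subgroup Ω} {x : Ω}
    (hP : AEss F p A P x) (hab : ∀ x ∈ P, ∀ y ∈ P, x * y = y * x) :
    ∀ Q, F.IsEssential p Q → ¬ normalizerIn S P ≤ Q := by
  intro Q hQ hle
  have hp : p.Prime := Fact.out
  have hPS := hP.ess.1.1
  have hxS := hPS hP.xP
  have hPN : P ≤ normalizerIn S P := le_normalizerIn hPS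
  have hlt : P < normalizerIn S P := lt_normalizerIn hS (lt_of_le_of_ne hPS (essential_ne_self hS hF hP.ess))
  have hxQ := hle (hPN hP.xP)
  have hQE : AEss F p A Q x := ⟨hQ, hxQ, hP.xA⟩
  have hQS := hQ.1.1
  obtain ⟨h1, h2, h3, h4⟩ := h.type_one hS hF hP hab
  have hz2 : zc2 S ≤ A := h.zc2_le_of_relIndex hS h4
  have hnab : ¬ ∀ x ∈ Q, ∀ y ∈ Q, x * y = y * x := by
    intro hab'
    apply hlt.not_ge
    intro m hm
    exact centric_centralizer_le hP.ess.1 (mem_centralizerIn.mpr ⟨hm.1, fun y hy => hab' y (hle (hPN hy)) m (hle hm)⟩)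
  obtain ⟨⟨α, hα, y, hy, hyA⟩, q2, q3, q4⟩ := h.type_two hS hF hQE hnab
  rw [inf_eq_left.mpr hz2] at h3 h4 q3 q4
  -- `Q = N_S(P)`
  have hQN : Q = normalizerIn S P := by
    refine le_antisymm ?_ hle
    rw [h.eq_sup hS hQS hxQ hP.xA, q3, ← h3]
    exact sup_le inf_le_left (Subgroup.zpowers_le.mpr (hPN hP.xP))
  have hQlt : Q < normalizerIn S Q := lt_normalizerIn hS (lt_of_le_of_ne hQS (essential_ne_self hS hF hQ))
  have hQle : Q ≤ normalizerIn S Q := hQlt.le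
  -- `s`
  obtain ⟨s, hsN, hsA, hsQ⟩ : ∃ s, s ∈ normalizerIn S Q ∧ s ∈ A ∧ s ∉ Q := by
    obtain ⟨m, hm, hmQ⟩ := SetLike.exists_of_lt hQlt
    obtain ⟨j, hj⟩ := h.gen_inf hS (normalizerIn_le (S := S) Q) (hQle hxQ) hP.xA hm
    refine ⟨_, hj.1, hj.2, fun hmem => hmQ ?_⟩
    have h7 := Q.mul_mem hmem (Q.pow_mem hxQ j)
    rwa [inv_mul_cancel_right] at h7
  have hsS := h.AS hsA
  have huQ : s * x * s⁻¹ * x⁻¹ ∈ Q ⊓ A := by
    refine ⟨Q.mul_mem ((Subgroup.mem_normalizer_iff.mp hsN.2 x).mp hxQ) (Q.inv_mem hxQ), ?_⟩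
    have e : s * x * s⁻¹ * x⁻¹ = s * (x * s⁻¹ * x⁻¹) := by group
    rw [e]
    exact A.mul_mem hsA (h.nrm hS hxS (A.inv_mem hsA))
  set u := s * x * s⁻¹ * x⁻¹ with hu
  have huZ : u ∉ zc S := by
    intro huZ
    apply hsQ
    have h5 : s ∈ zc2 S ⊓ A := by
      rw [← h.kpre_zc hS hxS hP.xA]
      refine (h.mem_kpre hS hxS).mpr ⟨hsA, ?_⟩
      have e : u = s * (x * s⁻¹ * x⁻¹) := by rw [hu]; group
      rw [← e]; exact huZ
    rw [inf_eq_left.mpr hz2, ← q3] at h5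
    exact h5.1
  -- `v`
  have hvQ : ofAut α y ∈ Q := ofAut_mem _ hy.1
  obtain ⟨j, hj⟩ := h.gen_inf hS hQS hxQ hP.xA hvQ
  have hpj : ¬ p ∣ j := by
    rintro ⟨i, rfl⟩
    apply hyA
    have h5 := A.mul_mem hj.2 (A.pow_mem (h.ppow hS hxS) i)
    rwa [← pow_mul, inv_mul_cancel_right] at h5
  obtain ⟨k, hk⟩ : ∃ k : ℕ, ((j * k : ℕ) : ZMod p) = 1 := by
    refine ⟨((j : ZMod p)⁻¹).val, ?_⟩
    rw [Nat.cast_mul, ZMod.natCast_zmod_val, mul_inv_cancel₀]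
    rwa [Ne, ZMod.natCast_eq_zero_iff]
  have hNA : (A.subgroupOf S).Normal := ⟨fun z hz g => h.nrm hS g.2 hz⟩
  have hq : ∀ y, QuotientGroup.mk' (A.subgroupOf S) y = 1 ↔ (y : Ω) ∈ A := fun y => by
    rw [← MonoidHom.mem_ker, QuotientGroup.ker_mk', Subgroup.mem_subgroupOf]
  -- `v ^ k ≡ x` modulo `A`
  have hvx : (ofAut α y) ^ k * x⁻¹ ∈ A := by
    have hvS := hQS hvQ
    have h5 : QuotientGroup.mk' (A.subgroupOf S) ⟨ofAut α y, hvS⟩ = QuotientGroup.mk' (A.subgroupOf S) ⟨x, hxS⟩ ^ j := by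
      have h6 : QuotientGroup.mk' (A.subgroupOf S) (⟨ofAut α y, hvS⟩ * (⟨x, hxS⟩ ^ j)⁻¹) = 1 := (hq _).mpr hj.2
      rwa [map_mul, map_inv, map_pow, mul_inv_eq_one] at h6
    have h6 : QuotientGroup.mk' (A.subgroupOf S) ⟨x, hxS⟩ ^ p = 1 := by
      rw [← map_pow]; exact (hq _).mpr (h.ppow hS hxS)
    have h7 : QuotientGroup.mk' (A.subgroupOf S) (⟨ofAut α y, hvS⟩ ^ k * (⟨x, hxS⟩)⁻¹) = 1 := by
      rw [map_mul, map_inv, map_pow, h5, ← pow_mul, mul_inv_eq_one]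
      have h8 : j * k ≡ 1 [MOD p] := by
        rw [← ZMod.natCast_eq_natCast_iff, hk, Nat.cast_one]
      have h9 := pow_eq_pow_iff_modEq.mpr (h8.of_dvd (orderOf_dvd_of_pow_eq_one h6))
      rw [h9, pow_one]
    exact (hq _).mp h7
  have hwZ2 : (ofAut α y) ^ k * x⁻¹ ∈ Q ⊓ A := ⟨Q.mul_mem (Q.pow_mem hvQ k) (Q.inv_mem hxQ), hvx⟩
  set w := (ofAut α y) ^ k * x⁻¹ with hw
  have hZQ := zc_le_of_centric hQ.1
  obtain ⟨i, hi⟩ := exists_gen_of_relIndex (p := p) (Z := zc S) (P := Q ⊓ A) (le_inf hZQ (h.zc_le hS)) (by rw [q3]; exact q4)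
    (fun g hg z hz => by rw [(mem_zc.mp hz).2 g (hQS hg.1), mul_inv_cancel_right]; exact hz) huQ huZ w hwZ2
  -- the map
  have hsi : s ^ i ∈ S := S.pow_mem hsS i
  have hconj : s ^ i * x * (s ^ i)⁻¹ = (w * (u ^ i)⁻¹)⁻¹ * (ofAut α y) ^ k := by
    rw [h.kap_pow hS hxS hsA i, ← hu]
    have e : (ofAut α y) ^ k = w * x := by rw [hw]; group
    rw [e]
    group
  have hyQA : y ∈ Q ⊓ A := hy
  have hf : ∀ q ∈ P, ofAut α⁻¹ (s ^ i * q * (s ^ i)⁻¹) ∈ Q ⊓ A := by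
    intro q hq'
    -- `q = z x ^ l`
    obtain ⟨l, hl⟩ := h.gen_inf hS hPS hP.xP hP.xA hq'
    rw [h.inf_eq_zc hS hP hab] at hl
    have e : s ^ i * q * (s ^ i)⁻¹ = (s ^ i * (q * (x ^ l)⁻¹) * (s ^ i)⁻¹) * (s ^ i * x * (s ^ i)⁻¹) ^ l := by
      rw [conj_pow]; group
    rw [e, (mem_zc.mp hl).2 _ hsi, mul_inv_cancel_right, hconj]
    have hzQ : (w * (u ^ i)⁻¹)⁻¹ ∈ zc S := (zc S).inv_mem hi
    have hzl := hZQ hl
    have m1 : (w * (u ^ i)⁻¹)⁻¹ * (ofAut α y) ^ k ∈ Q := Q.mul_mem (hZQ hzQ) (Q.pow_mem hvQ k)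
    rw [ofAut_map_mul _ hzl (Q.pow_mem m1 l), ofAut_map_pow _ m1, ofAut_map_mul _ (hZQ hzQ) (Q.pow_mem hvQ k),
      ofAut_map_pow _ hvQ, ofAut_inv_apply α hy.1]
    have n1 : ofAut α⁻¹ (q * (x ^ l)⁻¹) ∈ Q ⊓ A :=
      (le_inf hZQ (h.zc_le hS)) (h.zc_inv hS hQE hnab _ hl)
    have n2 : ofAut α⁻¹ (w * (u ^ i)⁻¹)⁻¹ ∈ Q ⊓ A :=
      (le_inf hZQ (h.zc_le hS)) (h.zc_inv hS hQE hnab _ hzQ)
    exact Subgroup.mul_mem _ n1 (Subgroup.pow_mem _ (Subgroup.mul_mem _ n2 (Subgroup.pow_mem _ hy k)) l)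
  have hcP : ∀ q ∈ P, s ^ i * q * (s ^ i)⁻¹ ∈ Q := by
    intro q hq'
    have hqQ : q ∈ Q := hle (hPN hq')
    exact (Subgroup.mem_normalizer_iff.mp (Subgroup.pow_mem _ hsN.2 i) q).mp hqQ
  have hmap : IsMap F P (fun q => ofAut α⁻¹ (s ^ i * q * (s ^ i)⁻¹)) :=
    (isMap_ofAut hQS (Subgroup.inv_mem _ hα)).comp (isMap_conj hPS hsi) hcP
  have himg : img P (fun q => ofAut α⁻¹ (s ^ i * q * (s ^ i)⁻¹)) = Q ⊓ A := by
    refine eq_of_le_of_card_le (inf_le_left.trans hQS) (hmap.img_le_iff.mpr hf) ?_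
    rw [hmap.card_img]
    have hfP : Finite P := finite_of_le hPS
    have hfQ : Finite ↥(Q ⊓ A) := finite_of_le (inf_le_left.trans hQS)
    have c1 := relIndex_mul_card (B := P) (Z := zc S)
    have c2 := relIndex_mul_card (B := Q ⊓ A) (Z := zc S)
    rw [inf_eq_left.mpr (zc_le_of_centric hP.ess.1), h1] at c1
    rw [inf_eq_left.mpr (le_inf hZQ (h.zc_le hS)), q3, q4] at c2
    rw [← c1, q3, ← c2]
  have hconj' := hmap.isConj
  rw [himg, q3] at hconj'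
  have hc := hP.ess.2.1.2 _ hconj'
  have hnS : normalizerIn S (zc2 S) = S := by
    refine inf_eq_left.mpr fun s hs => ?_
    have hfz : Finite ↥(zc2 S) := finite_of_le zc2_le
    refine mem_normalizer_of_conj fun y hy => ?_
    have h5 := (mem_zc2.mp hy).2 s hs
    have e : s * y * s⁻¹ = (y * s * y⁻¹ * s⁻¹)⁻¹ * y := by group
    rw [e]
    exact Subgroup.mul_mem _ (Subgroup.inv_mem _ (zc_le_zc2 h5)) hy
  rw [hnS] at hc
  have hNS : normalizerIn S P = S := eq_of_le_of_card_le le_rfl (normalizerIn_le P) hc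
  rw [hNS] at hQN
  exact essential_ne_self hS hF hQ hQN

open scoped commutatorElement in
theorem exists_TI [Finite S] [Fact p.Prime] (hS : IsPGroup p S) (hF : F.IsSaturated p) {P : Subgroup Ω} {x : Ω}
    (hP : AEss F p A P x) (hab : ∀ x ∈ P, ∀ y ∈ P, x * y = y * x) :
    ∃ C a b, TI F p (zc S ⊓ ⁅S, S⁆) P C a b := by
  have hp : p.Prime := Fact.out
  have hPS := hP.ess.1.1
  have hxS := hPS hP.xP
  obtain ⟨h1, -, -, h4⟩ := h.type_one hS hF hP hab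
  obtain ⟨C, a, b, hD⟩ := exists_edec hS hF hP.ess hab h1
  refine ⟨C, a, b, hD, ?_, hPS, zc_le_of_centric hP.ess.1, ?_⟩
  · have hfin : Finite ↥(zc S ⊓ ⁅S, S⁆) := finite_of_le (inf_le_left.trans fun _ h => h.1)
    refine eq_of_le_of_card_le (inf_le_left.trans fun _ h => h.1) ?_ ?_
    · rw [Subgroup.zpowers_le]
      refine ⟨hD.aZ, ?_⟩
      obtain ⟨n, hn, hnb, -⟩ := hD.nrm
      have h1 : a = ⁅n, b⁆ := by
        rw [commutatorElement_def, hnb, (mem_zc.mp hD.aZ).2 b (hPS hD.bP), mul_inv_cancel_right]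
      rw [h1]
      exact Subgroup.commutator_mem_commutator hn.1 (hPS hD.bP)
    · rw [h.card_zc_inf_comm hS hxS hP.xA, h4, Nat.card_zpowers, orderOf_eq_prime hD.ap hD.a1]
  · intro g hg _
    obtain ⟨k, hk, hkg⟩ := exists_extend_top hS hF (h.no_above_one hS hF hP hab) hg
    exact ⟨k, hk, fun x hx => hkg x (le_normalizerIn hPS hx)⟩

theorem zc_ne_bot [Finite S] [Fact p.Prime] (hS : IsPGroup p S) : zc S ≠ ⊥ := by
  intro h1
  have hne : Nontrivial S := by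
    obtain ⟨x, hx, y, hy, hxy⟩ := h.na
    refine ⟨⟨x, hx⟩, 1, fun h2 => hxy ?_⟩
    have h3 : x = 1 := congrArg Subtype.val h2
    rw [h3, one_mul, mul_one]
  have h2 := hS.center_nontrivial
  have h3 := card_center_eq S
  rw [h1, Subgroup.card_bot, Subgroup.card_eq_one] at h3
  rw [h3] at h2
  exact not_nontrivial _ h2

/-- the main structure theorem, `A` not essential -/
theorem not_ess_structure [Finite S] [Fact p.Prime] (hS : IsPGroup p S) (hF : F.IsSaturated p) (hp2 : p ≠ 2)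
    (hcore : F.core = ⊥) (hA : ¬ F.IsEssential p A) :
    (∃ x ∈ S, x ∉ A ∧ F.IsEssential p (zc S ⊔ Subgroup.zpowers x)) ∧ zc S ≤ ⁅S, S⁆ ∧ Nat.card (zc S) = p ∧
      Nat.card ↥(zc S ⊓ ⁅S, S⁆) = p := by
  have hx : ∀ Q, F.IsEssential p Q → ∃ x ∈ Q, x ∉ A := fun Q hQ => h.exists_mem_out hQ.1 fun hh => hA (hh ▸ hQ)
  -- a type (i) subgroup
  obtain ⟨P, x, hP, hab⟩ : ∃ P x, AEss F p A P x ∧ ∀ x ∈ P, ∀ y ∈ P, x * y = y * x := by
    by_contra hall
    push Not at hall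
    have hN : F.IsNormal (zc S) := by
      refine isNormal_of_essential hS hF fun P' hP' => ?_
      rcases hP' with rfl | hP'
      · exact ⟨fun _ h => h.1, fun α hα z hz => zc_map (isMap_ofAut le_rfl hα) hz⟩
      · obtain ⟨x, hx, hxA⟩ := hx P' hP'
        have hE : AEss F p A P' x := ⟨hP', hx, hxA⟩
        obtain ⟨u, hu, v, hv, huv⟩ := hall P' x hE
        exact ⟨zc_le_of_centric hP'.1, fun α _ z hz => h.zc_inv hS hE (fun hab => huv (hab u hu v hv)) α hz⟩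
    have h1 := Join.le_core hN
    rw [hcore] at h1
    exact h.zc_ne_bot hS (le_bot_iff.mp h1)
  have hPS := hP.ess.1.1
  have hxS := hPS hP.xP
  obtain ⟨C, a, b, hTI⟩ := h.exists_TI hS hF hP hab
  obtain ⟨h1, -, -, h4⟩ := h.type_one hS hF hP hab
  have hcard : Nat.card ↥(zc S ⊓ ⁅S, S⁆) = p := by rw [h.card_zc_inf_comm hS hxS hP.xA, h4]
  have hC : C = ⊥ := by
    refine hTI.C_eq_bot hS hF hp2 hcore (fun g hg z hz => ⟨zc_map hg hz.1, (commutator_inv hg z hz.2).2⟩) ?_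
    intro P' hP'
    obtain ⟨x', hx', hxA'⟩ := hx P' hP'
    have hE : AEss F p A P' x' := ⟨hP', hx', hxA'⟩
    by_cases hab' : ∀ x ∈ P', ∀ y ∈ P', x * y = y * x
    · exact Or.inl (h.exists_TI hS hF hE hab')
    · right
      intro α hα
      obtain ⟨-, -, h5, h6⟩ := h.type_two hS hF hE hab'
      have h7 := h.zc2_le_of_relIndex hS h6
      rw [inf_eq_left.mpr h7] at h5
      obtain ⟨g, hg, -, hgα⟩ := exists_norm_ext hS hF hP'.2.1 (zc_le_of_centric hP'.1) le_rfl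
        (fun α _ z hz => h.zc_inv hS hE hab' α hz) hα
      obtain ⟨k, hk, hkg⟩ := exists_extend_top hS hF (h.no_above_two hS hF hE h5) hg
      refine ⟨k, hk, fun z hz => ?_⟩
      rw [hkg z (le_normalizerIn hP'.1.1 (zc_le_of_centric hP'.1 hz)), hgα z hz]
  have hle : zc S ≤ zc S ⊓ ⁅S, S⁆ := by
    intro z hz
    obtain ⟨r, c, hc, rfl⟩ := hTI.dec.spanZ z hz
    rw [hC, Subgroup.mem_bot] at hc
    rw [hc, one_mul]
    exact Subgroup.pow_mem _ hTI.aZ₀ r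
  have heq : zc S ⊓ ⁅S, S⁆ = zc S := le_antisymm inf_le_left hle
  refine ⟨⟨x, hxS, hP.xA, ?_⟩, hle.trans inf_le_right, by rw [heq] at hcard; exact hcard, hcard⟩
  have h5 := h.eq_sup hS hPS hP.xP hP.xA
  rw [h.inf_eq_zc hS hP hab] at h5
  rw [← h5]
  exact hP.ess

end AIP

end Cfsg.Agent.Fus
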