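import Cfsg.Agent.Fus.WrPerm

/-!
# The `p`-fusion system of alternating groups: strongly closed subgroups
-/

set_option autoImplicit false
set_option linter.unusedSectionVars false

namespace Cfsg.Agent.Fus

open Cfsg

variable {Ω G : Type*} [Group Ω] [Finite Ω] [Group G] [Finite G] {p : ℕ} [Fact p.Prime]

/-- Simplicity criterion for a subgroup of an ambient group. -/
theorem isSimple_of_ambient (H : Subgroup Ω) (e : H ≃* G) (U : Subgroup Ω) (hU : SylIn p U H) (hU1 : U ≠ ⊥)
    (ha : ∀ T : Subgroup Ω, T ≤ U → T ≠ ⊥ → (∀ x ∈ T, ∀ g ∈ H, g * x * g⁻¹ ∈ U → g * x * g⁻¹ ∈ T) → U ≤ T)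
    (hb : ∀ g ∈ H, g ∈ Subgroup.normalizer (U : Set Ω) → g ∈ Subgroup.closure {g : Ω | g ∈ H ∧
      g ∈ Subgroup.normalizer (U : Set Ω) ∧
      ∃ R : Subgroup Ω, R ≤ U ∧ (∀ c ∈ H, (∀ x ∈ R, x * c = c * x) → c ∈ R) ∧
        g ∈ Subgroup.closure {g : Ω | g ∈ H ∧ g ∈ Subgroup.normalizer (R : Set Ω) ∧ ∃ k : ℕ, g ^ p ^ k = 1}})
    (S : Sylow p G) : (groupFusionSystem (S : Subgroup G)).IsSimple p := by
  have hsub : ∀ (R : Subgroup Ω) (g : H), (g : Ω) ∈ Subgroup.normalizer (R : Set Ω) →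
      g ∈ Subgroup.normalizer ((R.subgroupOf H : Subgroup H) : Set H) := by
    intro R g hg
    apply mem_normalizer_of_conj
    intro x hx
    exact (Subgroup.mem_normalizer_iff.mp hg _).mp hx
  have hnorm : ∀ g : H, g ∈ Subgroup.normalizer ((U.subgroupOf H : Subgroup H) : Set H) →
      (g : Ω) ∈ Subgroup.normalizer (U : Set Ω) := by
    intro g hg
    apply mem_normalizer_of_conj
    intro x hx
    exact (Subgroup.mem_normalizer_iff.mp hg ⟨x, hU.le hx⟩).mp hx
  have hlift : ∀ (C : Set Ω) (D : Subgroup H), C ⊆ H → (∀ g : H, (g : Ω) ∈ C → g ∈ D) →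
      ∀ g : H, (g : Ω) ∈ Subgroup.closure C → g ∈ D := by
    intro C D hC hCD g hg
    have h1 : Subgroup.closure C ≤ D.map H.subtype := by
      rw [Subgroup.closure_le]
      intro x hx
      exact ⟨⟨x, hC hx⟩, hCD _ hx, rfl⟩
    obtain ⟨y, hy, hyg⟩ := h1 hg
    rw [← (Subtype.ext hyg : y = g)]; exact hy
  refine isSimple_of_cover e.toMonoidHom e.surjective ?_ ?_ (U.subgroupOf H) ?_ ?_ ?_ ?_ ?_ S
  · intro z hz x
    have hz' : z = 1 := e.injective ((MonoidHom.mem_ker.mp hz).trans (map_one e).symm)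
    rw [hz', mul_one, one_mul]
  · intro z hz _
    exact e.injective ((MonoidHom.mem_ker.mp hz).trans (map_one e).symm)
  · exact hU.isPGroup.of_injective (Subgroup.subgroupOfEquivOfLe hU.le).toMonoidHom
      (Subgroup.subgroupOfEquivOfLe hU.le).injective
  · intro h
    apply hU1
    rw [eq_bot_iff]
    intro x hx
    have h1 : (⟨x, hU.le hx⟩ : H) ∈ U.subgroupOf H := hx
    rw [h, Subgroup.mem_bot] at h1
    exact congrArg Subtype.val h1
  · rintro g hg ⟨k, hk⟩
    exact hU.mem_of_normalizer g.2 (hnorm g hg) ⟨k, congrArg Subtype.val hk⟩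
  · intro T hT hT1 hsc
    have h1 := ha (T.map H.subtype) ?_ ?_ ?_
    · intro x hx
      obtain ⟨y, hy, hyx⟩ := h1 (show (x : Ω) ∈ U from hx)
      rw [← (Subtype.ext hyx : y = x)]; exact hy
    · rintro _ ⟨x, hx, rfl⟩
      exact hT hx
    · intro h
      apply hT1
      rwa [Subgroup.map_eq_bot_iff_of_injective _ H.subtype_injective] at h
    · rintro _ ⟨x, hx, rfl⟩ g hg hgU
      exact ⟨⟨g, hg⟩ * x * ⟨g, hg⟩⁻¹, hsc x hx ⟨g, hg⟩ hgU, rfl⟩
  · intro g hg
    refine hlift _ _ ?_ ?_ g (hb g g.2 (hnorm g hg))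
    · exact fun x hx => hx.1
    · rintro x ⟨-, hx, R, hRU, hRc, hxR⟩
      refine Subgroup.subset_closure ⟨hsub U x hx, R.subgroupOf H, fun y hy => hRU hy, ?_, ?_⟩
      · intro c hc
        refine ⟨c, ?_, rfl⟩
        refine hRc c c.2 ?_
        intro y hy
        exact congrArg Subtype.val (hc ⟨y, hU.le (hRU hy)⟩ hy)
      · refine hlift _ _ ?_ ?_ x hxR
        · exact fun x hx => hx.1
        · rintro y ⟨-, hy, k, hk⟩
          exact Subgroup.subset_closure ⟨hsub R y hy, Or.inl ⟨k, Subtype.ext hk⟩⟩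

end Cfsg.Agent.Fus

namespace Cfsg.Agent.Fus.WrP

open Equiv Equiv.Perm Cfsg.Agent.Fus

variable {p : ℕ} {A R : Type*} [Fintype A] [DecidableEq A] [Fintype R] [DecidableEq R] [Fact p.Prime]

/-- the alternating group as a subgroup -/
local notation "Alt" => alternatingGroup ((A × ZMod p) ⊕ R)

/-! ### cycle types -/

theorem cycleType_of_pow {B : Type*} [Fintype B] [DecidableEq B] {x : Perm B} (h : x ^ p = 1) :
    x.cycleType = Multiset.replicate (x.support.card / p) p := by
  have hp := (Fact.out : p.Prime)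
  by_cases hx : x = 1
  · subst hx; simp
  · have ho : orderOf x = p := orderOf_eq_prime h hx
    obtain ⟨n, hn⟩ := cycleType_prime_order (ho.symm ▸ hp)
    rw [ho] at hn
    have h1 := x.sum_cycleType
    rw [hn, Multiset.sum_replicate, smul_eq_mul] at h1
    rw [hn, ← h1, Nat.mul_div_cancel _ hp.pos]

theorem exists_conj_alt {B : Type*} [Fintype B] [DecidableEq B] {x y c : Perm B} (hx : x ^ p = 1) (hy : y ^ p = 1)
    (hs : x.support.card = y.support.card) (hc : Perm.sign c = -1) (hcy : c * y = y * c) :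
    ∃ g : Perm B, Perm.sign g = 1 ∧ g * x * g⁻¹ = y := by
  have h1 : IsConj x y := by
    rw [Perm.isConj_iff_cycleType_eq, cycleType_of_pow hx, cycleType_of_pow hy, hs]
  obtain ⟨g, hg⟩ := _root_.isConj_iff.mp h1
  rcases Int.units_eq_one_or (Perm.sign g) with h2 | h2
  · exact ⟨g, h2, hg⟩
  · refine ⟨c * g, by rw [map_mul, h2, hc]; rfl, ?_⟩
    have h3 : c * g * x * (c * g)⁻¹ = c * (g * x * g⁻¹) * c⁻¹ := by group
    rw [h3, hg, hcy]; group

theorem sign_of_pow {B : Type*} [Fintype B] [DecidableEq B] {x y : Perm B} (hx : x ^ p = 1) (hy : y ^ p = 1)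
    (hs : x.support.card = y.support.card) : Perm.sign x = Perm.sign y := by
  rw [Perm.sign_of_cycleType, Perm.sign_of_cycleType, cycleType_of_pow hx, cycleType_of_pow hy, hs]

theorem dvd_support {B : Type*} [Fintype B] [DecidableEq B] {x : Perm B} (hx : x ^ p = 1) :
    x.support.card = p * (x.support.card / p) := by
  have h1 := x.sum_cycleType
  rw [cycleType_of_pow hx, Multiset.sum_replicate, smul_eq_mul] at h1
  rw [mul_comm]; exact h1.symm

/-- indicator -/
def ind (B : Finset A) : A → ZMod p := fun b => if b ∈ B then 1 else 0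

theorem support_ind (B : Finset A) : (wa 1 1 (ind B) : Perm ((A × ZMod p) ⊕ R)).support.card = p * B.card := by
  have hp := (Fact.out : p.Prime)
  have : Fact (1 < p) := ⟨hp.one_lt⟩
  rw [support_base]
  congr 2
  ext b
  simp [ind]

theorem sign_swap_blk (hp2 : p ≠ 2) {b b' : A} (h : b ≠ b') :
    Perm.sign (wa (swap b b') 1 0 : Perm ((A × ZMod p) ⊕ R)) = -1 := by
  rw [sign_blk, Perm.sign_swap h, ((Fact.out : p.Prime).odd_of_ne_two hp2).neg_one_pow]

theorem swap_comm {b b' : A} {f : A → ZMod p} (h : f b = f b') :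
    (wa (swap b b') 1 0 : Perm ((A × ZMod p) ⊕ R)) * wa 1 1 f = wa 1 1 f * wa (swap b b') 1 0 := by
  rw [wa_mul, wa_mul]
  congr 1
  · funext c
    simp only [Pi.one_apply, Units.val_one, one_mul, Pi.zero_apply, add_zero, mul_zero, zero_add]
    by_cases h1 : c = b
    · rw [h1, swap_apply_left, h]
    · by_cases h2 : c = b'
      · rw [h2, swap_apply_right, h]
      · rw [swap_apply_of_ne_of_ne h1 h2]

theorem sign_aff_two' : ∀ c : ZMod 2, Perm.sign (@aff 2 Nat.fact_prime_two 1 c) = (-1) ^ c.val := by decide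

theorem sign_aff_two [h : Fact (Nat.Prime 2)] (c : ZMod 2) : Perm.sign (aff (1 : (ZMod 2)ˣ) c) = (-1) ^ c.val := by
  have h1 : h = Nat.fact_prime_two := Subsingleton.elim _ _
  subst h1
  exact sign_aff_two' c

/-- odd elements commuting with base elements -/
theorem exists_odd_comm (hA : 3 ≤ Fintype.card A) (B : Finset A) :
    ∃ c : Perm ((A × ZMod p) ⊕ R), Perm.sign c = -1 ∧ c * wa 1 1 (ind B) = wa 1 1 (ind B) * c := by
  by_cases hp2 : p = 2
  · subst hp2
    have hne : Nonempty A := Fintype.card_pos_iff.mp (by omega)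
    obtain ⟨b⟩ := hne
    refine ⟨wa 1 1 (ind {b}), ?_, ?_⟩
    · rw [sign_one, Finset.prod_eq_single b]
      · have h1 : ((ind {b} : A → ZMod 2) b) = 1 := by simp [ind]
        rw [h1]
        rw [Pi.one_apply, sign_aff_two]; rfl
      · intro b' _ hb'
        have h1 : ((ind {b} : A → ZMod 2) b') = 0 := by simp [ind, hb']
        rw [h1]
        rw [Pi.one_apply, sign_aff_two]; rfl
      · intro h; exact absurd (Finset.mem_univ b) h
    · rw [wa_base_mul, wa_base_mul, add_comm]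
  · obtain ⟨b, b', hbb', hf⟩ : ∃ b b' : A, b ≠ b' ∧ (ind B : A → ZMod p) b = ind B b' := by
      by_cases hB : 2 ≤ B.card
      · obtain ⟨b, hb, b', hb', hne⟩ := Finset.one_lt_card.mp (show 1 < B.card from hB)
        exact ⟨b, b', hne, by simp [ind, hb, hb']⟩
      · have h1 : 2 ≤ Bᶜ.card := by rw [Finset.card_compl]; omega
        obtain ⟨b, hb, b', hb', hne⟩ := Finset.one_lt_card.mp (show 1 < Bᶜ.card from h1)
        exact ⟨b, b', hne, by simp [ind, Finset.mem_compl.mp hb, Finset.mem_compl.mp hb']⟩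
    exact ⟨_, sign_swap_blk hp2 hbb', swap_comm hf⟩

/-- the base elements in `T` -/
def V (T : Subgroup (Perm ((A × ZMod p) ⊕ R))) : AddSubgroup (A → ZMod p) where
  carrier := {f | (wa 1 1 f : Perm ((A × ZMod p) ⊕ R)) ∈ T}
  add_mem' := by
    intro f g hf hg
    show (wa 1 1 (f + g) : Perm ((A × ZMod p) ⊕ R)) ∈ T
    rw [← wa_base_mul]; exact T.mul_mem hf hg
  zero_mem' := by
    show (wa 1 1 0 : Perm ((A × ZMod p) ⊕ R)) ∈ T
    rw [wa_one]; exact T.one_mem
  neg_mem' := by
    intro f hf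
    show (wa 1 1 (-f) : Perm ((A × ZMod p) ⊕ R)) ∈ T
    rw [← wa_base_inv]; exact T.inv_mem hf

theorem mem_V {T : Subgroup (Perm ((A × ZMod p) ⊕ R))} {f : A → ZMod p} :
    f ∈ V T ↔ (wa 1 1 f : Perm ((A × ZMod p) ⊕ R)) ∈ T := Iff.rfl

theorem V_smul {T : Subgroup (Perm ((A × ZMod p) ⊕ R))} (c : ZMod p) {f : A → ZMod p} (hf : f ∈ V T) :
    c • f ∈ V T := by
  obtain ⟨n, rfl⟩ : ∃ n : ℕ, (n : ZMod p) = c := ⟨c.val, ZMod.natCast_zmod_val c⟩
  have : (n : ZMod p) • f = n • f := by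
    funext b; simp
  rw [this]
  exact (V T).nsmul_mem hf n

section Closed

variable {P : Subgroup (Perm A)} {U T : Subgroup (Perm ((A × ZMod p) ⊕ R))}

theorem base_mem_U (hU : U = W R P ⊓ Alt) {f : A → ZMod p} :
    (wa 1 1 f : Perm ((A × ZMod p) ⊕ R)) ∈ U ↔ Perm.sign (wa 1 1 f : Perm ((A × ZMod p) ⊕ R)) = 1 := by
  rw [hU]
  constructor
  · intro h; exact h.2
  · intro h; exact ⟨⟨1, P.one_mem, f, rfl⟩, h⟩

/-- `T` contains every element of `U` of a given type as soon as it contains one -/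
theorem type_mem (hsc : ∀ x ∈ T, ∀ g ∈ Alt, g * x * g⁻¹ ∈ U → g * x * g⁻¹ ∈ T)
    {x y c : Perm ((A × ZMod p) ⊕ R)} (hx : x ∈ T) (hxp : x ^ p = 1) (hyp : y ^ p = 1)
    (hs : x.support.card = y.support.card) (hc : Perm.sign c = -1) (hcy : c * y = y * c) (hyU : y ∈ U) : y ∈ T := by
  obtain ⟨g, hg, hgx⟩ := exists_conj_alt hxp hyp hs hc hcy
  rw [← hgx]
  exact hsc x hx g hg (by rw [hgx]; exact hyU)

theorem ind_mem (hU : U = W R P ⊓ Alt) (hTU : T ≤ U)
    (hsc : ∀ x ∈ T, ∀ g ∈ Alt, g * x * g⁻¹ ∈ U → g * x * g⁻¹ ∈ T) (hA : 3 ≤ Fintype.card A)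
    {x : Perm ((A × ZMod p) ⊕ R)} (hx : x ∈ T) (hxp : x ^ p = 1) {B : Finset A}
    (hs : x.support.card = p * B.card) : ind B ∈ V T := by
  obtain ⟨c, hc, hcy⟩ := exists_odd_comm (p := p) (R := R) hA B
  have hs' : x.support.card = (wa 1 1 (ind B) : Perm ((A × ZMod p) ⊕ R)).support.card := by
    rw [hs, support_ind]
  have hxU : Perm.sign x = 1 := by
    have := hTU hx
    rw [hU] at this
    exact this.2
  refine type_mem hsc hx hxp (wa_base_pow_p _) hs' hc hcy ?_
  rw [base_mem_U hU, ← sign_of_pow hxp (wa_base_pow_p _) hs', hxU]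

theorem V_diff (hU : U = W R P ⊓ Alt) (hTU : T ≤ U)
    (hsc : ∀ x ∈ T, ∀ g ∈ Alt, g * x * g⁻¹ ∈ U → g * x * g⁻¹ ∈ T) (hA : 3 ≤ Fintype.card A)
    {x : Perm ((A × ZMod p) ⊕ R)} (hx : x ∈ T) (hxp : x ^ p = 1) {m : ℕ} (hm : 1 ≤ m) (hmA : m < Fintype.card A)
    (hs : x.support.card = p * m) {a b : A} (hab : a ≠ b) : Pi.single a 1 - Pi.single b 1 ∈ V T := by
  have h1 : m - 1 ≤ (Finset.univ \ ({a, b} : Finset A)).card := by
    rw [Finset.card_sdiff_of_subset (Finset.subset_univ _), Finset.card_univ, Finset.card_pair hab]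
    omega
  obtain ⟨C, hC, hCc⟩ := Finset.exists_subset_card_eq h1
  have haC : a ∉ C := fun h => by
    have := hC h
    simp at this
  have hbC : b ∉ C := fun h => by
    have := hC h
    simp at this
  have h2 := ind_mem hU hTU hsc hA hx hxp (B := insert a C) (by
    rw [hs, Finset.card_insert_of_notMem haC, hCc, Nat.sub_add_cancel hm])
  have h3 := ind_mem hU hTU hsc hA hx hxp (B := insert b C) (by
    rw [hs, Finset.card_insert_of_notMem hbC, hCc, Nat.sub_add_cancel hm])
  have h4 : Pi.single a 1 - Pi.single b 1 = (ind (insert a C) : A → ZMod p) - ind (insert b C) := by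
    funext c
    simp only [Pi.sub_apply, Pi.single_apply, ind, Finset.mem_insert]
    by_cases hc1 : c = a
    · subst hc1; simp [haC, hab]
    · by_cases hc2 : c = b
      · subst hc2; simp [hbC, hc1]
      · simp [hc1, hc2]
  rw [h4]
  exact (V T).sub_mem h2 h3

/-- negate two blocks -/
theorem V_neg2 (hU : U = W R P ⊓ Alt) (hTU : T ≤ U)
    (hsc : ∀ x ∈ T, ∀ g ∈ Alt, g * x * g⁻¹ ∈ U → g * x * g⁻¹ ∈ T) {a c : A} (hac : a ≠ c) {f : A → ZMod p}
    (hf : f ∈ V T) : (fun b => if b ∈ ({a, c} : Finset A) then - f b else f b) ∈ V T := by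
  set l : A → (ZMod p)ˣ := fun b => if b ∈ ({a, c} : Finset A) then -1 else 1 with hl
  have hsign : Perm.sign (wa 1 l 0 : Perm ((A × ZMod p) ⊕ R)) = 1 := by
    rw [sign_one]
    have h1 : ∀ b : A, Perm.sign (aff (l b) ((0 : A → ZMod p) b)) =
        if b ∈ ({a, c} : Finset A) then Perm.sign (aff (-1 : (ZMod p)ˣ) 0) else 1 := by
      intro b
      rw [hl]
      by_cases hb : b ∈ ({a, c} : Finset A)
      · simp only [hb, if_true]; rfl
      · simp only [hb, if_false]
        have : aff (1 : (ZMod p)ˣ) 0 = 1 := by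
          ext v; simp [aff]
        rw [Pi.zero_apply, this, map_one]
    rw [Finset.prod_congr rfl fun b _ => h1 b, Finset.prod_ite, Finset.prod_const_one, mul_one, Finset.prod_const,
      Finset.filter_mem_eq_inter, Finset.univ_inter, Finset.card_pair hac]
    exact Int.units_sq _
  have h1 : (wa 1 l 0 * wa 1 1 f * (wa 1 l 0)⁻¹ : Perm ((A × ZMod p) ⊕ R)) =
      wa 1 1 (fun b => if b ∈ ({a, c} : Finset A) then - f b else f b) := by
    rw [wa_conj_base]
    congr 1
    funext b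
    rw [hl]
    by_cases hb : b ∈ ({a, c} : Finset A)
    · simp [hb]
    · simp [hb]
  rw [mem_V, ← h1]
  refine hsc _ hf _ hsign ?_
  have h2 := hTU hf
  rw [h1, base_mem_U hU, ← h1, map_mul, map_mul, hsign, (base_mem_U hU).mp h2, one_mul, one_mul, map_inv, hsign,
    inv_one]

theorem V_all (hU : U = W R P ⊓ Alt) (hTU : T ≤ U)
    (hsc : ∀ x ∈ T, ∀ g ∈ Alt, g * x * g⁻¹ ∈ U → g * x * g⁻¹ ∈ T) (hA : 3 ≤ Fintype.card A)
    (hdiff : ∀ a b : A, a ≠ b → Pi.single a 1 - Pi.single b 1 ∈ V T) {f : A → ZMod p}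
    (hf : Perm.sign (wa 1 1 f : Perm ((A × ZMod p) ⊕ R)) = 1) : f ∈ V T := by
  have hsum : f = ∑ b, f b • (Pi.single b 1 : A → ZMod p) := by
    funext c
    rw [Finset.sum_apply, Finset.sum_eq_single c]
    · simp
    · intro b _ hb; simp [hb.symm]
    · intro h; exact absurd (Finset.mem_univ c) h
  by_cases hp2 : p = 2
  · subst hp2
    have hne : Nonempty A := Fintype.card_pos_iff.mp (by omega)
    obtain ⟨b₀⟩ := hne
    have h0 : ∑ b, f b = 0 := by
      rw [sign_one] at hf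
      have h2 : ∀ b : A, Perm.sign (aff ((1 : A → (ZMod 2)ˣ) b) (f b)) = (-1) ^ (f b).val := fun b => sign_aff_two _
      rw [Finset.prod_congr rfl fun b _ => h2 b, Finset.prod_pow_eq_pow_sum] at hf
      have h3 : Even (∑ b, (f b).val) := by
        rcases Nat.even_or_odd (∑ b, (f b).val) with h | h
        · exact h
        · rw [h.neg_one_pow] at hf
          exact absurd hf (by decide)
      have h4 : ∑ b, f b = ((∑ b, (f b).val : ℕ) : ZMod 2) := by
        rw [Nat.cast_sum]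
        exact Finset.sum_congr rfl fun b _ => (ZMod.natCast_zmod_val _).symm
      rw [h4]
      exact (ZMod.natCast_eq_zero_iff_even).mpr h3
    have h1 : f = ∑ b, f b • ((Pi.single b 1 : A → ZMod 2) - Pi.single b₀ 1) := by
      have h2 : ∑ b, f b • ((Pi.single b 1 : A → ZMod 2) - Pi.single b₀ 1) =
          ∑ b, f b • (Pi.single b 1 : A → ZMod 2) - (∑ b, f b) • (Pi.single b₀ 1 : A → ZMod 2) := by
        rw [Finset.sum_smul, ← Finset.sum_sub_distrib]
        exact Finset.sum_congr rfl fun b _ => smul_sub _ _ _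
      rw [h2, h0, zero_smul, sub_zero]
      exact hsum
    rw [h1]
    refine (V T).sum_mem fun b _ => ?_
    by_cases hb : b = b₀
    · rw [hb, sub_self, smul_zero]; exact (V T).zero_mem
    · exact V_smul _ (hdiff b b₀ hb)
  · have hsingle : ∀ a : A, (Pi.single a 1 : A → ZMod p) ∈ V T := by
      intro a
      obtain ⟨b, c, hab, hac, hbc⟩ : ∃ b c : A, a ≠ b ∧ a ≠ c ∧ b ≠ c := by
        have h1 : 1 < (Finset.univ.erase a).card := by
          rw [Finset.card_erase_of_mem (Finset.mem_univ a), Finset.card_univ]; omega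
        obtain ⟨b, hb, c, hc, hbc⟩ := Finset.one_lt_card.mp h1
        exact ⟨b, c, (Finset.ne_of_mem_erase hb).symm, (Finset.ne_of_mem_erase hc).symm, hbc⟩
      have h1 := hdiff a b hab
      have h2 := V_neg2 hU hTU hsc hac h1
      have h3 := (V T).sub_mem h1 h2
      have h4 : ((Pi.single a 1 - Pi.single b 1 : A → ZMod p) - fun x =>
          if x ∈ ({a, c} : Finset A) then -(Pi.single a 1 - Pi.single b 1 : A → ZMod p) x
          else (Pi.single a 1 - Pi.single b 1 : A → ZMod p) x) = (2 : ZMod p) • Pi.single a 1 := by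
        funext x
        simp only [Pi.sub_apply, Pi.smul_apply, Pi.single_apply, Finset.mem_insert, Finset.mem_singleton, smul_eq_mul]
        by_cases hx1 : x = a
        · subst hx1; simp [hab]; ring
        · by_cases hx2 : x = b
          · subst hx2; simp [hx1, hbc]
          · by_cases hx3 : x = c
            · subst hx3; simp [hx1, hx2]
            · simp [hx1, hx2, hx3]
      rw [h4] at h3
      have h5 := V_smul (2 : ZMod p)⁻¹ h3
      have h2ne : (2 : ZMod p) ≠ 0 := by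
        intro h
        have h6 : ((2 : ℕ) : ZMod p) = 0 := by exact_mod_cast h
        rw [ZMod.natCast_eq_zero_iff] at h6
        exact hp2 ((Nat.prime_dvd_prime_iff_eq (Fact.out : p.Prime) Nat.prime_two).mp h6)
      rwa [smul_smul, inv_mul_cancel₀ h2ne, one_smul] at h5
    rw [hsum]
    exact (V T).sum_mem fun b _ => V_smul _ (hsingle b)

end Closed

end Cfsg.Agent.Fus.WrP
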