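import Cfsg.Agent.Fus.AltFus

/-!
# The `p`-fusion system of alternating groups: strongly closed subgroups, normalizers for `p = 2`
-/

set_option autoImplicit false
set_option linter.unusedSectionVars false

namespace Cfsg.Agent.Fus.WrP

open Equiv Equiv.Perm Cfsg.Agent.Fus

variable {p : ℕ} {A R : Type*} [Fintype A] [DecidableEq A] [Fintype R] [DecidableEq R] [Fact p.Prime]

/-- the alternating group as a subgroup -/
local notation "Alt" => alternatingGroup ((A × ZMod p) ⊕ R)

variable {P : Subgroup (Perm A)} {U T : Subgroup (Perm ((A × ZMod p) ⊕ R))}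

theorem exists_small (hU : U = W R P ⊓ Alt) (hUp : IsPGroup p U) (hTU : T ≤ U) (hT1 : T ≠ ⊥)
    (hsc : ∀ x ∈ T, ∀ g ∈ Alt, g * x * g⁻¹ ∈ U → g * x * g⁻¹ ∈ T) (hA : 3 ≤ Fintype.card A)
    (hR : Fintype.card R < p) (hswap : p = 2 → ∃ b b' : A, b ≠ b' ∧ swap b b' ∈ P) :
    ∃ x ∈ T, x ^ p = 1 ∧ ∃ m, 1 ≤ m ∧ m < Fintype.card A ∧ x.support.card = p * m := by
  have hp := (Fact.out : p.Prime)
  -- an element of order `p`
  obtain ⟨x, hxT, hxp, hx1⟩ : ∃ x ∈ T, x ^ p = 1 ∧ x ≠ 1 := by
    have hTp : IsPGroup p T := hUp.to_le hTU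
    have hTn : Nontrivial T := by rwa [Subgroup.nontrivial_iff_ne_bot]
    obtain ⟨k, hk, hkc⟩ := hTp.nontrivial_iff_card.mp hTn
    have hd : p ∣ Nat.card T := by rw [hkc]; exact dvd_pow_self p hk.ne'
    obtain ⟨⟨x, hx⟩, ho⟩ := exists_prime_orderOf_dvd_card' p hd
    refine ⟨x, hx, ?_, ?_⟩
    · have := pow_orderOf_eq_one (⟨x, hx⟩ : T)
      rw [ho] at this
      exact congrArg Subtype.val this
    · intro h
      have h2 : (⟨x, hx⟩ : T) = 1 := Subtype.ext h
      rw [h2, orderOf_one] at ho
      exact hp.one_lt.ne ho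
  set m := x.support.card / p with hm
  have hxs : x.support.card = p * m := dvd_support hxp
  have hm1 : 1 ≤ m := by
    rcases Nat.eq_zero_or_pos m with this | h
    · rw [this, mul_zero, Finset.card_eq_zero, Perm.support_eq_empty_iff] at hxs
      exact absurd hxs hx1
    · exact h
  have hmA : m ≤ Fintype.card A := by
    have h1 : x.support.card ≤ p * Fintype.card A + Fintype.card R := by
      rw [← card_base]; exact Finset.card_le_univ _
    rw [hxs] at h1
    by_contra h
    push Not at h
    have h2 : p * (Fintype.card A + 1) ≤ p * m := Nat.mul_le_mul_left p h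
    rw [mul_add, mul_one] at h2
    omega
  rcases Nat.lt_or_ge m (Fintype.card A) with hlt | hge
  · exact ⟨x, hxT, hxp, m, hm1, hlt, hxs⟩
  · have hmA' : m = Fintype.card A := le_antisymm hmA hge
    have huniv := ind_mem hU hTU hsc hA hxT hxp (B := Finset.univ) (by rw [hxs, hmA', Finset.card_univ])
    by_cases hp2 : p = 2
    · -- p = 2
      obtain ⟨b, b', hbb', hsP⟩ := hswap hp2
      subst hp2
      set y : Perm ((A × ZMod 2) ⊕ R) := wa (swap b b') 1 (ind ({b, b'}ᶜ)) with hy
      have hyp : y ^ 2 = 1 := by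
        rw [sq, hy, wa_mul, ← wa_one, swap_mul_self]
        congr 1
        · funext c
          simp only [Pi.one_apply, Units.val_one, one_mul, Pi.zero_apply]
          have h1 : (ind ({b, b'}ᶜ) : A → ZMod 2) (swap b b' c) = ind ({b, b'}ᶜ) c := by
            by_cases hc1 : c = b
            · subst hc1; simp [ind]
            · by_cases hc2 : c = b'
              · subst hc2; simp [ind]
              · rw [swap_apply_of_ne_of_ne hc1 hc2]
          rw [h1]
          exact CharTwo.add_self_eq_zero _
      have hysupp : y.support = Finset.univ.map ⟨Sum.inl, Sum.inl_injective⟩ := by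
        ext z
        rw [Perm.mem_support]
        rcases z with ⟨c, v⟩ | z
        · rw [hy, wa_inl, Pi.one_apply, Units.val_one, one_mul]
          refine ⟨fun _ => Finset.mem_map_of_mem _ (Finset.mem_univ _), fun _ h => ?_⟩
          rw [Sum.inl.injEq, Prod.mk.injEq] at h
          obtain ⟨h1, h2⟩ := h
          have hc1 : c ≠ b := by rintro rfl; rw [swap_apply_left] at h1; exact hbb' h1.symm
          have hc2 : c ≠ b' := by rintro rfl; rw [swap_apply_right] at h1; exact hbb' h1
          have h3 : (ind ({b, b'}ᶜ) : A → ZMod 2) c = 1 := by simp [ind, hc1, hc2]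
          rw [h3, add_eq_left] at h2
          exact one_ne_zero h2
        · simp [hy]
      have hyc : y.support.card = 2 * Fintype.card A := by
        rw [hysupp, Finset.card_map, Finset.card_univ, Fintype.card_prod, ZMod.card, mul_comm]
      have hxy : x.support.card = y.support.card := by rw [hxs, hyc, hmA']
      have hxU : Perm.sign x = 1 := by
        have := hTU hxT
        rw [hU] at this
        exact this.2
      have hyU : y ∈ U := by
        rw [hU]
        refine ⟨⟨_, hsP, _, rfl⟩, ?_⟩
        show Perm.sign y = 1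
        rw [← sign_of_pow hxp hyp hxy, hxU]
      -- odd element commuting with `y`: a transposition block outside, or inside `{b, b'}`
      obtain ⟨c, hc⟩ : ∃ c : A, c ∉ ({b, b'} : Finset A) := by
        by_contra hcon
        push Not at hcon
        have h1 : (Finset.univ : Finset A) ⊆ {b, b'} := fun c _ => hcon c
        have h2 := Finset.card_le_card h1
        rw [Finset.card_univ, Finset.card_pair hbb'] at h2
        omega
      have hcb : c ≠ b := fun h => hc (by simp [h])
      have hcb' : c ≠ b' := fun h => hc (by simp [h])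
      have hodd : Perm.sign (wa 1 1 (ind {c}) : Perm ((A × ZMod 2) ⊕ R)) = -1 := by
        rw [sign_one, Finset.prod_eq_single c]
        · have h1 : ((ind {c} : A → ZMod 2) c) = 1 := by simp [ind]
          rw [h1, Pi.one_apply, sign_aff_two]; rfl
        · intro b' _ hb'
          have h1 : ((ind {c} : A → ZMod 2) b') = 0 := by simp [ind, hb']
          rw [h1, Pi.one_apply, sign_aff_two]; rfl
        · intro h; exact absurd (Finset.mem_univ c) h
      have hcomm : (wa 1 1 (ind {c}) : Perm ((A × ZMod 2) ⊕ R)) * y = y * wa 1 1 (ind {c}) := by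
        rw [hy, wa_mul, wa_mul]
        congr 1
        · funext d
          simp only [Pi.one_apply, Units.val_one, one_mul, Perm.coe_one, id_eq]
          have h1 : (ind {c} : A → ZMod 2) (swap b b' d) = ind {c} d := by
            by_cases hd1 : d = b
            · subst hd1; simp [ind, hcb.symm, hcb'.symm]
            · by_cases hd2 : d = b'
              · subst hd2; simp [ind, hcb.symm, hcb'.symm]
              · rw [swap_apply_of_ne_of_ne hd1 hd2]
          rw [h1, add_comm]
      have hyT := type_mem hsc hxT hxp hyp hxy hodd hcomm hyU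
      have hz := T.mul_mem huniv hyT
      have hzeq : (wa 1 1 (ind Finset.univ) : Perm ((A × ZMod 2) ⊕ R)) * y = wa (swap b b') 1 (ind {b, b'}) := by
        rw [hy, wa_mul]
        congr 1
        · funext d
          by_cases hd : d ∈ ({b, b'} : Finset A)
          · simp only [ind, Finset.mem_compl, hd, Pi.one_apply, Units.val_one, one_mul, Finset.mem_univ,
              if_true, not_true_eq_false, if_false, zero_add]
          · simp only [ind, Finset.mem_compl, hd, Pi.one_apply, Units.val_one, one_mul, Finset.mem_univ,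
              if_true, not_false_eq_true, if_false]
            exact CharTwo.add_self_eq_zero _
      rw [hzeq] at hz
      refine ⟨_, hz, ?_, 2, by norm_num, by omega, ?_⟩
      · rw [sq, wa_mul, ← wa_one, swap_mul_self]
        congr 1
        · funext c
          simp only [Pi.one_apply, Units.val_one, one_mul, Pi.zero_apply]
          have h1 : (ind ({b, b'}) : A → ZMod 2) (swap b b' c) = ind ({b, b'}) c := by
            by_cases hc1 : c = b
            · subst hc1; simp [ind]
            · by_cases hc2 : c = b'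
              · subst hc2; simp [ind]
              · rw [swap_apply_of_ne_of_ne hc1 hc2]
          rw [h1]
          exact CharTwo.add_self_eq_zero _
      · have h1 : (wa (swap b b') 1 (ind {b, b'}) : Perm ((A × ZMod 2) ⊕ R)).support =
            ((({b, b'} : Finset A) ×ˢ (Finset.univ : Finset (ZMod 2))).map ⟨Sum.inl, Sum.inl_injective⟩) := by
          ext z
          rw [Perm.mem_support]
          rcases z with ⟨c, v⟩ | z
          · simp only [wa_inl, Pi.one_apply, Units.val_one, one_mul, ne_eq, Finset.mem_map, Finset.mem_product,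
              Finset.mem_univ, and_true, Function.Embedding.coeFn_mk, Sum.inl.injEq, exists_eq_right]
            by_cases hc : c ∈ ({b, b'} : Finset A)
            · simp only [hc, iff_true]
              intro h
              rw [Prod.mk.injEq] at h
              have h2 := h.1
              rw [Finset.mem_insert, Finset.mem_singleton] at hc
              rcases hc with rfl | rfl
              · rw [swap_apply_left] at h2; exact hbb' h2.symm
              · rw [swap_apply_right] at h2; exact hbb' h2
            · simp only [hc, iff_false, not_not]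
              have h1 : (ind {b, b'} : A → ZMod 2) c = 0 := by simp only [ind, hc, if_false]
              rw [Finset.mem_insert, Finset.mem_singleton] at hc
              push Not at hc
              rw [swap_apply_of_ne_of_ne hc.1 hc.2, h1, add_zero]
          · simp
        rw [h1, Finset.card_map, Finset.card_product, Finset.card_univ, ZMod.card, Finset.card_pair hbb']
    · -- p odd
      obtain ⟨a, c, hac⟩ : ∃ a c : A, a ≠ c := by
        have h1 : 1 < Fintype.card A := by omega
        exact Fintype.one_lt_card_iff.mp h1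
      have h2 := V_neg2 hU hTU hsc hac huniv
      have h3 := (V T).sub_mem huniv h2
      have h4 : ((ind Finset.univ : A → ZMod p) - fun x =>
          if x ∈ ({a, c} : Finset A) then -(ind Finset.univ : A → ZMod p) x
          else (ind Finset.univ : A → ZMod p) x) = (2 : ZMod p) • ind {a, c} := by
        funext x
        by_cases hx : x ∈ ({a, c} : Finset A)
        · simp only [Pi.sub_apply, ind, hx, if_true, Finset.mem_univ, Pi.smul_apply, smul_eq_mul]; ring
        · simp only [Pi.sub_apply, ind, hx, if_false, Finset.mem_univ, Pi.smul_apply, smul_eq_mul, if_true]; ring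
      rw [h4] at h3
      have h5 := V_smul (2 : ZMod p)⁻¹ h3
      have h2ne : (2 : ZMod p) ≠ 0 := by
        intro h
        have h6 : ((2 : ℕ) : ZMod p) = 0 := by exact_mod_cast h
        rw [ZMod.natCast_eq_zero_iff] at h6
        exact hp2 ((Nat.prime_dvd_prime_iff_eq (Fact.out : p.Prime) Nat.prime_two).mp h6)
      rw [smul_smul, inv_mul_cancel₀ h2ne, one_smul] at h5
      refine ⟨_, h5, wa_base_pow_p _, 2, by norm_num, by omega, ?_⟩
      rw [support_ind, Finset.card_pair hac]

theorem order_p_mem (hU : U = W R P ⊓ Alt)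
    (hsc : ∀ x ∈ T, ∀ g ∈ Alt, g * x * g⁻¹ ∈ U → g * x * g⁻¹ ∈ T) (hA : 3 ≤ Fintype.card A)
    (hR : Fintype.card R < p)
    (hV : ∀ f : A → ZMod p, Perm.sign (wa 1 1 f : Perm ((A × ZMod p) ⊕ R)) = 1 → f ∈ V T)
    {x : Perm ((A × ZMod p) ⊕ R)} (hxU : x ∈ U) (hxp : x ^ p = 1) : x ∈ T := by
  set m := x.support.card / p with hm
  have hxs : x.support.card = p * m := dvd_support hxp
  have hmA : m ≤ Fintype.card A := by
    have h1 : x.support.card ≤ p * Fintype.card A + Fintype.card R := by
      rw [← card_base]; exact Finset.card_le_univ _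
    rw [hxs] at h1
    by_contra h
    push Not at h
    have h2 : p * (Fintype.card A + 1) ≤ p * m := Nat.mul_le_mul_left p h
    rw [mul_add, mul_one] at h2
    omega
  obtain ⟨B, -, hB⟩ := Finset.exists_subset_card_eq (s := (Finset.univ : Finset A)) (n := m)
    (by rw [Finset.card_univ]; exact hmA)
  obtain ⟨c, hc, hcy⟩ := exists_odd_comm (p := p) (R := R) hA B
  have hs' : x.support.card = (wa 1 1 (ind B) : Perm ((A × ZMod p) ⊕ R)).support.card := by
    rw [hxs, support_ind, hB]
  have hxs1 : Perm.sign x = 1 := by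
    rw [hU] at hxU
    exact hxU.2
  have hy : (wa 1 1 (ind B) : Perm ((A × ZMod p) ⊕ R)) ∈ T := by
    apply hV
    rw [← sign_of_pow hxp (wa_base_pow_p _) hs', hxs1]
  obtain ⟨g, hg, hgx⟩ := exists_conj_alt hxp (wa_base_pow_p _) hs' hc hcy
  have h1 : x = g⁻¹ * wa 1 1 (ind B) * g⁻¹⁻¹ := by rw [← hgx]; group
  rw [h1]
  apply hsc _ hy
  · exact (alternatingGroup _).inv_mem hg
  · rw [← h1]; exact hxU

theorem U_le_T (hU : U = W R P ⊓ Alt) (hUp : IsPGroup p U) (hTU : T ≤ U) (hT1 : T ≠ ⊥)
    (hsc : ∀ x ∈ T, ∀ g ∈ Alt, g * x * g⁻¹ ∈ U → g * x * g⁻¹ ∈ T) (hA : 3 ≤ Fintype.card A)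
    (hR : Fintype.card R < p) (hswap : p = 2 → ∃ b b' : A, b ≠ b' ∧ swap b b' ∈ P)
    (hgen : P ≤ Subgroup.closure {x | x ∈ P ∧ x ^ p = 1}) : U ≤ T := by
  obtain ⟨x, hx, hxp, m, hm, hmA, hxs⟩ := exists_small hU hUp hTU hT1 hsc hA hR hswap
  have hV : ∀ f : A → ZMod p, Perm.sign (wa 1 1 f : Perm ((A × ZMod p) ⊕ R)) = 1 → f ∈ V T := fun f hf =>
    V_all hU hTU hsc hA (fun a b hab => V_diff hU hTU hsc hA hx hxp hm hmA hxs hab) hf
  have hblkU : ∀ s ∈ P, s ^ p = 1 → (wa s 1 0 : Perm ((A × ZMod p) ⊕ R)) ∈ U := by
    intro s hs hsp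
    rw [hU]
    refine ⟨⟨s, hs, 0, rfl⟩, ?_⟩
    show Perm.sign _ = 1
    rw [sign_blk, ← map_pow, hsp, map_one]
  have hblk : ∀ s ∈ P, (wa s 1 0 : Perm ((A × ZMod p) ⊕ R)) ∈ T := by
    intro s hs
    refine W_le_closure hgen ?_ hs
    intro s' hs' hsp
    refine order_p_mem hU hsc hA hR hV (hblkU s' hs' hsp) ?_
    have := map_pow (blk p A R) s' p
    rw [hsp, map_one] at this
    exact this.symm
  intro g hg
  have hg' := hg
  rw [hU] at hg'
  obtain ⟨s, hs, f, rfl⟩ := hg'.1
  have h1 : (wa s 1 f : Perm ((A × ZMod p) ⊕ R)) = wa 1 1 (f ∘ s.symm) * wa s 1 0 := by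
    rw [wa_mul]
    congr 1
    · funext b; simp
    · funext b; simp
  have h2 := hTU (hblk s hs)
  have h3 : (wa 1 1 (f ∘ s.symm) : Perm ((A × ZMod p) ⊕ R)) ∈ U := by
    have h4 := U.mul_mem hg (U.inv_mem h2)
    rw [h1, mul_inv_cancel_right] at h4
    exact h4
  rw [h1]
  exact T.mul_mem (hV _ ((base_mem_U hU).mp h3)) (hblk s hs)

/-! ### Normalizers for `p = 2` -/

theorem eq_wa_of_two {R : Type*} {g : Perm ((A × ZMod 2) ⊕ R)} {π : Perm A} {γ : A → ZMod 2 → ZMod 2}
    (h1 : ∀ b v, g (Sum.inl (b, v)) = Sum.inl (π b, γ b v)) (h2 : ∀ x, g (Sum.inr x) = Sum.inr x) :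
    g = wa π 1 (fun b => γ b 0) := by
  apply ext_inl
  · intro b v
    rw [h1, wa_inl, Pi.one_apply, Units.val_one, one_mul]
    congr 2
    have h3 : γ b 0 ≠ γ b 1 := by
      intro h
      have h4 := g.injective ((h1 b 0).trans ((by rw [h]; exact (h1 b 1).symm) : _ = g (Sum.inl (b, 1))))
      simp at h4
    have key : ∀ x y : ZMod 2, x ≠ y → y = 1 + x := by decide
    have hv : v = 0 ∨ v = 1 := by revert v; decide
    rcases hv with rfl | rfl
    · rw [zero_add]
    · exact key _ _ h3
  · intro x; rw [h2]; rfl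

/-- Sylow 2-subgroups of symmetric groups are self-normalizing. -/
theorem normalizer_two : ∀ (n : ℕ) (B : Type) [Fintype B] [DecidableEq B], Fintype.card B = n →
    ∀ P : Subgroup (Perm B), SylIn 2 P ⊤ → Subgroup.normalizer (P : Set (Perm B)) ≤ P := by
  intro n
  induction n using Nat.strong_induction_on with
  | _ n ih =>
    intro B _ _ hB P hP
    by_cases hn : n < 2
    · have h1 : Subsingleton B := by
        rw [← Fintype.card_le_one_iff_subsingleton]; omega
      intro x _
      have : x = 1 := Subsingleton.elim _ _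
      rw [this]; exact P.one_mem
    · have ha : n / 2 < n := Nat.div_lt_self (by omega) (by norm_num)
      have hr : n % 2 < 2 := Nat.mod_lt _ (by norm_num)
      obtain ⟨P', hP', -⟩ := exists_sylIn_ge (p := 2) (K := (⊥ : Subgroup (Perm (Fin (n / 2))))) (L := ⊤) bot_le
        IsPGroup.of_bot
      have hgen := ih _ ha (Fin (n / 2)) (Fintype.card_fin _) P' hP'
      obtain ⟨e, he⟩ := exists_equiv_W (R := Fin (n % 2)) hP hP' (by rw [Fintype.card_fin]; exact hr)
        (by rw [hB, Fintype.card_fin, Fintype.card_fin]; exact (Nat.div_add_mod n 2).symm)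
      intro x hx
      have hex : e x ∈ Subgroup.normalizer ((W (p := 2) (Fin (n % 2)) P' : Subgroup _) : Set _) := by
        apply mem_normalizer_of_conj
        intro y hy
        rw [← he] at hy ⊢
        obtain ⟨z, hz, rfl⟩ := hy
        refine ⟨x * z * x⁻¹, (Subgroup.mem_normalizer_iff.mp hx z).mp hz, ?_⟩
        show e (x * z * x⁻¹) = e x * e z * (e x)⁻¹
        rw [map_mul, map_mul, map_inv]
      have hss : Subsingleton (Fin (n % 2)) := by
        rw [← Fintype.card_le_one_iff_subsingleton, Fintype.card_fin]; omega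
      obtain ⟨π, γ, h1, h2⟩ := blocks_of_normalizer (P := P') (U := W (p := 2) (Fin (n % 2)) P') le_rfl hss
        (fun c => ⟨1, by rw [Pi.one_apply]; exact one_ne_zero, 1, P'.one_mem, _, rfl⟩)
        (fun c c' hcc' => ⟨Pi.single c' 1, Pi.single_eq_of_ne hcc' _, by rw [Pi.single_eq_same]; exact one_ne_zero,
          1, P'.one_mem, _, rfl⟩) hex
      have h3 := eq_wa_of_two h1 h2
      have hπ : π ∈ P' := by
        apply hgen
        apply mem_normalizer_of_conj
        intro s hs
        have h4 := (Subgroup.mem_normalizer_iff.mp hex (wa s 1 0)).mp ⟨s, hs, 0, rfl⟩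
        rw [h3, wa_inv, wa_mul, wa_mul] at h4
        obtain ⟨s', hs', f', hf'⟩ := h4
        rw [(wa_inj hf').1]; exact hs'
      have h5 : e x ∈ W (p := 2) (Fin (n % 2)) P' := by rw [h3]; exact ⟨π, hπ, _, rfl⟩
      rw [← he] at h5
      obtain ⟨z, hz, hzx⟩ := h5
      rw [← e.injective hzx]; exact hz

end Cfsg.Agent.Fus.WrP
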