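import Cfsg.Agent.Fus.AltFus2

/-!
# The `p`-fusion system of alternating groups: normalizers
-/

set_option autoImplicit false
set_option linter.unusedSectionVars false

namespace Cfsg.Agent.Fus

/-- Sylow meets normal. -/
theorem SylIn.inf_normal {Ω : Type*} [Group Ω] [Finite Ω] {p : ℕ} [Fact p.Prime] {R N : Subgroup Ω}
    (h : SylIn p R ⊤) [hN : N.Normal] : SylIn p (R ⊓ N) N := by
  obtain ⟨Q, hQ, hRQ⟩ := exists_sylIn_ge (p := p) (K := R ⊓ N) (L := N) inf_le_right
    (h.isPGroup.to_le inf_le_left)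
  obtain ⟨g, -, hg⟩ := h.exists_conj (K := Q) le_top hQ.isPGroup
  have h1 : Q.map (MulAut.conj g).toMonoidHom ≤ R ⊓ N := by
    rintro _ ⟨x, hx, rfl⟩
    exact ⟨hg x hx, hN.conj_mem x (hQ.le hx) g⟩
  have h2 : Nat.card Q ≤ Nat.card (R ⊓ N : Subgroup Ω) := by
    have h3 : Nat.card (Q.map (MulAut.conj g).toMonoidHom) = Nat.card Q :=
      Nat.card_congr (Subgroup.equivMapOfInjective Q _ (MulAut.conj g).injective).symm.toEquiv
    rw [← h3]
    exact Nat.card_le_card_of_injective _ (Subgroup.inclusion_injective h1)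
  have h4 : R ⊓ N = Q := Subgroup.eq_of_le_of_card_ge hRQ h2
  rw [h4]; exact hQ

end Cfsg.Agent.Fus

namespace Cfsg.Agent.Fus.WrP

open Equiv Equiv.Perm Cfsg.Agent.Fus

variable {p : ℕ} {A R : Type*} [Fintype A] [DecidableEq A] [Fintype R] [DecidableEq R] [Fact p.Prime]

/-- the alternating group as a subgroup -/
local notation "Alt" => alternatingGroup ((A × ZMod p) ⊕ R)

variable {P : Subgroup (Perm A)} {U T : Subgroup (Perm ((A × ZMod p) ⊕ R))}

theorem W_le_alt (hp2 : p ≠ 2) (hW : IsPGroup p (W (p := p) R P)) : W (p := p) R P ≤ Alt := by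
  intro x hx
  obtain ⟨k, hk⟩ := hW ⟨x, hx⟩
  exact sign_eq_one_of_pow hp2 (congrArg Subtype.val hk)

theorem sylIn_U (hR : Fintype.card R < p) (hP : SylIn p P ⊤) : SylIn p (W (p := p) R P ⊓ Alt) Alt :=
  (sylIn_W hR hP).inf_normal

/-- for `p = 2` the Sylow subgroup is self-normalizing -/
theorem normalizer_U_two {A : Type} [Fintype A] [DecidableEq A] {P : Subgroup (Perm A)}
    {U : Subgroup (Perm ((A × ZMod 2) ⊕ R))}
    (hU : U = W R P ⊓ alternatingGroup ((A × ZMod 2) ⊕ R)) (hP : SylIn 2 P ⊤) (hA : 3 ≤ Fintype.card A)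
    (hR : Fintype.card R < 2) {g : Perm ((A × ZMod 2) ⊕ R)} (hg : g ∈ alternatingGroup ((A × ZMod 2) ⊕ R))
    (hgU : g ∈ Subgroup.normalizer (U : Set (Perm ((A × ZMod 2) ⊕ R)))) : g ∈ U := by
  have hss : Subsingleton R := by
    rw [← Fintype.card_le_one_iff_subsingleton]; omega
  have hpair : ∀ c c' : A, c ≠ c' → (wa 1 1 (Pi.single c 1 + Pi.single c' 1) : Perm ((A × ZMod 2) ⊕ R)) ∈ U := by
    intro c c' hcc'
    rw [hU]
    refine ⟨⟨1, P.one_mem, _, rfl⟩, ?_⟩
    show Perm.sign _ = 1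
    rw [← wa_base_mul, map_mul]
    have h1 : ∀ d : A, Perm.sign (wa 1 1 (Pi.single d 1) : Perm ((A × ZMod 2) ⊕ R)) = -1 := by
      intro d
      rw [sign_one, Finset.prod_eq_single d]
      · rw [Pi.single_eq_same, Pi.one_apply, sign_aff_two]; rfl
      · intro b' _ hb'
        rw [Pi.single_eq_of_ne hb', Pi.one_apply, sign_aff_two]; rfl
      · intro h; exact absurd (Finset.mem_univ d) h
    rw [h1, h1]; rfl
  have hex : ∀ c c' : A, ∃ d : A, d ≠ c ∧ d ≠ c' := by
    intro c c'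
    by_contra hcon
    push Not at hcon
    have h1 : (Finset.univ : Finset A) ⊆ {c, c'} := fun d _ => by
      rw [Finset.mem_insert, Finset.mem_singleton]
      by_cases h : d = c
      · exact Or.inl h
      · exact Or.inr (hcon d h)
    have h2 := (Finset.card_le_card h1).trans Finset.card_le_two
    rw [Finset.card_univ] at h2
    omega
  obtain ⟨π, γ, h1, h2⟩ := blocks_of_normalizer (P := P) (U := U) (by rw [hU]; exact inf_le_left) hss
    (fun c => by
      obtain ⟨d, hd, -⟩ := hex c c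
      refine ⟨_, ?_, hpair c d hd.symm⟩
      rw [Pi.add_apply, Pi.single_eq_same, Pi.single_eq_of_ne hd.symm, add_zero]
      exact one_ne_zero)
    (fun c c' hcc' => by
      obtain ⟨d, hd, hd'⟩ := hex c c'
      refine ⟨_, ?_, ?_, hpair c' d hd'.symm⟩
      · rw [Pi.add_apply, Pi.single_eq_of_ne hcc', Pi.single_eq_of_ne hd.symm, add_zero]
      · rw [Pi.add_apply, Pi.single_eq_same, Pi.single_eq_of_ne hd'.symm, add_zero]
        exact one_ne_zero) hgU
  have h3 := eq_wa_of_two h1 h2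
  have hπ : π ∈ P := by
    apply normalizer_two _ A rfl P hP
    apply mem_normalizer_of_conj
    intro s hs
    have h5 : (wa s 1 0 : Perm ((A × ZMod 2) ⊕ R)) ∈ U := by
      rw [hU]
      refine ⟨⟨s, hs, 0, rfl⟩, ?_⟩
      show Perm.sign _ = 1
      rw [sign_blk]
      exact Int.units_sq _
    have h4 := (Subgroup.mem_normalizer_iff.mp hgU (wa s 1 0)).mp h5
    rw [h3, wa_inv, wa_mul, wa_mul, hU] at h4
    obtain ⟨⟨s', hs', f', hf'⟩, -⟩ := h4
    rw [(wa_inj hf').1]; exact hs'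
  rw [hU]
  refine ⟨?_, hg⟩
  rw [h3]
  exact ⟨π, hπ, _, rfl⟩

/-! ### odd `p` -/

/-- elements permuting blocks and normalizing the base are affine -/
theorem eq_wa_of_odd {g : Perm ((A × ZMod p) ⊕ R)} {π : Perm A} {γ : A → ZMod p → ZMod p}
    (h1 : ∀ b v, g (Sum.inl (b, v)) = Sum.inl (π b, γ b v)) (h2 : ∀ x, g (Sum.inr x) = Sum.inr x)
    (h3 : ∀ b : A, ∃ (s : Perm A) (f : A → ZMod p), g * wa 1 1 (Pi.single b 1) * g⁻¹ = wa s 1 f) :
    ∃ (l : A → (ZMod p)ˣ) (f : A → ZMod p), g = wa π l f := by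
  have h4 : ∀ b : A, ∃ c : ZMod p, c ≠ 0 ∧ ∀ v, γ b v = c * v + γ b 0 := by
    intro b
    obtain ⟨s, f, hsf⟩ := h3 b
    have h5 : ∀ v, γ b (v + 1) = γ b v + f (π b) := by
      intro v
      have h6 : g (wa 1 1 (Pi.single b 1) (Sum.inl (b, v))) = wa s 1 f (g (Sum.inl (b, v))) := by
        have h7 : g⁻¹ (g (Sum.inl (b, v))) = Sum.inl (b, v) := g.symm_apply_apply _
        rw [← hsf, Perm.mul_apply, Perm.mul_apply, h7]
      rw [wa_inl, h1, h1, wa_inl] at h6
      have h7 := Sum.inl_injective h6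
      rw [Prod.mk.injEq] at h7
      have h8 := h7.2
      rw [Pi.one_apply, Units.val_one, one_mul, Pi.single_eq_same, Pi.one_apply, Units.val_one, one_mul] at h8
      exact h8
    refine ⟨f (π b), ?_, ?_⟩
    · intro h
      have h6 := h5 0
      rw [h, add_zero, zero_add] at h6
      have h7 := g.injective ((h1 b 1).trans ((by rw [h6]; exact (h1 b 0).symm) : _ = g (Sum.inl (b, 0))))
      have : Fact (1 < p) := ⟨(Fact.out : p.Prime).one_lt⟩
      simp at h7
    · intro v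
      obtain ⟨n, rfl⟩ : ∃ n : ℕ, (n : ZMod p) = v := ⟨v.val, ZMod.natCast_zmod_val v⟩
      induction n with
      | zero => simp
      | succ n ih =>
        rw [Nat.cast_succ, h5, ih]
        ring
  choose c hc hcv using h4
  refine ⟨fun b => Units.mk0 (c b) (hc b), fun b => γ b 0, ?_⟩
  apply ext_inl
  · intro b v
    rw [h1, wa_inl, hcv]
    rfl
  · intro x; rw [h2]; rfl

theorem exists_wa_of_normalizer (hss : Subsingleton R) {g : Perm ((A × ZMod p) ⊕ R)}
    (hg : g ∈ Subgroup.normalizer ((W (p := p) R P : Subgroup _) : Set (Perm ((A × ZMod p) ⊕ R)))) :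
    ∃ (π : Perm A) (l : A → (ZMod p)ˣ) (f : A → ZMod p), g = wa π l f := by
  have : Fact (1 < p) := ⟨(Fact.out : p.Prime).one_lt⟩
  obtain ⟨π, γ, h1, h2⟩ := blocks_of_normalizer (P := P) (U := W R P) le_rfl hss
    (fun c => ⟨1, by rw [Pi.one_apply]; exact one_ne_zero, 1, P.one_mem, _, rfl⟩)
    (fun c c' hcc' => ⟨Pi.single c' 1, Pi.single_eq_of_ne hcc' _, by rw [Pi.single_eq_same]; exact one_ne_zero,
      1, P.one_mem, _, rfl⟩) hg
  obtain ⟨l, f, h⟩ := eq_wa_of_odd h1 h2 (fun b => by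
    obtain ⟨s, -, f, hf⟩ := (Subgroup.mem_normalizer_iff.mp hg (wa 1 1 (Pi.single b 1))).mp ⟨1, P.one_mem, _, rfl⟩
    exact ⟨s, f, hf⟩)
  exact ⟨π, l, f, h⟩

/-- base subgroup -/
def base (p : ℕ) [Fact p.Prime] (A R : Type*) : Subgroup (Perm ((A × ZMod p) ⊕ R)) := W R ⊥

theorem mem_base {g : Perm ((A × ZMod p) ⊕ R)} : g ∈ base p A R ↔ ∃ f : A → ZMod p, g = wa 1 1 f := by
  constructor
  · rintro ⟨s, hs, f, rfl⟩
    rw [Subgroup.mem_bot] at hs
    exact ⟨f, by rw [hs]⟩
  · rintro ⟨f, rfl⟩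
    exact ⟨1, Subgroup.one_mem _, f, rfl⟩

/-- the base is self-centralizing -/
theorem base_centric (hss : Subsingleton R) {c : Perm ((A × ZMod p) ⊕ R)}
    (hc : ∀ x ∈ base p A R, x * c = c * x) : c ∈ base p A R := by
  have : Fact (1 < p) := ⟨(Fact.out : p.Prime).one_lt⟩
  have h0 : ∀ (f : A → ZMod p) (x : (A × ZMod p) ⊕ R), wa 1 1 f (c x) = c (wa 1 1 f x) := by
    intro f x
    have := hc (wa 1 1 f) (mem_base.mpr ⟨f, rfl⟩)
    rw [← Perm.mul_apply, this, Perm.mul_apply]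
  have hinr : ∀ x : R, c (Sum.inr x) = Sum.inr x := by
    intro x
    rcases hcx : c (Sum.inr x) with ⟨b, v⟩ | y
    · exfalso
      have h1 := h0 1 (Sum.inr x)
      rw [hcx, wa_inr, hcx, wa_inl] at h1
      simp at h1
    · rw [Subsingleton.elim y x]
  have hinl : ∀ b : A, ∃ u : ZMod p, c (Sum.inl (b, 0)) = Sum.inl (b, u) := by
    intro b
    rcases hcx : c (Sum.inl (b, 0)) with ⟨b', u⟩ | y
    · by_cases hbb : b' = b
      · exact ⟨u, by rw [hbb]⟩
      · exfalso
        have h1 := h0 (Pi.single b' 1) (Sum.inl (b, 0))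
        rw [hcx, wa_inl, wa_inl, Pi.single_eq_same, Pi.single_eq_of_ne (Ne.symm hbb)] at h1
        simp only [Perm.coe_one, id_eq, Pi.one_apply, Units.val_one, one_mul, mul_zero, add_zero] at h1
        rw [hcx] at h1
        simp at h1
    · exfalso
      have h1 := hinr y
      have := c.injective (hcx.trans h1.symm)
      exact Sum.inl_ne_inr this
  choose u hu using hinl
  rw [mem_base]
  refine ⟨u, ext_inl ?_ ?_⟩
  · intro b v
    have h1 := h0 (Pi.single b v) (Sum.inl (b, 0))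
    rw [hu, wa_inl, wa_inl, Pi.single_eq_same] at h1
    simp only [Perm.coe_one, id_eq, Pi.one_apply, Units.val_one, one_mul, zero_add] at h1
    rw [← h1, wa_inl, Pi.one_apply, Units.val_one, one_mul, add_comm]
    rfl
  · intro x; rw [hinr]; rfl

end Cfsg.Agent.Fus.WrP
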