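import Mathlib

set_option autoImplicit false
set_option linter.style.haveILetI false
set_option linter.unusedSectionVars false

namespace Cfsg.Agent.Fus.FT

section Wedd

theorem wedd {A : Type*} [Ring A] [Finite A] (I : Set A) (h0 : (0 : A) ∈ I)
    (hadd : ∀ x y, x ∈ I → y ∈ I → x + y ∈ I) (hneg : ∀ x, x ∈ I → -x ∈ I)
    (hl : ∀ x y, y ∈ I → x * y ∈ I) (hr : ∀ x y, x ∈ I → x * y ∈ I) (h1 : (1 : A) ∉ I)
    (hprime : ∀ x y, x * y ∈ I → x ∈ I ∨ y ∈ I) (a b : A) : a * b - b * a ∈ I := by
  let J : TwoSidedIdeal A := TwoSidedIdeal.mk' I h0 (fun {x y} => hadd x y) (fun {x} => hneg x)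
    (fun {x y} => hl x y) (fun {x y} => hr x y)
  have hJ : ∀ x : A, x ∈ J ↔ x ∈ I := fun x => TwoSidedIdeal.mem_mk' _ _ _ _ _ _ x
  have hq0 : ∀ x : A, ((x : J.ringCon.Quotient) = 0) ↔ x ∈ I := by
    intro x
    rw [← hJ x]
    constructor
    · intro h
      have : J.ringCon x 0 := (RingCon.eq J.ringCon).mp h
      rwa [TwoSidedIdeal.mem_iff]
    · intro h
      rw [TwoSidedIdeal.mem_iff] at h
      exact (RingCon.eq J.ringCon).mpr h
  haveI : Finite J.ringCon.Quotient := Finite.of_surjective (RingCon.mk' J.ringCon) (RingCon.mk'_surjective _)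
  haveI : Nontrivial J.ringCon.Quotient := ⟨⟨0, 1, fun h => h1 ((hq0 1).mp h.symm)⟩⟩
  haveI : NoZeroDivisors J.ringCon.Quotient := by
    refine ⟨fun {u v} huv => ?_⟩
    obtain ⟨x, rfl⟩ := RingCon.mk'_surjective J.ringCon u
    obtain ⟨y, rfl⟩ := RingCon.mk'_surjective J.ringCon v
    have h : ((x * y : A) : J.ringCon.Quotient) = 0 := huv
    rcases hprime x y ((hq0 _).mp h) with h' | h'
    · exact Or.inl ((hq0 _).mpr h')
    · exact Or.inr ((hq0 _).mpr h')
  haveI : IsDomain J.ringCon.Quotient := NoZeroDivisors.to_isDomain _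
  have hF : IsField J.ringCon.Quotient := Finite.isDomain_to_isField _
  have hc := hF.mul_comm (a : J.ringCon.Quotient) (b : J.ringCon.Quotient)
  apply (hq0 _).mp
  show (a : J.ringCon.Quotient) * (b : J.ringCon.Quotient) - (b : J.ringCon.Quotient) * (a : J.ringCon.Quotient) = 0
  rw [hc, sub_self]

end Wedd

section Hua

variable {R : Type*} [Ring R]

theorem hua (Sg Lm : AddSubgroup R)
    (hSL : ∀ s ∈ Sg, s ≠ 0 → ∃ t ∈ Lm, s * t = 1 ∧ t * s = 1)
    (hLS : ∀ t ∈ Lm, t ≠ 0 → ∃ s ∈ Sg, s * t = 1 ∧ t * s = 1)
    {a b : R} (ha : a ∈ Sg) (hb : b ∈ Lm) : a * b * a ∈ Sg := by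
  by_cases ha0 : a = 0
  · subst ha0; simp [Sg.zero_mem]
  by_cases hb0 : b = 0
  · subst hb0; simp [Sg.zero_mem]
  obtain ⟨c, hc, hcb, hbc⟩ := hLS b hb hb0
  obtain ⟨a', ha', haa', ha'a⟩ := hSL a ha ha0
  by_cases hca : c = a
  · subst hca
    rw [hcb, one_mul]; exact ha
  have hu : c - a ∈ Sg := Sg.sub_mem hc ha
  have hu0 : c - a ≠ 0 := sub_ne_zero.mpr hca
  obtain ⟨u', hu', huu', hu'u⟩ := hSL _ hu hu0
  have hv : a' + u' ∈ Lm := Lm.add_mem ha' hu'
  have e1 : (a' + u') * ((c - a) * b * a) = 1 := by
    have h1 : a' * ((c - a) * b * a) = 1 - b * a := by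
      calc a' * ((c - a) * b * a) = a' * (c * b) * a - (a' * a) * b * a := by noncomm_ring
        _ = 1 - b * a := by rw [hcb, mul_one, ha'a, one_mul]
    have h2 : u' * ((c - a) * b * a) = b * a := by
      calc u' * ((c - a) * b * a) = (u' * (c - a)) * (b * a) := by noncomm_ring
        _ = b * a := by rw [hu'u, one_mul]
    rw [add_mul, h1, h2]; abel
  have e2 : (c - a) * b * a = a - a * b * a := by
    calc (c - a) * b * a = (c * b) * a - a * b * a := by noncomm_ring
      _ = _ := by rw [hcb, one_mul]
  have hv0 : a' + u' ≠ 0 := by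
    intro h
    rw [h, zero_mul] at e1
    apply ha0
    calc a = 1 * a := (one_mul a).symm
      _ = 0 := by rw [← e1, zero_mul]
  obtain ⟨s, hs, hsv, -⟩ := hLS _ hv hv0
  have hs' : s = (c - a) * b * a := by
    calc s = s * ((a' + u') * ((c - a) * b * a)) := by rw [e1, mul_one]
      _ = (s * (a' + u')) * ((c - a) * b * a) := (mul_assoc _ _ _).symm
      _ = _ := by rw [hsv, one_mul]
  have : a * b * a = a - s := by rw [hs', e2]; abel
  rw [this]
  exact Sg.sub_mem ha hs

end Hua

/-- a Jordan division system -/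
structure JDiv {R : Type*} [Ring R] (Sg : AddSubgroup R) : Prop where
  one : (1 : R) ∈ Sg
  inv : ∀ s ∈ Sg, s ≠ 0 → ∃ t ∈ Sg, s * t = 1 ∧ t * s = 1

namespace JDiv

variable {R : Type*} [Ring R] {Sg : AddSubgroup R}

theorem aba (h : JDiv Sg) {a b : R} (ha : a ∈ Sg) (hb : b ∈ Sg) : a * b * a ∈ Sg := by
  refine hua Sg Sg h.inv (fun t ht ht0 => ?_) ha hb
  obtain ⟨s, hs, h1, h2⟩ := h.inv t ht ht0
  exact ⟨s, hs, h2, h1⟩

theorem jor (h : JDiv Sg) {a b c : R} (ha : a ∈ Sg) (hb : b ∈ Sg) (hc : c ∈ Sg) :
    a * b * c + c * b * a ∈ Sg := by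
  have h1 := h.aba (Sg.add_mem ha hc) hb
  have h2 := h.aba ha hb
  have h3 := h.aba hc hb
  have : a * b * c + c * b * a = (a + c) * b * (a + c) - a * b * a - c * b * c := by noncomm_ring
  rw [this]
  exact Sg.sub_mem (Sg.sub_mem h1 h2) h3

theorem jor2 (h : JDiv Sg) {a c : R} (ha : a ∈ Sg) (hc : c ∈ Sg) :
    a * c + c * a ∈ Sg := by
  have := h.jor ha h.one hc
  simpa using this

theorem pow_mem (h : JDiv Sg) {a : R} (ha : a ∈ Sg) : ∀ n : ℕ, a ^ n ∈ Sg ∧ a ^ (n + 1) ∈ Sg := by
  intro n
  induction n with
  | zero => exact ⟨by simpa using h.one, by simpa using ha⟩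
  | succ n ih =>
    refine ⟨ih.2, ?_⟩
    have := h.aba ha ih.1
    have e : a ^ (n + 1 + 1) = a * a ^ n * a := by
      rw [pow_succ, pow_succ']
    rw [e]; exact this

/-- a nonzero element of `Sg` is not a zero divisor -/
theorem left_cancel (h : JDiv Sg) {s x : R} (hs : s ∈ Sg) (hs0 : s ≠ 0) (hx : s * x = 0) : x = 0 := by
  obtain ⟨t, -, -, h2⟩ := h.inv s hs hs0
  calc x = (t * s) * x := by rw [h2, one_mul]
    _ = 0 := by rw [mul_assoc, hx, mul_zero]

theorem not_nilp (h : JDiv Sg) {s : R} (hs : s ∈ Sg) (hn : IsNilpotent s) : s = 0 := by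
  by_contra hs0
  obtain ⟨n, hn⟩ := hn
  have key : ∀ k, s ^ k = 0 → (1 : R) = 0 := by
    intro k
    induction k with
    | zero => intro h0; simpa using h0
    | succ k ih =>
      intro h0
      apply ih
      apply h.left_cancel hs hs0
      rw [← pow_succ']; exact h0
  have h1 := key n hn
  apply hs0
  rw [← one_mul s, h1, zero_mul]

end JDiv

section Star

variable {R : Type*} [Ring R] [StarRing R] {Sg : AddSubgroup R}

/-- evaluation of a word -/
def ev (a b : R) (w : List Bool) : R := (w.map (fun x => if x then a else b)).prod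

theorem ev_nil (a b : R) : ev a b [] = 1 := rfl

theorem ev_cons (a b : R) (x : Bool) (w : List Bool) :
    ev a b (x :: w) = (if x then a else b) * ev a b w := by
  simp [ev]

theorem ev_append (a b : R) (u v : List Bool) : ev a b (u ++ v) = ev a b u * ev a b v := by
  simp [ev]

theorem star_ev {a b : R} (ha : star a = a) (hb : star b = b) (w : List Bool) :
    star (ev a b w) = ev a b w.reverse := by
  induction w with
  | nil => simp [ev]
  | cons x w ih =>
    rw [ev_cons, star_mul, ih, List.reverse_cons, ev_append, ev_cons, ev_nil, mul_one]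
    congr 1
    cases x <;> simp [ha, hb]

/-- trace -/
def tr (a b : R) (w : List Bool) : R := ev a b w + star (ev a b w)

def alt : Bool → ℕ → List Bool
  | _, 0 => []
  | x, n + 1 => x :: alt (!x) n

theorem alt_or (w : List Bool) :
    (∃ u x v, w = u ++ ([x, x] ++ v)) ∨ ∃ x, w = alt x w.length := by
  induction w with
  | nil => exact Or.inr ⟨true, rfl⟩
  | cons x w ih =>
    rcases ih with ⟨u, y, v, h⟩ | ⟨y, h⟩
    · exact Or.inl ⟨x :: u, y, v, by rw [h]; rfl⟩
    · cases w with
      | nil => exact Or.inr ⟨x, rfl⟩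
      | cons z w' =>
        have hz : z = y := by
          simp only [List.length_cons, alt, List.cons.injEq] at h
          exact h.1
        subst hz
        by_cases hxz : x = z
        · subst hxz
          exact Or.inl ⟨[], x, w', rfl⟩
        · have : z = !x := by cases x <;> cases z <;> simp_all
          refine Or.inr ⟨x, ?_⟩
          rw [List.length_cons]
          show x :: z :: w' = x :: alt (!x) (z :: w').length
          rw [← this, ← h]

theorem ev_alt_even (a b : R) (x : Bool) (k : ℕ) :
    ev a b (alt x (2 * k)) = ((if x then a else b) * (if x then b else a)) ^ k := by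
  induction k with
  | zero => simp [alt, ev]
  | succ k ih =>
    have : 2 * (k + 1) = 2 * k + 1 + 1 := by ring
    rw [this]
    show ev a b (x :: (!x) :: alt (!(!x)) (2 * k)) = _
    rw [ev_cons, ev_cons, Bool.not_not, ih, pow_succ', ← mul_assoc]
    cases x <;> simp

theorem ev_alt_odd (a b : R) (x : Bool) (k : ℕ) :
    ev a b (alt x (2 * k + 1)) =
      ((if x then a else b) * (if x then b else a)) ^ k * (if x then a else b) := by
  show ev a b (x :: alt (!x) (2 * k)) = _
  rw [ev_cons, ev_alt_even]
  have key : ∀ X Y : R, ∀ n : ℕ, X * (Y * X) ^ n = (X * Y) ^ n * X := by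
    intro X Y n
    induction n with
    | zero => simp
    | succ n ih => rw [pow_succ, ← mul_assoc, ih, pow_succ]; noncomm_ring
  cases x
  · simpa using key b a k
  · simpa using key a b k

theorem pal_mem (h : JDiv Sg) {X Y : R} (hX : X ∈ Sg) (hY : Y ∈ Sg) :
    ∀ k : ℕ, (X * Y) ^ k * X ∈ Sg ∧ (X * Y) ^ (k + 1) * X ∈ Sg := by
  intro k
  induction k with
  | zero => exact ⟨by simpa using hX, by simpa using h.aba hX hY⟩
  | succ k ih =>
    refine ⟨ih.2, ?_⟩
    have h1 := h.aba hX (h.aba hY ih.1)
    have key : ∀ n : ℕ, (X * Y) * (X * Y) ^ n = (X * Y) ^ n * (X * Y) := fun n => by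
      rw [← pow_succ, ← pow_succ']
    have : (X * Y) ^ (k + 1 + 1) * X = X * (Y * ((X * Y) ^ k * X) * Y) * X := by
      rw [pow_succ, pow_succ']; noncomm_ring
    rw [this]; exact h1

theorem tr_mem (h : JDiv Sg) (hst : ∀ s ∈ Sg, star s = s) {a b : R} (ha : a ∈ Sg) (hb : b ∈ Sg) :
    ∀ n : ℕ, ∀ w : List Bool, w.length = n → tr a b w ∈ Sg := by
  have hlet : ∀ x : Bool, (if x then a else b) ∈ Sg := by intro x; cases x <;> simp [ha, hb]
  intro n
  induction n using Nat.strong_induction_on with
  | _ n ih =>
    intro w hw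
    -- rotation
    have rot1 : ∀ (x : Bool) (v : List Bool), v.length + 1 = n →
        (tr a b (x :: v) ∈ Sg ↔ tr a b (v ++ [x]) ∈ Sg) := by
      intro x v hv
      have h1 : tr a b v ∈ Sg := ih v.length (by omega) v rfl
      have h2 : tr a b (x :: v) + tr a b (v ++ [x]) ∈ Sg := by
        have h3 := h.jor2 (hlet x) h1
        have e : tr a b (x :: v) + tr a b (v ++ [x]) =
            (if x then a else b) * tr a b v + tr a b v * (if x then a else b) := by
          unfold tr
          rw [ev_cons, ev_append, ev_cons, ev_nil, mul_one, star_mul, star_mul,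
            hst _ (hlet x)]
          noncomm_ring
        rw [e]; exact h3
      constructor
      · intro h4
        have := Sg.sub_mem h2 h4
        rwa [add_sub_cancel_left] at this
      · intro h4
        have := Sg.sub_mem h2 h4
        rwa [add_sub_cancel_right] at this
    have rot : ∀ (u v : List Bool), u.length + v.length = n →
        (tr a b (u ++ v) ∈ Sg ↔ tr a b (v ++ u) ∈ Sg) := by
      intro u
      induction u with
      | nil => intro v _; simp
      | cons x u ihu =>
        intro v hv
        have h1 := rot1 x (u ++ v) (by simp at hv ⊢; omega)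
        have h2 := ihu (v ++ [x]) (by simp at hv ⊢; omega)
        have e1 : x :: u ++ v = x :: (u ++ v) := rfl
        have e2 : (u ++ v) ++ [x] = u ++ (v ++ [x]) := by simp
        have e3 : (v ++ [x]) ++ u = v ++ (x :: u) := by simp
        rw [e1, h1, e2, h2, e3]
    rcases alt_or w with ⟨u, x, v, hwe⟩ | ⟨x, hwe⟩
    · -- equal adjacent letters
      have hlen : u.length + v.length + 2 = n := by
        rw [← hw, hwe]; simp; omega
      have e1 : w = (u ++ [x]) ++ (x :: v) := by rw [hwe]; simp
      rw [e1, rot (u ++ [x]) (x :: v) (by simp; omega)]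
      have e2 : (x :: v) ++ (u ++ [x]) = x :: ((v ++ u) ++ [x]) := by simp
      rw [e2]
      have h1 : tr a b (v ++ u) ∈ Sg := ih (v ++ u).length (by simp; omega) _ rfl
      have h2 := h.aba (hlet x) h1
      have e : tr a b (x :: ((v ++ u) ++ [x])) =
          (if x then a else b) * tr a b (v ++ u) * (if x then a else b) := by
        unfold tr
        rw [ev_cons, ev_append (v := [x]), ev_cons, ev_nil, mul_one, star_mul, star_mul,
          hst _ (hlet x)]
        noncomm_ring
      rw [e]; exact h2
    · rcases Nat.even_or_odd' w.length with ⟨k, hk | hk⟩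
      · -- even
        cases k with
        | zero =>
          have : w = [] := List.length_eq_zero_iff.mp (by omega)
          subst this
          unfold tr
          rw [ev_nil, star_one]
          exact Sg.add_mem h.one h.one
        | succ k =>
          have hX := hlet x
          have hY : (if x then b else a) ∈ Sg := by cases x <;> simp [ha, hb]
          have hP := (pal_mem h hX hY k).1
          have h1 := h.jor2 hP hY
          have e : tr a b w = ((if x then a else b) * (if x then b else a)) ^ k *
              (if x then a else b) * (if x then b else a) +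
              (if x then b else a) * (((if x then a else b) * (if x then b else a)) ^ k *
              (if x then a else b)) := by
            unfold tr
            rw [hwe, hk, ev_alt_even]
            have e1 : ((if x then a else b) * (if x then b else a)) ^ (k + 1) =
                ((if x then a else b) * (if x then b else a)) ^ k *
              (if x then a else b) * (if x then b else a) := by
              rw [pow_succ]; noncomm_ring
            rw [e1, star_mul, hst _ hP, hst _ hY]
          rw [e]; exact h1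
      · have hX := hlet x
        have hY : (if x then b else a) ∈ Sg := by cases x <;> simp [ha, hb]
        have hP := (pal_mem h hX hY k).1
        unfold tr
        rw [hwe, hk, ev_alt_odd, hst _ hP]
        exact Sg.add_mem hP hP

end Star

end Cfsg.Agent.Fus.FT
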