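import Cfsg.Agent.Fus.FT9

set_option autoImplicit false
set_option linter.style.haveILetI false
set_option linter.unusedSectionVars false
set_option linter.unusedVariables false

namespace Cfsg.Agent.Fus.FT

open Cfsg
open Cfsg.Agent.H85 (cj mem_cj conj_mem_cj conj_mem_cj_iff cj_cj cj_one cj_inv_cj cj_cj_inv cj_mono cj_le_iff
  card_cj isPGroup_cj cj_inf cj_sup cj_normalizer cj_centralizer mem_normalizer_iff_cj SylIn exists_sylIn)
open Cfsg.Agent.ZJ (maxIn)

variable {Γ : Type*} [Group Γ]

/-- hypotheses of the group theorem -/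
structure GT (p : ℕ) (Q T H P : Subgroup Γ) : Prop where
  hQH : Q ≤ H
  hQn : H ≤ Subgroup.normalizer (Q : Set Γ)
  hQp : IsPGroup p Q
  hcQ : H ⊓ Subgroup.centralizer (Q : Set Γ) ≤ Q
  hP : SylIn p P H
  hTP : T ≤ P
  hTc : ∀ t ∈ T, ∀ y ∈ P, t * y = y * t
  hJ : H ⊓ Subgroup.normalizer (thompsonSubgroupAOf P : Set Γ) ≤ Subgroup.normalizer (T : Set Γ)
  hTn : ¬ H ≤ Subgroup.normalizer (T : Set Γ)

theorem concl_mono {p : ℕ} {K H T : Subgroup Γ} (h : K ≤ H) (hc : Concl p K T) : Concl p H T := by
  obtain ⟨x, hx, h1⟩ := hc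
  exact ⟨x, h hx, h1⟩

/-- normalizers grow in p-groups -/
theorem lt_norm [Finite Γ] {p : ℕ} [Fact p.Prime] {P₀ D : Subgroup Γ} (hD : IsPGroup p D) (h : P₀ < D) :
    P₀ < D ⊓ Subgroup.normalizer (P₀ : Set Γ) := by
  haveI := hD.isNilpotent
  have hnc : NormalizerCondition ↥D := Group.normalizerCondition_of_isNilpotent
  have h1 := hnc (P₀.subgroupOf D) (lt_top_iff_ne_top.mpr (fun h2 => by
    rw [Subgroup.subgroupOf_eq_top] at h2
    exact absurd h2 h.not_ge))
  obtain ⟨z, hz, hz2⟩ := SetLike.exists_of_lt h1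
  refine lt_of_le_of_ne (le_inf h.le Subgroup.le_normalizer) (fun he => ?_)
  apply hz2
  rw [Subgroup.mem_subgroupOf, he]
  refine ⟨z.2, ?_⟩
  show (z : Γ) ∈ Subgroup.normalizer (P₀ : Set Γ)
  rw [Subgroup.mem_normalizer_iff] at hz ⊢
  intro y
  constructor
  · intro hy
    exact (hz ⟨y, h.le hy⟩).mp hy
  · intro hy
    have hyD : y ∈ D := by
      have := D.mul_mem (D.mul_mem (D.inv_mem z.2) (h.le hy)) z.2
      have e : (z : Γ)⁻¹ * (z * y * (z : Γ)⁻¹) * z = y := by group
      rwa [e] at this
    exact (hz ⟨y, hyD⟩).mpr hy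

theorem hTQ_of {p : ℕ} {Q T H P : Subgroup Γ} (g : GT p Q T H P) (hQP : Q ≤ P) : T ≤ Q := by
  intro t ht
  apply g.hcQ
  exact ⟨g.hP.le (g.hTP ht), mem_cent.mpr (fun q hq => (g.hTc t ht q (hQP hq)).symm)⟩

theorem gt_main [Finite Γ] {p : ℕ} [hp : Fact p.Prime] (hp2 : p ≠ 2) (Q T : Subgroup Γ) :
    ∀ n : ℕ, ∀ H P : Subgroup Γ, Nat.card H = n → GT p Q T H P → Concl p H T := by
  intro n
  induction n using Nat.strong_induction_on with
  | _ n IH =>
    intro H P hcard g
    by_contra hneg
    have hQP : Q ≤ P := g.hP.le_of_normal g.hQH g.hQp g.hQn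
    have hTQ : T ≤ Q := hTQ_of g hQP
    have hPH : P ≤ H := g.hP.le
    obtain ⟨M, hM⟩ : ∃ M, M = H ⊓ Subgroup.normalizer (T : Set Γ) := ⟨_, rfl⟩
    have hMH : M ≤ H := by rw [hM]; exact inf_le_left
    have hcentM : ∀ y ∈ H, (∀ t ∈ T, y * t = t * y) → y ∈ M := by
      intro y hy h
      rw [hM]
      refine ⟨hy, H85.centralizer_le_normalizer' ?_⟩
      rw [mem_cent]
      intro t ht
      exact (h t ht).symm
    have hPM : P ≤ M := fun y hy => hcentM y (hPH hy) (fun t ht => (g.hTc t ht y hy).symm)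
    have hMT : ∀ m ∈ M, cj m T = T := by
      intro m hm
      rw [hM] at hm
      exact mem_normalizer_iff_cj.mp hm.2
    have hMne : M ≠ H := by
      intro h
      apply g.hTn
      rw [← h, hM]; exact inf_le_right
    have hPsylM : SylIn p P M := g.hP.mono hPM hMH
    have hJM : H ⊓ Subgroup.normalizer (thompsonSubgroupAOf P : Set Γ) ≤ M := by
      rw [hM]; exact le_inf inf_le_left g.hJ
    -- V
    obtain ⟨V, hV⟩ : ∃ V : Subgroup Γ, V = Subgroup.closure {y | ∃ h ∈ H, ∃ t ∈ T, y = h * t * h⁻¹} := ⟨_, rfl⟩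
    have hVmem : ∀ h ∈ H, ∀ t ∈ T, h * t * h⁻¹ ∈ V := by
      intro h hh t ht; rw [hV]; exact Subgroup.subset_closure ⟨h, hh, t, ht, rfl⟩
    have hTV : T ≤ V := by
      intro t ht
      have := hVmem 1 H.one_mem t ht
      simpa using this
    have hVQ : V ≤ Q := by
      rw [hV, Subgroup.closure_le]
      rintro _ ⟨h, hh, t, ht, rfl⟩
      exact (Subgroup.mem_normalizer_iff.mp (g.hQn hh) t).mp (hTQ ht)
    have hVc : ∀ v ∈ V, ∀ q ∈ Q, v * q = q * v := by
      intro v hv q hq
      have h1 : V ≤ Subgroup.centralizer {q} := by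
        rw [hV, Subgroup.closure_le]
        rintro _ ⟨h, hh, t, ht, rfl⟩
        show h * t * h⁻¹ ∈ Subgroup.centralizer {q}
        rw [Subgroup.mem_centralizer_singleton_iff]
        have hq' : h⁻¹ * q * h ∈ Q := by
          have := (Subgroup.mem_normalizer_iff.mp (g.hQn (H.inv_mem hh)) q).mp hq
          simpa using this
        have h2 := g.hTc t ht _ (hQP hq')
        have h3 : h * (t * (h⁻¹ * q * h)) * h⁻¹ = h * (h⁻¹ * q * h * t) * h⁻¹ := by rw [h2]
        have e1 : h * (t * (h⁻¹ * q * h)) * h⁻¹ = h * t * h⁻¹ * q := by group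
        have e2 : h * (h⁻¹ * q * h * t) * h⁻¹ = q * (h * t * h⁻¹) := by group
        rwa [e1, e2] at h3
      exact Subgroup.mem_centralizer_singleton_iff.mp (h1 hv)
    have hVn : H ≤ Subgroup.normalizer (V : Set Γ) := by
      have key : ∀ h ∈ H, cj h V ≤ V := by
        intro h hh
        conv_lhs => rw [hV]
        rw [cj, MonoidHom.map_closure, Subgroup.closure_le]
        rintro _ ⟨_, ⟨k, hk, t, ht, rfl⟩, rfl⟩
        have := hVmem (h * k) (H.mul_mem hh hk) t ht
        have e : (MulAut.conj h).toMonoidHom (k * t * k⁻¹) = h * k * t * (h * k)⁻¹ := by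
          show h * (k * t * k⁻¹) * h⁻¹ = _
          group
        rw [e]; exact this
      intro h hh
      rw [mem_normalizer_iff_cj]
      apply le_antisymm (key h hh)
      have := cj_mono (g := h) (key h⁻¹ (H.inv_mem hh))
      rwa [cj_cj_inv] at this
    have hgen : ∀ y : Γ, (∀ h ∈ H, ∀ t ∈ T, y * (h * t * h⁻¹) = (h * t * h⁻¹) * y) → ∀ v ∈ V, y * v = v * y := by
      intro y hy v hv
      have h1 : V ≤ Subgroup.centralizer {y} := by
        rw [hV, Subgroup.closure_le]
        rintro _ ⟨h, hh, t, ht, rfl⟩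
        show h * t * h⁻¹ ∈ Subgroup.centralizer {y}
        rw [Subgroup.mem_centralizer_singleton_iff]
        exact (hy h hh t ht).symm
      exact (Subgroup.mem_centralizer_singleton_iff.mp (h1 hv)).symm
    have hVab : ∀ v ∈ V, ∀ w ∈ V, v * w = w * v := fun v hv w hw => hVc v hv w (hVQ hw)
    have hVP : V ≤ P := hVQ.trans hQP
    -- d
    obtain ⟨A₁, hA₁⟩ := ZJ.maxIn_nonempty (fun A : Subgroup Γ => IsMulCommutative A) (by infer_instance) P
    obtain ⟨d, hd⟩ : ∃ d, d = Nat.card A₁ := ⟨_, rfl⟩
    have hdmax : ∀ B ≤ H, IsPGroup p B → IsMulCommutative B → Nat.card B ≤ d := by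
      intro B hB hBp hBc
      obtain ⟨b, hb, hbB⟩ := g.hP.exists_cj_le hB hBp
      have := hA₁.2.2 _ hbB (comm_cj hBc b)
      rw [card_cj] at this
      rw [hd]; exact this
    have hmA : ∀ P' ≤ H, IsPGroup p P' → ∀ A ≤ P', IsMulCommutative A → Nat.card A = d → A ∈ mA P' := by
      intro P' hP' hP'p A hA hAc hAd
      refine ⟨hA, hAc, fun B hB hBc => ?_⟩
      show Nat.card B ≤ Nat.card A
      rw [hAd]; exact hdmax B (hB.trans hP') (hP'p.to_le hB) hBc
    have hmAd : ∀ A ∈ mA P, Nat.card A = d := by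
      intro A hA
      exact le_antisymm (hdmax A (hA.1.trans hPH) (g.hP.isPGroup.to_le hA.1) hA.2.1)
        (by rw [hd]; exact hA.2.2 A₁ hA₁.1 hA₁.2.1)
    -- normal p-subgroups centralize V
    have hnorm : ∀ N ≤ H, IsPGroup p N → H ≤ Subgroup.normalizer (N : Set Γ) → N ≤ Subgroup.centralizer (V : Set Γ) := by
      intro N hN hNp hNn y hy
      rw [mem_cent]
      intro v hv
      refine (hgen y ?_ v hv).symm
      intro h hh t ht
      have hNP : N ≤ P := g.hP.le_of_normal hN hNp hNn
      have hy' : h⁻¹ * y * h ∈ N := by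
        have := (Subgroup.mem_normalizer_iff.mp (hNn (H.inv_mem hh)) y).mp hy
        simpa using this
      have h2 := g.hTc t ht _ (hNP hy')
      have h3 : h * (t * (h⁻¹ * y * h)) * h⁻¹ = h * (h⁻¹ * y * h * t) * h⁻¹ := by rw [h2]
      have e1 : h * (t * (h⁻¹ * y * h)) * h⁻¹ = h * t * h⁻¹ * y := by group
      have e2 : h * (h⁻¹ * y * h * t) * h⁻¹ = y * (h * t * h⁻¹) := by group
      rw [e1, e2] at h3
      exact h3.symm
    -- claim (a)
    have claimA : ∀ m : ℕ, ∀ K A₀ P₀ : Subgroup Γ, Nat.card H - Nat.card P₀ = m → K ≤ H → Q ≤ K → K ≠ H →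
        A₀ ≤ P₀ → IsMulCommutative A₀ → Nat.card A₀ = d → ¬ A₀ ≤ Subgroup.centralizer (V : Set Γ) →
        SylIn p P₀ (K ⊓ M) → K ≤ M := by
      intro m
      induction m using Nat.strong_induction_on with
      | _ m ihm =>
        intro K A₀ P₀ hm hKH hQK hKne hA₀P hA₀c hA₀d hA₀a hP₀
        have hP₀M : P₀ ≤ M := hP₀.le.trans inf_le_right
        have hP₀K : P₀ ≤ K := hP₀.le.trans inf_le_left
        obtain ⟨b, hb, hbP⟩ := hPsylM.exists_cj_le hP₀M hP₀.isPGroup
        have hbH : b ∈ H := hMH hb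
        have hQM : Q ≤ M := hQP.trans hPM
        have hQP₀ : Q ≤ P₀ := hP₀.le_of_normal (le_inf hQK hQM) g.hQp
          ((inf_le_left.trans hKH).trans g.hQn)
        have hTP₀ : T ≤ P₀ := hTQ.trans hQP₀
        have hTcP₀ : ∀ t ∈ T, ∀ y ∈ P₀, t * y = y * t := by
          intro t ht y hy
          have h1 : b * y * b⁻¹ ∈ P := hbP (conj_mem_cj hy)
          have h2 : b * t * b⁻¹ ∈ T := by
            rw [← hMT b hb]; exact conj_mem_cj ht
          have h3 := g.hTc _ h2 _ h1
          have h4 : b⁻¹ * (b * t * b⁻¹ * (b * y * b⁻¹)) * b = b⁻¹ * (b * y * b⁻¹ * (b * t * b⁻¹)) * b := by rw [h3]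
          have e1 : b⁻¹ * (b * t * b⁻¹ * (b * y * b⁻¹)) * b = t * y := by group
          have e2 : b⁻¹ * (b * y * b⁻¹ * (b * t * b⁻¹)) * b = y * t := by group
          rwa [e1, e2] at h4
        -- N_H(J(P₀)) ≤ M
        have hNJ : H ⊓ Subgroup.normalizer (thompsonSubgroupAOf P₀ : Set Γ) ≤ M := by
          by_cases hfull : cj b P₀ = P
          · intro y hy
            have h1 : b * y * b⁻¹ ∈ H ⊓ Subgroup.normalizer (thompsonSubgroupAOf P : Set Γ) := by
              refine ⟨H.mul_mem (H.mul_mem hbH hy.1) (H.inv_mem hbH), ?_⟩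
              rw [← hfull, J_cj]
              rw [← cj_normalizer]
              exact conj_mem_cj hy.2
            have h2 := hJM h1
            have h3 := M.mul_mem (M.mul_mem (M.inv_mem hb) h2) hb
            have e : b⁻¹ * (b * y * b⁻¹) * b = y := by group
            rwa [e] at h3
          · have hlt : cj b P₀ < P := lt_of_le_of_ne hbP hfull
            obtain ⟨P₁, hP₁⟩ : ∃ P₁, P₁ = cj b⁻¹ P := ⟨_, rfl⟩
            have hP₁p : IsPGroup p P₁ := by rw [hP₁]; exact isPGroup_cj g.hP.isPGroup
            have hlt' : P₀ < P₁ := by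
              rw [hP₁]
              refine lt_of_le_of_ne (cj_le_iff.mp hbP) (fun h => hfull ?_)
              rw [h, cj_cj_inv]
            have hP₁M : P₁ ≤ M := by
              rw [hP₁]
              have := cj_mono (g := b⁻¹) hPM
              rwa [cj_self (M.inv_mem hb)] at this
            have hN := lt_norm hP₁p hlt'
            obtain ⟨L, hL⟩ : ∃ L, L = H ⊓ Subgroup.normalizer (thompsonSubgroupAOf P₀ : Set Γ) := ⟨_, rfl⟩
            have hNL : P₁ ⊓ Subgroup.normalizer (P₀ : Set Γ) ≤ L ⊓ M := by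
              rw [hL]
              exact le_inf (le_inf ((inf_le_left.trans hP₁M).trans hMH)
                (inf_le_right.trans (normalizer_le_J P₀))) (inf_le_left.trans hP₁M)
            obtain ⟨P₂, hNP₂, hP₂⟩ := exists_sylIn hNL (hP₁p.to_le inf_le_left)
            have hlt2 : P₀ < P₂ := lt_of_lt_of_le hN hNP₂
            have hc1 : Nat.card P₀ < Nat.card P₂ := by
              by_contra hge
              push Not at hge
              exact hlt2.ne (Subgroup.eq_of_le_of_card_ge hlt2.le hge)
            have hc2 : Nat.card P₂ ≤ Nat.card H := card_le_of_le' (hP₂.le.trans (inf_le_left.trans (by rw [hL]; exact inf_le_left)))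
            have hLH : L ≤ H := by rw [hL]; exact inf_le_left
            have hP₀H : P₀ ≤ H := hP₀M.trans hMH
            have hLne : L ≠ H := by
              intro h
              have h1 : H ≤ Subgroup.normalizer (thompsonSubgroupAOf P₀ : Set Γ) := by
                rw [← h, hL]; exact inf_le_right
              have h2 := hnorm _ ((J_le P₀).trans hP₀H) (hP₀.isPGroup.to_le (J_le P₀)) h1
              exact hA₀a ((le_J (hmA P₀ hP₀H hP₀.isPGroup A₀ hA₀P hA₀c hA₀d)).trans h2)
            have hQL : Q ≤ L := by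
              rw [hL]
              refine le_inf g.hQH ?_
              exact (hQP₀.trans Subgroup.le_normalizer).trans (normalizer_le_J P₀)
            have := ihm (Nat.card H - Nat.card P₂) (by omega) L A₀ P₂ rfl hLH hQL hLne (hA₀P.trans hlt2.le)
              hA₀c hA₀d hA₀a hP₂
            rw [← hL]; exact this
        -- P₀ Sylow in K
        obtain ⟨D, hP₀D, hD⟩ := exists_sylIn hP₀K hP₀.isPGroup
        have hDeq : P₀ = D := by
          by_contra hne
          have hlt : P₀ < D := lt_of_le_of_ne hP₀D hne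
          have hN := lt_norm hD.isPGroup hlt
          have h1 : D ⊓ Subgroup.normalizer (P₀ : Set Γ) ≤ K ⊓ M := by
            refine le_inf (inf_le_left.trans hD.le) ?_
            refine le_trans ?_ hNJ
            exact le_inf ((inf_le_left.trans hD.le).trans hKH) (inf_le_right.trans (normalizer_le_J P₀))
          have h2 := hP₀.eq_of_le h1 (hD.isPGroup.to_le inf_le_left) hN.le
          exact hN.ne h2
        subst hDeq
        by_contra hKM
        apply hneg
        refine concl_mono hKH (IH (Nat.card K) ?_ K P₀ rfl ?_)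
        · rw [← hcard]
          by_contra hge
          push Not at hge
          exact hKne (Subgroup.eq_of_le_of_card_ge hKH hge)
        · exact
            { hQH := hQK
              hQn := hKH.trans g.hQn
              hQp := g.hQp
              hcQ := (inf_le_inf_right _ hKH).trans g.hcQ
              hP := hD
              hTP := hTP₀
              hTc := hTcP₀
              hJ := by
                refine (inf_le_inf_right _ hKH).trans (hNJ.trans ?_)
                rw [hM]; exact inf_le_right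
              hTn := fun h => hKM (by rw [hM]; exact le_inf hKH h) }
    -- (b) active elements exist
    have hexact : ∃ A ∈ mA P, ¬ A ≤ Subgroup.centralizer (V : Set Γ) := by
      by_contra hcon
      push Not at hcon
      apply hMne
      apply le_antisymm hMH
      obtain ⟨C, hC⟩ : ∃ C, C = H ⊓ Subgroup.centralizer (V : Set Γ) := ⟨_, rfl⟩
      have hCH : C ≤ H := by rw [hC]; exact inf_le_left
      have hCn : H ≤ Subgroup.normalizer (C : Set Γ) := by
        intro h hh
        rw [mem_normalizer_iff_cj, hC, cj_inf, cj_self hh, cj_centralizer, mem_normalizer_iff_cj.mp (hVn hh)]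
      have hsyl : SylIn p (P ⊓ C) C := g.hP.inf_normal hCH hCn
      have hJeq : thompsonSubgroupAOf (P ⊓ C) = thompsonSubgroupAOf P :=
        J_eq_of_all (fun A hA => by rw [hC]; exact le_inf (hA.1.trans hPH) (hcon A hA))
      have hCM : C ≤ M := by
        intro c hc
        have hc' := hc
        rw [hC] at hc'
        exact hcentM c hc'.1 (fun t ht => (mem_cent.mp hc'.2 t (hTV ht)).symm)
      intro h hh
      have h1 : cj h (P ⊓ C) ≤ C := by
        have := cj_mono (g := h) (inf_le_right : P ⊓ C ≤ C)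
        rwa [mem_normalizer_iff_cj.mp (hCn hh)] at this
      obtain ⟨c, hc, hcc⟩ := hsyl.exists_cj_le h1 (isPGroup_cj hsyl.isPGroup)
      rw [cj_cj] at hcc
      have h2 : cj (c * h) (P ⊓ C) = P ⊓ C :=
        Subgroup.eq_of_le_of_card_ge hcc (by rw [card_cj])
      have h3 : c * h ∈ M := by
        apply hJM
        refine ⟨H.mul_mem (hCH hc) hh, ?_⟩
        rw [← hJeq]
        exact normalizer_le_J _ (mem_normalizer_iff_cj.mpr h2)
      have := M.mul_mem (M.inv_mem (hCM hc)) h3
      simpa using this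
    -- (c) minimal choice
    have hfin : ({A : Subgroup Γ | A ∈ mA P ∧ ¬ A ≤ Subgroup.centralizer (V : Set Γ)}).Finite := Set.toFinite _
    obtain ⟨A, hAmem, hAmax⟩ := hfin.exists_maximalFor
      (fun A : Subgroup Γ => Nat.card ↥(A ⊓ Subgroup.centralizer (V : Set Γ))) _ hexact
    have hmin : ∀ A' ∈ mA P, ¬ A' ≤ Subgroup.centralizer (V : Set Γ) →
      Nat.card ↥(A' ⊓ Subgroup.centralizer (V : Set Γ)) ≤ Nat.card ↥(A ⊓ Subgroup.centralizer (V : Set Γ)) := by
      intro A' hA' hA'a
      by_contra hlt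
      push Not at hlt
      exact absurd (hAmax ⟨hA', hA'a⟩ hlt.le) (not_le.mpr hlt)
    have hAP : A ≤ P := hAmem.1.1
    have hAM : A ≤ M := hAP.trans hPM
    have hAd := hmAd A hAmem.1
    have hStage : Stage p H Q V T M A :=
      { hQG := g.hQH
        hQn := g.hQn
        hVQ := hVQ
        hVc := hVc
        hVn := hVn
        hTV := hTV
        hgen := hgen
        hM := hM
        hMG := hMne
        hAM := hAM
        hfact := by
          intro K hKH hQK hKne x hx h1 h2
          have h3 : IsPGroup p (cj x A) := isPGroup_cj (g.hP.isPGroup.to_le hAP)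
          obtain ⟨P₀, hAP₀, hP₀⟩ := exists_sylIn (le_inf h1 h2) h3
          refine claimA _ K (cj x A) P₀ rfl hKH hQK hKne hAP₀ (comm_cj hAmem.1.2.1 x) (by rw [card_cj]; exact hAd) ?_ hP₀
          intro h
          apply hAmem.2
          have h4 := cj_mono (g := x⁻¹) h
          rw [cj_inv_cj, cj_centralizer, mem_normalizer_iff_cj.mp (hVn (H.inv_mem hx))] at h4
          exact h4
        hself := by
          intro x hx h
          obtain ⟨m, hm, hmP⟩ := hPsylM.exists_cj_le ((cj_mono hPM).trans h) (isPGroup_cj g.hP.isPGroup)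
          rw [cj_cj] at hmP
          have h1 : cj (m * x) P = P := Subgroup.eq_of_le_of_card_ge hmP (by rw [card_cj])
          have h2 : m * x ∈ M := hJM ⟨H.mul_mem (hMH hm) hx, normalizer_le_J _ (mem_normalizer_iff_cj.mpr h1)⟩
          have := M.mul_mem (M.inv_mem hm) h2
          simpa using this
        hAT := by
          rintro y hy ⟨k, hk⟩ t ht
          have hz : IsPGroup p (Subgroup.zpowers y) := by
            rintro ⟨z, j, rfl⟩
            refine ⟨k, Subtype.ext ?_⟩
            show ((y ^ j) ^ (p ^ k) : Γ) = 1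
            rw [← zpow_natCast, ← zpow_mul, mul_comm, zpow_mul, zpow_natCast, hk, one_zpow]
          obtain ⟨m, hm, hmy⟩ := hPsylM.exists_cj_le (C := Subgroup.zpowers y) (by rwa [Subgroup.zpowers_le]) hz
          have h1 : m * y * m⁻¹ ∈ P := hmy (conj_mem_cj (Subgroup.mem_zpowers y))
          have h2 : m * t * m⁻¹ ∈ T := by
            rw [← hMT m hm]; exact conj_mem_cj ht
          have h3 := g.hTc _ h2 _ h1
          have h4 : m⁻¹ * (m * t * m⁻¹ * (m * y * m⁻¹)) * m = m⁻¹ * (m * y * m⁻¹ * (m * t * m⁻¹)) * m := by rw [h3]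
          have e1 : m⁻¹ * (m * t * m⁻¹ * (m * y * m⁻¹)) * m = t * y := by group
          have e2 : m⁻¹ * (m * y * m⁻¹ * (m * t * m⁻¹)) * m = y * t := by group
          rw [e1, e2] at h4
          exact h4.symm
        hAab := comm_iff.mp hAmem.1.2.1
        hquad := tr_quad g.hP.isPGroup hAmem.1 hVP hVab (hPH.trans hVn) hAmem.2 hmin
        hcard := by
          have h1 := tr_le hAmem.1 hVP hVab (inf_le_left : A ⊓ Subgroup.centralizer (V : Set Γ) ≤ A)
          have h2 : V ⊓ Subgroup.centralizer ((A ⊓ Subgroup.centralizer (V : Set Γ) : Subgroup Γ) : Set Γ) = V := by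
            apply inf_eq_left.mpr
            intro w hw
            rw [mem_cent]
            intro y hy
            exact (mem_cent.mp hy.2 w hw).symm
          rw [h2, mul_comm] at h1
          exact h1
        hQp := g.hQp
        hAp := g.hP.isPGroup.to_le hAP }
    exact hneg (hStage.final hp2)

end Cfsg.Agent.Fus.FT
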