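import Cfsg.Agent.Fus.FT1

set_option autoImplicit false
set_option linter.style.haveILetI false
set_option linter.unusedSectionVars false

namespace Cfsg.Agent.Fus.FT

section Main

variable {R : Type*} [Ring R] [StarRing R] {Sg : AddSubgroup R}

/-- the subring generated by two elements, closed under star -/
theorem star_closure {a b : R} (ha : star a = a) (hb : star b = b) :
    ∀ x ∈ Subring.closure {a, b}, star x ∈ Subring.closure {a, b} := by
  intro x hx
  induction hx using Subring.closure_induction with
  | mem x hx =>
    have hx' := hx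
    rcases hx with rfl | rfl
    · rw [ha]; exact Subring.subset_closure hx'
    · rw [hb]; exact Subring.subset_closure hx'
  | zero => simp
  | one => simp
  | add x y _ _ hx hy => rw [star_add]; exact Subring.add_mem _ hx hy
  | neg x _ hx => rw [star_neg]; exact Subring.neg_mem _ hx
  | mul x y _ _ hx hy => rw [star_mul]; exact Subring.mul_mem _ hy hx

theorem word_of_mem {a b x : R} (hx : x ∈ Submonoid.closure ({a, b} : Set R)) :
    ∃ w : List Bool, x = ev a b w := by
  induction hx using Submonoid.closure_induction with
  | mem x hx =>
    rcases hx with rfl | rfl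
    · exact ⟨[true], by simp [ev]⟩
    · exact ⟨[false], by simp [ev]⟩
  | one => exact ⟨[], rfl⟩
  | mul x y _ _ hx hy =>
    obtain ⟨u, rfl⟩ := hx
    obtain ⟨v, rfl⟩ := hy
    exact ⟨u ++ v, (ev_append a b u v).symm⟩

theorem add_ind {a b : R} {P : R → Prop} (hw : ∀ w, P (ev a b w))
    (hadd : ∀ x y, x ∈ Subring.closure ({a, b} : Set R) → y ∈ Subring.closure ({a, b} : Set R) →
      P x → P y → P (x + y)) (hneg : ∀ x, x ∈ Subring.closure ({a, b} : Set R) → P x → P (-x))
    (h0 : P 0)
    {x : R} (hx : x ∈ Subring.closure ({a, b} : Set R)) : P x := by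
  rw [Subring.mem_closure_iff] at hx
  induction hx using AddSubgroup.closure_induction with
  | mem x hx =>
    obtain ⟨w, rfl⟩ := word_of_mem hx
    exact hw w
  | zero => exact h0
  | add x y hx hy ihx ihy =>
    exact hadd x y (Subring.mem_closure_iff.mpr hx) (Subring.mem_closure_iff.mpr hy) ihx ihy
  | neg x hx ihx => exact hneg x (Subring.mem_closure_iff.mpr hx) ihx

theorem trace_mem (h : JDiv Sg) (hst : ∀ s ∈ Sg, star s = s) {a b : R} (ha : a ∈ Sg) (hb : b ∈ Sg)
    {x : R} (hx : x ∈ Subring.closure ({a, b} : Set R)) : x + star x ∈ Sg := by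
  refine add_ind (P := fun x => x + star x ∈ Sg) (fun w => tr_mem h hst ha hb _ w rfl)
    (fun x y _ _ h1 h2 => ?_) (fun x _ h1 => ?_) (by simp [Sg.zero_mem]) hx
  · have : x + y + star (x + y) = (x + star x) + (y + star y) := by rw [star_add]; abel
    show x + y + star (x + y) ∈ Sg
    rw [this]; exact Sg.add_mem h1 h2
  · have : -x + star (-x) = -(x + star x) := by rw [star_neg]; abel
    show -x + star (-x) ∈ Sg
    rw [this]; exact Sg.neg_mem h1

theorem ev_mem (a b : R) (w : List Bool) : ev a b w ∈ Subring.closure ({a, b} : Set R) := by
  induction w with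
  | nil => rw [ev_nil]; exact Subring.one_mem _
  | cons x w ih =>
    rw [ev_cons]
    refine Subring.mul_mem _ ?_ ih
    cases x
    · exact Subring.subset_closure (by simp)
    · exact Subring.subset_closure (by simp)

theorem quad_mem (h : JDiv Sg) (hst : ∀ s ∈ Sg, star s = s) {a b : R} (ha : a ∈ Sg) (hb : b ∈ Sg)
    {s : R} (hs : s ∈ Sg) (hsS : s ∈ Subring.closure ({a, b} : Set R))
    {x : R} (hx : x ∈ Subring.closure ({a, b} : Set R)) : star x * s * x ∈ Sg := by
  refine add_ind (P := fun x => star x * s * x ∈ Sg) (fun w => ?_)
    (fun x y hx hy h1 h2 => ?_) (fun x _ h1 => ?_) (by simp [Sg.zero_mem]) hx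
  · -- words
    have key : ∀ w : List Bool, ∀ s ∈ Sg, star (ev a b w) * s * ev a b w ∈ Sg := by
      intro w
      induction w with
      | nil => intro s hs; simpa [ev] using hs
      | cons x w ih =>
        intro s hs
        have hx : (if x then a else b) ∈ Sg := by cases x <;> simp [ha, hb]
        have := ih _ (h.aba hx hs)
        rw [ev_cons, star_mul, hst _ hx]
        have e : star (ev a b w) * (if x then a else b) * s * ((if x then a else b) * ev a b w) =
            star (ev a b w) * ((if x then a else b) * s * (if x then a else b)) * ev a b w := by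
          noncomm_ring
        rw [e]; exact this
    exact key w s hs
  · have h3 := trace_mem h hst ha hb (x := star x * s * y)
      (Subring.mul_mem _ (Subring.mul_mem _ (star_closure (hst a ha) (hst b hb) x hx) hsS) hy)
    have e : star (x + y) * s * (x + y) = star x * s * x + star y * s * y +
        (star x * s * y + star (star x * s * y)) := by
      rw [star_mul, star_mul, star_star, hst s hs, star_add]; noncomm_ring
    show star (x + y) * s * (x + y) ∈ Sg
    rw [e]; exact Sg.add_mem (Sg.add_mem h1 h2) h3
  · show star (-x) * s * (-x) ∈ Sg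
    rw [star_neg, neg_mul, neg_mul_neg]; exact h1

/-- one half of case 1 -/
theorem case1_half (h : JDiv Sg) (hst : ∀ s ∈ Sg, star s = s) [Finite R]
    {a b : R} (ha : a ∈ Sg) (hb : b ∈ Sg)
    {e : R} (he : e ∈ Subring.closure ({a, b} : Set R)) (hee : e * e = e)
    (he0 : e ≠ 0) (hse : star e = 1 - e)
    (hec : ∀ x ∈ Subring.closure ({a, b} : Set R), e * x = x * e) : e * (a * b - b * a) = 0 := by
  let S := Subring.closure ({a, b} : Set R)
  have haS : a ∈ S := Subring.subset_closure (by simp)
  have hbS : b ∈ S := Subring.subset_closure (by simp)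
  have := wedd (A := S) {x : S | e * (x : R) = 0} (by simp)
    (by
      intro x y hx hy
      show e * ((x : R) + (y : R)) = 0
      rw [mul_add, hx, hy, add_zero])
    (by
      intro x hx
      show e * (-(x : R)) = 0
      rw [mul_neg, hx, neg_zero])
    (by
      intro x y hy
      show e * ((x : R) * (y : R)) = 0
      rw [← mul_assoc, hec _ x.2, mul_assoc, hy, mul_zero])
    (by
      intro x y hx
      show e * ((x : R) * (y : R)) = 0
      rw [← mul_assoc, hx, zero_mul])
    (by
      show ¬ (e * (1 : R) = 0)
      rw [mul_one]; exact he0)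
    (by
      intro x z hxz
      have hxz' : e * ((x : R) * (z : R)) = 0 := hxz
      by_cases hx : e * (x : R) = 0
      · exact Or.inl hx
      · right
        show e * (z : R) = 0
        have hy := trace_mem h hst ha hb (x := e * (x : R)) (Subring.mul_mem _ he x.2)
        have hsx : star (x : R) ∈ S := star_closure (hst a ha) (hst b hb) _ x.2
        have hey : e * (e * (x : R) + star (e * (x : R))) = e * (x : R) := by
          rw [star_mul, hse, mul_add, ← mul_assoc, hee, ← mul_assoc, hec _ hsx, mul_assoc, mul_sub, mul_one,
            hee, sub_self, mul_zero, add_zero]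
        have hy0 : e * (x : R) + star (e * (x : R)) ≠ 0 := by
          intro h0
          rw [h0, mul_zero] at hey
          exact hx hey.symm
        apply h.left_cancel hy hy0
        have h1 : (e * (x : R) + star (e * (x : R))) * (e * (z : R)) =
            e * (x : R) * e * z + star (x : R) * ((1 - e) * e) * z := by
          rw [star_mul, hse]; noncomm_ring
        rw [h1, sub_mul, one_mul, hee, sub_self, mul_zero, zero_mul, add_zero, mul_assoc e, ← hec _ x.2,
          ← mul_assoc, hee, mul_assoc, hxz'])
    ⟨a, haS⟩ ⟨b, hbS⟩
  exact this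

theorem case1 (h : JDiv Sg) (hst : ∀ s ∈ Sg, star s = s) [Finite R]
    {a b : R} (ha : a ∈ Sg) (hb : b ∈ Sg)
    {e : R} (he : e ∈ Subring.closure ({a, b} : Set R)) (hee : e * e = e)
    (he0 : e ≠ 0) (he1 : e ≠ 1) : a * b = b * a := by
  have haS : a ∈ Subring.closure ({a, b} : Set R) := Subring.subset_closure (by simp)
  have hbS : b ∈ Subring.closure ({a, b} : Set R) := Subring.subset_closure (by simp)
  have hse : star e ∈ Subring.closure ({a, b} : Set R) := star_closure (hst a ha) (hst b hb) _ he
  have hsee : star e * star e = star e := by rw [← star_mul, hee]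
  -- star e * e = 0 for nontrivial idempotents
  have hz : ∀ f ∈ Subring.closure ({a, b} : Set R), f * f = f → f ≠ 1 → star f * f = 0 := by
    intro f hf hff hf1
    by_contra hne
    have h1 := quad_mem h hst ha hb h.one (Subring.one_mem _) hf
    rw [mul_one] at h1
    apply hf1
    have h2 := h.left_cancel h1 hne (x := 1 - f) (by
      rw [mul_assoc, mul_sub, mul_one, hff, sub_self, mul_zero])
    exact (sub_eq_zero.mp h2).symm
  have h1 := hz e he hee he1
  have h2 := hz (star e) hse hsee (fun h' => he1 (by rw [← star_star e, h', star_one]))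
  rw [star_star] at h2
  have hsum : e + star e ∈ Sg := trace_mem h hst ha hb he
  have hsum0 : e + star e ≠ 0 := by
    intro h0
    apply he0
    have : (e + star e) * e = 0 := by rw [h0, zero_mul]
    rw [add_mul, h1, add_zero, hee] at this
    exact this
  have hsum1 : e + star e = 1 := by
    have h3 := h.left_cancel hsum hsum0 (x := 1 - (e + star e)) (by
      have : (e + star e) * (1 - (e + star e)) = (e - e * e) + (star e - star e * star e)
        - e * star e - star e * e := by noncomm_ring
      rw [this, hee, hsee, h1, h2]; simp)
    exact (sub_eq_zero.mp h3).symm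
  have hse' : star e = 1 - e := by rw [← hsum1]; abel
  -- for s in {a,b}
  have hcomm : ∀ s ∈ Sg, s ∈ Subring.closure ({a, b} : Set R) → e * s = s * e := by
    intro s hs hsS
    have h4 := quad_mem h hst ha hb hs hsS he
    have h5 := quad_mem h hst ha hb hs hsS hse
    rw [star_star] at h5
    have h6 : star e * s * e = 0 := by
      by_contra hne
      apply he1
      have h7 := h.left_cancel h4 hne (x := 1 - e) (by
        rw [mul_assoc, mul_sub, mul_one, hee, sub_self, mul_zero])
      exact (sub_eq_zero.mp h7).symm
    have h8 : e * s * star e = 0 := by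
      by_contra hne
      apply he0
      have h7 := h.left_cancel h5 hne (x := e) (by
        rw [mul_assoc, h1, mul_zero])
      exact h7
    rw [hse'] at h6 h8
    have e1 : e * s = e * s * e := by
      have : e * s * (1 - e) = e * s - e * s * e := by noncomm_ring
      rw [this] at h8
      exact sub_eq_zero.mp h8
    have e2 : s * e = e * s * e := by
      have : (1 - e) * s * e = s * e - e * s * e := by noncomm_ring
      rw [this] at h6
      exact sub_eq_zero.mp h6
    rw [e1, e2]
  have hec : ∀ x ∈ Subring.closure ({a, b} : Set R), e * x = x * e := by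
    intro x hx
    induction hx using Subring.closure_induction with
    | mem x hx =>
      rcases hx with rfl | rfl
      · exact hcomm _ ha haS
      · exact hcomm _ hb hbS
    | zero => simp
    | one => simp
    | add x y _ _ hx hy => rw [mul_add, add_mul, hx, hy]
    | neg x _ hx => rw [mul_neg, neg_mul, hx]
    | mul x y _ _ hx hy => rw [← mul_assoc, hx, mul_assoc, hy, mul_assoc]
  have hA := case1_half h hst ha hb he hee he0 hse' hec
  have hse0 : star e ≠ 0 := by
    intro h0
    apply he0
    rw [← star_star e, h0, star_zero]
  have hB := case1_half h hst ha hb hse hsee hse0 (by rw [star_star, hse']; abel) (by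
    intro x hx
    rw [hse', sub_mul, mul_sub, one_mul, mul_one, hec x hx])
  have : a * b - b * a = 0 := by
    calc a * b - b * a = (e + star e) * (a * b - b * a) := by rw [hsum1, one_mul]
      _ = 0 := by rw [add_mul, hA, hB, add_zero]
  exact sub_eq_zero.mp this

end Main

end Cfsg.Agent.Fus.FT
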