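import Cfsg.Agent.Fus.FT2

set_option autoImplicit false
set_option linter.style.haveILetI false
set_option linter.unusedSectionVars false
set_option linter.unusedVariables false

namespace Cfsg.Agent.Fus.FT

section Case2

variable {R : Type*} [Ring R]

/-- every element of a finite ring has an idempotent power -/
theorem exists_idem [Finite R] (x : R) : ∃ n : ℕ, 0 < n ∧ x ^ n * x ^ n = x ^ n := by
  -- x^i = x^j with i<j
  obtain ⟨i, j, hij, he⟩ := Finite.exists_ne_map_eq_of_infinite (fun n : ℕ => x ^ n)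
  wlog hlt : i < j generalizing i j
  · exact this j i hij.symm he.symm (by omega)
  obtain ⟨d, rfl⟩ : ∃ d, j = i + d := ⟨j - i, by omega⟩
  have hd : 0 < d := by omega
  -- x^(m) = x^(m+d) for m ≥ i
  have h1 : ∀ m, i ≤ m → x ^ m = x ^ (m + d) := by
    intro m hm
    obtain ⟨k, rfl⟩ := Nat.exists_eq_add_of_le hm
    have he' : x ^ i = x ^ (i + d) := he
    calc x ^ (i + k) = x ^ i * x ^ k := pow_add _ _ _
      _ = x ^ (i + d) * x ^ k := by rw [he']
      _ = x ^ (i + k + d) := by rw [← pow_add]; congr 1; ring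
  have h2 : ∀ k m, i ≤ m → x ^ m = x ^ (m + k * d) := by
    intro k
    induction k with
    | zero => intro m _; simp
    | succ k ih =>
      intro m hm
      rw [ih m hm, h1 (m + k * d) (by omega)]
      congr 1; ring
  refine ⟨(i + 1) * d, by positivity, ?_⟩
  rw [← pow_add]
  exact (h2 (i + 1) ((i + 1) * d) (by nlinarith)).symm

theorem nil_or_pow [Finite R] {S : Subring R} (hidem : ∀ e ∈ S, e * e = e → e = 0 ∨ e = 1)
    {x : R} (hx : x ∈ S) : IsNilpotent x ∨ ∃ n : ℕ, 0 < n ∧ x ^ n = 1 := by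
  obtain ⟨n, hn, he⟩ := exists_idem x
  rcases hidem _ (Subring.pow_mem S hx n) he with h | h
  · exact Or.inl ⟨n, h⟩
  · exact Or.inr ⟨n, hn, h⟩

theorem not_nil_of_right_inv {x y : R} (h1 : (1 : R) ≠ 0) (hxy : x * y = 1) : ¬ IsNilpotent x := by
  rintro ⟨n, hn⟩
  have : ∀ k, x ^ k * y ^ k = 1 := by
    intro k
    induction k with
    | zero => simp
    | succ k ih =>
      rw [pow_succ, pow_succ']
      calc x ^ k * x * (y * y ^ k) = x ^ k * (x * y) * y ^ k := by noncomm_ring
        _ = 1 := by rw [hxy, mul_one, ih]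
  have h := this n
  rw [hn, zero_mul] at h
  exact h1 h.symm

theorem not_nil_of_left_inv {x y : R} (h1 : (1 : R) ≠ 0) (hxy : y * x = 1) : ¬ IsNilpotent x := by
  rintro ⟨n, hn⟩
  have : ∀ k, y ^ k * x ^ k = 1 := by
    intro k
    induction k with
    | zero => simp
    | succ k ih =>
      rw [pow_succ, pow_succ']
      calc y ^ k * y * (x * x ^ k) = y ^ k * (y * x) * x ^ k := by noncomm_ring
        _ = 1 := by rw [hxy, mul_one, ih]
  have h := this n
  rw [hn, mul_zero] at h
  exact h1 h.symm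

theorem nil_mul_left [Finite R] {S : Subring R} (h1 : (1 : R) ≠ 0)
    (hidem : ∀ e ∈ S, e * e = e → e = 0 ∨ e = 1)
    {x y : R} (hx : x ∈ S) (hy : y ∈ S) (hn : IsNilpotent y) : IsNilpotent (x * y) := by
  rcases nil_or_pow hidem (Subring.mul_mem S hx hy) with h | ⟨n, hn0, hn1⟩
  · exact h
  · exfalso
    obtain ⟨m, rfl⟩ := Nat.exists_eq_succ_of_ne_zero hn0.ne'
    rw [Nat.succ_eq_add_one, pow_succ, ← mul_assoc] at hn1
    exact not_nil_of_left_inv h1 hn1 hn

theorem nil_mul_right [Finite R] {S : Subring R} (h1 : (1 : R) ≠ 0)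
    (hidem : ∀ e ∈ S, e * e = e → e = 0 ∨ e = 1)
    {x y : R} (hx : x ∈ S) (hy : y ∈ S) (hn : IsNilpotent x) : IsNilpotent (x * y) := by
  rcases nil_or_pow hidem (Subring.mul_mem S hx hy) with h | ⟨n, hn0, hn1⟩
  · exact h
  · exfalso
    obtain ⟨m, rfl⟩ := Nat.exists_eq_succ_of_ne_zero hn0.ne'
    rw [Nat.succ_eq_add_one, pow_succ', mul_assoc] at hn1
    exact not_nil_of_right_inv h1 hn1 hn

theorem nil_add [Finite R] {S : Subring R} (h1 : (1 : R) ≠ 0)
    (hidem : ∀ e ∈ S, e * e = e → e = 0 ∨ e = 1)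
    {x y : R} (hx : x ∈ S) (hy : y ∈ S) (hnx : IsNilpotent x) (hny : IsNilpotent y) :
    IsNilpotent (x + y) := by
  rcases nil_or_pow hidem (Subring.add_mem S hx hy) with h | ⟨n, hn0, hn1⟩
  · exact h
  · exfalso
    obtain ⟨m, rfl⟩ := Nat.exists_eq_succ_of_ne_zero hn0.ne'
    rw [Nat.succ_eq_add_one, pow_succ'] at hn1
    have hu : (x + y) ^ m ∈ S := Subring.pow_mem S (Subring.add_mem S hx hy) m
    have h2 : x * (x + y) ^ m = 1 - y * (x + y) ^ m := by
      rw [add_mul] at hn1
      exact eq_sub_of_add_eq hn1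
    have h3 : IsNilpotent (y * (x + y) ^ m) := nil_mul_right h1 hidem hy hu hny
    have h4 : IsNilpotent (x * (x + y) ^ m) := nil_mul_right h1 hidem hx hu hnx
    have h5 : IsUnit (x * (x + y) ^ m) := by rw [h2]; exact h3.isUnit_one_sub
    obtain ⟨u, hu'⟩ := h5
    rw [← hu'] at h4
    exact not_nil_of_right_inv h1 (u.mul_inv) h4

theorem nil_neg {x : R} (hnx : IsNilpotent x) : IsNilpotent (-x) := hnx.neg

end Case2

section Main2

variable {R : Type*} [Ring R] [StarRing R] {Sg : AddSubgroup R}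

theorem star_nil {x : R} (hx : IsNilpotent x) : IsNilpotent (star x) := by
  obtain ⟨n, hn⟩ := hx
  exact ⟨n, by rw [← star_pow, hn, star_zero]⟩

theorem case2 (h : JDiv Sg) (hst : ∀ s ∈ Sg, star s = s) [Finite R] {p : ℕ} [hp : Fact p.Prime]
    (hpR : (p : R) = 0) (h1 : (1 : R) ≠ 0)
    {a b : R} (ha : a ∈ Sg) (hb : b ∈ Sg)
    (hidem : ∀ e ∈ Subring.closure ({a, b} : Set R), e * e = e → e = 0 ∨ e = 1) : a * b = b * a := by
  let S := Subring.closure ({a, b} : Set R)
  have haS : a ∈ S := Subring.subset_closure (by simp)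
  have hbS : b ∈ S := Subring.subset_closure (by simp)
  -- star x = - x for nilpotent x in S
  have hstn : ∀ x ∈ S, IsNilpotent x → star x = -x := by
    intro x hx hn
    have hsx := star_closure (hst a ha) (hst b hb) x hx
    have h2 : IsNilpotent (x + star x) := nil_add h1 hidem hx hsx hn (star_nil hn)
    have h3 := h.not_nilp (trace_mem h hst ha hb hx) h2
    exact (neg_eq_of_add_eq_zero_right h3).symm
  have hcomm : ∀ s ∈ Sg, s ∈ S → ∀ x ∈ S, IsNilpotent x → s * x = x * s := by
    intro s hs hsS x hx hn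
    have h2 : IsNilpotent (s * x) := nil_mul_left h1 hidem hsS hx hn
    have h3 := hstn _ (Subring.mul_mem S hsS hx) h2
    rw [star_mul, hst s hs, hstn x hx hn, neg_mul, neg_inj] at h3
    exact h3.symm
  -- commutators are nilpotent
  have hW : ∀ x ∈ S, ∀ y ∈ S, IsNilpotent (x * y - y * x) := by
    intro x hx y hy
    have := wedd (A := S) {x : S | IsNilpotent (x : R)} (by simp)
      (fun x y hx hy => nil_add h1 hidem x.2 y.2 hx hy)
      (fun x hx => hx.neg)
      (fun x y hy => nil_mul_left h1 hidem x.2 y.2 hy)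
      (fun x y hx => nil_mul_right h1 hidem x.2 y.2 hx)
      (by
        rintro ⟨n, hn⟩
        have : (1 : R) ^ n = 0 := hn
        rw [one_pow] at this
        exact h1 this)
      (by
        intro x z hxz
        have hxz' : IsNilpotent ((x : R) * (z : R)) := hxz
        rcases nil_or_pow hidem x.2 with hn | ⟨n, hn0, hn1⟩
        · exact Or.inl hn
        · right
          show IsNilpotent (z : R)
          obtain ⟨m, rfl⟩ := Nat.exists_eq_succ_of_ne_zero hn0.ne'
          have h2 : (z : R) = (x : R) ^ m * ((x : R) * (z : R)) := by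
            rw [← mul_assoc, ← pow_succ]
            rw [Nat.succ_eq_add_one] at hn1
            rw [hn1, one_mul]
          rw [h2]
          exact nil_mul_left h1 hidem (Subring.pow_mem S x.2 m) (Subring.mul_mem S x.2 z.2) hxz')
      ⟨x, hx⟩ ⟨y, hy⟩
    exact this
  haveI : CharP R p := by
    refine ⟨fun n => ?_⟩
    constructor
    · intro hn
      by_contra hpn
      have hc : Nat.Coprime p n := (Nat.Prime.coprime_iff_not_dvd hp.out).mpr hpn
      have h2 := Nat.gcd_eq_gcd_ab p n
      rw [hc] at h2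
      apply h1
      have h3 : ((1 : ℤ) : R) = ((p : ℤ) * p.gcdA n + (n : ℤ) * p.gcdB n : ℤ) := by
        rw [← h2]; simp
      rw [Int.cast_one] at h3
      rw [h3]
      push_cast
      rw [hpR, hn]; simp
    · rintro ⟨k, rfl⟩
      rw [Nat.cast_mul, hpR, zero_mul]
  rcases nil_or_pow hidem haS with hn | ⟨n0, hn0, hn1⟩
  · exact (hcomm b hb hbS a haS hn).symm
  · -- order of a
    have hfo : IsOfFinOrder a := isOfFinOrder_iff_pow_eq_one.mpr ⟨n0, hn0, hn1⟩
    have hpos : 0 < orderOf a := hfo.orderOf_pos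
    have hcop : Nat.Coprime p (orderOf a) := by
      rw [Nat.Prime.coprime_iff_not_dvd hp.out]
      rintro ⟨k, hk⟩
      have hk0 : 0 < k := by
        rcases Nat.eq_zero_or_pos k with h0 | h0
        · subst h0; omega
        · exact h0
      have h2 : (a ^ k - 1) ^ p = 0 := by
        rw [sub_pow_char_of_commute (p := p) (Commute.one_right _), one_pow, ← pow_mul, mul_comm k p, ← hk, pow_orderOf_eq_one,
          sub_self]
      have h3 : a ^ k - 1 ∈ Sg := Sg.sub_mem (h.pow_mem ha k).1 h.one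
      have h4 := h.not_nilp h3 ⟨p, h2⟩
      have h5 : a ^ k = 1 := sub_eq_zero.mp h4
      have h6 := Nat.le_of_dvd hk0 (orderOf_dvd_of_pow_eq_one h5)
      have := hp.out.two_le
      nlinarith
    obtain ⟨u, hu⟩ : ∃ u : ℕ, a ^ (u * p) = a := by
      obtain ⟨m, hm⟩ := exists_pow_eq_self_of_coprime hcop
      exact ⟨m, by rw [mul_comm, pow_mul]; exact hm⟩
    -- c = a^u
    have hcS : a ^ u ∈ S := Subring.pow_mem S haS u
    have hd := hW _ hcS _ hbS
    have hdS : a ^ u * b - b * a ^ u ∈ S :=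
      Subring.sub_mem S (Subring.mul_mem S hcS hbS) (Subring.mul_mem S hbS hcS)
    have hcd : a ^ u * (a ^ u * b - b * a ^ u) = (a ^ u * b - b * a ^ u) * a ^ u :=
      hcomm _ (h.pow_mem ha u).1 hcS _ hdS hd
    have key : ∀ (c : R), c * (c * b - b * c) = (c * b - b * c) * c → ∀ k : ℕ,
        c ^ k * b - b * c ^ k = (k : R) * (c ^ (k - 1) * (c * b - b * c)) := by
      intro c hc k
      induction k with
      | zero => simp
      | succ k ih =>
        have hcom : ∀ m : ℕ, c ^ m * (c * b - b * c) = (c * b - b * c) * c ^ m := by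
          intro m
          have : Commute (c ^ m) (c * b - b * c) := Commute.pow_left hc m
          exact this
        have e1 : c ^ (k + 1) * b - b * c ^ (k + 1) =
            c * (c ^ k * b - b * c ^ k) + (c * b - b * c) * c ^ k := by
          rw [pow_succ']; noncomm_ring
        rw [e1, ih, ← hcom k, Nat.add_sub_cancel]
        rcases Nat.eq_zero_or_pos k with h0 | h0
        · subst h0; simp
        · have e2 : c * ((k : R) * (c ^ (k - 1) * (c * b - b * c))) =
              (k : R) * (c ^ k * (c * b - b * c)) := by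
            have e3 : c * (k : R) = (k : R) * c := (Nat.cast_commute k c).symm
            have e4 : c * c ^ (k - 1) = c ^ k := by
              rw [← pow_succ']; congr 1; omega
            calc c * ((k : R) * (c ^ (k - 1) * (c * b - b * c)))
                = (c * (k : R)) * (c ^ (k - 1) * (c * b - b * c)) := (mul_assoc _ _ _).symm
              _ = (k : R) * ((c * c ^ (k - 1)) * (c * b - b * c)) := by
                  rw [e3, mul_assoc, mul_assoc c]
              _ = _ := by rw [e4]
          rw [e2]; push_cast; rw [add_mul, one_mul]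
    have h7 := key (a ^ u) hcd p
    rw [hpR, zero_mul, ← pow_mul, hu] at h7
    exact sub_eq_zero.mp h7

theorem jd_star (h : JDiv Sg) (hst : ∀ s ∈ Sg, star s = s) [Finite R] {p : ℕ} [hp : Fact p.Prime]
    (hpR : (p : R) = 0) {a b : R} (ha : a ∈ Sg) (hb : b ∈ Sg) : a * b = b * a := by
  by_cases h1 : (1 : R) = 0
  · rw [← one_mul (a * b), h1, zero_mul, ← one_mul (b * a), h1, zero_mul]
  by_cases hidem : ∀ e ∈ Subring.closure ({a, b} : Set R), e * e = e → e = 0 ∨ e = 1
  · exact case2 h hst hpR h1 ha hb hidem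
  · push Not at hidem
    obtain ⟨e, he, hee, he0, he1⟩ := hidem
    exact case1 h hst ha hb he hee he0 he1

end Main2

section Final

/-- the double ring -/
def Dbl (R : Type*) := R × Rᵐᵒᵖ

variable {R : Type*} [Ring R]

instance : Ring (Dbl R) := inferInstanceAs (Ring (R × Rᵐᵒᵖ))

instance [Finite R] : Finite (Dbl R) := by
  haveI : Finite Rᵐᵒᵖ := Finite.of_equiv R MulOpposite.opEquiv
  exact inferInstanceAs (Finite (R × Rᵐᵒᵖ))

instance : StarRing (Dbl R) where
  star x := (x.2.unop, MulOpposite.op x.1)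
  star_involutive x := rfl
  star_mul x y := rfl
  star_add x y := rfl

/-- the diagonal -/
def diag : R →+ Dbl R where
  toFun s := (s, MulOpposite.op s)
  map_zero' := rfl
  map_add' x y := rfl

theorem jd [Finite R] {Sg : AddSubgroup R} (h : JDiv Sg) {p : ℕ} [hp : Fact p.Prime]
    (hpR : (p : R) = 0) {a b : R} (ha : a ∈ Sg) (hb : b ∈ Sg) : a * b = b * a := by
  have h' : JDiv (Sg.map (diag : R →+ Dbl R)) := by
    refine ⟨⟨1, h.one, rfl⟩, ?_⟩
    rintro _ ⟨s, hs, rfl⟩ hs0
    have hs0' : s ≠ 0 := by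
      rintro rfl
      exact hs0 rfl
    obtain ⟨t, ht, h1, h2⟩ := h.inv s hs hs0'
    refine ⟨diag t, ⟨t, ht, rfl⟩, ?_, ?_⟩
    · show ((s * t, MulOpposite.op s * MulOpposite.op t) : R × Rᵐᵒᵖ) = 1
      rw [← MulOpposite.op_mul, h1, h2]; rfl
    · show ((t * s, MulOpposite.op t * MulOpposite.op s) : R × Rᵐᵒᵖ) = 1
      rw [← MulOpposite.op_mul, h1, h2]; rfl
  have hpD : ((p : ℕ) : Dbl R) = 0 := by
    have : ((p : ℕ) : R × Rᵐᵒᵖ) = 0 := by
      ext
      · simp [hpR]
      · show ((p : ℕ) : Rᵐᵒᵖ) = 0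
        rw [← MulOpposite.op_natCast, hpR, MulOpposite.op_zero]
    exact this
  have := jd_star h' (by rintro _ ⟨s, hs, rfl⟩; rfl) hpD ⟨a, ha, rfl⟩ ⟨b, hb, rfl⟩
  exact congrArg Prod.fst this

end Final

end Cfsg.Agent.Fus.FT
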