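import Cfsg.Agent.Fus.FT3

set_option autoImplicit false
set_option linter.style.haveILetI false
set_option linter.unusedSectionVars false
set_option linter.unusedVariables false

namespace Cfsg.Agent.Fus.FT

section Mul

variable {R : Type*} [Ring R]

theorem JDiv.order_coprime {Sg : AddSubgroup R} (h : JDiv Sg) [Finite R] {p : ℕ} [hp : Fact p.Prime]
    [CharP R p] (h1 : (1 : R) ≠ 0) {a : R} (ha : a ∈ Sg) (ha0 : a ≠ 0) :
    0 < orderOf a ∧ Nat.Coprime p (orderOf a) := by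
  -- a is a unit
  obtain ⟨t, ht, h2, h3⟩ := h.inv a ha ha0
  have hfo : IsOfFinOrder a := by
    let u : Rˣ := ⟨a, t, h2, h3⟩
    haveI : Finite Rˣ := inferInstance
    have : IsOfFinOrder u := isOfFinOrder_of_finite u
    exact (Units.isOfFinOrder_val (u := u)).mpr this
  have hpos : 0 < orderOf a := hfo.orderOf_pos
  refine ⟨hpos, ?_⟩
  rw [Nat.Prime.coprime_iff_not_dvd hp.out]
  rintro ⟨k, hk⟩
  have hk0 : 0 < k := by
    rcases Nat.eq_zero_or_pos k with h0 | h0
    · subst h0; omega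
    · exact h0
  have h2 : (a ^ k - 1) ^ p = 0 := by
    rw [sub_pow_char_of_commute (p := p) (Commute.one_right _), one_pow, ← pow_mul, mul_comm k p, ← hk,
      pow_orderOf_eq_one, sub_self]
  have h3 : a ^ k - 1 ∈ Sg := Sg.sub_mem (h.pow_mem ha k).1 h.one
  have h4 := h.not_nilp h3 ⟨p, h2⟩
  have h5 : a ^ k = 1 := sub_eq_zero.mp h4
  have h6 := Nat.le_of_dvd hk0 (orderOf_dvd_of_pow_eq_one h5)
  have := hp.out.two_le
  nlinarith

theorem charP_of (p : ℕ) [hp : Fact p.Prime] (hpR : (p : R) = 0) (h1 : (1 : R) ≠ 0) : CharP R p := by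
  refine ⟨fun n => ?_⟩
  constructor
  · intro hn
    by_contra hpn
    have hc : Nat.Coprime p n := (Nat.Prime.coprime_iff_not_dvd hp.out).mpr hpn
    have h2 := Nat.gcd_eq_gcd_ab p n
    rw [hc] at h2
    apply h1
    have h3 : ((1 : ℤ) : R) = ((p : ℤ) * p.gcdA n + (n : ℤ) * p.gcdB n : ℤ) := by
      rw [← h2]; simp
    rw [Int.cast_one] at h3
    rw [h3]
    push_cast
    rw [hpR, hn]; simp
  · rintro ⟨k, rfl⟩
    rw [Nat.cast_mul, hpR, zero_mul]

/-- a Jordan division system in characteristic `p` is closed under multiplication -/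
theorem JDiv.mul_mem {Sg : AddSubgroup R} (h : JDiv Sg) [Finite R] {p : ℕ} [hp : Fact p.Prime]
    (hpR : (p : R) = 0) {a b : R} (ha : a ∈ Sg) (hb : b ∈ Sg) : a * b ∈ Sg := by
  by_cases h1 : (1 : R) = 0
  · rw [← one_mul (a * b), h1, zero_mul]; exact Sg.zero_mem
  by_cases ha0 : a = 0
  · rw [ha0, zero_mul]; exact Sg.zero_mem
  haveI := charP_of p hpR h1
  have hc : ∀ x ∈ Sg, ∀ y ∈ Sg, x * y = y * x := fun x hx y hy => jd h hpR hx hy
  rcases hp.out.eq_two_or_odd' with h2 | ⟨m, hm⟩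
  · subst h2
    obtain ⟨hpos, hcop⟩ := h.order_coprime h1 ha ha0
    obtain ⟨m, hm⟩ := exists_pow_eq_self_of_coprime hcop
    have e1 : a = a ^ m * a ^ m := by
      conv_lhs => rw [← hm]
      rw [← pow_mul, ← pow_add]; congr 1; ring
    have e2 : a * b = a ^ m * b * a ^ m := by
      conv_lhs => rw [e1]
      rw [mul_assoc, mul_assoc, hc _ (h.pow_mem ha m).1 b hb]
    rw [e2]; exact h.aba (h.pow_mem ha m).1 hb
  · have h3 := h.jor2 ha hb
    rw [hc b hb a ha] at h3
    have h4 : (m + 1) • (a * b + a * b) ∈ Sg := Sg.nsmul_mem h3 _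
    have e : (m + 1) • (a * b + a * b) = a * b := by
      rw [nsmul_eq_mul]
      have : ((m + 1 : ℕ) : R) * (a * b + a * b) = ((2 * m + 1 : ℕ) : R) * (a * b) + a * b := by
        push_cast; noncomm_ring
      rw [this, ← hm, hpR, zero_mul, zero_add]
    rw [e] at h4; exact h4

/-- two systems as in Hua's lemma coincide -/
theorem jdiv_of_pair (Sg Lm : AddSubgroup R)
    (hSL : ∀ s ∈ Sg, s ≠ 0 → ∃ t ∈ Lm, s * t = 1 ∧ t * s = 1)
    (hLS : ∀ t ∈ Lm, t ≠ 0 → ∃ s ∈ Sg, s * t = 1 ∧ t * s = 1)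
    (h1 : (1 : R) ∈ Sg) (h10 : (1 : R) ≠ 0) : JDiv Sg := by
  have h2 : ∀ b ∈ Lm, b ∈ Sg := by
    intro b hb
    have := hua Sg Lm hSL hLS h1 hb
    simpa using this
  refine ⟨h1, fun s hs hs0 => ?_⟩
  obtain ⟨t, ht, h3, h4⟩ := hSL s hs hs0
  exact ⟨t, h2 t ht, h3, h4⟩

end Mul

theorem exists_gen {W : Type*} [AddCommGroup W] [Finite W] {p : ℕ} [hp : Fact p.Prime]
    (hpW : ∀ w : W, p • w = 0) (Sg Lm : AddSubgroup (AddMonoid.End W))
    (hSL : ∀ s ∈ Sg, s ≠ 0 → ∃ t ∈ Lm, s * t = 1 ∧ t * s = 1)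
    (hLS : ∀ t ∈ Lm, t ≠ 0 → ∃ s ∈ Sg, s * t = 1 ∧ t * s = 1)
    (h1 : (1 : AddMonoid.End W) ∈ Sg) (hcard : Nat.card W ≤ Nat.card Sg) :
    ∃ g ∈ Sg, ∀ w w' : W, w ≠ 0 → w' ≠ 0 → ∃ n : ℕ, (g ^ n) w = w' := by
  by_cases h10 : (1 : AddMonoid.End W) = 0
  · refine ⟨1, h1, fun w w' hw _ => absurd ?_ hw⟩
    have : (1 : AddMonoid.End W) w = (0 : AddMonoid.End W) w := by rw [h10]
    exact this
  haveI : Finite (AddMonoid.End W) := DFunLike.finite _
  have hJ := jdiv_of_pair Sg Lm hSL hLS h1 h10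
  have hpR : ((p : ℕ) : AddMonoid.End W) = 0 := by
    ext w
    show ((p : ℕ) : AddMonoid.End W) w = 0
    rw [AddMonoid.End.natCast_apply]; exact hpW w
  have hc : ∀ x ∈ Sg, ∀ y ∈ Sg, x * y = y * x := fun x hx y hy => jd hJ hpR hx hy
  let K : Subring (AddMonoid.End W) :=
    { carrier := Sg
      zero_mem' := Sg.zero_mem
      one_mem' := h1
      add_mem' := fun {a b} => Sg.add_mem
      neg_mem' := fun {a} => Sg.neg_mem
      mul_mem' := fun {a b} ha hb => hJ.mul_mem hpR ha hb }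
  letI : CommRing K := { (inferInstance : Ring K) with
    mul_comm := fun x y => Subtype.ext (hc x x.2 y y.2) }
  haveI : Nontrivial K := ⟨⟨0, 1, fun h => h10 (congrArg Subtype.val h).symm⟩⟩
  haveI : NoZeroDivisors K := by
    refine ⟨fun {x y} hxy => ?_⟩
    by_cases hx : x = 0
    · exact Or.inl hx
    · right
      apply Subtype.ext
      exact hJ.left_cancel x.2 (fun h => hx (Subtype.ext h)) (congrArg Subtype.val hxy)
  haveI : IsDomain K := NoZeroDivisors.to_isDomain _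
  haveI : Finite Kˣ := inferInstance
  obtain ⟨g, hg⟩ := IsCyclic.exists_generator (α := Kˣ)
  refine ⟨((g : K) : AddMonoid.End W), (g : K).2, fun w w' hw hw' => ?_⟩
  have hinj : Function.Injective (fun s : K => (s : AddMonoid.End W) w) := by
    intro s s' hss
    by_contra hne
    have h0 : ((s - s' : K) : AddMonoid.End W) w = 0 := by
      show ((s : AddMonoid.End W) - (s' : AddMonoid.End W)) w = 0
      have : (s : AddMonoid.End W) w = (s' : AddMonoid.End W) w := hss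
      show (s : AddMonoid.End W) w - (s' : AddMonoid.End W) w = 0
      rw [this, sub_self]
    have hne' : ((s - s' : K) : AddMonoid.End W) ≠ 0 := by
      intro h
      apply hne
      exact sub_eq_zero.mp (Subtype.ext h)
    obtain ⟨t, ht, h2, h3⟩ := hJ.inv _ (s - s').2 hne'
    apply hw
    have : (t * ((s - s' : K) : AddMonoid.End W)) w = w := by rw [h3]; rfl
    rw [← this]
    show t (((s - s' : K) : AddMonoid.End W) w) = 0
    rw [h0, map_zero]
  have hcK : Nat.card K = Nat.card Sg := rfl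
  have hsurj : Function.Surjective (fun s : K => (s : AddMonoid.End W) w) := by
    have hbij := (Nat.bijective_iff_injective_and_card (fun s : K => (s : AddMonoid.End W) w)).mpr
      ⟨hinj, le_antisymm (Nat.card_le_card_of_injective _ hinj) (by rw [hcK]; exact hcard)⟩
    exact hbij.2
  obtain ⟨s, hs⟩ := hsurj w'
  have hs0 : s ≠ 0 := by
    rintro rfl
    apply hw'
    rw [← hs]; rfl
  obtain ⟨t, ht, h2, h3⟩ := hJ.inv _ s.2 (fun h => hs0 (Subtype.ext h))
  let u : Kˣ := ⟨s, ⟨t, ht⟩, Subtype.ext h2, Subtype.ext h3⟩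
  have hu : u ∈ Submonoid.powers g := (mem_powers_iff_mem_zpowers).mpr (hg u)
  obtain ⟨n, hn⟩ := hu
  refine ⟨n, ?_⟩
  rw [← hs]
  have hn' : g ^ n = u := hn
  have : ((g : K) : AddMonoid.End W) ^ n = (s : AddMonoid.End W) := by
    have h4 : (((g ^ n : Kˣ) : K) : AddMonoid.End W) = ((u : K) : AddMonoid.End W) := by rw [hn']
    rw [Units.val_pow_eq_pow_val, Subring.coe_pow] at h4
    exact h4
  show (((g : K) : AddMonoid.End W) ^ n) w = (s : AddMonoid.End W) w
  rw [this]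

end Cfsg.Agent.Fus.FT
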