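import Cfsg.Agent.Fus.FT4

set_option autoImplicit false
set_option linter.style.haveILetI false
set_option linter.unusedSectionVars false
set_option linter.unusedVariables false

namespace Cfsg.Agent.Fus.FT

variable {Y : Type*} [CommGroup Y]

/-- the commutator map of `a` as a homomorphism `U₂ → U₁` -/
def phi {U₁ U₂ : Subgroup Y} {A : Subgroup (MulAut Y)}
    (h : ∀ a ∈ A, ∀ y ∈ U₂, a y * y⁻¹ ∈ U₁) (a : A) : U₂ →* U₁ where
  toFun u := ⟨(a : MulAut Y) (u : Y) * (u : Y)⁻¹, h a a.2 u u.2⟩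
  map_one' := by ext; simp
  map_mul' u v := by
    apply Subtype.ext
    show (a : MulAut Y) ((u : Y) * (v : Y)) * ((u : Y) * (v : Y))⁻¹ =
      ((a : MulAut Y) (u : Y) * (u : Y)⁻¹) * ((a : MulAut Y) (v : Y) * (v : Y)⁻¹)
    rw [map_mul, mul_inv]
    exact mul_mul_mul_comm _ _ _ _

theorem phi_coe {U₁ U₂ : Subgroup Y} {A : Subgroup (MulAut Y)}
    (h : ∀ a ∈ A, ∀ y ∈ U₂, a y * y⁻¹ ∈ U₁) (a : A) (u : U₂) :
    ((phi h a u : U₁) : Y) = (a : MulAut Y) (u : Y) * (u : Y)⁻¹ := rfl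

theorem phi_apply {U₁ U₂ : Subgroup Y} {A : Subgroup (MulAut Y)}
    (h : ∀ a ∈ A, ∀ y ∈ U₂, a y * y⁻¹ ∈ U₁) (a : A) (u : U₂) :
    (a : MulAut Y) (u : Y) = ((phi h a u : U₁) : Y) * (u : Y) := by
  rw [phi_coe, inv_mul_cancel_right]

theorem phi_mul {U₁ U₂ : Subgroup Y} {A : Subgroup (MulAut Y)}
    (h1 : ∀ a ∈ A, ∀ u ∈ U₁, a u = u)
    (h : ∀ a ∈ A, ∀ y ∈ U₂, a y * y⁻¹ ∈ U₁) (a a' : A) :
    phi h (a * a') = phi h a * phi h a' := by
  ext u
  show (a : MulAut Y) ((a' : MulAut Y) (u : Y)) * (u : Y)⁻¹ =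
    ((phi h a u : U₁) : Y) * ((phi h a' u : U₁) : Y)
  rw [phi_apply h a' u, map_mul, h1 _ a.2 _ (phi h a' u).2, phi_coe h a u, mul_assoc, mul_comm]

/-- the additive family -/
def fam {U₁ U₂ : Subgroup Y} {A : Subgroup (MulAut Y)}
    (h1 : ∀ a ∈ A, ∀ u ∈ U₁, a u = u)
    (h : ∀ a ∈ A, ∀ y ∈ U₂, a y * y⁻¹ ∈ U₁) (ψ : U₁ →* U₂) :
    Additive A →+ AddMonoid.End (Additive U₁) where
  toFun a := MonoidHom.toAdditive ((phi h (Additive.toMul a)).comp ψ)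
  map_zero' := by
    ext u
    show (((1 : A) : MulAut Y) ((ψ (Additive.toMul u) : U₂) : Y)) * ((ψ (Additive.toMul u) : U₂) : Y)⁻¹ = 1
    simp
  map_add' a b := by
    ext u
    show ((phi h (Additive.toMul a * Additive.toMul b) (ψ (Additive.toMul u)) : U₁) : Y) =
      ((phi h (Additive.toMul a) (ψ (Additive.toMul u)) : U₁) : Y) *
      ((phi h (Additive.toMul b) (ψ (Additive.toMul u)) : U₁) : Y)
    rw [phi_mul h1 h]; rfl

/-- the other additive family -/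
def fam' {U₁ U₂ : Subgroup Y} {B : Subgroup (MulAut Y)}
    (h1 : ∀ b ∈ B, ∀ u ∈ U₂, b u = u)
    (h : ∀ b ∈ B, ∀ y ∈ U₁, b y * y⁻¹ ∈ U₂) (φ : U₂ →* U₁) :
    Additive B →+ AddMonoid.End (Additive U₁) where
  toFun b := MonoidHom.toAdditive (φ.comp (phi h (Additive.toMul b)))
  map_zero' := by
    ext u
    show ((φ (phi h (1 : B) (Additive.toMul u)) : U₁) : Y) = 1
    have : phi h (1 : B) (Additive.toMul u) = 1 := by
      apply Subtype.ext
      rw [phi_coe]; simp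
    rw [this]; simp
  map_add' a b := by
    ext u
    show ((φ (phi h (Additive.toMul a * Additive.toMul b) (Additive.toMul u)) : U₁) : Y) =
      ((φ (phi h (Additive.toMul a) (Additive.toMul u)) : U₁) : Y) *
      ((φ (phi h (Additive.toMul b) (Additive.toMul u)) : U₁) : Y)
    rw [phi_mul h1 h, MonoidHom.mul_apply, map_mul]; rfl

/-- partner property -/
def Partner {U₁ U₂ : Subgroup Y} {A B : Subgroup (MulAut Y)}
    (hA2 : ∀ a ∈ A, ∀ y ∈ U₂, a y * y⁻¹ ∈ U₁)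
    (hB2 : ∀ b ∈ B, ∀ y ∈ U₁, b y * y⁻¹ ∈ U₂) (a : A) (b : B) : Prop :=
  (∀ u : U₂, phi hB2 b (phi hA2 a u) = u) ∧ ∀ u : U₁, phi hA2 a (phi hB2 b u) = u

/-- the swap element of a pair of partners -/
def nel {A B : Subgroup (MulAut Y)} (a : A) (b : B) : MulAut Y :=
  (a : MulAut Y) * (b : MulAut Y)⁻¹ * (a : MulAut Y)

theorem nel_two {U₁ U₂ : Subgroup Y} {A B : Subgroup (MulAut Y)}
    (hA1 : ∀ a ∈ A, ∀ u ∈ U₁, a u = u)
    (hA2 : ∀ a ∈ A, ∀ y ∈ U₂, a y * y⁻¹ ∈ U₁)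
    (hB1 : ∀ b ∈ B, ∀ u ∈ U₂, b u = u)
    (hB2 : ∀ b ∈ B, ∀ y ∈ U₁, b y * y⁻¹ ∈ U₂) {a : A} {b : B}
    (hab : Partner hA2 hB2 a b) (u : U₂) : nel a b (u : Y) = ((phi hA2 a u : U₁) : Y) := by
  -- b⁻¹ x = (psi_b x)⁻¹ x for x in U₁
  have hbi : ∀ x : U₁, ((b : MulAut Y)⁻¹) (x : Y) = ((phi hB2 b x : U₂) : Y)⁻¹ * (x : Y) := by
    intro x
    rw [MulAut.inv_apply, MulEquiv.symm_apply_eq, map_mul, map_inv, hB1 _ b.2 _ (phi hB2 b x).2,
      phi_apply hB2 b x, inv_mul_cancel_left]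
  have hbi2 : ∀ x : U₂, ((b : MulAut Y)⁻¹) (x : Y) = x := by
    intro x
    rw [MulAut.inv_apply, MulEquiv.symm_apply_eq, hB1 _ b.2 _ x.2]
  show (a : MulAut Y) (((b : MulAut Y)⁻¹) ((a : MulAut Y) (u : Y))) = _
  rw [phi_apply hA2 a u, map_mul, hbi, hab.1, hbi2, mul_comm ((u : Y)⁻¹), mul_assoc, inv_mul_cancel,
    mul_one, hA1 _ a.2 _ (phi hA2 a u).2]

theorem swap_gen [Finite Y] {p : ℕ} [hpp : Fact p.Prime] (U₁ U₂ : Subgroup Y)
    (hdis : U₁ ⊓ U₂ = ⊥) (hp : ∀ u ∈ U₁, u ^ p = 1)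
    (A B : Subgroup (MulAut Y))
    (hA1 : ∀ a ∈ A, ∀ u ∈ U₁, a u = u) (hA2 : ∀ a ∈ A, ∀ y ∈ U₂, a y * y⁻¹ ∈ U₁)
    (hB1 : ∀ b ∈ B, ∀ u ∈ U₂, b u = u) (hB2 : ∀ b ∈ B, ∀ y ∈ U₁, b y * y⁻¹ ∈ U₂)
    (hAinj : ∀ a ∈ A, (∀ y ∈ U₂, a y = y) → a = 1)
    (hBinj : ∀ b ∈ B, (∀ y ∈ U₁, b y = y) → b = 1)
    (hAB : ∀ a ∈ A, a ≠ 1 → ∃ b ∈ B, ∀ u ∈ U₂, ∃ v ∈ U₁, a u = b v)
    (hBA : ∀ b ∈ B, b ≠ 1 → ∃ a ∈ A, ∀ v ∈ U₁, ∃ u ∈ U₂, b v = a u)
    (hcard : Nat.card U₁ ≤ Nat.card A) :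
    ∃ h ∈ A ⊔ B, (∀ u ∈ U₁, h u ∈ U₁) ∧
      ∀ w ∈ U₁, ∀ w' ∈ U₁, w ≠ 1 → w' ≠ 1 → ∃ n : ℕ, (h ^ n) w = w' := by
  have hdis' : ∀ x y z w : Y, x ∈ U₁ → y ∈ U₂ → z ∈ U₂ → w ∈ U₁ → x * y = z * w → x = w ∧ y = z := by
    intro x y z w hx hy hz hw he
    have h1 : w⁻¹ * x = z * y⁻¹ := by
      have : x = z * w * y⁻¹ := by rw [← he, mul_inv_cancel_right]
      rw [this, mul_comm z w, mul_assoc, inv_mul_cancel_left]
    have h2 : w⁻¹ * x ∈ U₁ ⊓ U₂ :=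
      ⟨U₁.mul_mem (U₁.inv_mem hw) hx, by rw [h1]; exact U₂.mul_mem hz (U₂.inv_mem hy)⟩
    rw [hdis, Subgroup.mem_bot] at h2
    have h3 := inv_mul_eq_one.mp h2
    refine ⟨h3.symm, ?_⟩
    rw [h2] at h1
    exact (mul_inv_eq_one.mp h1.symm).symm
  -- half partners
  have hP1 : ∀ a : A, a ≠ 1 → ∃ b : B, ∀ u : U₂, phi hB2 b (phi hA2 a u) = u := by
    intro a ha
    obtain ⟨b, hb, h⟩ := hAB a a.2 (fun h => ha (Subtype.ext h))
    refine ⟨⟨b, hb⟩, fun u => ?_⟩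
    obtain ⟨v, hv, he⟩ := h u u.2
    have he' : ((phi hA2 a u : U₁) : Y) * (u : Y) =
        ((phi hB2 ⟨b, hb⟩ ⟨v, hv⟩ : U₂) : Y) * v := by
      rw [← phi_apply hA2 a u, he]
      exact phi_apply hB2 ⟨b, hb⟩ ⟨v, hv⟩
    obtain ⟨h1, h2⟩ := hdis' _ _ _ _ (phi hA2 a u).2 u.2 (phi hB2 ⟨b, hb⟩ ⟨v, hv⟩).2 hv he'
    have h3 : phi hA2 a u = ⟨v, hv⟩ := Subtype.ext h1
    rw [h3]
    exact Subtype.ext h2.symm
  have hP2 : ∀ b : B, b ≠ 1 → ∃ a : A, ∀ v : U₁, phi hA2 a (phi hB2 b v) = v := by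
    intro b hb
    obtain ⟨a, ha, h⟩ := hBA b b.2 (fun h => hb (Subtype.ext h))
    refine ⟨⟨a, ha⟩, fun v => ?_⟩
    obtain ⟨u, hu, he⟩ := h v v.2
    have he' : ((phi hA2 ⟨a, ha⟩ ⟨u, hu⟩ : U₁) : Y) * u =
        ((phi hB2 b v : U₂) : Y) * (v : Y) := by
      rw [← phi_apply hB2 b v, he]
      exact (phi_apply hA2 ⟨a, ha⟩ ⟨u, hu⟩).symm
    obtain ⟨h1, h2⟩ := hdis' _ _ _ _ (phi hA2 ⟨a, ha⟩ ⟨u, hu⟩).2 hu (phi hB2 b v).2 v.2 he'
    have h3 : phi hB2 b v = ⟨u, hu⟩ := Subtype.ext h2.symm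
    rw [h3]
    exact Subtype.ext h1
  -- if U₁ or U₂ is trivial
  have hA1' : ∀ a : A, (∀ u : U₂, phi hA2 a u = 1) → a = 1 := by
    intro a h
    apply Subtype.ext
    apply hAinj a a.2
    intro y hy
    have := phi_apply hA2 a ⟨y, hy⟩
    rw [h] at this
    simpa using this
  have hB1' : ∀ b : B, (∀ u : U₁, phi hB2 b u = 1) → b = 1 := by
    intro b h
    apply Subtype.ext
    apply hBinj b b.2
    intro y hy
    have := phi_apply hB2 b ⟨y, hy⟩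
    rw [h] at this
    simpa using this
  have hPA : ∀ a : A, a ≠ 1 → ∃ b : B, Partner hA2 hB2 a b := by
    intro a ha
    obtain ⟨b, hb⟩ := hP1 a ha
    have hb1 : b ≠ 1 := by
      rintro rfl
      apply ha
      apply hA1'
      intro u
      have h1 := hb u
      have h2 : phi hB2 (1 : B) (phi hA2 a u) = 1 := by
        apply Subtype.ext; rw [phi_coe]; simp
      rw [h2] at h1
      rw [← h1, map_one]
    obtain ⟨a', ha'⟩ := hP2 b hb1
    have h1 : ∀ u : U₂, phi hA2 a' u = phi hA2 a u := by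
      intro u
      have h2 := ha' (phi hA2 a u)
      rwa [hb u] at h2
    exact ⟨b, hb, fun v => by rw [← h1]; exact ha' v⟩
  have hPB : ∀ b : B, b ≠ 1 → ∃ a : A, Partner hA2 hB2 a b := by
    intro b hb
    obtain ⟨a, ha⟩ := hP2 b hb
    have ha1 : a ≠ 1 := by
      rintro rfl
      apply hb
      apply hB1'
      intro u
      have h1 := ha u
      have h2 : phi hA2 (1 : A) (phi hB2 b u) = 1 := by
        apply Subtype.ext; rw [phi_coe]; simp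
      rw [h2] at h1
      rw [← h1, map_one]
    obtain ⟨b', hb'⟩ := hP1 a ha1
    have h1 : ∀ u : U₁, phi hB2 b' u = phi hB2 b u := by
      intro u
      have h2 := hb' (phi hB2 b u)
      rwa [ha u] at h2
    exact ⟨a, fun v => by rw [← h1]; exact hb' v, ha⟩
  -- trivial A
  by_cases hAt : ∀ a : A, a = 1
  · refine ⟨1, Subgroup.one_mem _, fun u hu => hu, ?_⟩
    have h1 : Nat.card A = 1 := by
      haveI : Subsingleton A := ⟨fun x y => by rw [hAt x, hAt y]⟩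
      exact Nat.card_unique
    rw [h1] at hcard
    have h2 : U₁ = ⊥ := by
      rw [← Subgroup.card_le_one_iff_eq_bot]; exact hcard
    intro w hw w' hw' hw1 _
    rw [h2, Subgroup.mem_bot] at hw
    exact absurd hw hw1
  push Not at hAt
  obtain ⟨a₁, ha₁⟩ := hAt
  obtain ⟨b₁, hab₁⟩ := hPA a₁ ha₁
  let Fa := fam hA1 hA2 (phi hB2 b₁)
  let Fb := fam' hB1 hB2 (phi hA2 a₁)
  have hFinj : Function.Injective Fa := by
    rw [injective_iff_map_eq_zero]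
    intro a ha
    have h1 : ∀ u : U₂, phi hA2 (Additive.toMul a) u = 1 := by
      intro u
      have h2 : (Fa a) (Additive.ofMul (phi hA2 a₁ u)) = 0 := by rw [ha]; rfl
      have h3 : phi hA2 (Additive.toMul a) (phi hB2 b₁ (phi hA2 a₁ u)) = 1 := h2
      rwa [hab₁.1] at h3
    exact hA1' (Additive.toMul a) h1
  have hFax : ∀ (a : A) (u : U₁), (Fa (Additive.ofMul a)) (Additive.ofMul u) =
      Additive.ofMul (phi hA2 a (phi hB2 b₁ u)) := fun a u => rfl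
  have hFbx : ∀ (b : B) (u : U₁), (Fb (Additive.ofMul b)) (Additive.ofMul u) =
      Additive.ofMul (phi hA2 a₁ (phi hB2 b u)) := fun b u => rfl
  have hinv : ∀ (a : A) (b : B), Partner hA2 hB2 a b →
      Fa (Additive.ofMul a) * Fb (Additive.ofMul b) = 1 ∧
      Fb (Additive.ofMul b) * Fa (Additive.ofMul a) = 1 := by
    intro a b hab
    constructor
    · ext u
      show ((phi hA2 a (phi hB2 b₁ (phi hA2 a₁ (phi hB2 b (Additive.toMul u)))) : U₁) : Y) = _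
      rw [hab₁.1, hab.2]; rfl
    · ext u
      show ((phi hA2 a₁ (phi hB2 b (phi hA2 a (phi hB2 b₁ (Additive.toMul u)))) : U₁) : Y) = _
      rw [hab.1, hab₁.2]; rfl
  have hgen := exists_gen (W := Additive U₁) (p := p)
    (fun w => by
      apply Additive.toMul.injective
      apply Subtype.ext
      exact hp _ (Additive.toMul w).2)
    Fa.range Fb.range
    (by
      rintro _ ⟨a, rfl⟩ hs0
      have ha1 : Additive.toMul a ≠ 1 := by
        intro h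
        apply hs0
        have : a = 0 := h
        rw [this, map_zero]
      obtain ⟨b, hab⟩ := hPA _ ha1
      exact ⟨Fb (Additive.ofMul b), ⟨_, rfl⟩, hinv _ _ hab⟩)
    (by
      rintro _ ⟨b, rfl⟩ hs0
      have hb1 : Additive.toMul b ≠ 1 := by
        intro h
        apply hs0
        have : b = 0 := h
        rw [this, map_zero]
      obtain ⟨a, hab⟩ := hPB _ hb1
      exact ⟨Fa (Additive.ofMul a), ⟨_, rfl⟩, hinv _ _ hab⟩)
    (by
      refine ⟨Additive.ofMul a₁, ?_⟩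
      ext u
      show ((phi hA2 a₁ (phi hB2 b₁ (Additive.toMul u)) : U₁) : Y) = _
      rw [hab₁.2]; rfl)
    (by
      have h1 : Nat.card Fa.range = Nat.card A := by
        rw [← Nat.card_congr (AddMonoidHom.ofInjective hFinj).toEquiv]; rfl
      rw [h1]; exact hcard)
  obtain ⟨_, ⟨a, rfl⟩, hg⟩ := hgen
  by_cases ha1 : Additive.toMul a = 1
  · refine ⟨1, Subgroup.one_mem _, fun u hu => hu, ?_⟩
    intro w hw w' hw' hw1 hw1'
    refine ⟨0, ?_⟩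
    obtain ⟨n, hn⟩ := hg (Additive.ofMul ⟨w, hw⟩) (Additive.ofMul ⟨w', hw'⟩)
      (fun h => hw1 (congrArg Subtype.val (Additive.ofMul.injective h)))
      (fun h => hw1' (congrArg Subtype.val (Additive.ofMul.injective h)))
    have h0 : Fa a = 0 := by
      have : a = 0 := ha1
      rw [this, map_zero]
    have h0' : fam hA1 hA2 (phi hB2 b₁) a = 0 := h0
    rw [h0'] at hn
    rcases Nat.eq_zero_or_pos n with hn0 | hn0
    · subst hn0
      exact congrArg (fun x : Additive U₁ => ((Additive.toMul x : U₁) : Y)) hn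
    · exfalso
      rw [zero_pow hn0.ne'] at hn
      exact hw1' (congrArg (fun x : Additive U₁ => ((Additive.toMul x : U₁) : Y)) hn).symm
  · obtain ⟨b, hab⟩ := hPA _ ha1
    have hact : ∀ u : U₁, (nel (Additive.toMul a) b * (nel a₁ b₁)⁻¹) (u : Y) =
        ((Additive.toMul ((Fa a) (Additive.ofMul u)) : U₁) : Y) := by
      intro u
      have h1 : ((nel a₁ b₁)⁻¹ : MulAut Y) (u : Y) = ((phi hB2 b₁ u : U₂) : Y) := by
        rw [MulAut.inv_apply, MulEquiv.symm_apply_eq, nel_two hA1 hA2 hB1 hB2 hab₁, hab₁.2]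
      show nel (Additive.toMul a) b (((nel a₁ b₁)⁻¹ : MulAut Y) (u : Y)) = _
      rw [h1, nel_two hA1 hA2 hB1 hB2 hab]; rfl
    refine ⟨nel (Additive.toMul a) b * (nel a₁ b₁)⁻¹, ?_, ?_, ?_⟩
    · have hm : ∀ (a : A) (b : B), nel a b ∈ A ⊔ B := by
        intro a b
        refine Subgroup.mul_mem _ (Subgroup.mul_mem _ ?_ (Subgroup.inv_mem _ ?_)) ?_
        · exact (le_sup_left : A ≤ A ⊔ B) a.2
        · exact (le_sup_right : B ≤ A ⊔ B) b.2
        · exact (le_sup_left : A ≤ A ⊔ B) a.2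
      exact Subgroup.mul_mem _ (hm _ _) (Subgroup.inv_mem _ (hm _ _))
    · intro u hu
      have := hact ⟨u, hu⟩
      have h2 : (nel (Additive.toMul a) b * (nel a₁ b₁)⁻¹) u =
        ((Additive.toMul ((Fa a) (Additive.ofMul ⟨u, hu⟩)) : U₁) : Y) := this
      rw [h2]
      exact Subtype.mem _
    · intro w hw w' hw' hw1 hw1'
      obtain ⟨n, hn⟩ := hg (Additive.ofMul ⟨w, hw⟩) (Additive.ofMul ⟨w', hw'⟩)
        (fun h => hw1 (congrArg Subtype.val (Additive.ofMul.injective h)))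
        (fun h => hw1' (congrArg Subtype.val (Additive.ofMul.injective h)))
      refine ⟨n, ?_⟩
      have hpow : ∀ (n : ℕ) (u : U₁), ((nel (Additive.toMul a) b * (nel a₁ b₁)⁻¹) ^ n) (u : Y) =
          ((Additive.toMul (((Fa a) ^ n) (Additive.ofMul u)) : U₁) : Y) := by
        intro n
        induction n with
        | zero => intro u; rfl
        | succ n ih =>
          intro u
          rw [pow_succ, pow_succ]
          show ((nel (Additive.toMul a) b * (nel a₁ b₁)⁻¹) ^ n)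
            ((nel (Additive.toMul a) b * (nel a₁ b₁)⁻¹) (u : Y)) = _
          rw [hact u]
          exact ih _
      rw [hpow n ⟨w, hw⟩]
      exact congrArg (fun x : Additive U₁ => ((Additive.toMul x : U₁) : Y)) hn

end Cfsg.Agent.Fus.FT
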