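import Cfsg.Agent.Fus.FT5
import Cfsg.Agent.H85.RelSylow

set_option autoImplicit false
set_option linter.style.haveILetI false
set_option linter.unusedSectionVars false
set_option linter.unusedVariables false

namespace Cfsg.Agent.Fus.FT

open Cfsg.Agent.H85 (cj mem_cj conj_mem_cj conj_mem_cj_iff cj_cj cj_one cj_inv_cj cj_cj_inv cj_mono cj_le_iff
  card_cj isPGroup_cj cj_inf cj_sup cj_normalizer cj_centralizer mem_normalizer_iff_cj SylIn)

variable {Γ : Type*} [Group Γ]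

/-- the final configuration -/
structure Stage (p : ℕ) (G Q V T M A : Subgroup Γ) : Prop where
  hQG : Q ≤ G
  hQn : G ≤ Subgroup.normalizer (Q : Set Γ)
  hVQ : V ≤ Q
  hVc : ∀ v ∈ V, ∀ q ∈ Q, v * q = q * v
  hVn : G ≤ Subgroup.normalizer (V : Set Γ)
  hTV : T ≤ V
  hgen : ∀ y : Γ, (∀ g ∈ G, ∀ t ∈ T, y * (g * t * g⁻¹) = (g * t * g⁻¹) * y) → ∀ v ∈ V, y * v = v * y
  hM : M = G ⊓ Subgroup.normalizer (T : Set Γ)
  hMG : M ≠ G
  hAM : A ≤ M
  hfact : ∀ K : Subgroup Γ, K ≤ G → Q ≤ K → K ≠ G → ∀ g ∈ G, cj g A ≤ K → cj g A ≤ M → K ≤ M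
  hself : ∀ g ∈ G, cj g M ≤ M → g ∈ M
  hAT : ∀ y ∈ M, (∃ k : ℕ, y ^ (p ^ k) = 1) → ∀ t ∈ T, y * t = t * y
  hAab : ∀ a ∈ A, ∀ b ∈ A, a * b = b * a
  hquad : ∀ a ∈ A, ∀ v ∈ V, ∀ b ∈ A, (a * v * a⁻¹ * v⁻¹) * b = b * (a * v * a⁻¹ * v⁻¹)
  hcard : Nat.card V * Nat.card ↥(A ⊓ Subgroup.centralizer (V : Set Γ)) ≤
    Nat.card A * Nat.card ↥(V ⊓ Subgroup.centralizer (A : Set Γ))
  hQp : IsPGroup p Q
  hAp : IsPGroup p A

theorem mem_cent {A : Subgroup Γ} {u : Γ} :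
    u ∈ Subgroup.centralizer (A : Set Γ) ↔ ∀ a ∈ A, a * u = u * a :=
  Subgroup.mem_centralizer_iff

theorem cj_eq_of_le_normalizer {G V : Subgroup Γ} (h : G ≤ Subgroup.normalizer (V : Set Γ)) {x : Γ}
    (hx : x ∈ G) : cj x V = V := mem_normalizer_iff_cj.mp (h hx)

theorem cj_self {G : Subgroup Γ} {x : Γ} (hx : x ∈ G) : cj x G = G :=
  mem_normalizer_iff_cj.mp (Subgroup.le_normalizer hx)

namespace Stage

variable {p : ℕ} {G Q V T M A : Subgroup Γ}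

theorem conj (S : Stage p G Q V T M A) {x : Γ} (hx : x ∈ G) :
    Stage p G Q V (cj x T) (cj x M) (cj x A) where
  hQG := S.hQG
  hQn := S.hQn
  hVQ := S.hVQ
  hVc := S.hVc
  hVn := S.hVn
  hTV := (cj_mono S.hTV).trans (cj_eq_of_le_normalizer S.hVn hx).le
  hgen := by
    intro y hy
    apply S.hgen
    intro g hg t ht
    have := hy (g * x⁻¹) (G.mul_mem hg (G.inv_mem hx)) (x * t * x⁻¹) (conj_mem_cj ht)
    have e : g * x⁻¹ * (x * t * x⁻¹) * (g * x⁻¹)⁻¹ = g * t * g⁻¹ := by group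
    rwa [e] at this
  hM := by
    conv_lhs => rw [S.hM]
    rw [cj_inf, cj_self hx, cj_normalizer]
  hMG := by
    intro h
    apply S.hMG
    have : cj x⁻¹ (cj x M) = cj x⁻¹ G := by rw [h]
    rwa [cj_inv_cj, cj_self (G.inv_mem hx)] at this
  hAM := cj_mono S.hAM
  hfact := by
    intro K hK hQK hKG g hg h1 h2
    rw [← cj_cj_inv x (A := K)]
    refine cj_mono (S.hfact (cj x⁻¹ K) ?_ ?_ ?_ (x⁻¹ * g * x) ?_ ?_ ?_)
    · rw [← cj_self (G.inv_mem hx)]; exact cj_mono hK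
    · rw [← cj_eq_of_le_normalizer S.hQn (G.inv_mem hx)]; exact cj_mono hQK
    · intro h
      apply hKG
      have : cj x (cj x⁻¹ K) = cj x G := by rw [h]
      rwa [cj_cj_inv, cj_self hx] at this
    · exact G.mul_mem (G.mul_mem (G.inv_mem hx) hg) hx
    · have := cj_mono (g := x⁻¹) h1
      rw [cj_cj, cj_cj] at this
      exact this
    · have := cj_mono (g := x⁻¹) h2
      rw [cj_cj, cj_cj, cj_inv_cj] at this
      exact this
  hself := by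
    intro g hg h
    rw [mem_cj]
    refine S.hself _ (G.mul_mem (G.mul_mem (G.inv_mem hx) hg) hx) ?_
    have := cj_mono (g := x⁻¹) h
    rw [cj_cj, cj_cj, cj_inv_cj] at this
    exact this
  hAT := by
    intro y hy hk t ht
    rw [mem_cj] at hy ht
    obtain ⟨k, hk⟩ := hk
    have h1 := S.hAT _ hy ⟨k, by
      have : x⁻¹ * y * x = MulAut.conj x⁻¹ y := by simp
      rw [this, ← map_pow, hk, map_one]⟩ _ ht
    have h2 : x * (x⁻¹ * y * x * (x⁻¹ * t * x)) * x⁻¹ = x * (x⁻¹ * t * x * (x⁻¹ * y * x)) * x⁻¹ := by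
      rw [h1]
    have e1 : x * (x⁻¹ * y * x * (x⁻¹ * t * x)) * x⁻¹ = y * t := by group
    have e2 : x * (x⁻¹ * t * x * (x⁻¹ * y * x)) * x⁻¹ = t * y := by group
    rwa [e1, e2] at h2
  hAab := by
    rintro _ ⟨a, ha, rfl⟩ _ ⟨b, hb, rfl⟩
    rw [← map_mul, ← map_mul, S.hAab a ha b hb]
  hquad := by
    rintro _ ⟨a, ha, rfl⟩ v hv _ ⟨b, hb, rfl⟩
    have hv' : x⁻¹ * v * x ∈ V := by
      have := (Subgroup.mem_normalizer_iff.mp (S.hVn (G.inv_mem hx)) v).mp hv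
      simpa using this
    have h1 := S.hquad a ha _ hv' b hb
    have h2 : x * ((a * (x⁻¹ * v * x) * a⁻¹ * (x⁻¹ * v * x)⁻¹) * b) * x⁻¹ =
      x * (b * (a * (x⁻¹ * v * x) * a⁻¹ * (x⁻¹ * v * x)⁻¹)) * x⁻¹ := by rw [h1]
    show ((x * a * x⁻¹) * v * (x * a * x⁻¹)⁻¹ * v⁻¹) * (x * b * x⁻¹) =
      (x * b * x⁻¹) * ((x * a * x⁻¹) * v * (x * a * x⁻¹)⁻¹ * v⁻¹)
    have e1 : x * ((a * (x⁻¹ * v * x) * a⁻¹ * (x⁻¹ * v * x)⁻¹) * b) * x⁻¹ =
      ((x * a * x⁻¹) * v * (x * a * x⁻¹)⁻¹ * v⁻¹) * (x * b * x⁻¹) := by group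
    have e2 : x * (b * (a * (x⁻¹ * v * x) * a⁻¹ * (x⁻¹ * v * x)⁻¹)) * x⁻¹ =
      (x * b * x⁻¹) * ((x * a * x⁻¹) * v * (x * a * x⁻¹)⁻¹ * v⁻¹) := by group
    rw [← e1, ← e2, h2]
  hcard := by
    have hV := cj_eq_of_le_normalizer S.hVn hx
    have h1 : cj x A ⊓ Subgroup.centralizer (V : Set Γ) = cj x (A ⊓ Subgroup.centralizer (V : Set Γ)) := by
      rw [cj_inf, cj_centralizer, hV]
    have h2 : V ⊓ Subgroup.centralizer (cj x A : Set Γ) = cj x (V ⊓ Subgroup.centralizer (A : Set Γ)) := by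
      rw [cj_inf, cj_centralizer, hV]
    rw [h1, h2, card_cj, card_cj, card_cj]
    exact S.hcard
  hQp := S.hQp
  hAp := isPGroup_cj S.hAp

theorem hMG' (S : Stage p G Q V T M A) : M ≤ G := by rw [S.hM]; exact inf_le_left

theorem hVG (S : Stage p G Q V T M A) : V ≤ G := S.hVQ.trans S.hQG

theorem hQM (S : Stage p G Q V T M A) : Q ≤ M := by
  rw [S.hM]
  refine le_inf S.hQG (fun q hq => H85.centralizer_le_normalizer' ?_)
  rw [mem_cent]
  intro t ht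
  exact S.hVc t (S.hTV ht) q hq

/-- L1 -/
theorem mem_of_cj_le (S : Stage p G Q V T M A) {g : Γ} (hg : g ∈ G) (h : cj g A ≤ M) : g ∈ M := by
  have h1 : cj g⁻¹ M ≤ M := by
    refine S.hfact (cj g⁻¹ M) ?_ ?_ ?_ 1 G.one_mem ?_ ?_
    · rw [← cj_self (G.inv_mem hg)]; exact cj_mono S.hMG'
    · rw [← cj_eq_of_le_normalizer S.hQn (G.inv_mem hg)]; exact cj_mono S.hQM
    · intro h
      apply S.hMG
      have : cj g (cj g⁻¹ M) = cj g G := by rw [h]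
      rwa [cj_cj_inv, cj_self hg] at this
    · rw [cj_one]; exact cj_le_iff.mp h
    · rw [cj_one]; exact S.hAM
  have := S.hself _ (G.inv_mem hg) h1
  simpa using M.inv_mem this

/-- L2 -/
theorem gen_eq (S : Stage p G Q V T M A) {x : Γ} (hx : x ∈ G) (hxM : x ∉ M) {L : Subgroup Γ}
    (hL : L ≤ G) (hQL : Q ≤ L) (hAL : A ≤ L) (hBL : cj x A ≤ L) : L = G := by
  by_contra hne
  have := S.hfact L hL hQL hne 1 G.one_mem (by rw [cj_one]; exact hAL) (by rw [cj_one]; exact S.hAM)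
  exact hxM (S.mem_of_cj_le hx (hBL.trans this))

/-- L3 -/
theorem cent_of_two (S : Stage p G Q V T M A) {x : Γ} (hx : x ∈ G) (hxM : x ∉ M) {v : Γ}
    (hv : v ∈ V) (h1 : v ∈ Subgroup.centralizer (A : Set Γ))
    (h2 : v ∈ Subgroup.centralizer (cj x A : Set Γ)) : v ∈ Subgroup.centralizer (G : Set Γ) := by
  have := S.gen_eq hx hxM (L := G ⊓ Subgroup.centralizer {v}) inf_le_left
    (le_inf S.hQG (fun q hq => by
      rw [Subgroup.mem_centralizer_singleton_iff]; exact (S.hVc v hv q hq).symm))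
    (le_inf (S.hAM.trans S.hMG') (fun q hq => by
      rw [Subgroup.mem_centralizer_singleton_iff]; exact mem_cent.mp h1 q hq))
    (le_inf (by
        have := cj_mono (g := x) (S.hAM.trans S.hMG')
        rwa [cj_self hx] at this) (fun q hq => by
      rw [Subgroup.mem_centralizer_singleton_iff]; exact mem_cent.mp h2 q hq))
  rw [mem_cent]
  intro g hg
  rw [← this] at hg
  exact Subgroup.mem_centralizer_singleton_iff.mp hg.2

/-- L4 -/
theorem cent_le (S : Stage p G Q V T M A) {u : Γ}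
    (hu : u ∈ V) (h1 : u ∈ Subgroup.centralizer (A : Set Γ))
    (h2 : u ∉ Subgroup.centralizer (G : Set Γ)) {g : Γ} (hg : g ∈ G) (hgu : g * u = u * g) : g ∈ M := by
  have hne : G ⊓ Subgroup.centralizer {u} ≠ G := by
    intro h
    apply h2
    rw [mem_cent]
    intro g hg
    rw [← h] at hg
    exact Subgroup.mem_centralizer_singleton_iff.mp hg.2
  have := S.hfact (G ⊓ Subgroup.centralizer {u}) inf_le_left
    (le_inf S.hQG (fun q hq => by
      rw [Subgroup.mem_centralizer_singleton_iff]; exact (S.hVc u hu q hq).symm)) hne 1 G.one_mem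
    (by
      rw [cj_one]
      exact le_inf (S.hAM.trans S.hMG') (fun q hq => by
        rw [Subgroup.mem_centralizer_singleton_iff]; exact mem_cent.mp h1 q hq))
    (by rw [cj_one]; exact S.hAM)
  exact this ⟨hg, Subgroup.mem_centralizer_singleton_iff.mpr hgu⟩

/-- L5 -/
theorem mem_of_comm (S : Stage p G Q V T M A) {x : Γ} (hx : x ∈ G) {u : Γ}
    (hu : u ∈ V) (h1 : u ∈ Subgroup.centralizer (cj x A : Set Γ))
    (h2 : u ∉ Subgroup.centralizer (G : Set Γ)) {a : Γ} (ha : a ∈ G)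
    (hau : a * u * a⁻¹ * u⁻¹ ∈ Subgroup.centralizer (G : Set Γ)) : a ∈ cj x M := by
  have S' := S.conj hx
  refine S'.mem_of_cj_le ha ?_
  rintro _ ⟨b, hb, rfl⟩
  show a * b * a⁻¹ ∈ cj x M
  have hbG : b ∈ G := S'.hMG' (S'.hAM hb)
  have habG : a * b * a⁻¹ ∈ G := G.mul_mem (G.mul_mem ha hbG) (G.inv_mem ha)
  refine S'.cent_le hu h1 h2 habG ?_
  -- a b a⁻¹ commutes with a u a⁻¹ = z u
  have h3 : b * u = u * b := mem_cent.mp h1 b hb
  have h4 := mem_cent.mp hau (a * b * a⁻¹) habG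
  have e1 : a * b * a⁻¹ * u = (a * u * a⁻¹ * u⁻¹)⁻¹ * (a * (b * u) * a⁻¹) := by
    have : (a * u * a⁻¹ * u⁻¹)⁻¹ * (a * b * a⁻¹) = (a * b * a⁻¹) * (a * u * a⁻¹ * u⁻¹)⁻¹ := by
      have h5 : (a * u * a⁻¹ * u⁻¹)⁻¹ * (a * b * a⁻¹ * (a * u * a⁻¹ * u⁻¹)) * (a * u * a⁻¹ * u⁻¹)⁻¹ =
        (a * u * a⁻¹ * u⁻¹)⁻¹ * (a * u * a⁻¹ * u⁻¹ * (a * b * a⁻¹)) * (a * u * a⁻¹ * u⁻¹)⁻¹ := by rw [h4]
      have e6 : (a * u * a⁻¹ * u⁻¹)⁻¹ * (a * b * a⁻¹ * (a * u * a⁻¹ * u⁻¹)) * (a * u * a⁻¹ * u⁻¹)⁻¹ =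
        (a * u * a⁻¹ * u⁻¹)⁻¹ * (a * b * a⁻¹) := by group
      have e7 : (a * u * a⁻¹ * u⁻¹)⁻¹ * (a * u * a⁻¹ * u⁻¹ * (a * b * a⁻¹)) * (a * u * a⁻¹ * u⁻¹)⁻¹ =
        (a * b * a⁻¹) * (a * u * a⁻¹ * u⁻¹)⁻¹ := by group
      rw [e6, e7] at h5
      exact h5
    have e8 : a * (b * u) * a⁻¹ = (a * b * a⁻¹) * (a * u * a⁻¹) := by group
    rw [e8, ← mul_assoc, this]
    group
  have e2 : u * (a * b * a⁻¹) = (a * u * a⁻¹ * u⁻¹)⁻¹ * (a * (u * b) * a⁻¹) := by group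
  rw [e1, e2, h3]

theorem not_le_cent (S : Stage p G Q V T M A) : ∃ t ∈ T, t ∉ Subgroup.centralizer (G : Set Γ) := by
  by_contra hcon
  push Not at hcon
  apply S.hMG
  refine le_antisymm S.hMG' ?_
  rw [S.hM]
  refine le_inf le_rfl (fun g hg => H85.centralizer_le_normalizer' ?_)
  rw [mem_cent]
  intro t ht
  exact (mem_cent.mp (hcon t ht) g hg).symm

theorem hTA (S : Stage p G Q V T M A) {t : Γ} (ht : t ∈ T) : t ∈ Subgroup.centralizer (A : Set Γ) := by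
  rw [mem_cent]
  intro a ha
  obtain ⟨k, hk⟩ := S.hAp ⟨a, ha⟩
  exact S.hAT a (S.hAM ha) ⟨k, by simpa using congrArg Subtype.val hk⟩ t ht

/-- counting lemma -/
theorem cnt {X Y Z : Subgroup Γ} [Finite X] [Finite Y] (hZX : Z ≤ X) (hZY : Z ≤ Y)
    (hcY : ∀ y ∈ Y, ∀ z ∈ Z, y * z = z * y)
    (hcard : Nat.card Y ≤ Nat.card X) (f : X →* Y) (hf : ∀ x : X, (f x : Γ) ∈ Z → (x : Γ) ∈ Z)
    {y : Γ} (hy : y ∈ Y) : ∃ x : X, ∃ z ∈ Z, y = (f x : Γ) * z := by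
  haveI hn : (Z.subgroupOf Y).Normal := by
    refine ⟨fun z hz y => ?_⟩
    have : y * z * y⁻¹ = z := by
      apply Subtype.ext
      show (y : Γ) * z * (y : Γ)⁻¹ = z
      rw [hcY y y.2 z hz, mul_inv_cancel_right]
    rw [this]; exact hz
  let g : X →* Y ⧸ Z.subgroupOf Y := (QuotientGroup.mk' _).comp f
  have hker : Nat.card g.ker ≤ Nat.card Z := by
    haveI : Finite Z := Finite.of_injective (Subgroup.inclusion hZX) (Subgroup.inclusion_injective hZX)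
    refine Nat.card_le_card_of_injective (fun x : g.ker => (⟨(x : X), ?_⟩ : Z)) ?_
    · apply hf
      have h1 : g (x : X) = 1 := x.2
      have h2 : QuotientGroup.mk' (Z.subgroupOf Y) (f (x : X)) = 1 := h1
      rw [QuotientGroup.mk'_apply, QuotientGroup.eq_one_iff] at h2
      exact h2
    · intro a b hab
      apply Subtype.ext; apply Subtype.ext
      exact congrArg (fun z : Z => (z : Γ)) hab
  have h1 : Nat.card g.range * Nat.card g.ker = Nat.card X := by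
    rw [← Subgroup.index_ker]; exact Subgroup.index_mul_card _
  have h2 : Nat.card (Y ⧸ Z.subgroupOf Y) * Nat.card Z = Nat.card Y := by
    rw [← Nat.card_congr (Subgroup.subgroupOfEquivOfLe hZY).toEquiv]
    exact Subgroup.index_mul_card _
  have hfin : Finite Z := Finite.of_injective (Subgroup.inclusion hZX) (Subgroup.inclusion_injective hZX)
  have hZpos : 0 < Nat.card Z := Nat.card_pos
  have h3 : Nat.card (Y ⧸ Z.subgroupOf Y) ≤ Nat.card g.range := by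
    by_contra hlt
    push Not at hlt
    have h4 : Nat.card g.range * Nat.card g.ker ≤ Nat.card g.range * Nat.card Z :=
      Nat.mul_le_mul_left _ hker
    have h5 : Nat.card g.range * Nat.card Z < Nat.card (Y ⧸ Z.subgroupOf Y) * Nat.card Z :=
      Nat.mul_lt_mul_of_pos_right hlt hZpos
    omega
  have h4 : g.range = ⊤ := Subgroup.eq_top_of_le_card _ h3
  have h5 : (QuotientGroup.mk' (Z.subgroupOf Y) ⟨y, hy⟩) ∈ g.range := by rw [h4]; trivial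
  obtain ⟨x, hx⟩ := h5
  have h6 : QuotientGroup.mk' (Z.subgroupOf Y) (f x) = QuotientGroup.mk' (Z.subgroupOf Y) ⟨y, hy⟩ := hx
  rw [QuotientGroup.mk'_apply, QuotientGroup.mk'_apply, QuotientGroup.eq] at h6
  refine ⟨x, _, h6, ?_⟩
  show y = (f x : Γ) * (((f x)⁻¹ * ⟨y, hy⟩ : Y) : Γ)
  simp

end Stage

end Cfsg.Agent.Fus.FT
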