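import Cfsg.Agent.Fus.FT6
import Cfsg.Agent.H50.MulSet

set_option autoImplicit false
set_option linter.style.haveILetI false
set_option linter.unusedSectionVars false
set_option linter.unusedVariables false

namespace Cfsg.Agent.Fus.FT

open Cfsg.Agent.H85 (cj mem_cj conj_mem_cj conj_mem_cj_iff cj_cj cj_one cj_inv_cj cj_cj_inv cj_mono cj_le_iff
  card_cj isPGroup_cj cj_inf cj_sup cj_normalizer cj_centralizer mem_normalizer_iff_cj SylIn)

variable {Γ : Type*} [Group Γ]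

theorem card_sup_comm [Finite Γ] {X Y : Subgroup Γ} (h : ∀ x ∈ X, ∀ y ∈ Y, x * y = y * x) :
    Nat.card ↥(X ⊔ Y) * Nat.card ↥(X ⊓ Y) = Nat.card X * Nat.card Y := by
  apply H50.card_sup_of_eq_mul
  ext w
  have h1 : w ∈ X ⊔ Y ↔ ∃ u ∈ X, ∃ u' ∈ Y, u * u' = w := by
    apply H85.mem_sup_iff_of_normalizes
    intro y hy
    apply H85.centralizer_le_normalizer'
    rw [mem_cent]
    intro z hz
    exact h z hz y hy
  show w ∈ X ⊔ Y ↔ _
  rw [h1, Set.mem_mul]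
  rfl

namespace Stage

variable {p : ℕ} {G Q V T M A : Subgroup Γ}

theorem hVab (S : Stage p G Q V T M A) {v w : Γ} (hv : v ∈ V) (hw : w ∈ V) : v * w = w * v :=
  S.hVc v hv w (S.hVQ hw)

theorem conj_mem_V (S : Stage p G Q V T M A) {g v : Γ} (hg : g ∈ G) (hv : v ∈ V) : g * v * g⁻¹ ∈ V :=
  (Subgroup.mem_normalizer_iff.mp (S.hVn hg) v).mp hv

theorem comm_mem_V (S : Stage p G Q V T M A) {g v : Γ} (hg : g ∈ G) (hv : v ∈ V) :
    g * v * g⁻¹ * v⁻¹ ∈ V := V.mul_mem (S.conj_mem_V hg hv) (V.inv_mem hv)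

theorem comm_mem_U (S : Stage p G Q V T M A) {a v : Γ} (ha : a ∈ A) (hv : v ∈ V) :
    a * v * a⁻¹ * v⁻¹ ∈ V ⊓ Subgroup.centralizer (A : Set Γ) := by
  exact ⟨S.comm_mem_V (S.hMG' (S.hAM ha)) hv, mem_cent.mpr (fun b hb => (S.hquad a ha v hv b hb).symm)⟩

theorem hAG (S : Stage p G Q V T M A) : A ≤ G := S.hAM.trans S.hMG'

theorem hBG (S : Stage p G Q V T M A) {x : Γ} (hx : x ∈ G) : cj x A ≤ G := (S.conj hx).hAG

theorem V0_le (S : Stage p G Q V T M A) :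
    V ⊓ Subgroup.centralizer (G : Set Γ) ≤ V ⊓ Subgroup.centralizer (A : Set Γ) :=
  inf_le_inf_left _ (Subgroup.centralizer_le S.hAG)

theorem V0_le' (S : Stage p G Q V T M A) {x : Γ} (hx : x ∈ G) :
    V ⊓ Subgroup.centralizer (G : Set Γ) ≤ V ⊓ Subgroup.centralizer (cj x A : Set Γ) :=
  (S.conj hx).V0_le

theorem hUx (S : Stage p G Q V T M A) {x : Γ} (hx : x ∈ G) :
    V ⊓ Subgroup.centralizer (cj x A : Set Γ) = cj x (V ⊓ Subgroup.centralizer (A : Set Γ)) := by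
  rw [cj_inf, cj_centralizer, cj_eq_of_le_normalizer S.hVn hx]

theorem mem_U_sup (S : Stage p G Q V T M A) {x : Γ} {w : Γ} :
    w ∈ (V ⊓ Subgroup.centralizer (A : Set Γ)) ⊔ (V ⊓ Subgroup.centralizer (cj x A : Set Γ)) ↔
    ∃ u ∈ V ⊓ Subgroup.centralizer (A : Set Γ), ∃ u' ∈ V ⊓ Subgroup.centralizer (cj x A : Set Γ),
      u * u' = w := by
  apply H85.mem_sup_iff_of_normalizes
  intro y hy
  apply H85.centralizer_le_normalizer'
  rw [mem_cent]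
  intro z hz
  exact S.hVab hz.1 hy.1

theorem comm_mul_left (S : Stage p G Q V T M A) {g v w : Γ} (hg : g ∈ G) (hv : v ∈ V) (hw : w ∈ V) :
    g * (v * w) * g⁻¹ * (v * w)⁻¹ = (g * v * g⁻¹ * v⁻¹) * (g * w * g⁻¹ * w⁻¹) := by
  have h1 : v⁻¹ * (g * w * g⁻¹) = (g * w * g⁻¹) * v⁻¹ :=
    S.hVab (V.inv_mem hv) (S.conj_mem_V hg hw)
  calc g * (v * w) * g⁻¹ * (v * w)⁻¹ = (g * v * g⁻¹) * ((g * w * g⁻¹) * w⁻¹ * v⁻¹) := by group
    _ = (g * v * g⁻¹) * ((g * w * g⁻¹) * v⁻¹ * w⁻¹) := by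
        rw [mul_assoc (g * w * g⁻¹), S.hVab (V.inv_mem hw) (V.inv_mem hv), ← mul_assoc (g * w * g⁻¹)]
    _ = (g * v * g⁻¹) * (v⁻¹ * (g * w * g⁻¹) * w⁻¹) := by rw [h1]
    _ = _ := by group

/-- the map `v ↦ [b,v]` as a homomorphism `V → V` -/
def cmap (S : Stage p G Q V T M A) (b : Γ) (hb : b ∈ G) : V →* V where
  toFun v := ⟨b * v * b⁻¹ * (v : Γ)⁻¹, S.comm_mem_V hb v.2⟩
  map_one' := by ext; simp
  map_mul' v w := by
    apply Subtype.ext
    exact S.comm_mul_left hb v.2 w.2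

/-- surjectivity of `[b, ·] : U_x → U` mod `V₀` -/
theorem exists_comm (S : Stage p G Q V T M A) [Finite Γ] {x : Γ} (hx : x ∈ G) {b : Γ} (hb : b ∈ A)
    (hbx : b ∉ cj x M) {u : Γ} (hu : u ∈ V ⊓ Subgroup.centralizer (A : Set Γ)) :
    ∃ w ∈ V ⊓ Subgroup.centralizer (cj x A : Set Γ), ∃ z ∈ V ⊓ Subgroup.centralizer (G : Set Γ),
      u = b * w * b⁻¹ * w⁻¹ * z := by
  have hbG := S.hAG hb
  let f : ↥(V ⊓ Subgroup.centralizer (cj x A : Set Γ)) →* ↥(V ⊓ Subgroup.centralizer (A : Set Γ)) :=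
    { toFun := fun v => ⟨b * v * b⁻¹ * (v : Γ)⁻¹, S.comm_mem_U hb v.2.1⟩
      map_one' := by ext; simp
      map_mul' := fun v w => by
        apply Subtype.ext
        exact S.comm_mul_left hbG v.2.1 w.2.1 }
  obtain ⟨w, z, hz, he⟩ := cnt (Z := V ⊓ Subgroup.centralizer (G : Set Γ)) (S.V0_le' hx) S.V0_le
    (fun y hy z hz => S.hVab hy.1 hz.1) (by rw [S.hUx hx, card_cj]) f
    (fun w hw => by
      by_contra hne
      apply hbx
      exact S.mem_of_comm hx w.2.1 w.2.2 (fun h => hne ⟨w.2.1, h⟩) hbG hw.2) hu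
  exact ⟨w, w.2, z, hz, he⟩

/-- `[V,G] ≤ U U_y` -/
theorem comm_mem_sup (S : Stage p G Q V T M A) {y : Γ} (hy : y ∈ G) (hyM : y ∉ M) {g v : Γ}
    (hg : g ∈ G) (hv : v ∈ V) : g * v * g⁻¹ * v⁻¹ ∈
    (V ⊓ Subgroup.centralizer (A : Set Γ)) ⊔ (V ⊓ Subgroup.centralizer (cj y A : Set Γ)) := by
  let W := (V ⊓ Subgroup.centralizer (A : Set Γ)) ⊔ (V ⊓ Subgroup.centralizer (cj y A : Set Γ))
  let L : Subgroup Γ :=
    { carrier := {g | g ∈ G ∧ ∀ v ∈ V, g * v * g⁻¹ * v⁻¹ ∈ W}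
      one_mem' := ⟨G.one_mem, fun v hv => by
        have : (1 : Γ) * v * 1⁻¹ * v⁻¹ = 1 := by group
        rw [this]; exact W.one_mem⟩
      mul_mem' := by
        rintro g h ⟨hg, hg'⟩ ⟨hh, hh'⟩
        refine ⟨G.mul_mem hg hh, fun v hv => ?_⟩
        have e : g * h * v * (g * h)⁻¹ * v⁻¹ =
          (g * (h * v * h⁻¹) * g⁻¹ * (h * v * h⁻¹)⁻¹) * (h * v * h⁻¹ * v⁻¹) := by group
        rw [e]
        exact W.mul_mem (hg' _ (S.conj_mem_V hh hv)) (hh' v hv)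
      inv_mem' := by
        rintro g ⟨hg, hg'⟩
        refine ⟨G.inv_mem hg, fun v hv => ?_⟩
        have h1 : g⁻¹ * v * g ∈ V := by
          have := S.conj_mem_V (G.inv_mem hg) hv
          simpa using this
        have h2 := hg' _ h1
        have e : g⁻¹ * v * g⁻¹⁻¹ * v⁻¹ = (g * (g⁻¹ * v * g) * g⁻¹ * (g⁻¹ * v * g)⁻¹)⁻¹ := by group
        rw [e]
        exact W.inv_mem h2 }
  have hL : L = G := by
    refine S.gen_eq hy hyM (L := L) (fun g hg => hg.1) ?_ ?_ ?_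
    · intro q hq
      refine ⟨S.hQG hq, fun v hv => ?_⟩
      have : q * v * q⁻¹ * v⁻¹ = 1 := by rw [← S.hVc v hv q hq]; group
      rw [this]; exact W.one_mem
    · intro a ha
      exact ⟨S.hAG ha, fun v hv => (le_sup_left : _ ≤ W) (S.comm_mem_U ha hv)⟩
    · intro a ha
      exact ⟨S.hBG hy ha, fun v hv => (le_sup_right : _ ≤ W) ((S.conj hy).comm_mem_U ha hv)⟩
  have : g ∈ L := by rw [hL]; exact hg
  exact this.2 v hv

theorem comm_eq_one {g v : Γ} (h : g * v = v * g) : g * v * g⁻¹ * v⁻¹ = 1 := by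
  rw [h]; group

/-- L6 -/
theorem mem_cent_of_mem (S : Stage p G Q V T M A) [Finite Γ] {x : Γ} (hx : x ∈ G) (hxM : x ∉ M) {b : Γ}
    (hb : b ∈ A) (hbx : b ∈ cj x M) : b ∈ Subgroup.centralizer (V : Set Γ) := by
  rw [mem_cent]
  intro v hv
  refine (S.hgen b ?_ v hv).symm
  intro g hg t ht
  by_contra hne
  -- b p-element
  obtain ⟨k, hk⟩ := S.hAp ⟨b, hb⟩
  have hk' : b ^ (p ^ k) = 1 := by simpa using congrArg Subtype.val hk
  have hbG := S.hAG hb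
  -- b ∉ cj g M
  have hbg : b ∉ cj g M := by
    intro h
    apply hne
    exact (S.conj hg).hAT b h ⟨k, hk'⟩ _ (conj_mem_cj ht)
  have hgM : g ∉ M := by
    intro h
    apply hbg
    rw [cj_self h]; exact S.hAM hb
  -- t₁ ∈ T_x not central
  obtain ⟨t₁, ht₁, ht₁c⟩ := (S.conj hx).not_le_cent
  have hbt : b * t₁ = t₁ * b := (S.conj hx).hAT b hbx ⟨k, hk'⟩ t₁ ht₁
  have ht₁V : t₁ ∈ V := (S.conj hx).hTV ht₁
  have ht₁x : t₁ ∈ V ⊓ Subgroup.centralizer (cj x A : Set Γ) := ⟨ht₁V, (S.conj hx).hTA ht₁⟩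
  -- exists b' in A_x not in M
  have hb' : ∃ b' ∈ cj x A, b' ∉ M := by
    by_contra hcon
    push Not at hcon
    exact hxM (S.mem_of_cj_le hx hcon)
  obtain ⟨b', hb'A, hb'M⟩ := hb'
  -- t₁ = [b', w] z with w ∈ U
  have h1 := (S.conj hx).exists_comm (G.inv_mem hx) hb'A (by rw [cj_inv_cj]; exact hb'M) ht₁x
  rw [cj_inv_cj] at h1
  obtain ⟨w, hw, z, hz, he⟩ := h1
  -- t₁ ∈ U U_g
  have h2 : t₁ ∈ (V ⊓ Subgroup.centralizer (A : Set Γ)) ⊔ (V ⊓ Subgroup.centralizer (cj g A : Set Γ)) := by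
    rw [he]
    refine Subgroup.mul_mem _ (S.comm_mem_sup hg hgM (S.hBG hx hb'A) hw.1) ?_
    exact (le_sup_left : _ ≤ (V ⊓ Subgroup.centralizer (A : Set Γ)) ⊔
      (V ⊓ Subgroup.centralizer (cj g A : Set Γ))) (S.V0_le hz)
  obtain ⟨u₁, hu₁, u₂, hu₂, he₂⟩ := S.mem_U_sup.mp h2
  -- b commutes with u₂
  have h3 : b * u₂ = u₂ * b := by
    have h4 : b * u₁ = u₁ * b := mem_cent.mp hu₁.2 b hb
    rw [← he₂] at hbt
    have h5 : u₁⁻¹ * (b * (u₁ * u₂)) = u₁⁻¹ * (u₁ * u₂ * b) := by rw [hbt]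
    have e1 : u₁⁻¹ * (b * (u₁ * u₂)) = u₁⁻¹ * (b * u₁) * u₂ := by group
    rw [e1, h4] at h5
    have e2 : u₁⁻¹ * (u₁ * b) * u₂ = b * u₂ := by group
    have e3 : u₁⁻¹ * (u₁ * u₂ * b) = u₂ * b := by group
    rwa [e2, e3] at h5
  have h4 : u₂ ∈ Subgroup.centralizer (G : Set Γ) := by
    by_contra hu₂c
    apply hbg
    refine S.mem_of_comm hg hu₂.1 hu₂.2 hu₂c hbG ?_
    rw [comm_eq_one h3]
    exact Subgroup.one_mem _
  -- t₁ ∈ U
  have h5 : t₁ ∈ Subgroup.centralizer (A : Set Γ) := by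
    rw [← he₂]
    exact Subgroup.mul_mem _ hu₁.2 (Subgroup.centralizer_le S.hAG h4)
  exact ht₁c (S.cent_of_two hx hxM ht₁V h5 ht₁x.2)

theorem exists_not_cent (S : Stage p G Q V T M A) : ∃ u ∈ V ⊓ Subgroup.centralizer (A : Set Γ),
    u ∉ Subgroup.centralizer (G : Set Γ) := by
  obtain ⟨t, ht, htc⟩ := S.not_le_cent
  exact ⟨t, ⟨S.hTV ht, S.hTA ht⟩, htc⟩

/-- counting -/
theorem count (S : Stage p G Q V T M A) [Finite Γ] {x : Γ} (hx : x ∈ G) (hxM : x ∉ M) {u : Γ}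
    (hu : u ∈ V ⊓ Subgroup.centralizer (cj x A : Set Γ)) (huc : u ∉ Subgroup.centralizer (G : Set Γ)) :
    V = (V ⊓ Subgroup.centralizer (A : Set Γ)) ⊔ (V ⊓ Subgroup.centralizer (cj x A : Set Γ)) ∧
    ∀ w ∈ V ⊓ Subgroup.centralizer (A : Set Γ), ∃ a ∈ A, ∃ z ∈ V ⊓ Subgroup.centralizer (G : Set Γ),
      w = a * u * a⁻¹ * u⁻¹ * z := by
  obtain ⟨U, hU⟩ : ∃ U, U = V ⊓ Subgroup.centralizer (A : Set Γ) := ⟨_, rfl⟩
  obtain ⟨U', hU'⟩ : ∃ U', U' = V ⊓ Subgroup.centralizer (cj x A : Set Γ) := ⟨_, rfl⟩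
  obtain ⟨Z, hZ⟩ : ∃ Z, Z = V ⊓ Subgroup.centralizer (G : Set Γ) := ⟨_, rfl⟩
  have hZU : Z ≤ U := by rw [hZ, hU]; exact S.V0_le
  have hZU' : Z ≤ U' := by rw [hZ, hU']; exact S.V0_le' hx
  have hinf : U ⊓ U' = Z := by
    apply le_antisymm
    · rw [hU, hU', hZ]
      rintro v ⟨h1, h2⟩
      exact ⟨h1.1, S.cent_of_two hx hxM h1.1 h1.2 h2.2⟩
    · exact le_inf hZU hZU'
  have hcU : Nat.card U' = Nat.card U := by rw [hU', S.hUx hx, card_cj, ← hU]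
  have hUV : U ≤ V := by rw [hU]; exact inf_le_left
  have hU'V : U' ≤ V := by rw [hU']; exact inf_le_left
  -- |U U'| |Z| = |U|^2
  have hsup : Nat.card ↥(U ⊔ U') * Nat.card Z = Nat.card U * Nat.card U := by
    have h1 := card_sup_comm (X := U) (Y := U') (fun x hx y hy => S.hVab (hUV hx) (hU'V hy))
    rw [hinf, hcU] at h1
    exact h1
  have hUG : u ∈ V := hu.1
  -- f : A → U
  let f : A →* U :=
    { toFun := fun a => ⟨a * u * (a : Γ)⁻¹ * u⁻¹, by rw [hU]; exact S.comm_mem_U a.2 hUG⟩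
      map_one' := by ext; simp
      map_mul' := fun a b => by
        apply Subtype.ext
        show (a * b : Γ) * u * ((a * b : Γ))⁻¹ * u⁻¹ =
          (a * u * (a : Γ)⁻¹ * u⁻¹) * (b * u * (b : Γ)⁻¹ * u⁻¹)
        have h1 := S.hquad b b.2 u hUG a a.2
        have h2 : (a : Γ) * (b * u * (b : Γ)⁻¹ * u⁻¹) * (a : Γ)⁻¹ = b * u * (b : Γ)⁻¹ * u⁻¹ := by
          rw [← h1]; group
        have e : (a * b : Γ) * u * ((a * b : Γ))⁻¹ * u⁻¹ =
          ((a : Γ) * (b * u * (b : Γ)⁻¹ * u⁻¹) * (a : Γ)⁻¹) * (a * u * (a : Γ)⁻¹ * u⁻¹) := by group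
        rw [e, h2]
        exact S.hVab (S.comm_mem_V (S.hAG b.2) hUG) (S.comm_mem_V (S.hAG a.2) hUG) }
  haveI hn : (Z.subgroupOf U).Normal := by
    refine ⟨fun z hz y => ?_⟩
    have : y * z * y⁻¹ = z := by
      apply Subtype.ext
      show (y : Γ) * z * (y : Γ)⁻¹ = z
      rw [S.hVab (hUV y.2) (hUV z.2), mul_inv_cancel_right]
    rw [this]; exact hz
  let g : A →* U ⧸ Z.subgroupOf U := (QuotientGroup.mk' _).comp f
  have hker : Nat.card g.ker ≤ Nat.card ↥(A ⊓ Subgroup.centralizer (V : Set Γ)) := by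
    refine Nat.card_le_card_of_injective
      (fun a : g.ker => (⟨(a : A), (a : A).2, ?_⟩ : ↥(A ⊓ Subgroup.centralizer (V : Set Γ)))) ?_
    · have h1 : g (a : A) = 1 := a.2
      have h2 : QuotientGroup.mk' (Z.subgroupOf U) (f (a : A)) = 1 := h1
      rw [QuotientGroup.mk'_apply, QuotientGroup.eq_one_iff] at h2
      have h3 : (((a : A) : Γ) * u * ((a : A) : Γ)⁻¹ * u⁻¹) ∈ Z := h2
      have h4 : (((a : A) : Γ) * u * ((a : A) : Γ)⁻¹ * u⁻¹) ∈ V ⊓ Subgroup.centralizer (G : Set Γ) := hZ.le h3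
      exact S.mem_cent_of_mem hx hxM (a : A).2 (S.mem_of_comm hx hu.1 hu.2 huc (S.hAG (a : A).2) h4.2)
    · intro a b hab
      apply Subtype.ext; apply Subtype.ext
      exact congrArg (fun z : ↥(A ⊓ Subgroup.centralizer (V : Set Γ)) => (z : Γ)) hab
  have h1 : Nat.card g.range * Nat.card g.ker = Nat.card A := by
    rw [← Subgroup.index_ker]; exact Subgroup.index_mul_card _
  have h2 : Nat.card (U ⧸ Z.subgroupOf U) * Nat.card Z = Nat.card U := by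
    rw [← Nat.card_congr (Subgroup.subgroupOfEquivOfLe hZU).toEquiv]
    exact Subgroup.index_mul_card _
  have hZpos : 0 < Nat.card Z := Nat.card_pos
  have hUpos : 0 < Nat.card U := Nat.card_pos
  have hApos : 0 < Nat.card A := Nat.card_pos
  have hcpos : 0 < Nat.card ↥(A ⊓ Subgroup.centralizer (V : Set Γ)) := Nat.card_pos
  have hrange : Nat.card g.range ≤ Nat.card (U ⧸ Z.subgroupOf U) := Subgroup.card_le_card_group _
  have hVle : Nat.card ↥(U ⊔ U') ≤ Nat.card V :=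
    Nat.card_le_card_of_injective _ (Subgroup.inclusion_injective (sup_le hUV hU'V))
  have hc := S.hcard
  rw [← hU] at hc
  obtain ⟨r, hr⟩ : ∃ r, r = Nat.card g.range := ⟨_, rfl⟩
  obtain ⟨k, hk⟩ : ∃ k, k = Nat.card g.ker := ⟨_, rfl⟩
  obtain ⟨a, ha⟩ : ∃ a, a = Nat.card A := ⟨_, rfl⟩
  obtain ⟨c, hc'⟩ : ∃ c, c = Nat.card ↥(A ⊓ Subgroup.centralizer (V : Set Γ)) := ⟨_, rfl⟩
  obtain ⟨m, hm⟩ : ∃ m, m = Nat.card U := ⟨_, rfl⟩
  obtain ⟨z, hz⟩ : ∃ z, z = Nat.card Z := ⟨_, rfl⟩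
  obtain ⟨v, hv⟩ : ∃ v, v = Nat.card V := ⟨_, rfl⟩
  obtain ⟨s, hs⟩ : ∃ s, s = Nat.card ↥(U ⊔ U') := ⟨_, rfl⟩
  obtain ⟨i, hi⟩ : ∃ i, i = Nat.card (U ⧸ Z.subgroupOf U) := ⟨_, rfl⟩
  rw [← hr, ← hk, ← ha] at h1
  rw [← hi, ← hz, ← hm] at h2
  rw [← hs, ← hz, ← hm] at hsup
  rw [← hr, ← hi] at hrange
  rw [← hs, ← hv] at hVle
  rw [← hv, ← hc', ← ha, ← hm] at hc
  rw [← hk, ← hc'] at hker
  rw [← hz] at hZpos
  rw [← hm] at hUpos
  rw [← ha] at hApos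
  rw [← hc'] at hcpos
  -- m*m = s*z ≤ v*z ; v*c ≤ a*m ; a = r*k ≤ i*c ; i*z = m
  have e1 : a * z ≤ m * c := by
    calc a * z = r * k * z := by rw [h1]
      _ ≤ i * c * z := Nat.mul_le_mul_right _ (Nat.mul_le_mul hrange hker)
      _ = i * z * c := by ring
      _ = m * c := by rw [h2]
  have e2 : v * c * z ≤ m * (m * c) := by
    calc v * c * z ≤ a * m * z := Nat.mul_le_mul_right _ hc
      _ = m * (a * z) := by ring
      _ ≤ m * (m * c) := Nat.mul_le_mul_left _ e1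
  have e3 : m * (m * c) = s * c * z := by
    calc m * (m * c) = (m * m) * c := by ring
      _ = s * z * c := by rw [hsup]
      _ = _ := by ring
  have e4 : v ≤ s := by
    have h5 : v * (c * z) ≤ s * (c * z) := by
      calc v * (c * z) = v * c * z := by ring
        _ ≤ m * (m * c) := e2
        _ = s * (c * z) := by rw [e3]; ring
    exact Nat.le_of_mul_le_mul_right h5 (Nat.mul_pos hcpos hZpos)
  have hVeq : V = U ⊔ U' := by
    symm
    apply Subgroup.eq_of_le_of_card_ge (sup_le hUV hU'V)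
    rw [← hs, ← hv]; exact e4
  refine ⟨by rw [← hU, ← hU']; exact hVeq, ?_⟩
  -- surjectivity
  have e5 : m * c ≤ a * z := by
    have h5 : m * (m * c) ≤ m * (a * z) := by
      calc m * (m * c) = s * c * z := e3
        _ ≤ v * c * z := Nat.mul_le_mul_right _ (Nat.mul_le_mul_right _ hVle)
        _ ≤ a * m * z := Nat.mul_le_mul_right _ hc
        _ = m * (a * z) := by ring
    exact Nat.le_of_mul_le_mul_left h5 hUpos
  have e6 : i ≤ r := by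
    have h5 : i * (c * z) ≤ r * (c * z) := by
      calc i * (c * z) = (i * z) * c := by ring
        _ = m * c := by rw [h2]
        _ ≤ a * z := e5
        _ = r * k * z := by rw [h1]
        _ ≤ r * c * z := Nat.mul_le_mul_right _ (Nat.mul_le_mul_left _ hker)
        _ = r * (c * z) := by ring
    exact Nat.le_of_mul_le_mul_right h5 (Nat.mul_pos hcpos hZpos)
  have e7 : g.range = ⊤ := Subgroup.eq_top_of_le_card _ (by rw [← hr, ← hi]; exact e6)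
  intro w hw
  rw [← hU] at hw
  have h5 : (QuotientGroup.mk' (Z.subgroupOf U) ⟨w, hw⟩) ∈ g.range := by rw [e7]; trivial
  obtain ⟨a', ha'⟩ := h5
  have h6 : QuotientGroup.mk' (Z.subgroupOf U) (f a') = QuotientGroup.mk' (Z.subgroupOf U) ⟨w, hw⟩ := ha'
  rw [QuotientGroup.mk'_apply, QuotientGroup.mk'_apply, QuotientGroup.eq] at h6
  refine ⟨a', a'.2, (((f a')⁻¹ * ⟨w, hw⟩ : U) : Γ), ?_, ?_⟩
  · rw [← hZ]; exact h6
  · show w = ((f a' : U) : Γ) * (((f a')⁻¹ * ⟨w, hw⟩ : U) : Γ)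
    simp

end Stage

end Cfsg.Agent.Fus.FT
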