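import Cfsg.Agent.Fus.FT7

set_option autoImplicit false
set_option linter.style.haveILetI false
set_option linter.unusedSectionVars false
set_option linter.unusedVariables false

namespace Cfsg.Agent.Fus.FT

open Cfsg.Agent.H85 (cj mem_cj conj_mem_cj conj_mem_cj_iff cj_cj cj_one cj_inv_cj cj_cj_inv cj_mono cj_le_iff
  card_cj isPGroup_cj cj_inf cj_sup cj_normalizer cj_centralizer mem_normalizer_iff_cj SylIn)

theorem swap_gen' {Y : Type*} [Group Y] (hc : ∀ a b : Y, a * b = b * a) [Finite Y] {p : ℕ}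
    [hpp : Fact p.Prime] (U₁ U₂ : Subgroup Y)
    (hdis : U₁ ⊓ U₂ = ⊥) (hp : ∀ u ∈ U₁, u ^ p = 1)
    (A B : Subgroup (MulAut Y))
    (hA1 : ∀ a ∈ A, ∀ u ∈ U₁, a u = u) (hA2 : ∀ a ∈ A, ∀ y ∈ U₂, a y * y⁻¹ ∈ U₁)
    (hB1 : ∀ b ∈ B, ∀ u ∈ U₂, b u = u) (hB2 : ∀ b ∈ B, ∀ y ∈ U₁, b y * y⁻¹ ∈ U₂)
    (hAinj : ∀ a ∈ A, (∀ y ∈ U₂, a y = y) → a = 1)
    (hBinj : ∀ b ∈ B, (∀ y ∈ U₁, b y = y) → b = 1)
    (hAB : ∀ a ∈ A, a ≠ 1 → ∃ b ∈ B, ∀ u ∈ U₂, ∃ v ∈ U₁, a u = b v)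
    (hBA : ∀ b ∈ B, b ≠ 1 → ∃ a ∈ A, ∀ v ∈ U₁, ∃ u ∈ U₂, b v = a u)
    (hcard : Nat.card U₁ ≤ Nat.card A) :
    ∃ h ∈ A ⊔ B, (∀ u ∈ U₁, h u ∈ U₁) ∧
      ∀ w ∈ U₁, ∀ w' ∈ U₁, w ≠ 1 → w' ≠ 1 → ∃ n : ℕ, (h ^ n) w = w' := by
  letI : CommGroup Y := { ‹Group Y› with mul_comm := hc }
  exact swap_gen U₁ U₂ hdis hp A B hA1 hA2 hB1 hB2 hAinj hBinj hAB hBA hcard

variable {Γ : Type*} [Group Γ]

namespace Stage

variable {p : ℕ} {G Q V T M A : Subgroup Γ}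

/-- covering -/
theorem cov (S : Stage p G Q V T M A) [Finite Γ] {x : Γ} (hx : x ∈ G) (hxM : x ∉ M) {y : Γ}
    (hy : y ∈ V) (hyU : y ∉ Subgroup.centralizer (A : Set Γ)) :
    ∃ a ∈ A, a⁻¹ * y * a ∈ V ⊓ Subgroup.centralizer (cj x A : Set Γ) := by
  obtain ⟨u, hu, huc⟩ := (S.conj hx).exists_not_cent
  have hy' := hy
  rw [(S.count hx hxM hu huc).1] at hy'
  obtain ⟨u₁, hu₁, u₂, hu₂, he⟩ := S.mem_U_sup.mp hy'
  have hu₂c : u₂ ∉ Subgroup.centralizer (G : Set Γ) := by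
    intro h
    apply hyU
    rw [← he]
    exact Subgroup.mul_mem _ hu₁.2 (Subgroup.centralizer_le S.hAG h)
  obtain ⟨a, ha, z, hz, he₂⟩ := (S.count hx hxM hu₂ hu₂c).2 u₁ hu₁
  refine ⟨a, ha, ?_⟩
  have h1 : a⁻¹ * y * a = u₂ * z := by
    have h2 : a * z = z * a := mem_cent.mp hz.2 a (S.hAG ha)
    have h3 : z * u₂ = u₂ * z := S.hVab hz.1 hu₂.1
    rw [← he, he₂]
    calc a⁻¹ * (a * u₂ * a⁻¹ * u₂⁻¹ * z * u₂) * a = u₂ * a⁻¹ * u₂⁻¹ * (z * u₂) * a := by group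
      _ = u₂ * a⁻¹ * u₂⁻¹ * (u₂ * z) * a := by rw [h3]
      _ = u₂ * a⁻¹ * (z * a) := by group
      _ = u₂ * z := by rw [← h2]; group
  rw [h1]
  exact Subgroup.mul_mem _ hu₂ (S.V0_le' hx hz)

theorem exists_not_mem (S : Stage p G Q V T M A) : ∃ x ∈ G, x ∉ M := by
  by_contra hcon
  push Not at hcon
  exact S.hMG (le_antisymm S.hMG' hcon)

/-- `M` normalizes `U` -/
theorem inv_U (S : Stage p G Q V T M A) [Finite Γ] {m u : Γ} (hm : m ∈ M)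
    (hu : u ∈ V ⊓ Subgroup.centralizer (A : Set Γ)) :
    m * u * m⁻¹ ∈ V ⊓ Subgroup.centralizer (A : Set Γ) := by
  have hmG := S.hMG' hm
  have hV : m * u * m⁻¹ ∈ V := S.conj_mem_V hmG hu.1
  refine ⟨hV, ?_⟩
  show m * u * m⁻¹ ∈ Subgroup.centralizer (A : Set Γ)
  by_contra hne
  obtain ⟨x, hx, hxM⟩ := S.exists_not_mem
  obtain ⟨a, ha, hax⟩ := S.cov hx hxM hV hne
  have huc : u ∉ Subgroup.centralizer (G : Set Γ) := by
    intro h
    apply hne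
    have : m * u * m⁻¹ = u := by rw [mem_cent.mp h m hmG]; group
    rw [this]; exact hu.2
  -- cj (a x) A ≤ M
  have h1 : cj (a * x) A ≤ M := by
    rintro _ ⟨c, hc, rfl⟩
    show (a * x) * c * (a * x)⁻¹ ∈ M
    have hcG := S.hAG hc
    have haG := S.hAG ha
    -- x c x⁻¹ commutes with a⁻¹ y a
    have h2 := mem_cent.mp hax.2 (x * c * x⁻¹) (conj_mem_cj hc)
    -- g = m⁻¹ (a x c x⁻¹ a⁻¹) m commutes with u
    have h3 : m⁻¹ * ((a * x) * c * (a * x)⁻¹) * m ∈ M := by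
      refine S.cent_le hu.1 hu.2 huc ?_ ?_
      · exact G.mul_mem (G.mul_mem (G.inv_mem hmG) (G.mul_mem (G.mul_mem (G.mul_mem haG hx) hcG)
          (G.inv_mem (G.mul_mem haG hx)))) hmG
      · have e1 : m⁻¹ * (a * x * c * (a * x)⁻¹) * m * u =
          m⁻¹ * a * ((x * c * x⁻¹) * (a⁻¹ * (m * u * m⁻¹) * a)) * a⁻¹ * m := by group
        have e2 : u * (m⁻¹ * (a * x * c * (a * x)⁻¹) * m) =
          m⁻¹ * a * ((a⁻¹ * (m * u * m⁻¹) * a) * (x * c * x⁻¹)) * a⁻¹ * m := by group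
        rw [e1, e2, h2]
    have h4 := M.mul_mem (M.mul_mem hm h3) (M.inv_mem hm)
    have e : m * (m⁻¹ * (a * x * c * (a * x)⁻¹) * m) * m⁻¹ = (a * x) * c * (a * x)⁻¹ := by group
    rwa [e] at h4
  have h5 := S.mem_of_cj_le (G.mul_mem (S.hAG ha) hx) h1
  apply hxM
  have := M.mul_mem (M.inv_mem (S.hAM ha)) h5
  simpa using this

/-- partners -/
theorem part (S : Stage p G Q V T M A) [Finite Γ] {x : Γ} (hx : x ∈ G) (hxM : x ∉ M) {b : Γ}
    (hb : b ∈ cj x A) (hbc : b ∉ Subgroup.centralizer (V : Set Γ)) :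
    ∃ a ∈ A, ∀ v ∈ V ⊓ Subgroup.centralizer (A : Set Γ),
      ∃ u ∈ V ⊓ Subgroup.centralizer (cj x A : Set Γ), b * v * b⁻¹ = a * u * a⁻¹ := by
  obtain ⟨v₀, hv₀, hv₀c⟩ := S.exists_not_cent
  have hbG := S.hBG hx hb
  have hyV : b * v₀ * b⁻¹ ∈ V := S.conj_mem_V hbG hv₀.1
  have hxi := G.inv_mem hx
  have hxiM : x⁻¹ ∉ cj x M := by
    rw [mem_cj]
    intro h
    apply hxM
    have := M.inv_mem h
    simpa using this
  have hyU : b * v₀ * b⁻¹ ∉ Subgroup.centralizer (A : Set Γ) := by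
    intro h
    -- [b,v₀] ∈ U ∩ U_x
    have h1 : b * v₀ * b⁻¹ * v₀⁻¹ ∈ Subgroup.centralizer (G : Set Γ) := by
      have h2 := (S.conj hx).comm_mem_U hb hv₀.1
      exact S.cent_of_two hx hxM h2.1 (Subgroup.mul_mem _ h (Subgroup.inv_mem _ hv₀.2)) h2.2
    apply hbc
    have h3 := (S.conj hx).mem_of_comm hxi (u := v₀) hv₀.1 (by rw [cj_inv_cj]; exact hv₀.2) hv₀c hbG h1
    exact (S.conj hx).mem_cent_of_mem hxi hxiM hb h3
  obtain ⟨a, ha, hax⟩ := S.cov hx hxM hyV hyU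
  have haG := S.hAG ha
  have h1 : cj (b⁻¹ * a * x) A ≤ M := by
    rintro _ ⟨c, hc, rfl⟩
    show (b⁻¹ * a * x) * c * (b⁻¹ * a * x)⁻¹ ∈ M
    have hcG := S.hAG hc
    have h2 := mem_cent.mp hax.2 (x * c * x⁻¹) (conj_mem_cj hc)
    refine S.cent_le hv₀.1 hv₀.2 hv₀c ?_ ?_
    · have h3 : b⁻¹ * a * x ∈ G := G.mul_mem (G.mul_mem (G.inv_mem hbG) haG) hx
      exact G.mul_mem (G.mul_mem h3 hcG) (G.inv_mem h3)
    · have e1 : b⁻¹ * a * x * c * (b⁻¹ * a * x)⁻¹ * v₀ =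
        b⁻¹ * a * ((x * c * x⁻¹) * (a⁻¹ * (b * v₀ * b⁻¹) * a)) * a⁻¹ * b := by group
      have e2 : v₀ * (b⁻¹ * a * x * c * (b⁻¹ * a * x)⁻¹) =
        b⁻¹ * a * ((a⁻¹ * (b * v₀ * b⁻¹) * a) * (x * c * x⁻¹)) * a⁻¹ * b := by group
      rw [e1, e2, h2]
  have hm := S.mem_of_cj_le (G.mul_mem (G.mul_mem (G.inv_mem hbG) haG) hx) h1
  refine ⟨a, ha, fun v hv => ⟨a⁻¹ * (b * v * b⁻¹) * a, ?_, by group⟩⟩
  have h2 := S.inv_U (M.inv_mem hm) hv
  rw [S.hUx hx, mem_cj]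
  have e : x⁻¹ * (a⁻¹ * (b * v * b⁻¹) * a) * x = (b⁻¹ * a * x)⁻¹ * v * (b⁻¹ * a * x)⁻¹⁻¹ := by group
  rw [e]; exact h2

/-- the other side -/
theorem part' (S : Stage p G Q V T M A) [Finite Γ] {x : Γ} (hx : x ∈ G) (hxM : x ∉ M) {a : Γ}
    (ha : a ∈ A) (hac : a ∉ Subgroup.centralizer (V : Set Γ)) :
    ∃ b ∈ cj x A, ∀ u ∈ V ⊓ Subgroup.centralizer (cj x A : Set Γ),
      ∃ v ∈ V ⊓ Subgroup.centralizer (A : Set Γ), a * u * a⁻¹ = b * v * b⁻¹ := by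
  have hxiM : x⁻¹ ∉ cj x M := by
    rw [mem_cj]
    intro h
    apply hxM
    have := M.inv_mem h
    simpa using this
  have := (S.conj hx).part (G.inv_mem hx) hxiM (b := a) (by rw [cj_inv_cj]; exact ha) hac
  rw [cj_inv_cj] at this
  exact this

/-- action on `V` -/
def actV (S : Stage p G Q V T M A) : G →* MulAut V where
  toFun g :=
    { toFun := fun v => ⟨g * v * (g : Γ)⁻¹, S.conj_mem_V g.2 v.2⟩
      invFun := fun v => ⟨(g : Γ)⁻¹ * v * g, by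
        have := S.conj_mem_V (G.inv_mem g.2) v.2
        simpa using this⟩
      left_inv := fun v => by apply Subtype.ext; simp [mul_assoc]
      right_inv := fun v => by apply Subtype.ext; simp [mul_assoc]
      map_mul' := fun v w => by apply Subtype.ext; simp [mul_assoc] }
  map_one' := by ext v; simp
  map_mul' g h := by ext v; simp [mul_assoc]

theorem actV_coe (S : Stage p G Q V T M A) (g : G) (v : V) :
    ((S.actV g v : V) : Γ) = g * v * (g : Γ)⁻¹ := rfl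

/-- `V₀` inside `V` -/
abbrev Z0 (G V : Subgroup Γ) : Subgroup V := (V ⊓ Subgroup.centralizer (G : Set Γ)).subgroupOf V

theorem mem_Z0 {v : V} : v ∈ Z0 G V ↔ (v : Γ) ∈ Subgroup.centralizer (G : Set Γ) := by
  rw [Subgroup.mem_subgroupOf]
  exact ⟨fun h => h.2, fun h => ⟨v.2, h⟩⟩

theorem normal_Z0 (S : Stage p G Q V T M A) : (Z0 G V).Normal := by
  refine ⟨fun z hz y => ?_⟩
  have : y * z * y⁻¹ = z := by
    apply Subtype.ext
    show (y : Γ) * z * (y : Γ)⁻¹ = z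
    rw [S.hVab y.2 z.2, mul_inv_cancel_right]
  rw [this]; exact hz

theorem actV_map (S : Stage p G Q V T M A) (g : G) :
    (Z0 G V).map ((S.actV g : V ≃* V) : V →* V) = Z0 G V := by
  have h1 : ∀ z ∈ Z0 G V, S.actV g z = z := by
    intro z hz
    apply Subtype.ext
    rw [actV_coe, mem_cent.mp (mem_Z0.mp hz) g g.2, mul_inv_cancel_right]
  ext z
  constructor
  · rintro ⟨w, hw, rfl⟩
    show S.actV g w ∈ _
    rw [h1 w hw]; exact hw
  · intro hz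
    exact ⟨z, hz, h1 z hz⟩

/-- action on the quotient -/
def actQ (S : Stage p G Q V T M A) [(Z0 G V).Normal] : G →* MulAut (V ⧸ Z0 G V) where
  toFun g := QuotientGroup.congr (Z0 G V) (Z0 G V) (S.actV g) (S.actV_map g)
  map_one' := by
    ext y
    obtain ⟨v, rfl⟩ := QuotientGroup.mk_surjective y
    show ((S.actV 1 v : V) : V ⧸ Z0 G V) = _
    rw [map_one]; rfl
  map_mul' g h := by
    ext y
    obtain ⟨v, rfl⟩ := QuotientGroup.mk_surjective y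
    show ((S.actV (g * h) v : V) : V ⧸ Z0 G V) = _
    rw [map_mul]; rfl

theorem actQ_mk (S : Stage p G Q V T M A) [(Z0 G V).Normal] (g : G) (v : V) :
    S.actQ g (v : V ⧸ Z0 G V) = ((S.actV g v : V) : V ⧸ Z0 G V) := rfl

theorem mk_eq_iff [(Z0 G V).Normal] {v w : V} :
    ((v : V ⧸ Z0 G V) = (w : V ⧸ Z0 G V)) ↔ (v : Γ)⁻¹ * (w : Γ) ∈ Subgroup.centralizer (G : Set Γ) := by
  rw [QuotientGroup.eq, mem_Z0]; rfl

/-- the image of a subgroup of `V` in the quotient -/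
abbrev imQ [(Z0 G V).Normal] (U : Subgroup Γ) : Subgroup (V ⧸ Z0 G V) :=
  (U.subgroupOf V).map (QuotientGroup.mk' (Z0 G V))

theorem mem_imQ [(Z0 G V).Normal] {U : Subgroup Γ} (hU : V ⊓ Subgroup.centralizer (G : Set Γ) ≤ U) {v : V} :
    (v : V ⧸ Z0 G V) ∈ imQ (G := G) (V := V) U ↔ (v : Γ) ∈ U := by
  constructor
  · rintro ⟨w, hw, he⟩
    have h1 : ((w : V ⧸ Z0 G V) = (v : V ⧸ Z0 G V)) := he
    rw [mk_eq_iff] at h1
    have h2 : (w : Γ)⁻¹ * (v : Γ) ∈ U := hU ⟨V.mul_mem (V.inv_mem w.2) v.2, h1⟩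
    have h3 : (w : Γ) ∈ U := hw
    have := U.mul_mem h3 h2
    simpa using this
  · intro h
    exact ⟨v, h, rfl⟩

/-- main output of the stage -/
theorem exists_h (S : Stage p G Q V T M A) [Finite Γ] [hp : Fact p.Prime] :
    ∃ h ∈ G, (∀ u ∈ V ⊓ Subgroup.centralizer (A : Set Γ), h * u * h⁻¹ ∈ V ⊓ Subgroup.centralizer (A : Set Γ)) ∧
      ∀ w ∈ V ⊓ Subgroup.centralizer (A : Set Γ), ∀ w' ∈ V ⊓ Subgroup.centralizer (A : Set Γ),
      w ∉ Subgroup.centralizer (G : Set Γ) → w' ∉ Subgroup.centralizer (G : Set Γ) →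
      ∃ n : ℕ, (h ^ n * w * (h ^ n)⁻¹)⁻¹ * w' ∈ Subgroup.centralizer (G : Set Γ) := by
  obtain ⟨x, hx, hxM⟩ := S.exists_not_mem
  have hxiM : x⁻¹ ∉ cj x M := by
    rw [mem_cj]
    intro h
    apply hxM
    have := M.inv_mem h
    simpa using this
  have hxi := G.inv_mem hx
  have Sx := S.conj hx
  haveI : (Z0 G V).Normal := S.normal_Z0
  have hZ0 := S.V0_le
  have hZ0' := S.V0_le' hx
  obtain ⟨u0, hu0, hu0c⟩ := Sx.exists_not_cent
  obtain ⟨v0, hv0, hv0c⟩ := S.exists_not_cent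
  -- the images of A and B
  obtain ⟨A', hA'⟩ : ∃ A' : Subgroup (MulAut (V ⧸ Z0 G V)), A' = (A.subgroupOf G).map S.actQ := ⟨_, rfl⟩
  obtain ⟨B', hB'⟩ : ∃ B' : Subgroup (MulAut (V ⧸ Z0 G V)), B' = ((cj x A).subgroupOf G).map S.actQ := ⟨_, rfl⟩
  have hAmem : ∀ α ∈ A', ∃ a : G, (a : Γ) ∈ A ∧ α = S.actQ a := by
    rintro α hα
    rw [hA'] at hα
    obtain ⟨a, ha, rfl⟩ := hα
    exact ⟨a, ha, rfl⟩
  have hBmem : ∀ β ∈ B', ∃ b : G, (b : Γ) ∈ cj x A ∧ β = S.actQ b := by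
    rintro α hα
    rw [hB'] at hα
    obtain ⟨a, ha, rfl⟩ := hα
    exact ⟨a, ha, rfl⟩
  have hmemA : ∀ a : G, (a : Γ) ∈ A → S.actQ a ∈ A' := by
    intro a ha; rw [hA']; exact ⟨a, ha, rfl⟩
  have hmemB : ∀ b : G, (b : Γ) ∈ cj x A → S.actQ b ∈ B' := by
    intro a ha; rw [hB']; exact ⟨a, ha, rfl⟩
  have hcentQ : ∀ g : G, (g : Γ) ∈ Subgroup.centralizer (V : Set Γ) → S.actQ g = 1 := by
    intro g hg
    ext y
    obtain ⟨v, rfl⟩ := QuotientGroup.mk_surjective y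
    rw [actQ_mk]
    have : S.actV g v = v := by
      apply Subtype.ext
      rw [actV_coe, ← mem_cent.mp hg v v.2, mul_inv_cancel_right]
    rw [this]; rfl
  have hinjA : ∀ a : G, (a : Γ) ∈ A → (∀ y ∈ imQ (G := G) (V := V) (V ⊓ Subgroup.centralizer (cj x A : Set Γ)),
      S.actQ a y = y) → (a : Γ) ∈ Subgroup.centralizer (V : Set Γ) := by
    intro a ha h
    have h1 := h ((⟨u0, hu0.1⟩ : V) : V ⧸ Z0 G V) ((mem_imQ hZ0').mpr hu0)
    rw [actQ_mk] at h1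
    have h2 := mk_eq_iff.mp h1.symm
    have h3 : (u0 : Γ)⁻¹ * (a * u0 * (a : Γ)⁻¹) ∈ Subgroup.centralizer (G : Set Γ) := h2
    rw [S.hVab (V.inv_mem hu0.1) (S.conj_mem_V a.2 hu0.1)] at h3
    exact S.mem_cent_of_mem hx hxM ha (S.mem_of_comm hx hu0.1 hu0.2 hu0c a.2 h3)
  have hinjB : ∀ b : G, (b : Γ) ∈ cj x A → (∀ y ∈ imQ (G := G) (V := V) (V ⊓ Subgroup.centralizer (A : Set Γ)),
      S.actQ b y = y) → (b : Γ) ∈ Subgroup.centralizer (V : Set Γ) := by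
    intro a ha h
    have h1 := h ((⟨v0, hv0.1⟩ : V) : V ⧸ Z0 G V) ((mem_imQ hZ0).mpr hv0)
    rw [actQ_mk] at h1
    have h2 := mk_eq_iff.mp h1.symm
    have h3 : (v0 : Γ)⁻¹ * (a * v0 * (a : Γ)⁻¹) ∈ Subgroup.centralizer (G : Set Γ) := h2
    rw [S.hVab (V.inv_mem hv0.1) (S.conj_mem_V a.2 hv0.1)] at h3
    exact Sx.mem_cent_of_mem hxi hxiM ha (Sx.mem_of_comm hxi hv0.1 (by rw [cj_inv_cj]; exact hv0.2) hv0c a.2 h3)
  have key := swap_gen' (Y := V ⧸ Z0 G V) (p := p) (by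
      intro a b
      obtain ⟨v, rfl⟩ := QuotientGroup.mk_surjective a
      obtain ⟨w, rfl⟩ := QuotientGroup.mk_surjective b
      rw [← QuotientGroup.mk_mul, ← QuotientGroup.mk_mul]
      congr 1
      exact Subtype.ext (S.hVab v.2 w.2))
    (imQ (V ⊓ Subgroup.centralizer (A : Set Γ))) (imQ (V ⊓ Subgroup.centralizer (cj x A : Set Γ)))
    (by
      rw [eq_bot_iff]
      intro y hy
      obtain ⟨v, rfl⟩ := QuotientGroup.mk_surjective y
      have h1 := (mem_imQ hZ0).mp hy.1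
      have h2 := (mem_imQ hZ0').mp hy.2
      rw [Subgroup.mem_bot, QuotientGroup.eq_one_iff, mem_Z0]
      exact S.cent_of_two hx hxM v.2 h1.2 h2.2)
    (by
      -- exponent p
      intro y hy
      obtain ⟨v, rfl⟩ := QuotientGroup.mk_surjective y
      have h1 := (mem_imQ hZ0).mp hy
      -- an element u of U_x not in V₀ with u^p ∈ V₀
      obtain ⟨u, hu, huc, hup⟩ : ∃ u ∈ V ⊓ Subgroup.centralizer (cj x A : Set Γ),
          u ∉ Subgroup.centralizer (G : Set Γ) ∧ u ^ p ∈ Subgroup.centralizer (G : Set Γ) := by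
        obtain ⟨k, hk⟩ := S.hQp ⟨u0, S.hVQ hu0.1⟩
        have hk' : u0 ^ (p ^ k) = 1 := by simpa using congrArg Subtype.val hk
        have hex : ∃ k : ℕ, u0 ^ (p ^ k) ∈ Subgroup.centralizer (G : Set Γ) :=
          ⟨k, by rw [hk']; exact Subgroup.one_mem _⟩
        classical
        have hm := Nat.find_spec hex
        have hlt := fun n (h : n < Nat.find hex) => Nat.find_min hex h
        obtain ⟨m, hmm⟩ : ∃ m, m = Nat.find hex := ⟨_, rfl⟩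
        rw [← hmm] at hm hlt
        cases m with
        | zero => rw [pow_zero, pow_one] at hm; exact absurd hm hu0c
        | succ m =>
          refine ⟨u0 ^ (p ^ m), Subgroup.pow_mem _ hu0 _, hlt m (by omega), ?_⟩
          rw [← pow_mul, ← pow_succ]; exact hm
      obtain ⟨a, ha, z, hz, he⟩ := (S.count hx hxM hu huc).2 v h1
      rw [← QuotientGroup.mk_pow, QuotientGroup.eq_one_iff, mem_Z0]
      rw [Subgroup.coe_pow, he]
      have hcz : Commute (a * u * a⁻¹ * u⁻¹) z := S.hVab (S.comm_mem_V (S.hAG ha) hu.1) hz.1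
      rw [hcz.mul_pow]
      refine Subgroup.mul_mem _ ?_ (Subgroup.pow_mem _ hz.2 _)
      have hcu : Commute (a * u * a⁻¹) u⁻¹ := S.hVab (S.conj_mem_V (S.hAG ha) hu.1) (V.inv_mem hu.1)
      rw [hcu.mul_pow]
      have e1 : (a * u * a⁻¹) ^ p = a * u ^ p * a⁻¹ := by
        have : a * u * a⁻¹ = MulAut.conj a u := by simp
        rw [this, ← map_pow]; simp
      rw [e1, mem_cent.mp hup a (S.hAG ha), inv_pow]
      have : u ^ p * a * a⁻¹ * (u ^ p)⁻¹ = 1 := by group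
      rw [this]; exact Subgroup.one_mem _)
    A' B'
    (by
      intro α hα y hy
      obtain ⟨a, ha, rfl⟩ := hAmem α hα
      obtain ⟨v, rfl⟩ := QuotientGroup.mk_surjective y
      have h1 := (mem_imQ hZ0).mp hy
      rw [actQ_mk]
      congr 1
      apply Subtype.ext
      rw [actV_coe, mem_cent.mp h1.2 a ha, mul_inv_cancel_right])
    (by
      intro α hα y hy
      obtain ⟨a, ha, rfl⟩ := hAmem α hα
      obtain ⟨v, rfl⟩ := QuotientGroup.mk_surjective y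
      have h2 : (((S.actV a v * v⁻¹ : V)) : V ⧸ Z0 G V) ∈ imQ (G := G) (V := V) (V ⊓ Subgroup.centralizer (A : Set Γ)) :=
        (mem_imQ hZ0).mpr (S.comm_mem_U ha v.2)
      exact h2)
    (by
      intro β hβ y hy
      obtain ⟨b, hb, rfl⟩ := hBmem β hβ
      obtain ⟨v, rfl⟩ := QuotientGroup.mk_surjective y
      have h1 := (mem_imQ hZ0').mp hy
      rw [actQ_mk]
      congr 1
      apply Subtype.ext
      rw [actV_coe, mem_cent.mp h1.2 b hb, mul_inv_cancel_right])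
    (by
      intro β hβ y hy
      obtain ⟨b, hb, rfl⟩ := hBmem β hβ
      obtain ⟨v, rfl⟩ := QuotientGroup.mk_surjective y
      have h2 : (((S.actV b v * v⁻¹ : V)) : V ⧸ Z0 G V) ∈ imQ (G := G) (V := V) (V ⊓ Subgroup.centralizer (cj x A : Set Γ)) :=
        (mem_imQ hZ0').mpr (Sx.comm_mem_U hb v.2)
      exact h2)
    (by
      intro α hα h
      obtain ⟨a, ha, rfl⟩ := hAmem α hα
      exact hcentQ a (hinjA a ha h))
    (by
      intro β hβ h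
      obtain ⟨b, hb, rfl⟩ := hBmem β hβ
      exact hcentQ b (hinjB b hb h))
    (by
      intro α hα hα1
      obtain ⟨a, ha, rfl⟩ := hAmem α hα
      obtain ⟨b, hb, h⟩ := S.part' hx hxM ha (fun h => hα1 (hcentQ a h))
      refine ⟨_, hmemB ⟨b, S.hBG hx hb⟩ hb, ?_⟩
      intro y hy
      obtain ⟨v, rfl⟩ := QuotientGroup.mk_surjective y
      have h1 := (mem_imQ hZ0').mp hy
      obtain ⟨w, hw, he⟩ := h v h1
      refine ⟨((⟨w, hw.1⟩ : V) : V ⧸ Z0 G V), (mem_imQ hZ0).mpr hw, ?_⟩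
      rw [actQ_mk, actQ_mk]
      congr 1
      exact Subtype.ext he)
    (by
      intro β hβ hβ1
      obtain ⟨b, hb, rfl⟩ := hBmem β hβ
      obtain ⟨a, ha, h⟩ := S.part hx hxM hb (fun h => hβ1 (hcentQ b h))
      refine ⟨_, hmemA ⟨a, S.hAG ha⟩ ha, ?_⟩
      intro y hy
      obtain ⟨v, rfl⟩ := QuotientGroup.mk_surjective y
      have h1 := (mem_imQ hZ0).mp hy
      obtain ⟨w, hw, he⟩ := h v h1
      refine ⟨((⟨w, hw.1⟩ : V) : V ⧸ Z0 G V), (mem_imQ hZ0').mpr hw, ?_⟩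
      rw [actQ_mk, actQ_mk]
      congr 1
      exact Subtype.ext he)
    (by
      -- surjection A' → Ũ
      have hsur : ∀ y : imQ (G := G) (V := V) (V ⊓ Subgroup.centralizer (A : Set Γ)), ∃ α : A',
          ((α : MulAut (V ⧸ Z0 G V)) ((⟨u0, hu0.1⟩ : V) : V ⧸ Z0 G V)) * ((⟨u0, hu0.1⟩ : V) : V ⧸ Z0 G V)⁻¹ = y := by
        rintro ⟨y, hy⟩
        obtain ⟨v, rfl⟩ := QuotientGroup.mk_surjective y
        have h1 := (mem_imQ hZ0).mp hy
        obtain ⟨a, ha, z, hz, he⟩ := (S.count hx hxM hu0 hu0c).2 v h1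
        refine ⟨⟨S.actQ ⟨a, S.hAG ha⟩, hmemA _ ha⟩, ?_⟩
        show ((S.actV ⟨a, S.hAG ha⟩ ⟨u0, hu0.1⟩ * (⟨u0, hu0.1⟩ : V)⁻¹ : V) : V ⧸ Z0 G V) = (v : V ⧸ Z0 G V)
        rw [mk_eq_iff]
        show (a * u0 * a⁻¹ * u0⁻¹)⁻¹ * (v : Γ) ∈ _
        rw [he, inv_mul_cancel_left]
        exact hz.2
      choose F hF using hsur
      refine Nat.card_le_card_of_injective F ?_
      intro y y' hyy
      apply Subtype.ext
      rw [← hF y, ← hF y', hyy])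
  obtain ⟨h, hh, h1, h2⟩ := key
  -- lift h
  have hle : A' ⊔ B' ≤ S.actQ.range := by
    rw [sup_le_iff, hA', hB']
    constructor
    · rintro _ ⟨a, _, rfl⟩; exact ⟨a, rfl⟩
    · rintro _ ⟨a, _, rfl⟩; exact ⟨a, rfl⟩
  obtain ⟨g, rfl⟩ := hle hh
  refine ⟨g, g.2, ?_, ?_⟩
  · intro u hu
    have h3 := h1 ((⟨u, hu.1⟩ : V) : V ⧸ Z0 G V) ((mem_imQ hZ0).mpr hu)
    rw [actQ_mk] at h3
    exact (mem_imQ hZ0).mp h3
  · intro w hw w' hw' hwc hwc'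
    obtain ⟨n, hn⟩ := h2 ((⟨w, hw.1⟩ : V) : V ⧸ Z0 G V) ((mem_imQ hZ0).mpr hw)
      ((⟨w', hw'.1⟩ : V) : V ⧸ Z0 G V) ((mem_imQ hZ0).mpr hw')
      (by rw [Ne, QuotientGroup.eq_one_iff, mem_Z0]; exact hwc)
      (by rw [Ne, QuotientGroup.eq_one_iff, mem_Z0]; exact hwc')
    refine ⟨n, ?_⟩
    rw [← map_pow, actQ_mk, mk_eq_iff] at hn
    exact hn

end Stage

end Cfsg.Agent.Fus.FT
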