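import Cfsg.Agent.Fus.FT8
import Cfsg.Agent.ZJ.Bridge

set_option autoImplicit false
set_option linter.style.haveILetI false
set_option linter.unusedSectionVars false
set_option linter.unusedVariables false

namespace Cfsg.Agent.Fus.FT

open Cfsg.Agent.H85 (cj mem_cj conj_mem_cj conj_mem_cj_iff cj_cj cj_one cj_inv_cj cj_cj_inv cj_mono cj_le_iff
  card_cj isPGroup_cj cj_inf cj_sup cj_normalizer cj_centralizer mem_normalizer_iff_cj SylIn)
open Cfsg.Agent.ZJ (maxIn)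
open scoped commutatorElement

variable {Γ : Type*} [Group Γ]

/-- conclusion of the group theorem -/
def Concl (p : ℕ) (H T : Subgroup Γ) : Prop :=
  ∃ x ∈ H, x ∈ Subgroup.normalizer (T : Set Γ) ∧ (∃ t ∈ T, x * t ≠ t * x) ∧
    (∃ n : ℕ, n.Coprime p ∧ ∀ t ∈ T, x ^ n * t = t * x ^ n) ∧
    ∃ D ≤ T, (∀ t ∈ T, x * t * x⁻¹ * t⁻¹ ∈ D) ∧
      ∀ a ∈ D, ∀ b ∈ D, a ≠ 1 → b ≠ 1 → ∃ k : ℕ, x ^ k * a * (x ^ k)⁻¹ = b

theorem conj_pow' (x a : Γ) (k : ℕ) : x ^ (k + 1) * a * (x ^ (k + 1))⁻¹ = x * (x ^ k * a * (x ^ k)⁻¹) * x⁻¹ := by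
  rw [pow_succ']; group

namespace Stage

variable {p : ℕ} {G Q V T M A : Subgroup Γ}

theorem final (S : Stage p G Q V T M A) [Finite Γ] [hp : Fact p.Prime] (hp2 : p ≠ 2) : Concl p G T := by
  obtain ⟨h, hhG, hU, htr⟩ := S.exists_h
  obtain ⟨t₀, ht₀, ht₀c⟩ := S.not_le_cent
  have ht₀U : t₀ ∈ V ⊓ Subgroup.centralizer (A : Set Γ) := ⟨S.hTV ht₀, S.hTA ht₀⟩
  -- h ∈ M
  have hhM : h ∈ M := by
    refine S.mem_of_cj_le hhG ?_
    rintro _ ⟨c, hc, rfl⟩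
    show h * c * h⁻¹ ∈ M
    have hy := hU t₀ ht₀U
    refine S.cent_le hy.1 hy.2 ?_ (G.mul_mem (G.mul_mem hhG (S.hAG hc)) (G.inv_mem hhG)) ?_
    · intro hcc
      apply ht₀c
      rw [mem_cent]
      intro g hg
      have h1 := mem_cent.mp hcc (h * g * h⁻¹) (G.mul_mem (G.mul_mem hhG hg) (G.inv_mem hhG))
      have h2 : h⁻¹ * (h * g * h⁻¹ * (h * t₀ * h⁻¹)) * h = h⁻¹ * (h * t₀ * h⁻¹ * (h * g * h⁻¹)) * h := by rw [h1]
      have e1 : h⁻¹ * (h * g * h⁻¹ * (h * t₀ * h⁻¹)) * h = g * t₀ := by group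
      have e2 : h⁻¹ * (h * t₀ * h⁻¹ * (h * g * h⁻¹)) * h = t₀ * g := by group
      rwa [e1, e2] at h2
    · have h1 := mem_cent.mp ht₀U.2 c hc
      have e1 : h * c * h⁻¹ * (h * t₀ * h⁻¹) = h * (c * t₀) * h⁻¹ := by group
      have e2 : h * t₀ * h⁻¹ * (h * c * h⁻¹) = h * (t₀ * c) * h⁻¹ := by group
      rw [e1, e2, h1]
  have hhN : h ∈ Subgroup.normalizer (T : Set Γ) := by
    have := hhM
    rw [S.hM] at this
    exact this.2
  have hconjT : ∀ t ∈ T, h * t * h⁻¹ ∈ T := fun t ht => (Subgroup.mem_normalizer_iff.mp hhN t).mp ht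
  have hconjTk : ∀ k : ℕ, ∀ t ∈ T, h ^ k * t * (h ^ k)⁻¹ ∈ T := by
    intro k
    induction k with
    | zero => intro t ht; simpa using ht
    | succ k ih => intro t ht; rw [conj_pow']; exact hconjT _ (ih t ht)
  -- n
  obtain ⟨n, hnp, hn⟩ : ∃ n : ℕ, n.Coprime p ∧ ∀ t ∈ T, h ^ n * t = t * h ^ n := by
    have hpos : orderOf h ≠ 0 := (orderOf_pos h).ne'
    obtain ⟨k, m, hm, he⟩ := Nat.exists_eq_pow_mul_and_not_dvd hpos p hp.out.ne_one
    refine ⟨m, ((Nat.Prime.coprime_iff_not_dvd hp.out).mpr hm).symm, ?_⟩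
    exact S.hAT _ (M.pow_mem hhM m) ⟨k, by rw [← pow_mul, mul_comm, ← he, pow_orderOf_eq_one]⟩
  have hTp : ∀ t ∈ T, ∃ k : ℕ, t ^ (p ^ k) = 1 := by
    intro t ht
    obtain ⟨k, hk⟩ := S.hQp ⟨t, S.hVQ (S.hTV ht)⟩
    exact ⟨k, by simpa using congrArg Subtype.val hk⟩
  -- D
  let D : Subgroup Γ :=
    { carrier := {d | ∃ t ∈ T, d = h * t * h⁻¹ * t⁻¹}
      one_mem' := ⟨1, T.one_mem, by group⟩
      mul_mem' := by
        rintro _ _ ⟨s, hs, rfl⟩ ⟨t, ht, rfl⟩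
        exact ⟨s * t, T.mul_mem hs ht, (S.comm_mul_left hhG (S.hTV hs) (S.hTV ht)).symm⟩
      inv_mem' := by
        rintro _ ⟨s, hs, rfl⟩
        refine ⟨s⁻¹, T.inv_mem hs, ?_⟩
        have h1 := S.comm_mul_left hhG (S.hTV hs) (S.hTV (T.inv_mem hs))
        have h2 : h * (s * s⁻¹) * h⁻¹ * (s * s⁻¹)⁻¹ = 1 := by group
        rw [h2] at h1
        exact (eq_inv_of_mul_eq_one_right h1.symm).symm }
  have hDT : D ≤ T := by
    rintro _ ⟨t, ht, rfl⟩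
    exact T.mul_mem (hconjT t ht) (T.inv_mem ht)
  have hDc : ∀ d ∈ D, d ∈ Subgroup.centralizer (G : Set Γ) → d = 1 := by
    rintro _ ⟨t, ht, rfl⟩ hc
    obtain ⟨d, hd⟩ : ∃ d, d = h * t * h⁻¹ * t⁻¹ := ⟨_, rfl⟩
    rw [← hd] at hc ⊢
    have h1 : h * d = d * h := mem_cent.mp hc h hhG
    have h2 : ∀ m : ℕ, h ^ m * t * (h ^ m)⁻¹ = d ^ m * t := by
      intro m
      induction m with
      | zero => simp
      | succ m ih =>
        rw [conj_pow', ih]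
        have h3 : h * d ^ m = d ^ m * h := (Commute.pow_right h1 m)
        have h4 : h * t * h⁻¹ = d * t := by rw [hd]; group
        calc h * (d ^ m * t) * h⁻¹ = (h * d ^ m) * t * h⁻¹ := by group
          _ = d ^ m * (h * t * h⁻¹) := by rw [h3]; group
          _ = d ^ (m + 1) * t := by rw [h4, pow_succ]; group
    have h5 := h2 n
    rw [hn t ht, mul_inv_cancel_right] at h5
    have h6 : d ^ n = 1 := by
      have : d ^ n * t = 1 * t := by rw [← h5, one_mul]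
      exact mul_right_cancel this
    obtain ⟨k, hk⟩ := hTp d (by rw [hd]; exact T.mul_mem (hconjT t ht) (T.inv_mem ht))
    have h7 : orderOf d ∣ 1 := by
      have := Nat.dvd_gcd (orderOf_dvd_of_pow_eq_one h6) (orderOf_dvd_of_pow_eq_one hk)
      rwa [Nat.Coprime.pow_right k hnp] at this
    rw [← orderOf_eq_one_iff]
    exact Nat.dvd_one.mp h7
  have hTU : ∀ t ∈ T, t ∈ V ⊓ Subgroup.centralizer (A : Set Γ) := fun t ht => ⟨S.hTV ht, S.hTA ht⟩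
  have hDh : ∀ k : ℕ, ∀ d ∈ D, h ^ k * d * (h ^ k)⁻¹ ∈ D := by
    intro k d hd
    obtain ⟨t, ht, rfl⟩ := hd
    refine ⟨h ^ k * t * (h ^ k)⁻¹, hconjTk k t ht, ?_⟩
    have hc : h * h ^ k = h ^ k * h := by rw [← pow_succ, ← pow_succ']
    calc h ^ k * (h * t * h⁻¹ * t⁻¹) * (h ^ k)⁻¹ = (h ^ k * h) * t * (h ^ k * h)⁻¹ * (h ^ k * t * (h ^ k)⁻¹)⁻¹ := by group
      _ = (h * h ^ k) * t * (h * h ^ k)⁻¹ * (h ^ k * t * (h ^ k)⁻¹)⁻¹ := by rw [hc]
      _ = _ := by group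
  refine ⟨h, hhG, hhN, ?_, ⟨n, hnp, hn⟩, D, hDT, fun t ht => ⟨t, ht, rfl⟩, ?_⟩
  · -- moves something
    by_contra hcon
    push Not at hcon
    have h2c : t₀ ^ 2 ∉ Subgroup.centralizer (G : Set Γ) := by
      intro h2
      apply ht₀c
      obtain ⟨k, hk⟩ := hTp t₀ ht₀
      have hodd : Odd (p ^ k) := (hp.out.odd_of_ne_two hp2).pow
      obtain ⟨m, hm⟩ := hodd
      have : t₀ = (t₀ ^ 2) ^ (m + 1) := by
        rw [← pow_mul, show 2 * (m + 1) = p ^ k + 1 by omega, pow_succ, hk, one_mul]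
      rw [this]; exact Subgroup.pow_mem _ h2 _
    obtain ⟨m, hm⟩ := htr t₀ ht₀U (t₀ ^ 2) (Subgroup.pow_mem _ ht₀U 2) ht₀c h2c
    have h1 : h ^ m * t₀ * (h ^ m)⁻¹ = t₀ := by
      have : h ^ m * t₀ = t₀ * h ^ m := (Commute.pow_left (hcon t₀ ht₀) m)
      rw [this, mul_inv_cancel_right]
    rw [h1, pow_two, inv_mul_cancel_left] at hm
    exact ht₀c hm
  · intro a ha b hb ha1 hb1
    obtain ⟨k, hk⟩ := htr a (hTU a (hDT ha)) b (hTU b (hDT hb)) (fun h => ha1 (hDc a ha h)) (fun h => hb1 (hDc b hb h))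
    refine ⟨k, ?_⟩
    have h1 := hDc _ (D.mul_mem (D.inv_mem (hDh k a ha)) hb) hk
    exact (inv_mul_eq_one.mp h1)

end Stage

section Thompson

open Cfsg

theorem comm_iff {A : Subgroup Γ} : IsMulCommutative A ↔ ∀ a ∈ A, ∀ b ∈ A, a * b = b * a := by
  constructor
  · intro h a ha b hb
    exact congrArg Subtype.val (h.1.1 ⟨a, ha⟩ ⟨b, hb⟩)
  · intro h
    exact ⟨⟨fun a b => Subtype.ext (h a a.2 b b.2)⟩⟩

theorem comm_cj {A : Subgroup Γ} (h : IsMulCommutative A) (g : Γ) : IsMulCommutative (cj g A) := by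
  rw [comm_iff] at h ⊢
  rintro _ ⟨a, ha, rfl⟩ _ ⟨b, hb, rfl⟩
  rw [← map_mul, ← map_mul, h a ha b hb]

/-- maximal abelian subgroups (by order) -/
abbrev mA (P : Subgroup Γ) : Set (Subgroup Γ) := maxIn (fun A : Subgroup Γ => IsMulCommutative A) P

theorem mA_cj {P A : Subgroup Γ} (h : A ∈ mA P) (g : Γ) : cj g A ∈ mA (cj g P) := by
  refine ⟨cj_mono h.1, comm_cj h.2.1 g, fun B hB hBc => ?_⟩
  rw [card_cj]
  have := h.2.2 (cj g⁻¹ B) (by rw [cj_le_iff, inv_inv]; exact hB) (comm_cj hBc _)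
  rwa [card_cj] at this

theorem J_cj (P : Subgroup Γ) (g : Γ) : thompsonSubgroupAOf (cj g P) = cj g (thompsonSubgroupAOf P) := by
  have key : ∀ (P : Subgroup Γ) (g : Γ), cj g (thompsonSubgroupAOf P) ≤ thompsonSubgroupAOf (cj g P) := by
    intro P g
    rw [cj_le_iff, ZJ.thompsonSubgroupAOf_eq, ZJ.thompsonSubgroupAOf_eq]
    apply sSup_le
    intro A hA
    rw [← inv_inv g, ← cj_le_iff, inv_inv]
    exact le_sSup (mA_cj hA g)
  apply le_antisymm _ (key P g)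
  have h1 := key (cj g P) g⁻¹
  rw [cj_inv_cj] at h1
  have h2 := cj_mono (g := g) h1
  rwa [cj_cj_inv] at h2

theorem normalizer_le_J (P : Subgroup Γ) :
    Subgroup.normalizer (P : Set Γ) ≤ Subgroup.normalizer (thompsonSubgroupAOf P : Set Γ) := by
  intro g hg
  rw [mem_normalizer_iff_cj, ← J_cj, mem_normalizer_iff_cj.mp hg]

theorem J_le (P : Subgroup Γ) : thompsonSubgroupAOf P ≤ P := by
  rw [ZJ.thompsonSubgroupAOf_eq]
  exact sSup_le (fun A hA => hA.1)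

theorem le_J {P A : Subgroup Γ} (hA : A ∈ mA P) : A ≤ thompsonSubgroupAOf P := by
  rw [ZJ.thompsonSubgroupAOf_eq]
  exact le_sSup hA

theorem J_eq_of_all {P C : Subgroup Γ} [Finite Γ] (h : ∀ A ∈ mA P, A ≤ C) :
    thompsonSubgroupAOf (P ⊓ C) = thompsonSubgroupAOf P := by
  obtain ⟨A₀, hA₀⟩ := ZJ.maxIn_nonempty (fun A : Subgroup Γ => IsMulCommutative A) (by infer_instance) P
  rw [ZJ.thompsonSubgroupAOf_eq, ZJ.thompsonSubgroupAOf_eq,
    ZJ.maxIn_eq_of_mem (inf_le_left : P ⊓ C ≤ P) hA₀ (le_inf hA₀.1 (h A₀ hA₀))]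
  congr 1
  ext X
  exact ⟨fun hX => hX.1, fun hX => ⟨hX, le_inf hX.1 (h X hX)⟩⟩

/-- nilpotent action -/
theorem eq_bot_of_le_comm {P X : Subgroup Γ} {p : ℕ} [Fact p.Prime] [Finite Γ] (hP : IsPGroup p P)
    (hXP : X ≤ P) (hX : X ≤ Subgroup.closure {y | ∃ a ∈ P, ∃ x ∈ X, y = a * x * a⁻¹ * x⁻¹}) : X = ⊥ := by
  haveI : Group.IsNilpotent P := hP.isNilpotent
  have h1 : ∀ n : ℕ, X ≤ P.lowerCentralSeries n := by
    intro n
    induction n with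
    | zero => exact hXP
    | succ n ih =>
      refine hX.trans ?_
      rw [Subgroup.closure_le]
      rintro _ ⟨a, ha, x, hx, rfl⟩
      have h2 : ⁅a, x⁆ ∈ P.lowerCentralSeries (n + 1) := by
        rw [Subgroup.lowerCentralSeries_succ, Subgroup.commutator_comm]
        exact Subgroup.commutator_mem_commutator ha (ih hx)
      rw [commutatorElement_def] at h2
      exact h2
  obtain ⟨n, hn⟩ := (Subgroup.isNilpotent_iff_lowerCentralSeries P).mp ‹Group.IsNilpotent P›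
  have h2 := h1 n
  rw [hn] at h2
  exact le_bot_iff.mp h2

theorem card_le_of_le' [Finite Γ] {X Y : Subgroup Γ} (h : X ≤ Y) : Nat.card X ≤ Nat.card Y :=
  Nat.card_le_card_of_injective _ (Subgroup.inclusion_injective h)

theorem comm_sup' {B W : Subgroup Γ} (hB : ∀ a ∈ B, ∀ b ∈ B, a * b = b * a)
    (hW : ∀ a ∈ W, ∀ b ∈ W, a * b = b * a) (h : ∀ a ∈ B, ∀ b ∈ W, a * b = b * a) :
    IsMulCommutative ↥(B ⊔ W) := by
  rw [comm_iff]
  have hmem : ∀ x, x ∈ B ⊔ W ↔ ∃ n ∈ B, ∃ a ∈ W, n * a = x := by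
    intro x
    apply H85.mem_sup_iff_of_normalizes
    intro y hy
    apply H85.centralizer_le_normalizer'
    rw [mem_cent]
    intro z hz
    exact h z hz y hy
  intro a ha b hb
  obtain ⟨b1, hb1, w1, hw1, rfl⟩ := (hmem a).mp ha
  obtain ⟨b2, hb2, w2, hw2, rfl⟩ := (hmem b).mp hb
  have e1 : b1 * w1 * (b2 * w2) = b1 * (w1 * b2) * w2 := by group
  have e2 : b2 * w2 * (b1 * w1) = b2 * (w2 * b1) * w1 := by group
  rw [e1, e2, ← h b2 hb2 w1 hw1, ← h b1 hb1 w2 hw2]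
  calc b1 * (b2 * w1) * w2 = (b1 * b2) * (w1 * w2) := by group
    _ = (b2 * b1) * (w2 * w1) := by rw [hB b1 hb1 b2 hb2, hW w1 hw1 w2 hw2]
    _ = b2 * (b1 * w2) * w1 := by group

section TR

variable [Finite Γ] {P V A : Subgroup Γ}

theorem tr_card (hA : A ∈ mA P) (hVP : V ≤ P) (hVab : ∀ v ∈ V, ∀ w ∈ V, v * w = w * v)
    {B : Subgroup Γ} (hB : B ≤ A) :
    Nat.card ↥(B ⊔ (V ⊓ Subgroup.centralizer (B : Set Γ))) ≤ Nat.card A ∧
    IsMulCommutative ↥(B ⊔ (V ⊓ Subgroup.centralizer (B : Set Γ))) ∧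
    B ⊔ (V ⊓ Subgroup.centralizer (B : Set Γ)) ≤ P ∧
    Nat.card ↥(B ⊔ (V ⊓ Subgroup.centralizer (B : Set Γ))) *
      Nat.card ↥(B ⊓ (V ⊓ Subgroup.centralizer (B : Set Γ))) =
      Nat.card B * Nat.card ↥(V ⊓ Subgroup.centralizer (B : Set Γ)) ∧
    Nat.card ↥(B ⊓ (V ⊓ Subgroup.centralizer (B : Set Γ))) ≤ Nat.card ↥(V ⊓ Subgroup.centralizer (A : Set Γ)) := by
  have hAc := comm_iff.mp hA.2.1
  have h1 : IsMulCommutative ↥(B ⊔ (V ⊓ Subgroup.centralizer (B : Set Γ))) :=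
    comm_sup' (fun a ha b hb => hAc a (hB ha) b (hB hb)) (fun a ha b hb => hVab a ha.1 b hb.1)
      (fun a ha b hb => mem_cent.mp hb.2 a ha)
  have h2 : B ⊔ (V ⊓ Subgroup.centralizer (B : Set Γ)) ≤ P :=
    sup_le (hB.trans hA.1) (inf_le_left.trans hVP)
  refine ⟨hA.2.2 _ h2 h1, h1, h2, card_sup_comm (fun a ha b hb => mem_cent.mp hb.2 a ha), ?_⟩
  apply card_le_of_le'
  rintro x ⟨h3, h4⟩
  exact ⟨h4.1, mem_cent.mpr (fun a ha => hAc a ha x (hB h3))⟩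

theorem tr_le (hA : A ∈ mA P) (hVP : V ≤ P) (hVab : ∀ v ∈ V, ∀ w ∈ V, v * w = w * v)
    {B : Subgroup Γ} (hB : B ≤ A) :
    Nat.card B * Nat.card ↥(V ⊓ Subgroup.centralizer (B : Set Γ)) ≤
      Nat.card A * Nat.card ↥(V ⊓ Subgroup.centralizer (A : Set Γ)) := by
  obtain ⟨h1, -, -, h2, h3⟩ := tr_card hA hVP hVab hB
  rw [← h2]; exact Nat.mul_le_mul h1 h3

/-- strictness for a minimal `A` -/
theorem tr_lt (hA : A ∈ mA P) (hVP : V ≤ P) (hVab : ∀ v ∈ V, ∀ w ∈ V, v * w = w * v)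
    (hmin : ∀ A' ∈ mA P, ¬ A' ≤ Subgroup.centralizer (V : Set Γ) →
      Nat.card ↥(A' ⊓ Subgroup.centralizer (V : Set Γ)) ≤ Nat.card ↥(A ⊓ Subgroup.centralizer (V : Set Γ)))
    {B : Subgroup Γ} (hB : B ≤ A) (hBA : B ≠ A) (hCB : A ⊓ Subgroup.centralizer (V : Set Γ) ≤ B)
    (hBne : B ≠ A ⊓ Subgroup.centralizer (V : Set Γ)) :
    Nat.card B * Nat.card ↥(V ⊓ Subgroup.centralizer (B : Set Γ)) <
      Nat.card A * Nat.card ↥(V ⊓ Subgroup.centralizer (A : Set Γ)) := by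
  obtain ⟨h1, hc, hP, h2, h3⟩ := tr_card hA hVP hVab hB
  have hBC : ¬ B ≤ Subgroup.centralizer (V : Set Γ) := by
    intro h
    apply hBne
    exact le_antisymm (le_inf hB h) hCB
  by_contra hlt
  push Not at hlt
  obtain ⟨E, hE⟩ : ∃ E, E = B ⊔ (V ⊓ Subgroup.centralizer (B : Set Γ)) := ⟨_, rfl⟩
  rw [← hE] at h1 h2 hc hP
  have hApos : 0 < Nat.card A := Nat.card_pos
  have hBpos : 0 < Nat.card B := Nat.card_pos
  have hUpos : 0 < Nat.card ↥(V ⊓ Subgroup.centralizer (A : Set Γ)) := Nat.card_pos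
  -- |E| = |A|
  have h4 : Nat.card E = Nat.card A := by
    apply le_antisymm h1
    by_contra hlt'
    push Not at hlt'
    have : Nat.card E * Nat.card ↥(B ⊓ (V ⊓ Subgroup.centralizer (B : Set Γ))) <
        Nat.card A * Nat.card ↥(V ⊓ Subgroup.centralizer (A : Set Γ)) := by
      calc _ ≤ Nat.card E * Nat.card ↥(V ⊓ Subgroup.centralizer (A : Set Γ)) := Nat.mul_le_mul_left _ h3
        _ < _ := Nat.mul_lt_mul_of_pos_right hlt' hUpos
    rw [h2] at this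
    omega
  have hEm : E ∈ mA P := ⟨hP, hc, fun C hC hCc => by rw [h4]; exact hA.2.2 C hC hCc⟩
  have hBE : B ≤ E := by rw [hE]; exact le_sup_left
  have hWE : V ⊓ Subgroup.centralizer (B : Set Γ) ≤ E := by rw [hE]; exact le_sup_right
  have h5 := hmin E hEm (fun h => hBC (hBE.trans h))
  -- |C_A(V) ⊔ C_V(B)|
  have h6 : (A ⊓ Subgroup.centralizer (V : Set Γ)) ⊔ (V ⊓ Subgroup.centralizer (B : Set Γ)) ≤
      E ⊓ Subgroup.centralizer (V : Set Γ) := by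
    apply sup_le
    · exact le_inf (hCB.trans hBE) inf_le_right
    · refine le_inf hWE ?_
      intro w hw
      rw [mem_cent]
      intro v hv
      exact hVab v hv w hw.1
  have h7 := card_le_of_le' h6
  have h8 := card_sup_comm (X := A ⊓ Subgroup.centralizer (V : Set Γ)) (Y := V ⊓ Subgroup.centralizer (B : Set Γ))
    (fun x hx y hy => (mem_cent.mp hx.2 y hy.1).symm)
  have h9 : Nat.card ↥((A ⊓ Subgroup.centralizer (V : Set Γ)) ⊓ (V ⊓ Subgroup.centralizer (B : Set Γ))) ≤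
      Nat.card ↥(V ⊓ Subgroup.centralizer (A : Set Γ)) := by
    apply card_le_of_le'
    rintro x ⟨hx1, hx2⟩
    exact ⟨hx2.1, mem_cent.mpr (fun a ha => comm_iff.mp hA.2.1 a ha x hx1.1)⟩
  -- |C_V(B)| > |C_V(A)|
  have hBA' : Nat.card B < Nat.card A := by
    by_contra hge
    push Not at hge
    exact hBA (Subgroup.eq_of_le_of_card_ge hB hge)
  have h10 : Nat.card ↥(V ⊓ Subgroup.centralizer (A : Set Γ)) < Nat.card ↥(V ⊓ Subgroup.centralizer (B : Set Γ)) := by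
    by_contra hge
    push Not at hge
    have : Nat.card B * Nat.card ↥(V ⊓ Subgroup.centralizer (B : Set Γ)) <
        Nat.card A * Nat.card ↥(V ⊓ Subgroup.centralizer (A : Set Γ)) := by
      calc _ ≤ Nat.card B * Nat.card ↥(V ⊓ Subgroup.centralizer (A : Set Γ)) := Nat.mul_le_mul_left _ hge
        _ < _ := Nat.mul_lt_mul_of_pos_right hBA' hUpos
    omega
  have hCpos : 0 < Nat.card ↥(A ⊓ Subgroup.centralizer (V : Set Γ)) := Nat.card_pos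
  have h11 : Nat.card ↥((A ⊓ Subgroup.centralizer (V : Set Γ)) ⊔ (V ⊓ Subgroup.centralizer (B : Set Γ))) ≤
      Nat.card ↥(A ⊓ Subgroup.centralizer (V : Set Γ)) := h7.trans h5
  have h12 : Nat.card ↥(A ⊓ Subgroup.centralizer (V : Set Γ)) * Nat.card ↥(V ⊓ Subgroup.centralizer (B : Set Γ)) ≤
      Nat.card ↥(A ⊓ Subgroup.centralizer (V : Set Γ)) * Nat.card ↥(V ⊓ Subgroup.centralizer (A : Set Γ)) := by
    rw [← h8]; exact Nat.mul_le_mul h11 h9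
  have h13 := Nat.le_of_mul_le_mul_left h12 hCpos
  omega

/-- quadratic action of a minimal `A` -/
theorem tr_quad {p : ℕ} [Fact p.Prime] (hPp : IsPGroup p P) (hA : A ∈ mA P) (hVP : V ≤ P)
    (hVab : ∀ v ∈ V, ∀ w ∈ V, v * w = w * v) (hVn : P ≤ Subgroup.normalizer (V : Set Γ))
    (hact : ¬ A ≤ Subgroup.centralizer (V : Set Γ))
    (hmin : ∀ A' ∈ mA P, ¬ A' ≤ Subgroup.centralizer (V : Set Γ) →
      Nat.card ↥(A' ⊓ Subgroup.centralizer (V : Set Γ)) ≤ Nat.card ↥(A ⊓ Subgroup.centralizer (V : Set Γ))) :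
    ∀ a ∈ A, ∀ v ∈ V, ∀ b ∈ A, (a * v * a⁻¹ * v⁻¹) * b = b * (a * v * a⁻¹ * v⁻¹) := by
  intro a₀ ha₀ v hv b₀ hb₀
  have hAc := comm_iff.mp hA.2.1
  have hconj : ∀ g ∈ A, ∀ w ∈ V, g * w * g⁻¹ ∈ V := fun g hg w hw =>
    (Subgroup.mem_normalizer_iff.mp (hVn (hA.1 hg)) w).mp hw
  obtain ⟨X, hX⟩ : ∃ X : Subgroup Γ, X = Subgroup.closure {y | ∃ a ∈ A, y = a * v * a⁻¹ * v⁻¹} := ⟨_, rfl⟩
  have hXV : X ≤ V := by
    rw [hX, Subgroup.closure_le]
    rintro _ ⟨a, ha, rfl⟩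
    exact V.mul_mem (hconj a ha v hv) (V.inv_mem hv)
  have hXm : ∀ a ∈ A, a * v * a⁻¹ * v⁻¹ ∈ X := by
    intro a ha; rw [hX]; exact Subgroup.subset_closure ⟨a, ha, rfl⟩
  obtain ⟨U, hU⟩ : ∃ U, U = V ⊓ Subgroup.centralizer (A : Set Γ) := ⟨_, rfl⟩
  obtain ⟨W, hW⟩ : ∃ W, W = X ⊔ U := ⟨_, rfl⟩
  obtain ⟨Y, hY⟩ : ∃ Y, Y = A ⊓ Subgroup.centralizer (X : Set Γ) := ⟨_, rfl⟩
  have hUV : U ≤ V := by rw [hU]; exact inf_le_left
  have hWV : W ≤ V := by rw [hW]; exact sup_le hXV hUV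
  have hUW : U ≤ W := by rw [hW]; exact le_sup_right
  have hXW : X ≤ W := by rw [hW]; exact le_sup_left
  -- counting |A| |U| ≤ |Y| |W|
  haveI hn : (U.subgroupOf W).Normal := by
    refine ⟨fun z hz y => ?_⟩
    have : y * z * y⁻¹ = z := by
      apply Subtype.ext
      show (y : Γ) * z * (y : Γ)⁻¹ = z
      rw [hVab y (hWV y.2) z (hWV z.2), mul_inv_cancel_right]
    rw [this]; exact hz
  let F : A → W ⧸ U.subgroupOf W := fun a => ((⟨a * v * (a : Γ)⁻¹ * v⁻¹, hXW (hXm a a.2)⟩ : W) : W ⧸ U.subgroupOf W)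
  have hF : ∀ a b : A, F a = F b → (a : Γ)⁻¹ * b ∈ Y := by
    intro a b hab
    have h1 : ((a : Γ) * v * (a : Γ)⁻¹ * v⁻¹)⁻¹ * ((b : Γ) * v * (b : Γ)⁻¹ * v⁻¹) ∈ U :=
      (QuotientGroup.eq (s := U.subgroupOf W) (a := ⟨a * v * (a : Γ)⁻¹ * v⁻¹, hXW (hXm a a.2)⟩)
        (b := ⟨b * v * (b : Γ)⁻¹ * v⁻¹, hXW (hXm b b.2)⟩)).mp hab
    -- so c = [b,v] [a,v]⁻¹ is centralized by A
    rw [hY]
    refine ⟨A.mul_mem (A.inv_mem a.2) b.2, ?_⟩
    have h2 : ∀ e ∈ A, ((a : Γ)⁻¹ * b) * (e * v * e⁻¹ * v⁻¹) = (e * v * e⁻¹ * v⁻¹) * ((a : Γ)⁻¹ * b) := by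
      intro e he
      rw [hU] at h1
      have h3 := mem_cent.mp h1.2 e he
      -- write c := [a,v]⁻¹ [b,v] , c commutes with e
      have hav : (a : Γ) * v * (a : Γ)⁻¹ ∈ V := hconj a a.2 v hv
      have hbv : (b : Γ) * v * (b : Γ)⁻¹ ∈ V := hconj b b.2 v hv
      have hc : ((a : Γ) * v * (a : Γ)⁻¹ * v⁻¹)⁻¹ * ((b : Γ) * v * (b : Γ)⁻¹ * v⁻¹) =
          ((a : Γ) * v * (a : Γ)⁻¹)⁻¹ * ((b : Γ) * v * (b : Γ)⁻¹) := by
        have e1 : ((a : Γ) * v * (a : Γ)⁻¹ * v⁻¹)⁻¹ * ((b : Γ) * v * (b : Γ)⁻¹ * v⁻¹) =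
          v * (((a : Γ) * v * (a : Γ)⁻¹)⁻¹ * ((b : Γ) * v * (b : Γ)⁻¹)) * v⁻¹ := by group
        rw [e1, hVab v hv _ (V.mul_mem (V.inv_mem hav) hbv), mul_inv_cancel_right]
      rw [hc] at h3
      -- conj by e : e (a v a⁻¹) e⁻¹ = a (e v e⁻¹) a⁻¹
      have hea : e * (a : Γ) = a * e := hAc e he a a.2
      have heb : e * (b : Γ) = b * e := hAc e he b b.2
      -- from h3 : e (a v a⁻¹)⁻¹ (b v b⁻¹) e⁻¹ = (a v a⁻¹)⁻¹ (b v b⁻¹)
      have h4 : ((a : Γ) * (e * v * e⁻¹) * (a : Γ)⁻¹)⁻¹ * ((b : Γ) * (e * v * e⁻¹) * (b : Γ)⁻¹) =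
          ((a : Γ) * v * (a : Γ)⁻¹)⁻¹ * ((b : Γ) * v * (b : Γ)⁻¹) := by
        have e1 : (a : Γ) * (e * v * e⁻¹) * (a : Γ)⁻¹ = e * ((a : Γ) * v * (a : Γ)⁻¹) * e⁻¹ := by
          calc (a : Γ) * (e * v * e⁻¹) * (a : Γ)⁻¹ = (a * e) * v * (a * e)⁻¹ := by group
            _ = (e * a) * v * (e * a)⁻¹ := by rw [hea]
            _ = _ := by group
        have e2 : (b : Γ) * (e * v * e⁻¹) * (b : Γ)⁻¹ = e * ((b : Γ) * v * (b : Γ)⁻¹) * e⁻¹ := by
          calc (b : Γ) * (e * v * e⁻¹) * (b : Γ)⁻¹ = (b * e) * v * (b * e)⁻¹ := by group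
            _ = (e * b) * v * (e * b)⁻¹ := by rw [heb]
            _ = _ := by group
        rw [e1, e2]
        calc (e * ((a : Γ) * v * (a : Γ)⁻¹) * e⁻¹)⁻¹ * (e * ((b : Γ) * v * (b : Γ)⁻¹) * e⁻¹)
            = (e * (((a : Γ) * v * (a : Γ)⁻¹)⁻¹ * ((b : Γ) * v * (b : Γ)⁻¹))) * e⁻¹ := by group
          _ = _ := by rw [h3, mul_inv_cancel_right]
      -- let x = e v e⁻¹ v⁻¹ ; then a x a⁻¹ = b x b⁻¹
      have hev : e * v * e⁻¹ ∈ V := hconj e he v hv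
      have h5 : (a : Γ) * (e * v * e⁻¹ * v⁻¹) * (a : Γ)⁻¹ = (b : Γ) * (e * v * e⁻¹ * v⁻¹) * (b : Γ)⁻¹ := by
        have haev : (a : Γ) * (e * v * e⁻¹) * (a : Γ)⁻¹ ∈ V := hconj a a.2 _ hev
        have hbev : (b : Γ) * (e * v * e⁻¹) * (b : Γ)⁻¹ ∈ V := hconj b b.2 _ hev
        obtain ⟨p1, hp1⟩ : ∃ p1, p1 = (a : Γ) * (e * v * e⁻¹) * (a : Γ)⁻¹ := ⟨_, rfl⟩
        obtain ⟨p2, hp2⟩ : ∃ p2, p2 = (b : Γ) * (e * v * e⁻¹) * (b : Γ)⁻¹ := ⟨_, rfl⟩
        obtain ⟨q1, hq1⟩ : ∃ q1, q1 = (a : Γ) * v * (a : Γ)⁻¹ := ⟨_, rfl⟩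
        obtain ⟨q2, hq2⟩ : ∃ q2, q2 = (b : Γ) * v * (b : Γ)⁻¹ := ⟨_, rfl⟩
        have e1 : (a : Γ) * (e * v * e⁻¹ * v⁻¹) * (a : Γ)⁻¹ = p1 * q1⁻¹ := by rw [hp1, hq1]; group
        have e2 : (b : Γ) * (e * v * e⁻¹ * v⁻¹) * (b : Γ)⁻¹ = p2 * q2⁻¹ := by rw [hp2, hq2]; group
        rw [← hp1, ← hp2, ← hq1, ← hq2] at h4
        rw [← hp1] at haev
        rw [← hp2] at hbev
        rw [← hq1] at hav
        rw [← hq2] at hbv
        rw [e1, e2]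
        -- p1⁻¹ p2 = q1⁻¹ q2
        have h6 : p2 = p1 * (q1⁻¹ * q2) := by rw [← h4]; group
        rw [h6]
        have h7 : q1⁻¹ * q2 * q2⁻¹ = q1⁻¹ := by group
        rw [mul_assoc, h7]
      calc ((a : Γ)⁻¹ * b) * (e * v * e⁻¹ * v⁻¹)
          = (a : Γ)⁻¹ * ((b : Γ) * (e * v * e⁻¹ * v⁻¹) * (b : Γ)⁻¹) * b := by group
        _ = (a : Γ)⁻¹ * ((a : Γ) * (e * v * e⁻¹ * v⁻¹) * (a : Γ)⁻¹) * b := by rw [h5]
        _ = _ := by group
    have h3 : X ≤ Subgroup.centralizer {(a : Γ)⁻¹ * b} := by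
      rw [hX, Subgroup.closure_le]
      rintro _ ⟨e, he, rfl⟩
      exact Subgroup.mem_centralizer_singleton_iff.mpr (h2 e he).symm
    apply mem_cent.mpr
    intro x hx
    exact Subgroup.mem_centralizer_singleton_iff.mp (h3 hx)
  have hcount : Nat.card A ≤ Nat.card (W ⧸ U.subgroupOf W) * Nat.card Y := by
    classical
    have hs : ∀ w : Set.range F, ∃ a : A, F a = w := fun w => w.2
    choose s hs using hs
    rw [← Nat.card_prod]
    refine Nat.card_le_card_of_injective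
      (fun a : A => (F a, (⟨((s ⟨F a, a, rfl⟩ : A) : Γ)⁻¹ * a, hF _ _ (hs ⟨F a, a, rfl⟩)⟩ : Y))) ?_
    intro a b hab
    have h1 : F a = F b := congrArg Prod.fst hab
    have h2 : ((s ⟨F a, a, rfl⟩ : A) : Γ)⁻¹ * a = ((s ⟨F b, b, rfl⟩ : A) : Γ)⁻¹ * b :=
      congrArg (fun x : (W ⧸ U.subgroupOf W) × Y => (x.2 : Γ)) hab
    have h3 : (⟨F a, a, rfl⟩ : Set.range F) = ⟨F b, b, rfl⟩ := Subtype.ext h1
    rw [h3] at h2
    exact Subtype.ext (mul_left_cancel h2)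
  have hWU : Nat.card (W ⧸ U.subgroupOf W) * Nat.card U = Nat.card W := by
    rw [← Nat.card_congr (Subgroup.subgroupOfEquivOfLe hUW).toEquiv]
    exact Subgroup.index_mul_card _
  have hAU : Nat.card A * Nat.card U ≤ Nat.card Y * Nat.card W := by
    calc Nat.card A * Nat.card U ≤ (Nat.card (W ⧸ U.subgroupOf W) * Nat.card Y) * Nat.card U :=
        Nat.mul_le_mul_right _ hcount
      _ = Nat.card Y * (Nat.card (W ⧸ U.subgroupOf W) * Nat.card U) := by ring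
      _ = _ := by rw [hWU]
  have hYA : Y ≤ A := by rw [hY]; exact inf_le_left
  have hWC : W ≤ V ⊓ Subgroup.centralizer (Y : Set Γ) := by
    refine le_inf hWV ?_
    rw [hW]
    apply sup_le
    · intro x hx
      rw [mem_cent]
      intro y hy
      rw [hY] at hy
      exact (mem_cent.mp hy.2 x hx).symm
    · rw [hU]
      exact inf_le_right.trans (Subgroup.centralizer_le hYA)
  have hCY : A ⊓ Subgroup.centralizer (V : Set Γ) ≤ Y := by
    rw [hY]; exact inf_le_inf_left _ (Subgroup.centralizer_le hXV)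
  have hYpos : 0 < Nat.card Y := Nat.card_pos
  have hge : Nat.card A * Nat.card U ≤ Nat.card Y * Nat.card ↥(V ⊓ Subgroup.centralizer (Y : Set Γ)) :=
    hAU.trans (Nat.mul_le_mul_left _ (card_le_of_le' hWC))
  have hYcases : Y = A ∨ Y = A ⊓ Subgroup.centralizer (V : Set Γ) := by
    by_contra hcon
    push Not at hcon
    have := tr_lt hA hVP hVab hmin hYA hcon.1 hCY hcon.2
    rw [hU] at hge
    omega
  rcases hYcases with h | h
  · have hb : b₀ ∈ Y := by rw [h]; exact hb₀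
    rw [hY] at hb
    exact mem_cent.mp hb.2 _ (hXm a₀ ha₀)
  · -- contradiction
    exfalso
    have h1 := tr_le hA hVP hVab (inf_le_left : A ⊓ Subgroup.centralizer (V : Set Γ) ≤ A)
    rw [← h, ← hU] at h1
    have h2 : V ⊓ Subgroup.centralizer (Y : Set Γ) = V := by
      apply inf_eq_left.mpr
      intro w hw
      rw [mem_cent]
      intro y hy
      rw [h] at hy
      exact (mem_cent.mp hy.2 w hw).symm
    rw [h2] at h1
    have h3 : Nat.card V ≤ Nat.card W := Nat.le_of_mul_le_mul_left (h1.trans hAU) hYpos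
    have h4 : W = V := Subgroup.eq_of_le_of_card_ge hWV h3
    -- X ≤ [X, A]
    have hmemW : ∀ w ∈ V, ∃ x ∈ X, ∃ u ∈ U, x * u = w := by
      intro w hw
      rw [← h4, hW] at hw
      have : w ∈ X ⊔ U ↔ ∃ n ∈ X, ∃ a ∈ U, n * a = w := by
        apply H85.mem_sup_iff_of_normalizes
        intro y hy
        apply H85.centralizer_le_normalizer'
        rw [mem_cent]
        intro z hz
        exact hVab z (hXV hz) y (hUV hy)
      exact this.mp hw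
    obtain ⟨x, hx, u, hu, hxu⟩ := hmemW v hv
    have h5 : ∀ a ∈ A, a * v * a⁻¹ * v⁻¹ = a * x * a⁻¹ * x⁻¹ := by
      intro a ha
      rw [hU] at hu
      have h6 : a * u = u * a := mem_cent.mp hu.2 a ha
      rw [← hxu]
      calc a * (x * u) * a⁻¹ * (x * u)⁻¹ = a * x * (u * a⁻¹) * u⁻¹ * x⁻¹ := by group
        _ = a * x * (a⁻¹ * u) * u⁻¹ * x⁻¹ := by
            have : u * a⁻¹ = a⁻¹ * u := by
              calc u * a⁻¹ = a⁻¹ * (a * u) * a⁻¹ := by group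
                _ = a⁻¹ * (u * a) * a⁻¹ := by rw [h6]
                _ = a⁻¹ * u := by group
            rw [this]
        _ = _ := by group
    have h6 : X = ⊥ := by
      refine eq_bot_of_le_comm hPp (hXV.trans hVP) ?_
      conv_lhs => rw [hX]
      rw [Subgroup.closure_le]
      rintro _ ⟨a, ha, rfl⟩
      exact Subgroup.subset_closure ⟨a, hA.1 ha, x, hx, h5 a ha⟩
    apply hact
    intro a ha
    rw [mem_cent]
    intro w hw
    obtain ⟨x', hx', u', hu', he⟩ := hmemW w hw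
    rw [h6, Subgroup.mem_bot] at hx'
    rw [hx', one_mul] at he
    rw [← he]
    rw [hU] at hu'
    exact (mem_cent.mp hu'.2 a ha).symm

end TR

end Thompson

end Cfsg.Agent.Fus.FT
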