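import Cfsg.Agent.Fus.FacHyper
set_option autoImplicit false

/-!
# The action of the hyperfocal subgroup on a strongly closed subgroup (helper35)

* `hyper_acts`: `hyp(F)` acts on a strongly closed `T` through `O^p(Aut_F(T)) Inn(T)`.
-/

namespace Cfsg.Agent.Fus

open Cfsg Cfsg.FusionSystem Cfsg.Agent.H85

variable {Ω : Type*} [Group Ω] {S T : Subgroup Ω} {F : FusionSystem S} {p : ℕ}

/-- the elements acting on `T` by conjugation as elements of `W` -/
def actsBy (T : Subgroup Ω) (W : Subgroup (MulAut T)) : Subgroup Ω where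
  carrier := {x | ∃ α ∈ W, ∀ t ∈ T, ofAut α t = x * t * x⁻¹}
  one_mem' := ⟨1, W.one_mem, fun t ht => by rw [ofAut_one ht]; group⟩
  mul_mem' := by
    rintro x y ⟨α, hα, h1⟩ ⟨β, hβ, h2⟩
    refine ⟨α * β, W.mul_mem hα hβ, fun t ht => ?_⟩
    rw [ofAut_mul _ _ ht, h1 _ (ofAut_mem β ht), h2 t ht]
    group
  inv_mem' := by
    rintro x ⟨α, hα, h1⟩
    refine ⟨α⁻¹, W.inv_mem hα, fun t ht => ?_⟩
    have h2 := h1 _ (ofAut_mem α⁻¹ ht)
    rw [ofAut_apply_inv α ht] at h2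
    have h3 : x⁻¹ * t * x⁻¹⁻¹ = x⁻¹ * (x * ofAut α⁻¹ t * x⁻¹) * x⁻¹⁻¹ := by rw [← h2]
    rw [h3]
    simp only [inv_inv, mul_assoc, inv_mul_cancel, mul_one, inv_mul_cancel_left]

theorem mem_actsBy {W : Subgroup (MulAut T)} {x : Ω} :
    x ∈ actsBy T W ↔ ∃ α ∈ W, ∀ t ∈ T, ofAut α t = x * t * x⁻¹ := Iff.rfl

theorem hyper_le_actsBy [Finite S] [hp : Fact p.Prime] (hS : IsPGroup p S) (hF : F.IsSaturated p)
    (hT : F.StronglyClosed T) :
    F.hyperfocalSubgroup p ≤ actsBy T ((pResidual p (F.autGroup T)).map (F.autGroup T).subtype ⊔ Inn T) := by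
  set W := (pResidual p (F.autGroup T)).map (F.autGroup T).subtype ⊔ Inn T with hW
  have hTfin := finite_of_le hT.1
  have hTle : T ≤ actsBy T W := by
    intro t ht
    refine ⟨conjAut t (Subgroup.le_normalizer ht), ?_, fun u hu => ofAut_conjAut _ _ hu⟩
    refine le_sup_right (a := (pResidual p (F.autGroup T)).map (F.autGroup T).subtype) ?_
    rw [inn_eq_autInducedBy]
    exact conjAut_mem ht _
  have hco : ∀ β ∈ F.autGroup T, (orderOf β).Coprime p → β ∈ W := by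
    intro β hβ hβo
    refine le_sup_left (b := Inn T) ⟨⟨β, hβ⟩, Subgroup.subset_closure ?_, rfl⟩
    show (orderOf (⟨β, hβ⟩ : F.autGroup T)).Coprime p
    rwa [Subgroup.orderOf_mk]
  refine hyper_le fun P hP α hα x hx => ?_
  have hfinP := finite_of_le hP
  have hfA := finite_mulAut (P := P)
  have hα1 := isMap_ofAut hP α.2
  obtain ⟨g, hg, hgf⟩ := exists_extend_stronglyClosed hS hF hT hα1
  set Q := P ⊔ T with hQ
  have hfinQ := finite_of_le hg.le
  have hfAQ := finite_mulAut (P := Q)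
  have himg : img Q g = Q := by
    refine hg.img_eq ?_
    refine hg.forall_sup_mem ?_ ?_
    · intro z hz
      have h1 := hgf z hz
      have h2 : g z = (g z * (ofAut (α : MulAut P) z)⁻¹) * ofAut (α : MulAut P) z := by group
      rw [h2]
      exact Q.mul_mem (le_sup_right (a := P) h1) (le_sup_left (a := P) (ofAut_mem (α : MulAut P) hz))
    · intro z hz
      exact le_sup_right (a := P) (sc_map_mem hT hg (le_sup_right (a := P) hz) hz)
  set γ₀ := hg.aut himg with hγ₀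
  have hγ₀F : γ₀ ∈ F.autGroup Q := hg.aut_mem himg
  have hTQ : T ≤ Q := le_sup_right
  have hPQ : P ≤ Q := le_sup_left
  have hscT : ∀ δ ∈ F.autGroup Q, ∀ t ∈ T, ofAut δ t ∈ T := fun δ hδ t ht =>
    sc_map_mem hT (isMap_ofAut hg.le hδ) (hTQ ht) ht
  have hmod : ∀ (n : ℕ), ∀ z ∈ P, ofAut (γ₀ ^ n) z * (ofAut ((α : MulAut P) ^ n) z)⁻¹ ∈ T := by
    intro n
    induction n with
    | zero =>
      intro z hz
      rw [pow_zero, pow_zero, ofAut_one hz, ofAut_one (hPQ hz), mul_inv_cancel]; exact T.one_mem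
    | succ n ih =>
      intro z hz
      have hz' : ofAut ((α : MulAut P) ^ n) z ∈ P := ofAut_mem _ hz
      have h1 := ih z hz
      have h2 := hscT _ hγ₀F _ h1
      have hmem1 : ofAut (γ₀ ^ n) z ∈ Q := ofAut_mem _ (hPQ hz)
      rw [(isMap_ofAut hg.le hγ₀F).map_mul hmem1 (Q.inv_mem (hPQ hz')),
        (isMap_ofAut hg.le hγ₀F).map_inv (hPQ hz')] at h2
      have h3 := hgf _ hz'
      rw [← hg.ofAut_aut himg (hPQ hz')] at h3
      rw [pow_succ', pow_succ', ofAut_mul _ _ (hPQ hz), ofAut_mul _ _ hz]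
      have h4 := T.mul_mem h2 h3
      have e : ofAut γ₀ (ofAut (γ₀ ^ n) z) * (ofAut γ₀ (ofAut ((α : MulAut P) ^ n) z))⁻¹ *
          (ofAut (hg.aut himg) (ofAut ((α : MulAut P) ^ n) z) *
            (ofAut (α : MulAut P) (ofAut ((α : MulAut P) ^ n) z))⁻¹) =
          ofAut γ₀ (ofAut (γ₀ ^ n) z) * (ofAut (α : MulAut P) (ofAut ((α : MulAut P) ^ n) z))⁻¹ := by
        rw [← hγ₀]; group
      rwa [e] at h4
  -- the power making it a `p'`-element
  obtain ⟨n, hn1, hn2⟩ : ∃ n, (orderOf (γ₀ ^ n)).Coprime p ∧ (α : MulAut P) ^ n = α := by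
    obtain ⟨e, m, hm, hem⟩ := Nat.exists_eq_pow_mul_and_not_dvd (orderOf_pos γ₀).ne' p hp.out.ne_one
    have hcop : Nat.Coprime (p ^ e) (orderOf (α : MulAut P)) := by
      rw [Subgroup.orderOf_coe]; exact (hα.symm).pow_left e
    obtain ⟨k, hk⟩ := exists_pow_eq_self_of_coprime hcop
    refine ⟨p ^ e * k, ?_, by rw [pow_mul, hk]⟩
    have h1 : orderOf (γ₀ ^ p ^ e) = m := by
      rw [orderOf_pow_of_dvd (pow_ne_zero _ hp.out.ne_zero) (hem ▸ Dvd.intro _ rfl), hem,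
        Nat.mul_div_cancel_left _ (pow_pos hp.out.pos e)]
    have h2 : orderOf (γ₀ ^ (p ^ e * k)) ∣ m := by rw [pow_mul, ← h1]; exact orderOf_pow_dvd k
    exact Nat.Coprime.coprime_dvd_left h2 ((Nat.Prime.coprime_iff_not_dvd hp.out).2 hm).symm
  set γ := γ₀ ^ n with hγ
  have hγF : γ ∈ F.autGroup Q := Subgroup.pow_mem _ hγ₀F n
  have hγmap := isMap_ofAut hg.le hγF
  have hγα : ofAut γ x * (ofAut (α : MulAut P) x)⁻¹ ∈ T := by
    have := hmod n x hx
    rwa [hn2] at this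
  obtain ⟨β, hβ, hβo⟩ := exists_restrict hTQ γ (fun t ht => hscT γ hγF t ht)
  have hβF : β ∈ F.autGroup T := by
    rw [mem_autGroup_iff hT.1]
    exact (hγmap.mono hTQ).congr fun t ht => (hβ t ht).symm
  have hβco : (orderOf β).Coprime p := Nat.Coprime.coprime_dvd_left hβo hn1
  have hxS := hP hx
  have hxN := sc_le_normalizer hT hxS
  set c := conjAut x hxN with hc
  have hcF : c ∈ F.autGroup T := conjAut_mem_autGroup hT.1 hxS hxN
  have hδ : c⁻¹ * β * c * β⁻¹ ∈ W := by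
    refine W.mul_mem ?_ (W.inv_mem (hco β hβF hβco))
    refine hco _ (Subgroup.mul_mem _ (Subgroup.mul_mem _ (Subgroup.inv_mem _ hcF) hβF) hcF) ?_
    have : orderOf (c⁻¹ * β * c) = orderOf β := by
      have h1 := orderOf_injective (MulAut.conj c⁻¹ : MulAut T ≃* MulAut T).toMonoidHom (MulAut.conj c⁻¹).injective β
      rw [← h1]; congr 1
    rwa [this]
  have hxQ : x ∈ Q := hPQ hx
  have hγx : x⁻¹ * ofAut γ x ∈ actsBy T W := by
    refine ⟨_, hδ, fun t ht => ?_⟩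
    -- write `t = β t'`
    have ht' : ofAut β⁻¹ t ∈ T := ofAut_mem _ ht
    have e1 : ofAut β (ofAut β⁻¹ t) = t := ofAut_apply_inv β ht
    rw [ofAut_mul _ _ ht, ofAut_mul _ _ ht', ofAut_mul _ _ (ofAut_mem c ht')]
    set t' := ofAut β⁻¹ t with ht'def
    have h1 : ofAut c t' = x * t' * x⁻¹ := ofAut_conjAut x hxN ht'
    have hct : x * t' * x⁻¹ ∈ T := by rw [← h1]; exact ofAut_mem c ht'
    rw [h1, hβ _ hct, hγmap.map_mul (Q.mul_mem hxQ (hTQ ht')) (Q.inv_mem hxQ), hγmap.map_mul hxQ (hTQ ht'),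
      hγmap.map_inv hxQ, ← hβ t' ht', e1]
    have h2 : ofAut γ x * t * (ofAut γ x)⁻¹ ∈ T := by
      have h3 : ofAut γ x ∈ S := hγmap.mem hxQ
      exact sc_conj_mem hT h3 ht
    have h3 := ofAut_apply_inv c h2
    have h4 : ofAut c (ofAut c⁻¹ (ofAut γ x * t * (ofAut γ x)⁻¹)) =
        x * ofAut c⁻¹ (ofAut γ x * t * (ofAut γ x)⁻¹) * x⁻¹ :=
      ofAut_conjAut x hxN (ofAut_mem _ h2)
    rw [h3] at h4
    have h5 : ofAut c⁻¹ (ofAut γ x * t * (ofAut γ x)⁻¹) =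
        x⁻¹ * (x * ofAut c⁻¹ (ofAut γ x * t * (ofAut γ x)⁻¹) * x⁻¹) * x := by group
    rw [h5, ← h4]
    group
  have hfin : x⁻¹ * ofAut (α : MulAut P) x =
      (x⁻¹ * (ofAut γ x * (ofAut (α : MulAut P) x)⁻¹)⁻¹ * x) * (x⁻¹ * ofAut γ x) := by group
  rw [hfin]
  refine Subgroup.mul_mem _ (hTle ?_) hγx
  have := sc_conj_mem hT (S.inv_mem hxS) (T.inv_mem hγα)
  rwa [inv_inv] at this

end Cfsg.Agent.Fus
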