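import Cfsg.Agent.Fus.MaxSyl
import Cfsg.Agent.Fus.TransvFus
set_option autoImplicit false

/-!
# Essential subgroups containing uniform elements (helper86)
-/

namespace Cfsg.Agent.MaxClass

open Subgroup Group Cfsg.Agent.FusSE Cfsg.Agent.Fus Cfsg
open scoped commutatorElement Pointwise

theorem comm_of_card_sq {H : Type*} [Group H] {p : ℕ} [Fact p.Prime] (h : Nat.card H = p ^ 2) (a b : H) :
    a * b = b * a := (IsPGroup.isMulCommutative_of_card_eq_prime_sq h).is_comm.comm a b

theorem lcs_one_le_of_index {H : Type*} [Group H] {p : ℕ} [hp : Fact p.Prime] {N : Subgroup H} [N.Normal]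
    (h : N.index = p) : (⊤ : Subgroup H).lowerCentralSeries 1 ≤ N := by
  have h1 : IsCyclic (H ⧸ N) := isCyclic_of_prime_card (p := p) h
  rw [lcs_succ_top, Subgroup.commutator_le]
  intro x _ y _
  rw [← QuotientGroup.eq_one_iff]
  have h2 : ∀ a b : H ⧸ N, a * b = b * a := fun a b =>
    (IsCyclic.isMulCommutative (α := H ⧸ N)).is_comm.comm a b
  show (x : H ⧸ N) * y * (x : H ⧸ N)⁻¹ * (y : H ⧸ N)⁻¹ = 1
  rw [h2 x y, mul_inv_cancel_right, mul_inv_cancel]

variable {Ω : Type*} [Group Ω] {S : Subgroup Ω} {F : FusionSystem S} {p : ℕ} [hp : Fact p.Prime] {n : ℕ}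

theorem card_zc [Finite S] (hn : Nat.card S = p ^ n) (h3 : 3 ≤ n) (hcl : nilpotencyClass S = n - 1) :
    Nat.card (zc S) = p := by
  have h1 := card_center hn h3 hcl
  rw [← h1]
  have h2 : zc S = (center S).map S.subtype := by
    ext x
    constructor
    · rintro hx
      exact ⟨⟨x, hx.1⟩, Subgroup.mem_center_iff.2 fun y => Subtype.ext ((mem_zc.1 hx).2 y y.2), rfl⟩
    · rintro ⟨w, hw, rfl⟩
      exact ⟨w.2, fun s hs => congrArg Subtype.val (Subgroup.mem_center_iff.1 hw ⟨s, hs⟩)⟩
  rw [h2]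
  exact Subgroup.card_map_of_injective S.subtype_injective

/-- `s` is uniform: `|C_S(s)| = p ^ 2`. -/
def Unif (p : ℕ) (S : Subgroup Ω) (s : Ω) : Prop :=
  s ∈ S ∧ Nat.card (S ⊓ Subgroup.centralizer ({s} : Set Ω) : Subgroup Ω) = p ^ 2

theorem Unif.le_ess [Finite S] (hn : Nat.card S = p ^ n) (h3 : 3 ≤ n) (hcl : nilpotencyClass S = n - 1) {s : Ω}
    (hs : Unif p S s) {E : Subgroup Ω} (hE : F.IsCentric E) (hsE : s ∈ E) :
    S ⊓ Subgroup.centralizer ({s} : Set Ω) ≤ E := by
  have hpp := hp.out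
  set C := S ⊓ Subgroup.centralizer ({s} : Set Ω) with hC
  have hCS : C ≤ S := inf_le_left
  have := finite_of_le hCS
  have hz := card_zc hn h3 hcl
  have hzS : zc S ≤ S := fun x hx => hx.1
  have h1 : zc S ⊔ Subgroup.zpowers s ≤ C := by
    refine sup_le ?_ ?_
    · intro x hx
      refine ⟨hx.1, ?_⟩
      show x ∈ Subgroup.centralizer ({s} : Set Ω)
      rw [Subgroup.mem_centralizer_singleton_iff]
      exact ((mem_zc.1 hx).2 s hs.1).symm
    · rw [Subgroup.zpowers_le]
      refine ⟨hs.1, ?_⟩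
      show s ∈ Subgroup.centralizer ({s} : Set Ω)
      rw [Subgroup.mem_centralizer_singleton_iff]
  have hsz : s ∉ zc S := by
    intro h
    have h2 : C = S := by
      refine le_antisymm hCS fun x hx => ⟨hx, ?_⟩
      show x ∈ Subgroup.centralizer ({s} : Set Ω)
      rw [Subgroup.mem_centralizer_singleton_iff]
      exact (mem_zc.1 h).2 x hx
    have h4 := hs.2
    rw [← hC, h2, hn] at h4
    have := Nat.pow_right_injective hpp.two_le h4
    omega
  have h2 : zc S ⊔ Subgroup.zpowers s = C := by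
    have hfin := finite_of_le (h1.trans hCS)
    apply Subgroup.eq_of_le_of_card_ge h1
    have h4 : zc S < zc S ⊔ Subgroup.zpowers s := lt_of_le_of_ne le_sup_left fun h => hsz (by
      rw [h]; exact (le_sup_right : Subgroup.zpowers s ≤ _) (Subgroup.mem_zpowers s))
    have h5 := card_lt_of_lt (h1.trans hCS) h4
    rw [hz] at h5
    have h6 := Subgroup.card_dvd_of_le h1
    rw [hs.2] at h6 ⊢
    obtain ⟨j, hj, hj2⟩ := (Nat.dvd_prime_pow hpp).1 h6
    rw [hj2] at h5 ⊢
    have h7 : 1 < j := by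
      by_contra hcon
      have : p ^ j ≤ p ^ 1 := Nat.pow_le_pow_right hpp.pos (by omega)
      rw [pow_one] at this
      omega
    exact Nat.pow_le_pow_right hpp.pos h7
  rw [← h2]
  refine sup_le (zc_le_of_centric hE) ?_
  rw [Subgroup.zpowers_le]; exact hsE

theorem Unif.ess_card [Finite S] (hS : IsPGroup p S) (hn : Nat.card S = p ^ n) (h3 : 3 ≤ n)
    (hcl : nilpotencyClass S = n - 1) {s : Ω}
    (hs : Unif p S s) {E : Subgroup Ω} (hE : F.IsEssential p E) (hsE : s ∈ E) :
    ∃ m, Nat.card E = p ^ m ∧ nilpotencyClass E = m - 1 ∧ 2 ≤ m ∧ m ≤ 3 := by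
  have hpp := hp.out
  have hES := hE.1.1
  have := finite_of_le hES
  have hle := hs.le_ess hn h3 hcl hE.1 hsE
  set C := S ⊓ Subgroup.centralizer ({s} : Set Ω) with hC
  obtain ⟨m, hm⟩ := (isPGroup_of_le hS hES).exists_card_eq
  have hcC : Nat.card (C.subgroupOf E) = p ^ 2 :=
    (Nat.card_congr (Subgroup.subgroupOfEquivOfLe hle).toEquiv).trans hs.2
  have hm2 : 2 ≤ m := by
    have h1 := Subgroup.card_dvd_of_le hle
    rw [hm, hs.2] at h1
    exact (Nat.pow_dvd_pow_iff_le_right hpp.one_lt).1 h1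
  have hcent : Subgroup.centralizer ((C.subgroupOf E : Subgroup E) : Set E) = C.subgroupOf E := by
    apply le_antisymm
    · intro x hx
      rw [Subgroup.mem_centralizer_iff] at hx
      rw [Subgroup.mem_subgroupOf]
      refine ⟨hES x.2, ?_⟩
      show (x : Ω) ∈ Subgroup.centralizer ({s} : Set Ω)
      rw [Subgroup.mem_centralizer_singleton_iff]
      have h1 : (⟨s, hsE⟩ : E) ∈ C.subgroupOf E := by
        rw [Subgroup.mem_subgroupOf]
        refine ⟨hs.1, ?_⟩
        show s ∈ Subgroup.centralizer ({s} : Set Ω)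
        rw [Subgroup.mem_centralizer_singleton_iff]
      exact (congrArg Subtype.val (hx _ h1)).symm
    · intro x hx
      rw [Subgroup.mem_centralizer_iff]
      intro y hy
      have h1 := comm_of_card_sq hcC ⟨y, hy⟩ ⟨x, hx⟩
      exact congrArg Subtype.val h1
  have hclE := class_of_self_centralizing m hm2 E hm (C.subgroupOf E) hcC hcent
  have hSE : SEOut p (F.autGroup E) := hE.2.2
  exact ⟨m, hm, hclE, hm2, ess_card_le hm hm2 hclE hSE⟩

/-- An essential subgroup containing a uniform element lies in every normal subgroup `T` of `S` with `|T| ≥ p ^ 2`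
such that `T ∩ E` is `Aut_F(E)`-invariant. -/
theorem Unif.ess_le [Finite S] (hS : IsPGroup p S) (hF : F.IsSaturated p) (hn : Nat.card S = p ^ n) (h3 : 3 ≤ n)
    (hcl : nilpotencyClass S = n - 1) {s : Ω}
    (hs : Unif p S s) {E : Subgroup Ω} (hE : F.IsEssential p E) (hsE : s ∈ E) {T : Subgroup Ω} (hTS : T ≤ S)
    (hT : ∀ x ∈ S, ∀ t ∈ T, x * t * x⁻¹ ∈ T) (hTc : p ^ 2 ≤ Nat.card T)
    (hinv : ∀ α ∈ F.autGroup E, ∀ x : E, (x : Ω) ∈ T → ((α x : E) : Ω) ∈ T) : s ∈ T := by
  have hpp := hp.out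
  have hES := hE.1.1
  have hEfin := finite_of_le hES
  have hTfin := finite_of_le hTS
  have hEp := isPGroup_of_le hS hES
  have hle := hs.le_ess hn h3 hcl hE.1 hsE
  obtain ⟨m, hm, hclE, hm2, hm3⟩ := hs.ess_card hS hn h3 hcl hE hsE
  have hSE : SEOut p (F.autGroup E) := hE.2.2
  have hnS : Group.IsNilpotent S := hS.isNilpotent
  by_contra hsT
  have hTn : (T.subgroupOf S).Normal := ⟨fun t ht x => hT x x.2 t ht⟩
  set U : Subgroup E := T.subgroupOf E with hU
  have hUn : U.Normal := ⟨fun t ht x => hT x (hES x.2) t ht⟩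
  have hzc := card_zc hn h3 hcl
  have hcardT : Nat.card (T.subgroupOf S) = Nat.card T := Nat.card_congr (Subgroup.subgroupOfEquivOfLe hTS).toEquiv
  -- `Z(S) ≤ T`
  have hzT : zc S ≤ T := by
    have h1 : T.subgroupOf S ≠ ⊥ := by
      intro h
      rw [h, Subgroup.card_bot] at hcardT
      have := Nat.one_lt_pow (n := 2) (by norm_num) hpp.one_lt
      omega
    have h2 := Cfsg.Agent.Solv.inf_center_ne_bot_of_nilpotent (T.subgroupOf S) h1
    obtain ⟨⟨z, hz⟩, hz1⟩ := (Subgroup.nontrivial_iff_exists_ne_one _).1 ((Subgroup.nontrivial_iff_ne_bot _).2 h2)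
    have hzT : (z : Ω) ∈ T := hz1.1.1
    have hzz : (z : Ω) ∈ zc S := ⟨hz, fun x hx =>
      congrArg Subtype.val (Subgroup.mem_center_iff.1 hz1.1.2 ⟨x, hx⟩)⟩
    have hzne : (z : Ω) ≠ 1 := fun h => hz1.2 (Subtype.ext h)
    have h4 : Subgroup.zpowers z = zc S := by
      have : Finite (zc S) := finite_of_le fun x hx => hx.1
      apply Subgroup.eq_of_le_of_card_ge (by rw [Subgroup.zpowers_le]; exact hzz)
      have h5 : Nat.card (Subgroup.zpowers z) ∣ p := by
        rw [← hzc]; exact Subgroup.card_dvd_of_le (by rw [Subgroup.zpowers_le]; exact hzz)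
      rcases (Nat.dvd_prime hpp).1 h5 with h6 | h6
      · rw [Nat.card_zpowers, orderOf_eq_one_iff] at h6
        exact absurd h6 hzne
      · rw [h6, hzc]
    rw [← h4, Subgroup.zpowers_le]
    exact hzT
  have hzE := zc_le_of_centric hE.1
  -- it suffices to see that `|T ∩ E| ≥ p ^ (m - 1)`
  suffices hcU : p ^ (m - 1) ≤ Nat.card U by
    have h1 := Subgroup.card_mul_index U
    rw [hm] at h1
    have h2 : U.index ∣ p ^ m := Dvd.intro_left _ h1
    obtain ⟨j, hj, hj2⟩ := (Nat.dvd_prime_pow hpp).1 h2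
    have hj0 : j ≠ 0 := by
      rintro rfl
      rw [pow_zero] at hj2
      have h3 := Subgroup.index_eq_one.1 hj2
      apply hsT
      have h4 : (⟨s, hsE⟩ : E) ∈ U := by rw [h3]; trivial
      exact h4
    have hj1 : j ≤ 1 := by
      by_contra hcon
      rw [hj2] at h1
      have h4 : p ^ (m - 1) * p ^ 2 ≤ p ^ m := by
        rw [← h1]
        exact Nat.mul_le_mul hcU (Nat.pow_le_pow_right hpp.pos (by omega))
      rw [← pow_add] at h4
      have h5 := (Nat.pow_le_pow_iff_right hpp.one_lt).1 h4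
      omega
    have hj' : j = 1 := by omega
    rw [hj', pow_one] at hj2
    exact no_max_ess hm hm2 hclE hSE (lcs_one_le_of_index hj2) hj2 fun α hα x hx => hinv α hα x hx
  rcases Nat.lt_or_ge m 3 with hm' | hm'
  · -- `m = 2`
    have e : m = 2 := by omega
    subst e
    rw [show 2 - 1 = 1 from rfl, pow_one, ← hzc]
    have h1 : Nat.card ((zc S).subgroupOf E) = Nat.card (zc S) :=
      Nat.card_congr (Subgroup.subgroupOfEquivOfLe hzE).toEquiv
    rw [← h1]
    exact Subgroup.card_le_of_le fun x hx => hzT hx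
  · have e : m = 3 := by omega
    subst e
    have hn4 : 4 ≤ n := by
      have h1 : E < S := lt_of_le_of_ne hES (essential_ne_self hS hF hE)
      have h2 := card_lt_of_lt le_rfl h1
      rw [hm, hn] at h2
      exact (Nat.pow_lt_pow_iff_right hpp.one_lt).1 h2
    set L := fun k => (⊤ : Subgroup S).lowerCentralSeries k with hL
    -- `lcs (n - 3) ≤ T`
    have hLT : L (n - 3) ≤ T.subgroupOf S := by
      have h1 := Subgroup.card_mul_index (T.subgroupOf S)
      rw [hn, hcardT] at h1
      have h2 : (T.subgroupOf S).index ∣ p ^ n := Dvd.intro_left _ h1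
      obtain ⟨r, hr, hr2⟩ := (Nat.dvd_prime_pow hpp).1 h2
      have hr3 : r ≤ n - 2 := by
        by_contra hcon
        rw [hr2] at h1
        have h4 : p ^ 2 * p ^ r ≤ p ^ n := by
          rw [← h1]
          exact Nat.mul_le_mul_right _ hTc
        rw [← pow_add] at h4
        have h5 := (Nat.pow_le_pow_iff_right hpp.one_lt).1 h4
        omega
      rcases Nat.lt_or_ge r 2 with hr4 | hr4
      · refine (Subgroup.lowerCentralSeries_antitone _ (show 1 ≤ n - 3 by omega)).trans ?_
        rcases Nat.lt_or_ge r 1 with hr5 | hr5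
        · have : r = 0 := by omega
          rw [this, pow_zero] at hr2
          rw [Subgroup.index_eq_one.1 hr2]; exact le_top
        · have : r = 1 := by omega
          rw [this, pow_one] at hr2
          exact lcs_one_le_of_index hr2
      · rw [normal_eq_lcs_of_maxClass hn hcl (T.subgroupOf S) r hr4 hr2]
        exact Subgroup.lowerCentralSeries_antitone _ (by omega)
    have hLc : Nat.card (L (n - 3)) = p ^ 2 := by
      have h1 := Subgroup.card_mul_index (L (n - 3))
      rw [index_lcs_of_maxClass hn hcl (n - 3) (by omega) (by omega), hn] at h1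
      have h2 : Nat.card (L (n - 3)) * p ^ (n - 3 + 1) = p ^ 2 * p ^ (n - 3 + 1) := by
        rw [h1, ← pow_add]; congr 1; omega
      exact Nat.eq_of_mul_eq_mul_right (pow_pos hpp.pos _) h2
    have hLz : ∀ x : S, x ∈ L (n - 2) → (x : Ω) ∈ zc S := by
      have h1 : L (n - 2 + 1) = ⊥ := by
        apply Subgroup.lowerCentralSeries_eq_bot_iff_nilpotencyClass_le.2
        omega
      intro x hx
      refine ⟨x.2, fun y hy => ?_⟩
      have h2 : ⁅x, (⟨y, hy⟩ : S)⁆ ∈ L (n - 2 + 1) := Subgroup.commutator_mem_commutator hx (Subgroup.mem_top _)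
      rw [h1, Subgroup.mem_bot, commutatorElement_eq_one_iff_mul_comm] at h2
      exact (congrArg Subtype.val h2).symm
    -- an element of `E` not commuting with `s`
    obtain ⟨r, hrE, hrs⟩ : ∃ r ∈ E, r * s ≠ s * r := by
      by_contra hcon
      push Not at hcon
      have h1 : E ≤ S ⊓ Subgroup.centralizer ({s} : Set Ω) := by
        intro x hx
        refine ⟨hES hx, ?_⟩
        show x ∈ Subgroup.centralizer ({s} : Set Ω)
        rw [Subgroup.mem_centralizer_singleton_iff]
        exact hcon x hx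
      have h2 : Finite (S ⊓ Subgroup.centralizer ({s} : Set Ω) : Subgroup Ω) := finite_of_le inf_le_left
      have h4 := Subgroup.card_le_of_le h1
      rw [hs.2, hm] at h4
      have := (Nat.pow_le_pow_iff_right hpp.one_lt).1 h4
      omega
    have hcen3 : ∀ x y z : E, ⁅x, y⁆ * z = z * ⁅x, y⁆ := by
      intro x y z
      have h1 : (⊤ : Subgroup E).lowerCentralSeries (1 + 1) = ⊥ := by
        have : Group.IsNilpotent E := hEp.isNilpotent
        apply Subgroup.lowerCentralSeries_eq_bot_iff_nilpotencyClass_le.2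
        omega
      have h2 : ⁅⁅x, y⁆, z⁆ ∈ (⊤ : Subgroup E).lowerCentralSeries (1 + 1) :=
        Subgroup.commutator_mem_commutator (Subgroup.commutator_mem_commutator (Subgroup.mem_top x)
          (Subgroup.mem_top y)) (Subgroup.mem_top z)
      rw [h1, Subgroup.mem_bot, commutatorElement_eq_one_iff_mul_comm] at h2
      exact h2
    set c : E := ⁅(⟨r, hrE⟩ : E), ⟨s, hsE⟩⁆ with hc
    have hcne : (c : Ω) ≠ 1 := by
      intro h
      have h1 : c = 1 := Subtype.ext h
      rw [hc, commutatorElement_eq_one_iff_mul_comm] at h1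
      exact hrs (congrArg Subtype.val h1)
    have hczc : (c : Ω) ∈ zc S := by
      have h1 : (zc S).subgroupOf E = center E := by
        apply Subgroup.eq_of_le_of_card_ge
        · intro x hx
          rw [Subgroup.mem_center_iff]
          intro y
          exact Subtype.ext ((mem_zc.1 hx).2 y (hES y.2))
        · rw [card_center hm (by norm_num) hclE]
          exact (hzc.symm.trans (Nat.card_congr (Subgroup.subgroupOfEquivOfLe hzE).toEquiv).symm).le
      have h2 : c ∈ center E := by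
        rw [Subgroup.mem_center_iff]
        intro z
        exact (hcen3 _ _ z).symm
      rw [← h1] at h2
      exact h2
    have hgen : ∀ z ∈ zc S, ∃ k : ℤ, (c : Ω) ^ k = z := by
      have : Finite (zc S) := finite_of_le fun x hx => hx.1
      have h4 : Subgroup.zpowers (c : Ω) = zc S := by
        apply Subgroup.eq_of_le_of_card_ge (by rw [Subgroup.zpowers_le]; exact hczc)
        have h5 : Nat.card (Subgroup.zpowers (c : Ω)) ∣ p := by
          rw [← hzc]; exact Subgroup.card_dvd_of_le (by rw [Subgroup.zpowers_le]; exact hczc)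
        rcases (Nat.dvd_prime hpp).1 h5 with h6 | h6
        · rw [Nat.card_zpowers, orderOf_eq_one_iff] at h6
          exact absurd h6 hcne
        · rw [h6, hzc]
      intro z hz
      rw [← h4] at hz
      exact Subgroup.mem_zpowers_iff.1 hz
    have hcc : ∀ x ∈ S, x * (c : Ω) = c * x := (mem_zc.1 hczc).2
    have hpow : ∀ k : ℤ, r ^ k * s * (r ^ k)⁻¹ * s⁻¹ = (c : Ω) ^ k := by
      intro k
      have hcl2 : Cfsg.Agent.Extra.ClassTwo E := by
        rw [Cfsg.Agent.Extra.classTwo_iff]
        intro x y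
        rw [Subgroup.mem_center_iff]
        intro z
        exact (hcen3 x y z).symm
      have h1 := congrArg Subtype.val (hcl2.zpow_left (⟨r, hrE⟩ : E) ⟨s, hsE⟩ k)
      have h2 : ((⁅(⟨r, hrE⟩ : E) ^ k, ⟨s, hsE⟩⁆ : E) : Ω) = r ^ k * s * (r ^ k)⁻¹ * s⁻¹ := by
        rw [commutatorElement_def]
        simp
      rw [← h2, h1]
      simp [hc]
    -- `lcs (n - 3) ≤ E`
    have hLE : ∀ x : S, x ∈ L (n - 3) → (x : Ω) ∈ E := by
      intro u hu
      have h1 : ⁅u, (⟨s, hs.1⟩ : S)⁆ ∈ L (n - 3 + 1) := Subgroup.commutator_mem_commutator hu (Subgroup.mem_top _)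
      have e : n - 3 + 1 = n - 2 := by omega
      rw [e] at h1
      obtain ⟨k, hk⟩ := hgen _ (hLz _ h1)
      have h2 : (u : Ω) * s * (u : Ω)⁻¹ * s⁻¹ = (c : Ω) ^ k := hk.symm
      have h4 : (r ^ k)⁻¹ * (u : Ω) ∈ S ⊓ Subgroup.centralizer ({s} : Set Ω) := by
        refine ⟨S.mul_mem (S.inv_mem (S.zpow_mem (hES hrE) k)) u.2, ?_⟩
        show (r ^ k)⁻¹ * (u : Ω) ∈ Subgroup.centralizer ({s} : Set Ω)
        rw [Subgroup.mem_centralizer_singleton_iff]
        have h5 : (u : Ω) * s * (u : Ω)⁻¹ = r ^ k * s * (r ^ k)⁻¹ := by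
          have := h2.trans (hpow k).symm
          exact mul_right_cancel this
        calc (r ^ k)⁻¹ * (u : Ω) * s = (r ^ k)⁻¹ * ((u : Ω) * s * (u : Ω)⁻¹) * u := by group
          _ = (r ^ k)⁻¹ * (r ^ k * s * (r ^ k)⁻¹) * u := by rw [h5]
          _ = s * ((r ^ k)⁻¹ * (u : Ω)) := by group
      have h5 := E.mul_mem (E.zpow_mem hrE k) (hle h4)
      rwa [mul_inv_cancel_left] at h5
    rw [show 3 - 1 = 2 from rfl, ← hLc]
    refine Nat.card_le_card_of_injective (fun x : L (n - 3) => (⟨⟨((x : S) : Ω), hLE x x.2⟩, hLT x.2⟩ : U)) ?_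
    intro x y hxy
    have h1 := congrArg (fun w : U => ((w : E) : Ω)) hxy
    exact Subtype.ext (Subtype.ext h1)

end Cfsg.Agent.MaxClass
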