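import Cfsg.Agent.Fus.MaxCls2
import Cfsg.Agent.Fus.AltFus3
import Cfsg.Agent.Fus.TopExt
import Cfsg.Agent.Solv.Core
import Cfsg.Agent.MaxClass.SelfCent
set_option autoImplicit false

/-!
# Groups with a Sylow `p`-subgroup of maximal class (helper86)
-/

namespace Cfsg.Agent.MaxClass

open Subgroup Group Cfsg.Agent.FusSE Cfsg.Agent.Fus Cfsg
open scoped commutatorElement Pointwise

variable {G : Type*} [Group G] [Finite G] {p : ℕ} [hp : Fact p.Prime]

theorem normal_pprime_eq_bot (hcore : Cfsg.pPrimeCore p G = ⊥) {N : Subgroup G} [N.Normal]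
    (h : (Nat.card N).Coprime p) : N = ⊥ := by
  rw [eq_bot_iff, ← hcore]
  exact le_sSup ⟨inferInstance, h⟩

/-- a normal subgroup with Sylow `p`-subgroup of order `p` contained in `P' ∩ Z(P)` is a `p`-group -/
theorem normal_le_of_inf_prime (P : Sylow p G) (hcore : Cfsg.pPrimeCore p G = ⊥) (N : Subgroup G) [hN : N.Normal]
    (hz : ∀ z ∈ (P : Subgroup G) ⊓ N, ∀ x ∈ (P : Subgroup G), x * z = z * x)
    (hP' : (P : Subgroup G) ⊓ N ≤ ⁅(P : Subgroup G), (P : Subgroup G)⁆) : N ≤ (P : Subgroup G) := by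
  have hpp := hp.out
  have hPt := sylIn_top P
  set Z : Subgroup G := (P : Subgroup G) ⊓ N with hZ
  have hsyl : SylIn p Z N := hPt.inf_normal
  -- `N_N(P)` centralizes `Z`
  have h1 : ∀ m ∈ N, (∀ x ∈ (P : Subgroup G), m * x * m⁻¹ ∈ (P : Subgroup G)) → ∀ z ∈ Z, m * z = z * m := by
    intro m hm hmP z hz'
    have hcl : ⁅(P : Subgroup G), (P : Subgroup G)⁆ ≤ Subgroup.centralizer ({m} : Set G) := by
      rw [Subgroup.commutator_le]
      intro x hx y hy
      rw [Subgroup.mem_centralizer_singleton_iff]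
      have key : ∀ x ∈ (P : Subgroup G), ∃ c ∈ Z, m * x * m⁻¹ = c * x := by
        intro x hx
        refine ⟨m * x * m⁻¹ * x⁻¹, ⟨(P : Subgroup G).mul_mem (hmP x hx) ((P : Subgroup G).inv_mem hx), ?_⟩, by group⟩
        have h2 : m * x * m⁻¹ * x⁻¹ = m * (x * m⁻¹ * x⁻¹) := by group
        rw [SetLike.mem_coe, h2]
        exact N.mul_mem hm (hN.conj_mem _ (N.inv_mem hm) x)
      obtain ⟨c, hc, hcx⟩ := key x hx
      obtain ⟨d, hd, hdy⟩ := key y hy
      have h3 : m * ⁅x, y⁆ * m⁻¹ = ⁅x, y⁆ := by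
        have e1 : m * ⁅x, y⁆ * m⁻¹ = ⁅m * x * m⁻¹, m * y * m⁻¹⁆ := by
          simp only [commutatorElement_def]; group
        rw [e1, hcx, hdy]
        have hcP : c ∈ (P : Subgroup G) := hc.1
        have hdP : d ∈ (P : Subgroup G) := hd.1
        have a1 := hz c hc y hy
        have a2 := hz d hd x hx
        have a3 := hz c hc x hx
        have a4 := hz d hd y hy
        have a5 := hz c hc d hdP
        have b1 : Commute c y := a1.symm
        have b2 : Commute d x := a2.symm
        have b3 : Commute c x := a3.symm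
        have b4 : Commute d y := a4.symm
        have b5 : Commute c d := a5.symm
        have e2 : ⁅c * x, d * y⁆ = ⁅x, y⁆ := by
          rw [commutatorElement_def, commutatorElement_def]
          have e3 : c * x * (d * y) = (x * y) * (c * d) := by
            calc c * x * (d * y) = x * (c * d) * y := by rw [b3.eq]; group
              _ = x * (y * (c * d)) := by rw [mul_assoc, (b1.mul_left b4).eq]
              _ = (x * y) * (c * d) := by group
          have e4 : (c * x)⁻¹ * (d * y)⁻¹ = (c * d)⁻¹ * (x⁻¹ * y⁻¹) := by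
            have e5 : (d * y) * (c * x) = (y * x) * (c * d) := by
              calc (d * y) * (c * x) = y * (d * c) * x := by rw [b4.eq]; group
                _ = y * (x * (d * c)) := by rw [mul_assoc, (b2.mul_left b3).eq]
                _ = (y * x) * (c * d) := by rw [b5.symm.eq]; group
            rw [← mul_inv_rev, e5, mul_inv_rev, mul_inv_rev, mul_inv_rev]
          calc c * x * (d * y) * (c * x)⁻¹ * (d * y)⁻¹ = c * x * (d * y) * ((c * x)⁻¹ * (d * y)⁻¹) := by group
            _ = (x * y) * (c * d) * ((c * d)⁻¹ * (x⁻¹ * y⁻¹)) := by rw [e3, e4]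
            _ = x * y * x⁻¹ * y⁻¹ := by group
        exact e2
      rw [mul_inv_eq_iff_eq_mul] at h3
      exact h3.symm
    have h4 := hcl (hP' hz')
    rw [Subgroup.mem_centralizer_singleton_iff] at h4
    exact h4.symm
  -- `N_N(Z)` centralizes `Z`
  have h2 : ∀ g ∈ N, (∀ z ∈ Z, g * z * g⁻¹ ∈ Z) → ∀ z ∈ Z, g * z = z * g := by
    intro g hg hgZ
    set D : Subgroup G := N ⊓ Subgroup.centralizer (Z : Set G) with hD
    have hgZ' : ∀ z ∈ Z, g⁻¹ * z * g ∈ Z := by
      intro z hz'
      have h3 : Z.map (MulAut.conj g).toMonoidHom = Z := by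
        apply Subgroup.eq_of_le_of_card_ge
        · rintro _ ⟨y, hy, rfl⟩
          exact hgZ y hy
        · exact (Nat.card_congr (Subgroup.equivMapOfInjective Z _ (MulAut.conj g).injective).toEquiv).le
      rw [← h3] at hz'
      obtain ⟨y, hy, rfl⟩ := hz'
      have : g⁻¹ * ((MulAut.conj g).toMonoidHom y) * g = y := by
        show g⁻¹ * (g * y * g⁻¹) * g = y
        group
      rw [this]
      exact hy
    have hPD : (P : Subgroup G) ≤ Subgroup.normalizer (D : Set G) := by
      intro x hx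
      refine mem_normalizer_of_conj fun d hd => ?_
      refine ⟨hN.conj_mem _ hd.1 x, ?_⟩
      have hd2 : d ∈ Subgroup.centralizer (Z : Set G) := hd.2
      show x * d * x⁻¹ ∈ Subgroup.centralizer (Z : Set G)
      rw [Subgroup.mem_centralizer_iff] at hd2 ⊢
      intro z hz'
      have h3 := hz z hz' x hx
      have h4 := hd2 z hz'
      have h5 : x⁻¹ * z = z * x⁻¹ := by rw [inv_mul_eq_iff_eq_mul, ← mul_assoc, h3, mul_inv_cancel_right]
      calc z * (x * d * x⁻¹) = (z * x) * d * x⁻¹ := by group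
        _ = x * (z * d) * x⁻¹ := by rw [← h3]; group
        _ = x * d * (z * x⁻¹) := by rw [h4]; group
        _ = x * d * x⁻¹ * z := by rw [← h5]; group
    have hle : ((P : Subgroup G).map (MulAut.conj g).toMonoidHom) ≤ (P : Subgroup G) ⊔ D := by
      rintro _ ⟨x, hx, rfl⟩
      have h3 : (MulAut.conj g).toMonoidHom x = (g * x * g⁻¹ * x⁻¹) * x := by
        show g * x * g⁻¹ = _
        group
      rw [h3]
      refine Subgroup.mul_mem _ (le_sup_right (a := (P : Subgroup G)) ⟨?_, ?_⟩)
        (le_sup_left (a := (P : Subgroup G)) hx)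
      · have h4 : g * x * g⁻¹ * x⁻¹ = g * (x * g⁻¹ * x⁻¹) := by group
        rw [SetLike.mem_coe, h4]
        exact N.mul_mem hg (hN.conj_mem _ (N.inv_mem hg) x)
      · show g * x * g⁻¹ * x⁻¹ ∈ Subgroup.centralizer (Z : Set G)
        rw [Subgroup.mem_centralizer_iff]
        intro z hz'
        have h4 := hz _ (hgZ' z hz') x hx
        have h5 := hz z hz' x hx
        have h6 : z * (g * x * g⁻¹) = (g * x * g⁻¹) * z := by
          calc z * (g * x * g⁻¹) = g * ((g⁻¹ * z * g) * x) * g⁻¹ := by group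
            _ = g * (x * (g⁻¹ * z * g)) * g⁻¹ := by rw [h4]
            _ = (g * x * g⁻¹) * z := by group
        have h7 : z * x⁻¹ = x⁻¹ * z := by rw [eq_inv_mul_iff_mul_eq, ← mul_assoc, h5, mul_inv_cancel_right]
        calc z * (g * x * g⁻¹ * x⁻¹) = z * (g * x * g⁻¹) * x⁻¹ := by group
          _ = (g * x * g⁻¹) * (z * x⁻¹) := by rw [h6]; group
          _ = g * x * g⁻¹ * x⁻¹ * z := by rw [h7]; group
    obtain ⟨k, hk, hkP⟩ := (hPt.of_le (le_sup_left : (P : Subgroup G) ≤ (P : Subgroup G) ⊔ D) le_top).exists_conj hle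
      (P.2.map _)
    have hk2 : k ∈ ((P : Subgroup G) : Set G) * (D : Set G) := by
      rw [← Subgroup.coe_mul_of_left_le_normalizer_right _ _ hPD]
      exact hk
    obtain ⟨x, hx, d, hd, rfl⟩ := hk2
    have h3 := h1 (d * g) (N.mul_mem hd.1 hg) (by
      intro y hy
      have h4 : x * d * (g * y * g⁻¹) * (x * d)⁻¹ ∈ (P : Subgroup G) := hkP _ ⟨y, hy, rfl⟩
      have h5 : d * g * y * (d * g)⁻¹ = x⁻¹ * (x * d * (g * y * g⁻¹) * (x * d)⁻¹) * x := by group
      rw [h5]
      exact (P : Subgroup G).mul_mem ((P : Subgroup G).mul_mem ((P : Subgroup G).inv_mem hx) h4) hx)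
    intro z hz'
    have hd2 : d ∈ Subgroup.centralizer (Z : Set G) := hd.2
    rw [Subgroup.mem_centralizer_iff] at hd2
    have h4 := h3 z hz'
    have h5 := hd2 z hz'
    have h6 : d * (g * z) = d * (z * g) := by
      calc d * (g * z) = d * g * z := by group
        _ = z * (d * g) := h4
        _ = (z * d) * g := by group
        _ = d * (z * g) := by rw [h5]; group
    exact mul_left_cancel h6
  -- Burnside
  have h3 : Subgroup.normalizer ((hsyl.toSylow : Subgroup N) : Set N) ≤
      Subgroup.centralizer ((hsyl.toSylow : Subgroup N) : Set N) := by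
    intro g hg
    rw [Subgroup.mem_centralizer_iff]
    rw [Subgroup.mem_normalizer_iff] at hg
    intro z hz'
    have h4 := h2 g g.2 (by
      intro w hw
      have h5 : (⟨w, hsyl.le hw⟩ : N) ∈ (hsyl.toSylow : Subgroup N) := hw
      exact (hg _).1 h5) z hz'
    exact (Subtype.ext h4).symm
  have h4 := MonoidHom.ker_transferSylow_isComplement' hsyl.toSylow h3
  have h5 := MonoidHom.not_dvd_card_ker_transferSylow hsyl.toSylow h3
  have h6 : (MonoidHom.transferSylow hsyl.toSylow h3).ker ≤ Cfsg.pPrimeCore p N :=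
    le_sSup ⟨inferInstance, ((Nat.Prime.coprime_iff_not_dvd hpp).2 h5).symm⟩
  have h7 : Cfsg.pPrimeCore p N = ⊥ := by
    have h8 : ((Cfsg.pPrimeCore p N).map N.subtype).Normal := inferInstance
    have h9 := normal_pprime_eq_bot hcore (N := (Cfsg.pPrimeCore p N).map N.subtype) (by
      rw [Subgroup.card_map_of_injective N.subtype_injective]
      exact Cfsg.Agent.Solv.pPrimeCore_card_coprime p)
    exact (Subgroup.map_eq_bot_iff_of_injective _ N.subtype_injective).1 h9
  rw [h7, le_bot_iff] at h6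
  rw [h6] at h4
  have h8 := h4.card_mul_card
  rw [Subgroup.card_bot, one_mul, hsyl.coe_toSylow] at h8
  have h9 : Z.subgroupOf N = ⊤ := Subgroup.eq_top_of_card_eq _ h8
  rw [Subgroup.subgroupOf_eq_top] at h9
  exact h9.trans inf_le_left

end Cfsg.Agent.MaxClass
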