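import Cfsg.Agent.Fus.MaxEss
set_option autoImplicit false

/-!
# Groups with a Sylow `p`-subgroup of maximal class: the dichotomy (helper86)
-/

namespace Cfsg.Agent.MaxClass

open Subgroup Group Cfsg.Agent.FusSE Cfsg.Agent.Fus Cfsg
open scoped commutatorElement Pointwise

variable {G : Type*} [Group G] [Finite G] {p : ℕ} [hp : Fact p.Prime]

theorem exists_ess_of_factorization (P : Sylow p G) {s : G} (hs : Unif p (P : Subgroup G) s)
    (hne : (Nat.card (Subgroup.centralizer ({s} : Set G))).factorization p ≠ 2) :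
    ∃ R, (groupFusionSystem (P : Subgroup G)).IsEssential p R ∧ s ∈ R := by
  have hpp := hp.out
  by_contra hcon
  push Not at hcon
  set C := Subgroup.centralizer ({s} : Set G) with hC
  have hPC : (P : Subgroup G) ⊓ C ≤ C := inf_le_right
  obtain ⟨T, hT, hKT⟩ := exists_sylIn_ge (p := p) hPC (P.2.to_le inf_le_left)
  obtain ⟨k, hk⟩ := hT.isPGroup.exists_card_eq
  have hk2 : k = (Nat.card C).factorization p := by
    have h1 : Nat.card T * T.relIndex C = Nat.card C := by
      rw [← Subgroup.relIndex_bot_left, ← Subgroup.relIndex_bot_left]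
      exact Subgroup.relIndex_mul_relIndex _ _ _ bot_le hT.le
    have h2 : T.relIndex C ≠ 0 := by
      intro h
      rw [h, mul_zero] at h1
      exact Nat.card_pos.ne h1
    rw [← h1, hk, Nat.factorization_mul (pow_ne_zero _ hpp.ne_zero) h2, Finsupp.add_apply,
      hpp.factorization_pow, Finsupp.single_eq_same, Nat.factorization_eq_zero_of_not_dvd hT.2.2, add_zero]
  have hcard : p ^ 2 < Nat.card T := by
    have h1 := Subgroup.card_le_of_le hKT
    rw [hs.2] at h1
    refine lt_of_le_of_ne h1 fun h => hne ?_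
    rw [hk] at h
    rw [← hk2]
    exact (Nat.pow_right_injective hpp.two_le h).symm
  obtain ⟨g, -, hg⟩ := (sylIn_top P).exists_conj (K := T) le_top hT.isPGroup
  have hsT : s ∈ T := by
    apply hKT
    refine ⟨hs.1, ?_⟩
    show s ∈ Subgroup.centralizer ({s} : Set G)
    rw [Subgroup.mem_centralizer_singleton_iff]
  have hmap : IsMap (groupFusionSystem (P : Subgroup G)) (Subgroup.zpowers s) (fun x => g * x * g⁻¹) := by
    rw [isMap_group]
    refine ⟨by rw [Subgroup.zpowers_le]; exact hs.1, fun x hx => hg x ?_, g, fun x _ => rfl⟩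
    exact (show Subgroup.zpowers s ≤ T by rw [Subgroup.zpowers_le]; exact hsT) hx
  obtain ⟨f, hf, hfs⟩ := exists_extend_top P.2 (group_saturated P) (fun Q hQ hle => hcon Q hQ
    (hle (Subgroup.mem_zpowers s))) hmap
  obtain ⟨-, hfP, h, hh⟩ := isMap_group.1 hf
  have hhs : h * s * h⁻¹ = g * s * g⁻¹ := by
    rw [← hh s hs.1]
    exact hfs s (Subgroup.mem_zpowers s)
  have hhP : ∀ x ∈ (P : Subgroup G), h * x * h⁻¹ ∈ (P : Subgroup G) := fun x hx => by
    rw [← hh x hx]; exact hfP x hx
  have hhP' : ∀ x ∈ (P : Subgroup G), h⁻¹ * x * h ∈ (P : Subgroup G) := by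
    have h3 : (P : Subgroup G).map (MulAut.conj h).toMonoidHom = P := by
      apply Subgroup.eq_of_le_of_card_ge
      · rintro _ ⟨y, hy, rfl⟩
        exact hhP y hy
      · exact (Nat.card_congr (Subgroup.equivMapOfInjective (P : Subgroup G) _ (MulAut.conj h).injective).toEquiv).le
    intro x hx
    rw [← h3] at hx
    obtain ⟨y, hy, rfl⟩ := hx
    have : h⁻¹ * ((MulAut.conj h).toMonoidHom y) * h = y := by
      show h⁻¹ * (h * y * h⁻¹) * h = y
      group
    rw [this]; exact hy
  -- `T` embeds into `C_P(s)`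
  have hle : Nat.card T ≤ Nat.card ((P : Subgroup G) ⊓ C : Subgroup G) := by
    refine Nat.card_le_card_of_injective (fun t : T => (⟨h⁻¹ * (g * t * g⁻¹) * h, hhP' _ (hg t t.2), ?_⟩ :
      ((P : Subgroup G) ⊓ C : Subgroup G))) ?_
    · show h⁻¹ * (g * t * g⁻¹) * h ∈ Subgroup.centralizer ({s} : Set G)
      rw [Subgroup.mem_centralizer_singleton_iff]
      have h1 : (t : G) * s = s * t := by
        have := hT.le t.2
        rw [hC, Subgroup.mem_centralizer_singleton_iff] at this
        exact this
      have h2 : s = h⁻¹ * (g * s * g⁻¹) * h := by rw [← hhs]; group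
      calc h⁻¹ * (g * t * g⁻¹) * h * s = h⁻¹ * (g * t * g⁻¹) * h * (h⁻¹ * (g * s * g⁻¹) * h) := by rw [← h2]
        _ = h⁻¹ * g * (t * s) * g⁻¹ * h := by group
        _ = h⁻¹ * g * (s * t) * g⁻¹ * h := by rw [h1]
        _ = (h⁻¹ * (g * s * g⁻¹) * h) * (h⁻¹ * (g * t * g⁻¹) * h) := by group
        _ = s * (h⁻¹ * (g * t * g⁻¹) * h) := by rw [← h2]
    · intro a b hab
      have h1 : h⁻¹ * (g * (a : G) * g⁻¹) * h = h⁻¹ * (g * (b : G) * g⁻¹) * h := congrArg Subtype.val hab
      have h2 := mul_left_cancel (mul_right_cancel h1)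
      exact Subtype.ext (mul_left_cancel (mul_right_cancel h2))
  rw [hs.2] at hle
  omega

theorem dichotomy (P : Sylow p G) {n : ℕ} (hP : Nat.card P = p ^ n) (hn : 3 ≤ n)
    (hmax : nilpotencyClass ↥(P : Subgroup G) = n - 1) (hcore : Cfsg.pPrimeCore p G = ⊥)
    (hres : ∀ N : Subgroup G, N.Normal → (N.index).Coprime p → N = ⊤)
    (hgen : ∀ M : Subgroup G, (∀ s, Unif p (P : Subgroup G) s → s ∈ M) → (P : Subgroup G) ≤ M) :
    (∃ x ∈ (P : Subgroup G), (Nat.card (Subgroup.centralizer ({x} : Set G))).factorization p = 2) ∨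
      (Cfsg.IsQuasisimple G ∧ Nat.card (Subgroup.center G) ≤ p) := by
  have hpp := hp.out
  by_contra hcon
  push Not at hcon
  obtain ⟨hno, hcon⟩ := hcon
  set F := groupFusionSystem (P : Subgroup G) with hF
  have hFs : F.IsSaturated p := group_saturated P
  have hzc := card_zc hP hn hmax
  have hPfin : Finite (P : Subgroup G) := inferInstance
  have hnil : Group.IsNilpotent (P : Subgroup G) := P.2.isNilpotent
  have htop : ∀ N : Subgroup G, N.Normal → (P : Subgroup G) ≤ N → N = ⊤ := by
    intro N hN hPN
    refine hres N hN ?_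
    have h1 := Subgroup.relIndex_mul_index hPN
    have h2 : ¬ p ∣ N.index := fun h => P.not_dvd_index (h.trans (Dvd.intro_left _ h1))
    exact ((Nat.Prime.coprime_iff_not_dvd hpp).2 h2).symm
  -- normal subgroups
  have hnormal : ∀ N : Subgroup G, N.Normal → N ≠ ⊤ → N ≤ center G ∧ Nat.card N ≤ p := by
    intro N hN hNt
    set T : Subgroup G := (P : Subgroup G) ⊓ N with hT
    have hTP : T ≤ (P : Subgroup G) := inf_le_left
    have hTn : ∀ x ∈ (P : Subgroup G), ∀ t ∈ T, x * t * x⁻¹ ∈ T := fun x hx t ht =>
      ⟨(P : Subgroup G).mul_mem ((P : Subgroup G).mul_mem hx ht.1) ((P : Subgroup G).inv_mem hx), hN.conj_mem _ ht.2 x⟩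
    obtain ⟨k, hk⟩ := (P.2.to_le hTP).exists_card_eq
    -- `|T| ≤ p`
    have hk1 : k ≤ 1 := by
      by_contra hk1
      apply hNt
      refine htop N hN (hgen N fun s hs => ?_)
      obtain ⟨R, hR, hsR⟩ := exists_ess_of_factorization P hs (hno s hs.1)
      have h1 := hs.ess_le P.2 hFs hP hn hmax hR hsR hTP hTn (by
        rw [hk]; exact Nat.pow_le_pow_right hpp.pos (by omega)) (by
        intro α hα x hx
        have h2 := isMap_ofAut hR.1.1 hα
        obtain ⟨-, h3, g, hg⟩ := isMap_group.1 h2
        rw [← ofAut_coe]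
        refine ⟨h3 x x.2, ?_⟩
        show ofAut α x ∈ N
        rw [hg x x.2]
        exact hN.conj_mem _ hx.2 g)
      exact h1.2
    rcases Nat.lt_or_ge k 1 with hk0 | hk0
    · -- `T = 1`
      have : k = 0 := by omega
      rw [this, pow_zero] at hk
      have hT1 : T = ⊥ := Subgroup.card_eq_one.1 hk
      have hsyl : SylIn p T N := (sylIn_top P).inf_normal
      have h1 : (Nat.card N).Coprime p := by
        have h2 := hsyl.2.2
        rw [hT1, Subgroup.relIndex_bot_left] at h2
        exact ((Nat.Prime.coprime_iff_not_dvd hpp).2 h2).symm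
      have h3 := normal_pprime_eq_bot hcore h1
      rw [h3]
      exact ⟨bot_le, by rw [Subgroup.card_bot]; exact hpp.one_lt.le⟩
    · have hk' : k = 1 := by omega
      rw [hk', pow_one] at hk
      -- `T = Z(P)`
      have hTc : T ≤ zc (P : Subgroup G) := by
        have hn' : (T.subgroupOf (P : Subgroup G)).Normal := ⟨fun t ht x => hTn x x.2 t ht⟩
        have h3 := le_center_of_card_eq_prime P.2 (T.subgroupOf (P : Subgroup G))
          ((Nat.card_congr (Subgroup.subgroupOfEquivOfLe hTP).toEquiv).trans hk)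
        intro z hz
        refine ⟨hTP hz, fun s hs => ?_⟩
        have h4 : (⟨z, hTP hz⟩ : (P : Subgroup G)) ∈ Subgroup.center (P : Subgroup G) := h3 hz
        exact congrArg Subtype.val (Subgroup.mem_center_iff.1 h4 ⟨s, hs⟩)
      have hTcomm : T ≤ ⁅(P : Subgroup G), (P : Subgroup G)⁆ := by
        -- the last term of the lower central series is the centre
        have h1 : (⊤ : Subgroup (P : Subgroup G)).lowerCentralSeries (n - 2 + 1) = ⊥ := by
          apply Subgroup.lowerCentralSeries_eq_bot_iff_nilpotencyClass_le.2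
          omega
        have h2 : Nat.card ((⊤ : Subgroup (P : Subgroup G)).lowerCentralSeries (n - 2)) = p := by
          have h3 := Subgroup.card_mul_index ((⊤ : Subgroup (P : Subgroup G)).lowerCentralSeries (n - 2))
          rw [index_lcs_of_maxClass hP hmax (n - 2) (by omega) (by omega), hP] at h3
          have h4 : Nat.card ((⊤ : Subgroup (P : Subgroup G)).lowerCentralSeries (n - 2)) * p ^ (n - 2 + 1) =
              p * p ^ (n - 2 + 1) := by
            rw [h3, ← pow_succ']; congr 1; omega
          exact Nat.eq_of_mul_eq_mul_right (pow_pos hpp.pos _) h4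
        have h3 : (⊤ : Subgroup (P : Subgroup G)).lowerCentralSeries (n - 2) = (zc (P : Subgroup G)).subgroupOf P := by
          have hcz : Nat.card ((zc (P : Subgroup G)).subgroupOf P) = p :=
            (Nat.card_congr (Subgroup.subgroupOfEquivOfLe (H := zc (P : Subgroup G)) (K := (P : Subgroup G))
              (fun x hx => (mem_zc.1 hx).1)).toEquiv).trans hzc
          apply Subgroup.eq_of_le_of_card_ge
          · intro x hx
            rw [Subgroup.mem_subgroupOf]
            refine ⟨x.2, fun y hy => ?_⟩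
            have h5 : ⁅x, (⟨y, hy⟩ : (P : Subgroup G))⁆ ∈
                (⊤ : Subgroup (P : Subgroup G)).lowerCentralSeries (n - 2 + 1) :=
              Subgroup.commutator_mem_commutator hx (Subgroup.mem_top _)
            rw [h1, Subgroup.mem_bot, commutatorElement_eq_one_iff_mul_comm] at h5
            exact (congrArg Subtype.val h5).symm
          · rw [hcz, h2]
        intro z hz
        have h4 : (⟨z, hTP hz⟩ : (P : Subgroup G)) ∈ (zc (P : Subgroup G)).subgroupOf P := hTc hz
        rw [← h3] at h4
        have h5 := Subgroup.lowerCentralSeries_antitone (⊤ : Subgroup (P : Subgroup G)) (show 1 ≤ n - 2 by omega) h4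
        have h6 : (⊤ : Subgroup (P : Subgroup G)).lowerCentralSeries 1 =
            ⁅(⊤ : Subgroup (P : Subgroup G)), ⊤⁆ := rfl
        rw [h6] at h5
        have h7 : Subgroup.map (P : Subgroup G).subtype ⁅(⊤ : Subgroup (P : Subgroup G)), (⊤ : Subgroup (P : Subgroup G))⁆ =
            ⁅(P : Subgroup G), (P : Subgroup G)⁆ := by
          rw [Subgroup.map_commutator, ← MonoidHom.range_eq_map, Subgroup.range_subtype]
        rw [← h7]
        exact ⟨_, h5, rfl⟩
      have hNP : N ≤ (P : Subgroup G) := normal_le_of_inf_prime P hcore N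
        (fun z hz x hx => (mem_zc.1 (hTc hz)).2 x hx) hTcomm
      have hTN : T = N := inf_eq_right.2 hNP
      refine ⟨?_, by rw [← hTN, hk]⟩
      have h1 : (Subgroup.centralizer (N : Set G)) = ⊤ := by
        refine htop _ inferInstance ?_
        intro x hx
        rw [Subgroup.mem_centralizer_iff]
        intro z hz
        exact ((mem_zc.1 (hTc (hTN ▸ hz : z ∈ T))).2 x hx).symm
      rw [← Subgroup.centralizer_univ]
      intro z hz
      rw [Subgroup.mem_centralizer_iff]
      intro x _
      have h2 : x ∈ Subgroup.centralizer (N : Set G) := by rw [h1]; trivial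
      rw [Subgroup.mem_centralizer_iff] at h2
      exact (h2 z hz).symm
  -- `G` is not a `p`-group
  have hPt : (P : Subgroup G) ≠ ⊤ := by
    intro h
    -- uniform elements exist
    have hex : ∃ s, Unif p (P : Subgroup G) s := by
      by_contra hcon'
      push Not at hcon'
      have h1 := hgen ⊥ fun s hs => absurd hs (hcon' s)
      have h2 := Subgroup.card_le_of_le h1
      rw [Subgroup.card_bot, hP] at h2
      have := Nat.one_lt_pow (n := n) (by omega) hpp.one_lt
      omega
    obtain ⟨s, hs⟩ := hex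
    apply hno s hs.1
    have h1 := hs.2
    rw [h, top_inf_eq] at h1
    rw [h1, hpp.factorization_pow, Finsupp.single_eq_same]
  have hcent : center G ≠ ⊤ := by
    intro h
    apply hPt
    refine htop _ ?_ le_rfl
    constructor
    intro x hx g
    have h1 : g ∈ center G := by rw [h]; trivial
    have h2 := Subgroup.mem_center_iff.1 h1 x
    rwa [← h2, mul_inv_cancel_right]
  have hcomm : commutator G = ⊤ := by
    by_contra h
    have h1 := (hnormal (commutator G) inferInstance h).1
    -- `G` is nilpotent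
    have h2 : Group.IsNilpotent G := by
      have h3 : (⊤ : Subgroup G).lowerCentralSeries 2 = ⊥ := by
        rw [eq_bot_iff]
        show ⁅⁅(⊤ : Subgroup G), ⊤⁆, ⊤⁆ ≤ ⊥
        rw [Subgroup.commutator_le]
        intro x hx y _
        have h4 : x ∈ center G := h1 hx
        rw [Subgroup.mem_bot, commutatorElement_eq_one_iff_mul_comm]
        exact (Subgroup.mem_center_iff.1 h4 y).symm
      exact Subgroup.nilpotent_iff_lowerCentralSeries.2 ⟨2, h3⟩
    have h3 : (P : Subgroup G).Normal := inferInstance
    exact hPt (htop _ h3 le_rfl)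
  have hcc := hnormal (center G) inferInstance hcent
  refine absurd hcc.2 (not_le.2 (hcon ⟨?_, ?_⟩))
  · exact ⟨hcomm⟩
  · have hnt : Nontrivial (G ⧸ center G) := by
      rw [QuotientGroup.nontrivial_iff]
      exact hcent
    refine { eq_bot_or_eq_top_of_normal := fun M hM => ?_ }
    by_cases hMt : M.comap (QuotientGroup.mk' (center G)) = ⊤
    · right
      rw [eq_top_iff]
      intro x _
      obtain ⟨g, rfl⟩ := QuotientGroup.mk_surjective x
      have : g ∈ M.comap (QuotientGroup.mk' (center G)) := by rw [hMt]; trivial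
      exact this
    · left
      have h1 := (hnormal _ (hM.comap _) hMt).1
      rw [eq_bot_iff]
      intro x hx
      obtain ⟨g, rfl⟩ := QuotientGroup.mk_surjective x
      have h2 : g ∈ M.comap (QuotientGroup.mk' (center G)) := hx
      exact (QuotientGroup.eq_one_iff g).2 (h1 h2)

end Cfsg.Agent.MaxClass
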