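import Cfsg.Agent.Fus.ResLim
import Cfsg.Agent.Fus.ExtZ
import Cfsg.Agent.Fus.Lay1
import Cfsg.Agent.Fus.Chain

set_option autoImplicit false

/-!
# Residual limits and subsystems of index prime to `p` (helper85)
-/

namespace Cfsg.Agent.Fus

open Cfsg Cfsg.FusionSystem

universe u

/-- a subgroup containing the `p'`-elements and a Sylow `p`-subgroup is everything -/
theorem le_of_coprime_sylow {A : Type*} [Group A] [Finite A] {p : ℕ} [Fact p.Prime] {B X : Subgroup A}
    (h1 : ∀ b ∈ B, (orderOf b).Coprime p → b ∈ X) (R : Sylow p B)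
    (hR : ∀ r : B, r ∈ (R : Subgroup B) → (r : A) ∈ X) : B ≤ X := by
  have htop := Cfsg.Agent.Transfer.sylow_sup_pResidual R
  intro b hb
  have h3 : (R : Subgroup B) ⊔ pResidual p B ≤ X.subgroupOf B := by
    refine sup_le ?_ ?_
    · intro r hr
      exact Subgroup.mem_subgroupOf.mpr (hR r hr)
    · unfold pResidual
      rw [Subgroup.closure_le]
      intro β hβ
      rw [SetLike.mem_coe, Subgroup.mem_subgroupOf]
      refine h1 β β.2 ?_
      rw [Subgroup.orderOf_coe]
      exact hβ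
  have h4 : (⟨b, hb⟩ : B) ∈ (R : Subgroup B) ⊔ pResidual p B := by
    rw [htop]
    trivial
  exact h3 h4

variable {Ω : Type u} [Group Ω] {p : ℕ} [Fact p.Prime]

/-- transport of an automorphism along a map -/
theorem exists_trA {S : Subgroup Ω} {F : FusionSystem S} {P Q : Subgroup Ω} {f : Ω → Ω} (hf : IsMap F P f)
    (hfQ : img P f = Q) {α : MulAut P} (hα : α ∈ F.autGroup P) :
    ∃ β ∈ F.autGroup Q, ∀ x ∈ P, ofAut β (f x) = f (ofAut α x) := by
  subst hfQ
  have h1 : IsMap F (img P f) (fun y => f (ofAut α (minv P f y))) := by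
    have h2 : IsMap F P (fun x => f (ofAut α x)) :=
      hf.comp (isMap_ofAut hf.le hα) fun x hx => ofAut_mem α hx
    exact (h2.comp hf.minv_isMap fun y hy => hf.minv_mem hy)
  have h3 : img (img P f) (fun y => f (ofAut α (minv P f y))) = img P f := by
    ext z
    rw [h1.mem_img, hf.mem_img]
    constructor
    · rintro ⟨y, hy, rfl⟩
      exact ⟨_, ofAut_mem α (hf.minv_mem hy), rfl⟩
    · rintro ⟨x, hx, rfl⟩
      refine ⟨f (ofAut α⁻¹ x), subset_img (ofAut_mem _ hx), ?_⟩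
      show f (ofAut α (minv P f (f (ofAut α⁻¹ x)))) = f x
      rw [hf.minv_apply (ofAut_mem _ hx), ofAut_apply_inv α hx]
  obtain ⟨β, hβ, hβx⟩ := h1.exists_aut h3
  refine ⟨β, hβ, fun x hx => ?_⟩
  rw [hβx _ (subset_img hx), hf.minv_apply hx]

theorem tr_pow {P Q : Subgroup Ω} {f : Ω → Ω} {α : MulAut P} {β : MulAut Q} (hfQ : ∀ x ∈ P, f x ∈ Q)
    (h : ∀ x ∈ P, ofAut β (f x) = f (ofAut α x)) (n : ℕ) : ∀ x ∈ P, ofAut (β ^ n) (f x) = f (ofAut (α ^ n) x) := by
  induction n with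
  | zero => intro x hx; rw [pow_zero, pow_zero, ofAut_one hx, ofAut_one (hfQ x hx)]
  | succ n ih =>
    intro x hx
    rw [pow_succ, pow_succ, ofAut_mul _ _ (hfQ x hx), ofAut_mul _ _ hx, h x hx, ih _ (ofAut_mem _ hx)]

theorem tr_pow_eq_one {S : Subgroup Ω} {F : FusionSystem S} {P Q : Subgroup Ω} {f : Ω → Ω} (hf : IsMap F P f)
    (hfQ : img P f = Q) {α : MulAut P} {β : MulAut Q}
    (h : ∀ x ∈ P, ofAut β (f x) = f (ofAut α x)) {n : ℕ} (hn : α ^ n = 1) : β ^ n = 1 := by
  refine ofAut_injective fun y hy => ?_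
  have hy' := hy
  rw [← hfQ] at hy'
  obtain ⟨x, hx, rfl⟩ := hf.mem_img.mp hy'
  rw [tr_pow (fun x hx => hfQ ▸ subset_img hx) h n x hx, hn, ofAut_one hx, ofAut_one hy]

section

variable {S H : Subgroup Ω} {F F' : FusionSystem S} {D D₂ : FusionSystem H}

/-- subsystems of `p`-power index over the same subgroup: index prime to `p` is inherited -/
theorem primeToP_of_ppower [Finite S] (hS : IsPGroup p S) (hF : F.IsSaturated p) (hF' : F'.IsSaturated p)
    (hi : F'.HasPrimeToPIndexIn F p) (hHS : H ≤ S) (hHn : ∀ s ∈ S, ∀ x ∈ H, s * x * s⁻¹ ∈ H)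
    (hH : F.hyperfocalSubgroup p ≤ H) (hD : D.IsSaturated p) (hDi : D.HasPPowerIndexIn F p)
    (hD₂ : D₂.IsSaturated p) (hD₂i : D₂.HasPPowerIndexIn F' p) : D₂.HasPrimeToPIndexIn D p := by
  have hi' := hasPrimeToPIndexIn_iff.mp hi
  have hDi' := hasPPowerIndexIn_iff.mp hDi
  have hD₂i' := hasPPowerIndexIn_iff.mp hD₂i
  have hfH : Finite H := finite_of_le hHS
  have hpH : IsPGroup p H := isPGroup_of_le hS hHS
  have hle : D₂ ≤ D := by
    refine alperin_coprime hpH hD₂ fun P hPn _ _ α hα hαp => ?_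
    refine hDi'.2.2 P hPn.1 α ?_ hαp
    exact autGroup_mono hi'.1 P ((mem_autGroup_iff (hPn.1.trans hHS)).mpr
      (isSubsystemOf_iff.mp hD₂i'.1 _ _ (isMap_ofAut hPn.1 hα)))
  have hDn := isNormalIn_of_ppower hS hF hHS hHn hH hD hDi
  have hD₂n := isNormalIn_of_ppower hS hF' hHS hHn hD₂i'.2.1 hD₂ hD₂i
  have hHF := hDn.1.2.2.2.1
  have hHF' := hD₂n.1.2.2.2.1
  refine hasPrimeToPIndexIn_iff.mpr ⟨hle, fun P hPH α hα k hk => ?_⟩
  -- transport to a subgroup fully normalized in `D₂`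
  obtain ⟨Q, hPQ, hQ⟩ := exists_fullyNormalized (F := D₂) hPH
  obtain ⟨f, hf, hfQ⟩ := isConj_iff.mp hPQ
  have hQS : Q ≤ S := hQ.1.trans hHS
  have hfD := le_iff.mp hle _ _ hf
  -- the fully normalized conjugate in `F`
  obtain ⟨Q₀, hQQ₀, hQ₀⟩ := exists_fn_of_dec (fun P f hf => pPrimeRes_dec hS hF (P := P) (f := f) hf) hQS
  have hres : pPrimeRes F p ≤ F' := pPrimeRes_min hS hF hF' hi
  obtain ⟨g, hg, hgQ⟩ := isConj_iff.mp hQQ₀
  have hgF' : IsMap F' Q g := le_iff.mp hres _ _ hg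
  have hgF : IsMap F Q g := le_iff.mp hi'.1 _ _ hgF'
  -- `|N_H(Q₀)| ≤ |N_H(Q)|`
  have hc1 : Nat.card (normalizerIn H Q₀) ≤ Nat.card (normalizerIn H Q) := by
    obtain ⟨γ, hγ, g₂, hg₂, h1⟩ := dec_of_invariant hD₂n.1.2.2 hQ.1 hgF'
    have hQ₀e : Q₀ = img (img Q g₂) (ofAut γ) := by rw [← hgQ, img_congr h1, hg₂.img_comp]
    have h2 : Nat.card (normalizerIn H Q₀) ≤ Nat.card (normalizerIn H (img Q g₂)) := by
      have hγi := Subgroup.inv_mem _ hγ
      have h3 := (isMap_ofAut hHS hγi).mono (normalizerIn_le (S := H) Q₀)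
      have h4 : img Q₀ (ofAut γ⁻¹) = img Q g₂ := by rw [hQ₀e, img_ofAut_inv' γ hg₂.img_le]
      refine card_le_of_map h3 ((normalizerIn_le _).trans hHS) fun x hx => ?_
      refine ⟨ofAut_mem _ hx.1, ?_⟩
      have := (isMap_ofAut hHS hγi).map_normalizer (P := Q₀) (hQ₀e ▸ img_le_of_le γ hg₂.img_le) hx.1 hx.2
      rwa [h4] at this
    exact h2.trans (hQ.2 _ hg₂.isConj)
  have hQD : D.IsFullyNormalized Q := by
    refine ⟨hQ.1, fun Q' hQ' => le_trans ?_ hc1⟩
    obtain ⟨r, hr, rfl⟩ := isConj_iff.mp hQ'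
    have hrF : IsMap F Q r := isSubsystemOf_iff.mp hDi'.1 _ _ hr
    have hcj : F.IsConj (img Q r) Q₀ := isConj_trans (isConj_symm hrF.isConj) (isConj_iff.mpr ⟨g, hgF, hgQ⟩)
    obtain ⟨χ, hχ, hχQ, hχN⟩ := sat_exists_normalizer_map hS hF hQ₀ hcj
    have hl : normalizerIn H (img Q r) ≤ normalizerIn S (img Q r) := inf_le_inf_right _ hHS
    exact card_le_of_map (hχ.mono hl) ((normalizerIn_le _).trans hHS) fun x hx =>
      ⟨sc_map_mem hHF hχ (hl hx) hx.1, (hχN x (hl hx)).2⟩
  have hfa := sat_fullyAutomized hpH hD hQD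
  -- the automizers
  have hfQ' : Finite Q := finite_of_le hQ.1
  have hfA := finite_mulAut (P := Q)
  have hD₂le : D₂.autGroup Q ≤ D.autGroup Q := autGroup_mono hle Q
  have hHle : autInducedBy H Q ≤ D.autGroup Q ⊓ F'.autGroup Q := by
    refine le_inf (autInducedBy_le_autGroup hQ.1) ?_
    refine le_trans (autInducedBy_mono hHS) (autInducedBy_le_autGroup hQS)
  have hHp : IsPGroup p ((autInducedBy H Q).subgroupOf (D.autGroup Q ⊓ F'.autGroup Q)) :=
    (isPGroup_autInducedBy hpH Q).comap_of_injective _ (Subgroup.subtype_injective _)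
  obtain ⟨R, hR⟩ := hHp.exists_le_sylow
  have key : D.autGroup Q ⊓ F'.autGroup Q ≤ D₂.autGroup Q := by
    refine le_of_coprime_sylow (p := p) (fun b hb hbp => ?_) R fun r hr => ?_
    · exact (mem_autGroup_iff hQ.1).mpr (hD₂i'.2.2 Q hQ.1 b hb.2 hbp)
    · have h5 : (R : Subgroup ↥(D.autGroup Q ⊓ F'.autGroup Q)).map (Subgroup.subtype _) ≤ autInducedBy H Q := by
        refine Cfsg.Agent.Fus.IsFullyAutomized.le_of_isPGroup hfa ?_ ?_ ?_
        · rintro _ ⟨y, hy, rfl⟩
          exact y.2.1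
        · exact R.2.map _
        · intro y hy
          exact ⟨⟨y, hHle hy⟩, hR (Subgroup.mem_subgroupOf.mpr hy), rfl⟩
      exact autInducedBy_le_autGroup hQ.1 (h5 ⟨r, hr, rfl⟩)
  obtain ⟨β, hβ, hβx⟩ := exists_trA hfD hfQ hα
  have hβk := tr_pow_eq_one hfD hfQ hβx hk
  have hβF' : β ∈ F'.autGroup Q := by
    refine hi'.2 Q hQS β ?_ k hβk
    exact (mem_autGroup_iff hQS).mpr (isSubsystemOf_iff.mp hDi'.1 _ _ (isMap_ofAut hQ.1 hβ))
  have hβ₂ := key ⟨hβ, hβF'⟩
  rw [mem_autGroup_iff hPH]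
  have h6 : IsMap D₂ P (fun x => ofAut β (f x)) :=
    (isMap_ofAut hQ.1 hβ₂).comp hf fun x hx => hfQ ▸ subset_img hx
  have h7 : IsMap D₂ P (fun x => minv P f (ofAut β (f x))) := by
    refine hf.minv_isMap.comp h6 fun x hx => ?_
    rw [hfQ]
    exact ofAut_mem _ (hfQ ▸ subset_img hx)
  exact h7.congr fun x hx => by rw [hβx x hx, hf.minv_apply (ofAut_mem _ hx)]

end

section

/-- index prime to `p` is transitive -/
theorem primeToP_trans {S : Subgroup Ω} {F₁ F₂ F₃ : FusionSystem S} (h : F₁.HasPrimeToPIndexIn F₂ p)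
    (h' : F₂.HasPrimeToPIndexIn F₃ p) : F₁.HasPrimeToPIndexIn F₃ p := by
  rw [hasPrimeToPIndexIn_iff] at *
  exact ⟨fusLe_trans h.1 h'.1, fun P hP α hα k hk => h.2 P hP α (h'.2 P hP α hα k hk) k hk⟩

/-- subsystems of index prime to `p` have the same `p'`-residual -/
theorem pPrimeRes_eq {S : Subgroup Ω} [Finite S] (hS : IsPGroup p S) {F F' : FusionSystem S} (hF : F.IsSaturated p)
    (hF' : F'.IsSaturated p) (hi : F'.HasPrimeToPIndexIn F p) : pPrimeRes F' p = pPrimeRes F p := by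
  have h1 : pPrimeRes F p ≤ F' := pPrimeRes_min hS hF hF' hi
  refine fusLe_antisymm ?_ ?_
  · refine pPrimeRes_min hS hF' (pPrimeRes_saturated hS hF) ?_
    have h2 := hasPrimeToPIndexIn_iff.mp (pPrimeRes_index hS hF)
    have h3 := hasPrimeToPIndexIn_iff.mp hi
    exact hasPrimeToPIndexIn_iff.mpr ⟨h1, fun P hP α hα k hk => h2.2 P hP α (autGroup_mono h3.1 P hα) k hk⟩
  · exact pPrimeRes_min hS hF (pPrimeRes_saturated hS hF') (primeToP_trans (pPrimeRes_index hS hF') hi)

theorem pPrimeRes_idem {S : Subgroup Ω} [Finite S] (hS : IsPGroup p S) {F : FusionSystem S} (hF : F.IsSaturated p) :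
    pPrimeRes (pPrimeRes F p) p = pPrimeRes F p :=
  pPrimeRes_eq hS hF (pPrimeRes_saturated hS hF) (pPrimeRes_index hS hF)

/-- a residual limit of `O^{p'}(F)` is a residual limit of `F` when `hyp(F) = S` -/
theorem lim_of_res {S T : Subgroup Ω} [Finite S] (hS : IsPGroup p S) {F : FusionSystem S} (hF : F.IsSaturated p)
    (h : F.hyperfocalSubgroup p = S) {L : FusionSystem T} (hL : L.IsResidualLimitOf (pPrimeRes F p) p) :
    L.IsResidualLimitOf F p := by
  obtain ⟨D, h1, h2, h3⟩ := exists_ppower (Nat.card S) rfl hS hF (T := F.hyperfocalSubgroup p) hyper_le_S le_rfl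
  have hDi : D.HasPPowerIndexIn F p := hasPPowerIndexIn_iff.mpr ⟨h2, le_rfl, h3⟩
  have key : ∀ (V : Subgroup Ω) (_ : V = S) (D : FusionSystem V), D.IsSaturated p → D.HasPPowerIndexIn F p →
      ∃ D' : FusionSystem V, D.IsPPrimeResidual p D' ∧ L.IsResidualLimitOf D' p := by
    rintro V rfl D g1 g2
    have e : D = F := ppower_unique hS le_rfl g1 hF g2 (index_self h.le)
    subst e
    exact ⟨_, isPPrimeResidual_pPrimeRes hS g1, hL⟩
  obtain ⟨D', g1, g2⟩ := key _ h D h1 hDi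
  exact IsResidualLimitOf.step F p D D' ⟨h1, hDi⟩ g1 g2

/-- existence of residual limits -/
theorem exists_lim (n : ℕ) : ∀ {S : Subgroup Ω} {F : FusionSystem S} [Finite S], Nat.card S = n →
    IsPGroup p S → F.IsSaturated p → ∃ (T : Subgroup Ω) (L : FusionSystem T), L.IsResidualLimitOf F p := by
  induction n using Nat.strong_induction_on with
  | _ n ih =>
  -- the case `hyp(F) < S`
  have caseA : ∀ {S : Subgroup Ω} {F : FusionSystem S} [Finite S], Nat.card S = n →
      IsPGroup p S → F.IsSaturated p → F.hyperfocalSubgroup p ≠ S →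
      ∃ (T : Subgroup Ω) (L : FusionSystem T), L.IsResidualLimitOf F p := by
    intro S F _ hn hS hF hne
    have hlt : F.hyperfocalSubgroup p < S := lt_of_le_of_ne hyper_le_S hne
    obtain ⟨D, h1, h2, h3⟩ := exists_ppower (Nat.card S) rfl hS hF (T := F.hyperfocalSubgroup p) hyper_le_S le_rfl
    have hDi : D.HasPPowerIndexIn F p := hasPPowerIndexIn_iff.mpr ⟨h2, le_rfl, h3⟩
    have hfH : Finite (F.hyperfocalSubgroup p) := finite_of_le hlt.le
    have hpH : IsPGroup p (F.hyperfocalSubgroup p) := isPGroup_of_le hS hlt.le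
    have hcard : Nat.card (F.hyperfocalSubgroup p) < n := by
      rw [← hn]
      refine lt_of_le_of_ne (Subgroup.card_le_of_le hlt.le) fun he => hne ?_
      exact Subgroup.eq_of_le_of_card_ge hlt.le he.ge
    obtain ⟨T, L, hL⟩ := ih _ hcard (F := pPrimeRes D p) rfl hpH (pPrimeRes_saturated hpH h1)
    exact ⟨T, L, IsResidualLimitOf.step F p D _ ⟨h1, hDi⟩ (isPPrimeResidual_pPrimeRes hpH h1) hL⟩
  intro S F _ hn hS hF
  by_cases hne : F.hyperfocalSubgroup p = S
  · have hR := pPrimeRes_saturated hS hF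
    by_cases hne' : (pPrimeRes F p).hyperfocalSubgroup p = S
    · refine ⟨S, pPrimeRes F p, lim_of_res hS hF hne (IsResidualLimitOf.stable _ _ hne' ?_)⟩
      rw [isPPrimeResidual_iff hS hR, pPrimeRes_idem hS hF]
    · obtain ⟨T, L, hL⟩ := caseA hn hS hR hne'
      exact ⟨T, L, lim_of_res hS hF hne hL⟩
  · exact caseA hn hS hF hne

theorem exists_lim' {S : Subgroup Ω} {F : FusionSystem S} [Finite S] (hS : IsPGroup p S) (hF : F.IsSaturated p) :
    ∃ (T : Subgroup Ω) (L : FusionSystem T), L.IsResidualLimitOf F p := exists_lim _ rfl hS hF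

/-- `F` and `F'` have the same residual limits -/
def EqLim (p : ℕ) {S S' : Subgroup Ω} (F : FusionSystem S) (F' : FusionSystem S') : Prop :=
  ∀ (T T' : Subgroup Ω) (L : FusionSystem T) (L' : FusionSystem T'), L.IsResidualLimitOf F p →
    L'.IsResidualLimitOf F' p → ∀ P, L.Hom P = L'.Hom P

omit [Fact p.Prime] in
theorem EqLim.symm {S S' : Subgroup Ω} {F : FusionSystem S} {F' : FusionSystem S'} (h : EqLim p F F') :
    EqLim p F' F := fun T T' L L' hL hL' P => (h T' T L' L hL' hL P).symm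

theorem EqLim.trans {S S' S'' : Subgroup Ω} {F : FusionSystem S} {F' : FusionSystem S'} {F'' : FusionSystem S''}
    [Finite S'] (hS' : IsPGroup p S') (hF' : F'.IsSaturated p) (h : EqLim p F F') (h' : EqLim p F' F'') :
    EqLim p F F'' := by
  intro T T' L L' hL hL' P
  obtain ⟨T₀, L₀, hL₀⟩ := exists_lim' hS' hF'
  exact (h _ _ L L₀ hL hL₀ P).trans (h' _ _ L₀ L' hL₀ hL' P)

theorem eqLim_of_sameRes {S S' : Subgroup Ω} {F : FusionSystem S} {F' : FusionSystem S'} [Finite S] [Finite S']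
    (hS : IsPGroup p S) (hS' : IsPGroup p S') (hF : F.IsSaturated p) (hF' : F'.IsSaturated p)
    (h : SameRes p F F') : EqLim p F F' :=
  fun _ _ _ L' hL hL' => lim_unique hL F' L' inferInstance hS hF inferInstance hS' hF' h hL'

theorem EqLim.refl {S : Subgroup Ω} {F : FusionSystem S} [Finite S] (hS : IsPGroup p S) (hF : F.IsSaturated p) :
    EqLim p F F := eqLim_of_sameRes hS hS hF hF (SameRes.refl hS hF)

theorem eqLim_of_ppower {S T : Subgroup Ω} [Finite S] (hS : IsPGroup p S) {F : FusionSystem S} {E : FusionSystem T}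
    (hTS : T ≤ S) (hF : F.IsSaturated p) (hE : E.IsSaturated p) (hi : E.HasPPowerIndexIn F p) : EqLim p F E := by
  have := finite_of_le hTS
  exact eqLim_of_sameRes hS (isPGroup_of_le hS hTS) hF hE (sameRes_of_ppower hS hTS hE hi)

/-- **Subsystems of index prime to `p` have the same residual limit.** -/
theorem eqLim_of_pprime (n : ℕ) : ∀ {S : Subgroup Ω} {F F' : FusionSystem S} [Finite S], Nat.card S = n →
    IsPGroup p S → F.IsSaturated p → F'.IsSaturated p → F'.HasPrimeToPIndexIn F p → EqLim p F F' := by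
  induction n using Nat.strong_induction_on with
  | _ n ih =>
  have caseA : ∀ {S : Subgroup Ω} {F F' : FusionSystem S} [Finite S], Nat.card S = n →
      IsPGroup p S → F.IsSaturated p → F'.IsSaturated p → F'.HasPrimeToPIndexIn F p →
      F.hyperfocalSubgroup p ≠ S → EqLim p F F' := by
    intro S F F' _ hn hS hF hF' hi hne
    have hlt : F.hyperfocalSubgroup p < S := lt_of_le_of_ne hyper_le_S hne
    have hle' : F'.hyperfocalSubgroup p ≤ F.hyperfocalSubgroup p :=
      hyper_mono_sys (isSubsystemOf_iff.mpr (le_iff.mp (hasPrimeToPIndexIn_iff.mp hi).1)) le_rfl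
    obtain ⟨D, h1, h2, h3⟩ := exists_ppower (Nat.card S) rfl hS hF (T := F.hyperfocalSubgroup p) hyper_le_S le_rfl
    have hDi : D.HasPPowerIndexIn F p := hasPPowerIndexIn_iff.mpr ⟨h2, le_rfl, h3⟩
    obtain ⟨D₂, k1, k2, k3⟩ := exists_ppower (Nat.card S) rfl hS hF' (T := F.hyperfocalSubgroup p) hyper_le_S hle'
    have hD₂i : D₂.HasPPowerIndexIn F' p := hasPPowerIndexIn_iff.mpr ⟨k2, hle', k3⟩
    have hfH : Finite (F.hyperfocalSubgroup p) := finite_of_le hlt.le
    have hpH : IsPGroup p (F.hyperfocalSubgroup p) := isPGroup_of_le hS hlt.le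
    have hcard : Nat.card (F.hyperfocalSubgroup p) < n := by
      rw [← hn]
      refine lt_of_le_of_ne (Subgroup.card_le_of_le hlt.le) fun he => hne ?_
      exact Subgroup.eq_of_le_of_card_ge hlt.le he.ge
    have hn' : ∀ s ∈ S, ∀ x ∈ F.hyperfocalSubgroup p, s * x * s⁻¹ ∈ F.hyperfocalSubgroup p :=
      fun s hs x hx => sc_conj_mem (stronglyClosed_hyper hS hF) hs hx
    have hx := primeToP_of_ppower hS hF hF' hi hyper_le_S hn' le_rfl h1 hDi k1 hD₂i
    have e1 := eqLim_of_ppower hS hyper_le_S hF h1 hDi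
    have e2 := eqLim_of_ppower hS hyper_le_S hF' k1 hD₂i
    have e3 := ih _ hcard rfl hpH h1 k1 hx
    exact (e1.trans hpH h1 e3).trans hpH k1 e2.symm
  intro S F F' _ hn hS hF hF' hi
  by_cases hne : F.hyperfocalSubgroup p = S
  · -- everything equals the limit of `O^{p'}(F)`
    have hR := pPrimeRes_saturated hS hF
    have key : ∀ G : FusionSystem S, G.IsSaturated p → G.HasPrimeToPIndexIn F p → EqLim p G (pPrimeRes F p) := by
      intro G hG hGi
      have e := pPrimeRes_eq hS hF hG hGi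
      by_cases hG' : G.hyperfocalSubgroup p = S
      · intro T T' L L' hL hL' P
        rw [← e] at hL'
        exact EqLim.refl hS hG _ _ L L' hL (lim_of_res hS hG hG' hL') P
      · rw [← e]
        exact caseA hn hS hG (pPrimeRes_saturated hS hG) (pPrimeRes_index hS hG) hG'
    have hself : F.HasPrimeToPIndexIn F p :=
      hasPrimeToPIndexIn_iff.mpr ⟨le_iff.mpr fun _ _ h => h, fun P hP α hα k hk => hα⟩
    exact (key F hF hself).trans hS hR (key F' hF' hi).symm
  · exact caseA hn hS hF hF' hi hne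

end

end Cfsg.Agent.Fus
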