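import Cfsg.Agent.Fus.NE1
import Cfsg.Agent.Fus.ES15

set_option autoImplicit false

/-!
# The subgroup `{s ∈ S | c_s|_T ∈ N}` and the step of `p`-power index (helper85)
-/

namespace Cfsg.Agent.Fus

open Cfsg Cfsg.FusionSystem

variable {Ω : Type*} [Group Ω] {S T : Subgroup Ω} {F : FusionSystem S} {E : FusionSystem T} {p : ℕ}

/-- conjugation by an element of `S` on `T` -/
noncomputable def cT (hT : F.StronglyClosed T) (s : S) : MulAut T := conjAut (s : Ω) (sc_le_normalizer hT s.2)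

theorem ofAut_cT (hT : F.StronglyClosed T) (s : S) {x : Ω} (hx : x ∈ T) :
    ofAut (cT hT s) x = (s : Ω) * x * (s : Ω)⁻¹ := ofAut_conjAut _ _ hx

theorem cT_mul (hT : F.StronglyClosed T) (s t : S) : cT hT (s * t) = cT hT s * cT hT t := by
  refine ofAut_injective fun x hx => ?_
  rw [ofAut_mul _ _ hx, ofAut_cT hT _ hx, ofAut_cT hT t hx, ofAut_cT hT s (sc_conj_mem hT t.2 hx)]
  simp only [Subgroup.coe_mul]
  group

theorem cT_mem (hT : F.StronglyClosed T) (s : S) : cT hT s ∈ F.autGroup T :=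
  conjAut_mem_autGroup hT.1 s.2 _

theorem cT_mem_of_mem (hT : F.StronglyClosed T) {s : S} (hs : (s : Ω) ∈ T) : cT hT s ∈ E.autGroup T :=
  conjAut_mem_autGroup le_rfl hs _

theorem cT_eq_of (hT : F.StronglyClosed T) {s : S} {α : MulAut T} (h : ∀ x ∈ T, ofAut α x = (s : Ω) * x * (s : Ω)⁻¹) :
    cT hT s = α := ofAut_injective fun x hx => by rw [ofAut_cT hT s hx, h x hx]

/-- how maps of `F` change the action on `T` -/
theorem theta_formula [Finite S] [Fact p.Prime] (hS : IsPGroup p S) (hE : E.IsNormalIn F p) {P : Subgroup Ω}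
    {f : Ω → Ω} (hf : IsMap F P f) : ∃ α ∈ F.autGroup T, ∀ (x : Ω) (hx : x ∈ P), ∃ e ∈ E.autGroup T,
      cT hE.1.2.2.2.1 ⟨f x, hf.mem hx⟩ = α * (e * cT hE.1.2.2.2.1 ⟨x, hf.le hx⟩) * α⁻¹ := by
  have hT := hE.1.2.2.2.1
  obtain ⟨φ, γ, hφ, hγ, hfe⟩ := es_factor hS hE hf
  have hγT : IsMap F T γ := hγ.mono le_sup_right
  obtain ⟨α, hα, hαx⟩ := hγT.exists_aut (sc_img_eq hT hγT le_rfl)
  refine ⟨α, hα, fun x hx => ?_⟩
  have ht : φ x * x⁻¹ ∈ T := hφ.mod x hx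
  refine ⟨cT hT ⟨φ x * x⁻¹, hT.1 ht⟩, cT_mem_of_mem hT ht, ?_⟩
  refine cT_eq_of hT fun z hz => ?_
  have hw : ofAut α⁻¹ z ∈ T := ofAut_mem _ hz
  have hφP : φ x ∈ P ⊔ T := by
    have : φ x = φ x * x⁻¹ * x := by group
    rw [this]
    exact Subgroup.mul_mem _ (le_sup_right (a := P) ht) (le_sup_left (a := P) hx)
  rw [ofAut_mul _ _ hz, ofAut_mul _ _ hw, ofAut_mul _ _ hw, ofAut_cT hT _ hw,
    ofAut_cT hT _ (sc_conj_mem hT (hf.le hx) hw)]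
  have e1 : (φ x * x⁻¹) * (x * ofAut α⁻¹ z * x⁻¹) * (φ x * x⁻¹)⁻¹ = φ x * ofAut α⁻¹ z * (φ x)⁻¹ := by group
  show ofAut α ((φ x * x⁻¹) * (x * ofAut α⁻¹ z * x⁻¹) * (φ x * x⁻¹)⁻¹) = _
  rw [e1, hαx _ (sc_conj_mem hT (hφ.isMapF.mem hx) hw)]
  rw [hγ.map_conj hφP (le_sup_right (a := P) hw), ← hfe x hx, ← hαx _ hw, ofAut_apply_inv α hz]

/-- the elements of `S` acting on `T` as elements of `N` -/
def tS (S : Subgroup Ω) {T : Subgroup Ω} (N : Subgroup (MulAut T)) : Subgroup Ω where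
  carrier := {s | s ∈ S ∧ ∃ ν ∈ N, ∀ x ∈ T, ofAut ν x = s * x * s⁻¹}
  one_mem' := ⟨S.one_mem, 1, N.one_mem, fun x hx => by rw [ofAut_one hx]; group⟩
  mul_mem' := by
    rintro a b ⟨ha, ν, hν, h1⟩ ⟨hb, μ, hμ, h2⟩
    refine ⟨S.mul_mem ha hb, ν * μ, N.mul_mem hν hμ, fun x hx => ?_⟩
    rw [ofAut_mul _ _ hx, h1 _ (ofAut_mem _ hx), h2 x hx]
    group
  inv_mem' := by
    rintro a ⟨ha, ν, hν, h1⟩
    refine ⟨S.inv_mem ha, ν⁻¹, N.inv_mem hν, fun x hx => ?_⟩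
    have h2 := h1 _ (ofAut_mem ν⁻¹ hx)
    rw [ofAut_apply_inv ν hx] at h2
    calc ofAut ν⁻¹ x = a⁻¹ * (a * ofAut ν⁻¹ x * a⁻¹) * a⁻¹⁻¹ := by group
      _ = a⁻¹ * x * a⁻¹⁻¹ := by rw [← h2]

theorem mem_tS {N : Subgroup (MulAut T)} {s : Ω} :
    s ∈ tS S N ↔ s ∈ S ∧ ∃ ν ∈ N, ∀ x ∈ T, ofAut ν x = s * x * s⁻¹ := Iff.rfl

theorem mem_tS_iff {N : Subgroup (MulAut T)} (hT : F.StronglyClosed T) {s : Ω} (hs : s ∈ S) :
    s ∈ tS S N ↔ cT hT ⟨s, hs⟩ ∈ N := by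
  rw [mem_tS]
  constructor
  · rintro ⟨-, ν, hν, h⟩
    rw [cT_eq_of hT (s := ⟨s, hs⟩) h]
    exact hν
  · intro h
    exact ⟨hs, _, h, fun x hx => ofAut_cT hT ⟨s, hs⟩ hx⟩

theorem tS_le {N : Subgroup (MulAut T)} : tS S N ≤ S := fun _ h => h.1

theorem le_tS (hT : F.StronglyClosed T) {N : Subgroup (MulAut T)} (hNE : E.autGroup T ≤ N) : T ≤ tS S N :=
  fun x hx => (mem_tS_iff hT (hT.1 hx)).2 (hNE (cT_mem_of_mem hT hx))

theorem centralizerIn_le_tS {N : Subgroup (MulAut T)} : centralizerIn S T ≤ tS S N := fun c hc =>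
  ⟨hc.1, 1, N.one_mem, fun x hx => by
    rw [ofAut_one hx, ← (mem_centralizerIn.mp hc).2 x hx, mul_inv_cancel_right]⟩

theorem tS_stronglyClosed [Finite S] [Fact p.Prime] (hS : IsPGroup p S) (hE : E.IsNormalIn F p)
    {N : Subgroup (MulAut T)} (hNn : ∀ α ∈ F.autGroup T, ∀ ν ∈ N, α * ν * α⁻¹ ∈ N) (hNE : E.autGroup T ≤ N) :
    F.StronglyClosed (tS S N) := by
  have hT := hE.1.2.2.2.1
  refine stronglyClosed_iff_isMap.mpr ⟨tS_le, fun P f hf x hxP hx => ?_⟩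
  obtain ⟨α, hα, h⟩ := theta_formula hS hE hf
  obtain ⟨e, he, h1⟩ := h x hxP
  rw [mem_tS_iff hT (hf.mem hxP), h1]
  exact hNn α hα _ (N.mul_mem (hNE he) ((mem_tS_iff hT (hf.le hxP)).1 hx))

theorem hyper_le_tS [Finite S] [Fact p.Prime] (hS : IsPGroup p S) (hE : E.IsNormalIn F p)
    {N : Subgroup (MulAut T)} (hNn : ∀ α ∈ F.autGroup T, ∀ ν ∈ N, α * ν * α⁻¹ ∈ N) (hNE : E.autGroup T ≤ N)
    (hNp : ∀ α ∈ F.autGroup T, ∃ k : ℕ, α ^ p ^ k ∈ N) : F.hyperfocalSubgroup p ≤ tS S N := by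
  have hT := hE.1.2.2.2.1
  refine hyper_le fun P hP κ hκ x hx => ?_
  have hκm := isMap_ofAut hP κ.2
  obtain ⟨α, hα, h⟩ := theta_formula hS hE hκm
  have hn : (N.subgroupOf (F.autGroup T)).Normal := by
    refine ⟨fun ν hν α => ?_⟩
    rw [Subgroup.mem_subgroupOf] at hν ⊢
    exact hNn α α.2 ν hν
  obtain ⟨θ, hθ⟩ : ∃ θ : S → (↥(F.autGroup T) ⧸ N.subgroupOf (F.autGroup T)), ∀ s,
      θ s = QuotientGroup.mk ⟨cT hT s, cT_mem hT s⟩ := ⟨_, fun _ => rfl⟩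
  obtain ⟨d, hd⟩ : ∃ d : (↥(F.autGroup T) ⧸ N.subgroupOf (F.autGroup T)), d = QuotientGroup.mk ⟨α, hα⟩ := ⟨_, rfl⟩
  have hθmul : ∀ s t, θ (s * t) = θ s * θ t := fun s t => by
    rw [hθ, hθ, hθ, ← QuotientGroup.mk_mul]
    congr 1
    exact Subtype.ext (cT_mul hT s t)
  have hform : ∀ (y : Ω) (hy : y ∈ P), θ ⟨ofAut (κ : MulAut P) y, hP (ofAut_mem _ hy)⟩ = d * θ ⟨y, hP hy⟩ * d⁻¹ := by
    intro y hy
    obtain ⟨e, he, h1⟩ := h y hy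
    have heN : e ∈ F.autGroup T :=
      (mem_autGroup_iff hT.1).mpr (isSubsystemOf_iff.mp hE.1.2.2.1 _ _ (isMap_ofAut le_rfl he))
    have h2 : (QuotientGroup.mk ⟨e, heN⟩ : ↥(F.autGroup T) ⧸ N.subgroupOf (F.autGroup T)) = 1 := by
      rw [QuotientGroup.eq_one_iff, Subgroup.mem_subgroupOf]
      exact hNE he
    rw [hθ, hθ, hd]
    have h3 : (⟨cT hT ⟨ofAut (κ : MulAut P) y, hP (ofAut_mem _ hy)⟩, cT_mem hT _⟩ : F.autGroup T) =
        ⟨α, hα⟩ * (⟨e, heN⟩ * ⟨cT hT ⟨y, hP hy⟩, cT_mem hT _⟩) * ⟨α, hα⟩⁻¹ := Subtype.ext h1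
    rw [h3, QuotientGroup.mk_mul, QuotientGroup.mk_mul, QuotientGroup.mk_mul, h2, one_mul, QuotientGroup.mk_inv]
  have hpow : ∀ (n : ℕ) (y : Ω) (hy : y ∈ P), θ ⟨ofAut ((κ : MulAut P) ^ n) y, hP (ofAut_mem _ hy)⟩ =
      d ^ n * θ ⟨y, hP hy⟩ * (d ^ n)⁻¹ := by
    intro n
    induction n with
    | zero =>
      intro y hy
      have h5 : (⟨ofAut ((κ : MulAut P) ^ 0) y, hP (ofAut_mem _ hy)⟩ : S) = ⟨y, hP hy⟩ :=
        Subtype.ext (show ofAut ((κ : MulAut P) ^ 0) y = y by rw [pow_zero, ofAut_one hy])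
      rw [h5, pow_zero, one_mul, inv_one, mul_one]
    | succ n ih =>
      intro y hy
      have h4 := hform (ofAut ((κ : MulAut P) ^ n) y) (ofAut_mem _ hy)
      rw [ih y hy] at h4
      have h5 : (⟨ofAut ((κ : MulAut P) ^ (n + 1)) y, hP (ofAut_mem _ hy)⟩ : S) =
          ⟨ofAut (κ : MulAut P) (ofAut ((κ : MulAut P) ^ n) y), hP (ofAut_mem _ (ofAut_mem _ hy))⟩ :=
        Subtype.ext (show ofAut ((κ : MulAut P) ^ (n + 1)) y = ofAut (κ : MulAut P) (ofAut ((κ : MulAut P) ^ n) y) by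
          rw [pow_succ', ofAut_mul _ _ hy])
      rw [h5, h4, pow_succ']
      group
  -- `d` commutes with `θ x`
  have hdp : ∃ k : ℕ, orderOf d = p ^ k := by
    obtain ⟨k, hk⟩ := hNp α hα
    have h6 : d ^ p ^ k = 1 := by
      rw [hd, ← QuotientGroup.mk_pow, QuotientGroup.eq_one_iff, Subgroup.mem_subgroupOf]
      exact hk
    obtain ⟨j, -, hj⟩ := (Nat.dvd_prime_pow Fact.out).mp (orderOf_dvd_of_pow_eq_one h6)
    exact ⟨j, hj⟩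
  have hκ' : (orderOf (κ : MulAut P)).Coprime p := by rwa [Subgroup.orderOf_coe]
  have hc : Commute (d ^ orderOf (κ : MulAut P)) (θ ⟨x, hP hx⟩) := by
    have h7 := hpow (orderOf (κ : MulAut P)) x hx
    have h8 : (⟨ofAut ((κ : MulAut P) ^ orderOf (κ : MulAut P)) x, hP (ofAut_mem _ hx)⟩ : S) = ⟨x, hP hx⟩ :=
      Subtype.ext (show ofAut ((κ : MulAut P) ^ orderOf (κ : MulAut P)) x = x by
        rw [pow_orderOf_eq_one, ofAut_one hx])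
    rw [h8] at h7
    show _ * _ = _ * _
    calc d ^ orderOf (κ : MulAut P) * θ ⟨x, hP hx⟩
        = (d ^ orderOf (κ : MulAut P) * θ ⟨x, hP hx⟩ * (d ^ orderOf (κ : MulAut P))⁻¹) *
          d ^ orderOf (κ : MulAut P) := by group
      _ = _ := by rw [← h7]
  have hc' : Commute d (θ ⟨x, hP hx⟩) := by
    obtain ⟨k, hk⟩ := hdp
    have h9 : (orderOf (κ : MulAut P)).Coprime (orderOf d) := by
      rw [hk]
      exact hκ'.pow_right k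
    obtain ⟨m, hm⟩ := exists_pow_eq_self_of_coprime h9
    have := hc.pow_left m
    rwa [hm] at this
  have h10 : θ ⟨ofAut (κ : MulAut P) x, hP (ofAut_mem _ hx)⟩ = θ ⟨x, hP hx⟩ := by
    rw [hform x hx, hc'.eq, mul_inv_cancel_right]
  have hmS : x⁻¹ * ofAut (κ : MulAut P) x ∈ S := S.mul_mem (S.inv_mem (hP hx)) (hP (ofAut_mem _ hx))
  rw [mem_tS_iff hT hmS]
  have h11 : θ ⟨x⁻¹ * ofAut (κ : MulAut P) x, hmS⟩ = 1 := by
    have h12 := hθmul ⟨x, hP hx⟩ ⟨x⁻¹ * ofAut (κ : MulAut P) x, hmS⟩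
    have h13 : (⟨x, hP hx⟩ * ⟨x⁻¹ * ofAut (κ : MulAut P) x, hmS⟩ : S) =
        ⟨ofAut (κ : MulAut P) x, hP (ofAut_mem _ hx)⟩ := Subtype.ext (mul_inv_cancel_left x _)
    rw [h13, h10] at h12
    exact (mul_eq_left.mp h12.symm)
  rw [hθ, QuotientGroup.eq_one_iff, Subgroup.mem_subgroupOf] at h11
  exact h11

end Cfsg.Agent.Fus
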