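import Mathlib
set_option autoImplicit false

/-!
# Fixed points in a coset of a central element (helper85)
-/

namespace Cfsg.Agent.Fus

/-- If `A` moves the central element `c` of the finite `p`-group `J` inside the coset `c W` and a Sylow `p`-subgroup of `A`
fixes `c`, then `A` has a fixed point `c m`, `m ∈ W` central. -/
theorem exists_fixed_coset {J : Type*} [Group J] [Finite J] {p : ℕ} [Fact p.Prime] (hJ : IsPGroup p J)
    (A : Subgroup (MulAut J)) {c : J} (hc : c ∈ Subgroup.center J) (W : Subgroup J)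
    (hW : ∀ a ∈ A, c⁻¹ * a c ∈ W) (R : Sylow p A) (hR : ∀ r : A, r ∈ (R : Subgroup A) → (r : MulAut J) c = c) :
    ∃ m ∈ W, c * m ∈ Subgroup.center J ∧ ∀ a ∈ A, a (c * m) = c * m := by
  classical
  letI cg : CommGroup ↥(Subgroup.center J) :=
    { (inferInstance : Group ↥(Subgroup.center J)) with
      mul_comm := fun a b => Subtype.ext (Subgroup.mem_center_iff.1 b.2 a) }
  have hfA : Finite (MulAut J) := Finite.of_injective (fun a : MulAut J => (a : J → J)) DFunLike.coe_injective
  have : Fintype A := Fintype.ofFinite _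
  have hcen : ∀ (a : MulAut J) (z : J), z ∈ Subgroup.center J → a z ∈ Subgroup.center J := by
    intro a z hz
    rw [Subgroup.mem_center_iff] at hz ⊢
    intro g
    have h1 := congrArg a (hz (a⁻¹ g))
    rw [map_mul, map_mul] at h1
    have h2 : a (a⁻¹ g) = g := MulAut.apply_inv_self J a g
    rwa [h2] at h1
  -- restriction to the centre
  let r : MulAut J → (Subgroup.center J →* Subgroup.center J) := fun a =>
    ((a.toMonoidHom).comp (Subgroup.center J).subtype).codRestrict (Subgroup.center J) fun z => hcen a z z.2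
  have hr : ∀ (a : MulAut J) (z : Subgroup.center J), ((r a z : Subgroup.center J) : J) = a (z : J) := fun a z => rfl
  let o : A → Subgroup.center J := fun a => ⟨(a : MulAut J) c, hcen a c hc⟩
  obtain ⟨O, hO⟩ : ∃ O : Finset (Subgroup.center J), O = Finset.univ.image o := ⟨_, rfl⟩
  have hOm : ∀ x, x ∈ O ↔ ∃ a : A, o a = x := fun x => by rw [hO]; simp
  -- invariance of the product
  have hinv : ∀ b ∈ A, r b (∏ x ∈ O, x) = ∏ x ∈ O, x := by
    intro b hb
    rw [map_prod]
    refine Finset.prod_bij' (fun x _ => r b x) (fun x _ => r b⁻¹ x) ?_ ?_ ?_ ?_ ?_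
    · intro x hx
      obtain ⟨a, rfl⟩ := (hOm x).1 hx
      exact (hOm _).2 ⟨⟨b, hb⟩ * a, Subtype.ext rfl⟩
    · intro x hx
      obtain ⟨a, rfl⟩ := (hOm x).1 hx
      exact (hOm _).2 ⟨⟨b, hb⟩⁻¹ * a, Subtype.ext rfl⟩
    · intro x _
      refine Subtype.ext ?_
      rw [hr, hr]
      exact MulAut.inv_apply_self J b x
    · intro x _
      refine Subtype.ext ?_
      rw [hr, hr]
      exact MulAut.apply_inv_self J b x
    · intro x _
      rfl
  -- the product modulo `W`
  obtain ⟨cz, hcz⟩ : ∃ cz : Subgroup.center J, cz = ⟨c, hc⟩ := ⟨_, rfl⟩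
  have hprod : ∏ x ∈ O, x = cz ^ O.card * ∏ x ∈ O, (cz⁻¹ * x) := by
    rw [← Finset.prod_const, ← Finset.prod_mul_distrib]
    exact Finset.prod_congr rfl fun x _ => (mul_inv_cancel_left cz x).symm
  have hm : (∏ x ∈ O, (cz⁻¹ * x)) ∈ W.subgroupOf (Subgroup.center J) := by
    refine Subgroup.prod_mem _ fun x hx => ?_
    obtain ⟨a, rfl⟩ := (hOm x).1 hx
    rw [Subgroup.mem_subgroupOf, hcz]
    exact hW a a.2
  -- the number of factors is prime to `p`
  have hcard : O.card = (MulAction.stabilizer A c).index := by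
    rw [MulAction.index_stabilizer]
    have h1 : MulAction.orbit A c = Subtype.val '' (O : Set (Subgroup.center J)) := by
      ext x
      constructor
      · rintro ⟨a, rfl⟩
        exact ⟨o a, by rw [Finset.mem_coe, hOm]; exact ⟨a, rfl⟩, rfl⟩
      · rintro ⟨y, hy, rfl⟩
        rw [Finset.mem_coe, hOm] at hy
        obtain ⟨a, rfl⟩ := hy
        exact ⟨a, rfl⟩
    rw [h1, Set.ncard_image_of_injective _ Subtype.val_injective, Set.ncard_coe_finset]
  have hcop : ¬ p ∣ O.card := by
    rw [hcard]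
    intro h
    have h1 : (R : Subgroup A) ≤ MulAction.stabilizer A c := fun a ha => hR a ha
    exact R.not_dvd_index (h.trans (Subgroup.index_dvd_of_le h1))
  obtain ⟨k, hk⟩ := hJ c
  obtain ⟨j, -, hj⟩ := (Nat.dvd_prime_pow Fact.out).mp (orderOf_dvd_of_pow_eq_one hk)
  have hco : (O.card).Coprime (orderOf c) := by
    rw [hj]
    exact Nat.Coprime.pow_right j (Nat.Coprime.symm ((Nat.Prime.coprime_iff_not_dvd Fact.out).2 hcop))
  obtain ⟨l, hl⟩ := exists_pow_eq_self_of_coprime hco
  obtain ⟨w, hw⟩ : ∃ w : Subgroup.center J, w = (∏ x ∈ O, (cz⁻¹ * x)) ^ l := ⟨_, rfl⟩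
  have hP : (∏ x ∈ O, x) ^ l = cz * w := by
    rw [hprod, mul_pow, hw]
    congr 1
    refine Subtype.ext ?_
    rw [hcz]
    exact hl
  have hv : ((∏ x ∈ O, x) ^ l : Subgroup.center J) = cz * w := hP
  refine ⟨(w : J), ?_, ?_, fun a ha => ?_⟩
  · rw [← Subgroup.mem_subgroupOf, hw]
    exact Subgroup.pow_mem _ hm l
  · have := (cz * w).2
    rwa [Subgroup.coe_mul, hcz] at this
  · have h1 : r a ((∏ x ∈ O, x) ^ l) = (∏ x ∈ O, x) ^ l := by rw [map_pow, hinv a ha]
    rw [hv] at h1
    have h2 := congrArg Subtype.val h1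
    rw [hr, Subgroup.coe_mul, hcz] at h2
    exact h2

end Cfsg.Agent.Fus
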