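import Cfsg.Agent.Fus.PPow6

set_option autoImplicit false

/-!
# The `p`-residual subsystem of the fusion system of a finite group (helper35)
-/

namespace Cfsg.Agent.Fus

open Cfsg Cfsg.FusionSystem

variable {G : Type*} [Group G] {p : ℕ}

theorem sylIn_inf_normal [Finite G] [Fact p.Prime] (S : Sylow p G) (K : Subgroup G) (hK : K.Normal) :
    SylIn p ((S : Subgroup G) ⊓ K) K := by
  have hT := sylIn_top S
  refine ⟨inf_le_right, hT.isPGroup.to_le inf_le_left, ?_⟩
  obtain ⟨R, hR, hle⟩ := exists_sylIn_ge (p := p) (K := (S : Subgroup G) ⊓ K) (L := K) inf_le_right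
    (hT.isPGroup.to_le inf_le_left)
  obtain ⟨l, hl, hlR⟩ := hT.exists_conj (hR.le.trans le_top) hR.isPGroup
  have h1 : cj l R ≤ (S : Subgroup G) ⊓ K := cj_le_iff.mpr fun x hx => ⟨hlR x hx, hK.conj_mem x (hR.le hx) l⟩
  have h2 : Nat.card R ≤ Nat.card ((S : Subgroup G) ⊓ K : Subgroup G) := by
    have := Subgroup.card_le_of_le h1
    rwa [show cj l R = R.map (MulAut.conj l).toMonoidHom from rfl,
      Subgroup.card_map_of_injective (MulAut.conj l).injective] at this
  have h3 : (S : Subgroup G) ⊓ K = R := Subgroup.eq_of_le_of_card_ge hle h2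
  rw [h3]
  exact hR.2.2

theorem residual_fsos_ppower [Finite G] [Fact p.Prime] (S : Sylow p G)
    (h : (S : Subgroup G) ⊓ pResidual p G ≤ pResidual p G) :
    (fusionSystemOfSubgroup (pResidual p G) ((S : Subgroup G) ⊓ pResidual p G) h).IsSaturated p ∧
    (fusionSystemOfSubgroup (pResidual p G) ((S : Subgroup G) ⊓ pResidual p G) h).HasPPowerIndexIn
      (groupFusionSystem (S : Subgroup G)) p := by
  refine ⟨fsos_saturated (sylIn_inf_normal S _ (Cfsg.Agent.Transfer.pResidual_normal p)), ?_⟩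
  rw [hasPPowerIndexIn_iff]
  refine ⟨?_, (hyper_group S).le, fun P hP α hα hαp => ?_⟩
  · rw [isSubsystemOf_iff]
    intro P f hf
    obtain ⟨h1, h2, g, -, hg⟩ := isMap_fsos.mp hf
    exact isMap_group.mpr ⟨h1.trans inf_le_left, fun x hx => (h2 x hx).1, g, hg⟩
  · have hPS : P ≤ (S : Subgroup G) := hP.trans inf_le_left
    obtain ⟨-, -, g, hg⟩ := isMap_group.mp (isMap_ofAut hPS hα)
    have hgn := mem_normalizer_of_ofAut hg
    have hfx : P.normalizerMonoidHom ⟨g, hgn⟩ = α := by
      refine ofAut_injective fun y hy => ?_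
      rw [hg y hy, ofAut_apply _ hy]
      rfl
    obtain ⟨n, hn1, hn2⟩ := Cfsg.Agent.Transfer.exists_pow_lift p P.normalizerMonoidHom ⟨g, hgn⟩
      (orderOf_pos _).ne' (by rw [hfx]; exact hαp)
    have hcop : (orderOf (g ^ n)).Coprime p := by
      rw [← Subgroup.orderOf_mk (g ^ n) (Subgroup.pow_mem _ hgn n)]
      exact hn2
    refine isMap_fsos.mpr ⟨hP, fun x hx => hP (ofAut_mem α hx), g ^ n,
      Cfsg.Agent.Transfer.mem_pResidual_of_coprime hcop, fun x hx => ?_⟩
    rw [← hfx, ← hn1, ofAut_apply _ hx]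
    rfl

end Cfsg.Agent.Fus
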