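import Cfsg.Agent.Fus.QDWMain
import Cfsg.Agent.Fus.QDWPSU

set_option autoImplicit false

/-!
# The 2-fusion system of `PSU(3, q)`, `q` odd, is simple (helper35)
-/

namespace Cfsg.Agent.QDW

open Cfsg Subgroup Matrix

theorem simple_PSU3 {F : Type*} [Field F] [Fintype F] {q : ℕ} (hF : Fintype.card F = q ^ 2) (hodd : q % 2 = 1)
    (S : Sylow 2 (Cfsg.PSU 3 F q)) :
    (Cfsg.groupFusionSystem (S : Subgroup (Cfsg.PSU 3 F q))).IsSimple 2 := by
  refine Fus.isSimple_of_qdw S ?_ ?_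
  · exact pResidual_two_of_perfect (perfect_quot (Uni.SU_perfect hF le_rfl (by omega)) _)
  · have h : q % 4 = 1 ∨ q % 4 = 3 := by omega
    rcases h with h | h
    · exact Or.inl ((sylow_PSU3 hF S).1 h)
    · exact Or.inr ((sylow_PSU3 hF S).2 h)

end Cfsg.Agent.QDW
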