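import Cfsg.Agent.H34.Fact2

/-!
Quadratic offender theorem: a group of automorphisms of an elementary abelian 2-group `V` with trivial 2-core all
of whose 2-subgroups act quadratically and which contains an offender has an `S₃`-subgroup acting faithfully on a
four-subgroup of `V`.
-/

set_option autoImplicit false
set_option maxHeartbeats 400000

namespace Cfsg.Agent.Fus.QO

open Cfsg Cfsg.Agent.H34

universe u

variable {V : Type u} [CommGroup V] [Finite V]

/-- `|K| |L| ≤ |K ⊔ L| |K ⊓ L|`. -/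
theorem card_mul_le {G : Type*} [Group G] [Finite G] (K L : Subgroup G) :
    Nat.card K * Nat.card L ≤ Nat.card (K ⊔ L : Subgroup G) * Nat.card (K ⊓ L : Subgroup G) := by
  have h1 : K.relIndex L ≤ K.relIndex (K ⊔ L) :=
    Subgroup.relIndex_le_of_le_right le_sup_right (by
      have := (K.subgroupOf (K ⊔ L)).index_ne_zero_of_finite
      exact this)
  have h2 := Subgroup.relIndex_mul_relIndex ⊥ (K ⊓ L) L bot_le inf_le_right
  rw [Subgroup.relIndex_bot_left, Subgroup.relIndex_bot_left, Subgroup.inf_relIndex_right] at h2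
  have h3 := Subgroup.relIndex_mul_relIndex ⊥ K (K ⊔ L) bot_le le_sup_left
  rw [Subgroup.relIndex_bot_left, Subgroup.relIndex_bot_left] at h3
  rw [← h2, ← h3]
  calc Nat.card K * (Nat.card (K ⊓ L : Subgroup G) * K.relIndex L)
      = Nat.card K * K.relIndex L * Nat.card (K ⊓ L : Subgroup G) := by ring
    _ ≤ Nat.card K * K.relIndex (K ⊔ L) * Nat.card (K ⊓ L : Subgroup G) :=
      Nat.mul_le_mul_right _ (Nat.mul_le_mul_left _ h1)

/-- all 2-subgroups of `H` act quadratically on `V` -/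
def Quad (H : Subgroup (MulAut V)) : Prop :=
  ∀ P : Subgroup (MulAut V), P ≤ H → IsPGroup 2 P → ∀ a ∈ P, ∀ b ∈ P, ∀ v : V, a (b v * v⁻¹) = b v * v⁻¹

omit [Finite V] in
theorem Quad.mono {H K : Subgroup (MulAut V)} (hH : Quad H) (h : K ≤ H) : Quad K :=
  fun P hP => hH P (hP.trans h)

omit [Finite V] in
theorem inv_eq (hV : ∀ v : V, v * v = 1) (v : V) : v⁻¹ = v := inv_eq_of_mul_eq_one_left (hV v)

omit [Finite V] in
theorem Quad.comm {H P : Subgroup (MulAut V)} (hq : Quad H) (hP : P ≤ H)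
    (h2 : IsPGroup 2 P) {a b : MulAut V} (ha : a ∈ P) (hb : b ∈ P) : a * b = b * a := by
  ext v
  show a (b v) = b (a v)
  have h3 := hq P hP h2 a ha b hb v
  have h4 := hq P hP h2 b hb a ha v
  rw [map_mul, map_inv] at h3 h4
  have h5 : a (b v) = b v * v⁻¹ * a v := by rw [← h3]; group
  have h6 : b (a v) = a v * v⁻¹ * b v := by rw [← h4]; group
  rw [h5, h6, mul_right_comm, mul_comm (b v), mul_right_comm]

omit [Finite V] in
theorem Quad.sq {H P : Subgroup (MulAut V)} (hV : ∀ v : V, v * v = 1) (hq : Quad H) (hP : P ≤ H)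
    (h2 : IsPGroup 2 P) {a : MulAut V} (ha : a ∈ P) : a * a = 1 := by
  ext v
  show a (a v) = v
  have h3 := hq P hP h2 a ha a ha v
  rw [map_mul, map_inv, inv_eq hV, inv_eq hV] at h3
  have h5 : a (a v) = a v * v * a v := by
    rw [← h3, mul_assoc, hV, mul_one]
  rw [h5, mul_right_comm, hV, one_mul]

/-- the value of a subgroup -/
noncomputable def val (A : Subgroup (MulAut V)) : ℕ := Nat.card A * Nat.card (fixedBy A)

theorem val_mul_le (A B : Subgroup (MulAut V)) : val A * val B ≤ val (A ⊔ B) * val (A ⊓ B) := by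
  have h1 := card_mul_le A B
  have h2 := card_mul_le (fixedBy A) (fixedBy B)
  have h3 : fixedBy A ⊔ fixedBy B ≤ fixedBy (A ⊓ B) :=
    sup_le (fixedBy_anti inf_le_left) (fixedBy_anti inf_le_right)
  have h4 : fixedBy A ⊓ fixedBy B ≤ fixedBy (A ⊔ B) := by
    intro v hv
    obtain ⟨hvA, hvB⟩ := Subgroup.mem_inf.mp hv
    have h5 : A ⊔ B ≤ MulAction.stabilizer (MulAut V) v := sup_le (fun a ha => hvA a ha) (fun b hb => hvB b hb)
    exact fun x hx => h5 hx
  have h5 : Nat.card (fixedBy A ⊔ fixedBy B : Subgroup V) ≤ Nat.card (fixedBy (A ⊓ B)) :=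
    Nat.card_le_card_of_injective _ (Subgroup.inclusion_injective h3)
  have h6 : Nat.card (fixedBy A ⊓ fixedBy B : Subgroup V) ≤ Nat.card (fixedBy (A ⊔ B)) :=
    Nat.card_le_card_of_injective _ (Subgroup.inclusion_injective h4)
  unfold val
  calc Nat.card A * Nat.card (fixedBy A) * (Nat.card B * Nat.card (fixedBy B))
      = (Nat.card A * Nat.card B) * (Nat.card (fixedBy A) * Nat.card (fixedBy B)) := by ring
    _ ≤ (Nat.card (A ⊔ B : Subgroup (MulAut V)) * Nat.card (A ⊓ B : Subgroup (MulAut V))) *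
        (Nat.card (fixedBy (A ⊓ B)) * Nat.card (fixedBy (A ⊔ B))) :=
      Nat.mul_le_mul h1 (h2.trans (Nat.mul_le_mul h5 h6))
    _ = _ := by ring

theorem val_pos (A : Subgroup (MulAut V)) : 0 < val A := Nat.mul_pos Nat.card_pos Nat.card_pos

/-- conjugates -/
def cj (g : MulAut V) (A : Subgroup (MulAut V)) : Subgroup (MulAut V) := A.map (MulAut.conj g).toMonoidHom

omit [Finite V] in
theorem mem_cj {g : MulAut V} {A : Subgroup (MulAut V)} {x : MulAut V} : x ∈ cj g A ↔ ∃ a ∈ A, g * a * g⁻¹ = x := Iff.rfl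

theorem card_cj (g : MulAut V) (A : Subgroup (MulAut V)) : Nat.card (cj g A) = Nat.card A :=
  Subgroup.card_map_of_injective (MulAut.conj g).injective

theorem fixedBy_cj (g : MulAut V) (A : Subgroup (MulAut V)) :
    fixedBy (cj g A) = (fixedBy A).map g.toMonoidHom := by
  ext v
  constructor
  · intro hv
    refine ⟨g⁻¹ v, ?_, ?_⟩
    · intro a ha
      have h1 := hv (g * a * g⁻¹) ⟨a, ha, rfl⟩
      have h2 : g (a (g⁻¹ v)) = v := h1
      calc a (g⁻¹ v) = g⁻¹ (g (a (g⁻¹ v))) := (MulAut.inv_apply_self V g _).symm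
        _ = g⁻¹ v := by rw [h2]
    · exact MulAut.apply_inv_self V g v
  · rintro ⟨w, hw, rfl⟩ _ ⟨a, ha, rfl⟩
    show g (a (g⁻¹ (g w))) = g w
    rw [MulAut.inv_apply_self, hw a ha]

theorem val_cj (g : MulAut V) (A : Subgroup (MulAut V)) : val (cj g A) = val A := by
  have h1 : Function.Injective (g.toMonoidHom : V →* V) := g.injective
  rw [val, card_cj, fixedBy_cj, Subgroup.card_map_of_injective h1, val]

/-- the maximal offenders -/
structure Mx (H A : Subgroup (MulAut V)) : Prop where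
  le : A ≤ H
  two : IsPGroup 2 A
  ne : A ≠ ⊥
  off : Nat.card V ≤ val A
  max : ∀ B : Subgroup (MulAut V), B ≤ H → IsPGroup 2 B → B ≠ ⊥ → val B ≤ val A
  maxc : ∀ B : Subgroup (MulAut V), B ≤ H → IsPGroup 2 B → B ≠ ⊥ → val B = val A → Nat.card B ≤ Nat.card A

theorem exists_Mx {H A : Subgroup (MulAut V)} (hA : A ≤ H) (h2 : IsPGroup 2 A) (hne : A ≠ ⊥)
    (hoff : Nat.card V ≤ val A) : ∃ B, Mx H B := by
  let S : Set (Subgroup (MulAut V)) := {B | B ≤ H ∧ IsPGroup 2 B ∧ B ≠ ⊥}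
  have hS : S.Finite := Set.toFinite _
  obtain ⟨B, ⟨hB1, hB2, hB3⟩, hBm⟩ := Set.exists_max_image S val hS ⟨A, hA, h2, hne⟩
  let T : Set (Subgroup (MulAut V)) := {C | C ∈ S ∧ val C = val B}
  have hT : T.Finite := Set.toFinite _
  obtain ⟨C, ⟨⟨hC1, hC2, hC3⟩, hC4⟩, hCm⟩ := Set.exists_max_image T (fun C => Nat.card C) hT ⟨B, ⟨hB1, hB2, hB3⟩, rfl⟩
  refine ⟨C, hC1, hC2, hC3, ?_, ?_, ?_⟩
  · rw [hC4]; exact hoff.trans (hBm A ⟨hA, h2, hne⟩)
  · intro D hD1 hD2 hD3
    rw [hC4]; exact hBm D ⟨hD1, hD2, hD3⟩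
  · intro D hD1 hD2 hD3 hD4
    exact hCm D ⟨⟨hD1, hD2, hD3⟩, hD4.trans hC4⟩

theorem Mx.val_eq {H A B : Subgroup (MulAut V)} (hA : Mx H A) (hB : Mx H B) : val A = val B :=
  le_antisymm (hB.max A hA.le hA.two hA.ne) (hA.max B hB.le hB.two hB.ne)

theorem Mx.cj {H A : Subgroup (MulAut V)} (hA : Mx H A) {g : MulAut V} (hg : g ∈ H) : Mx H (cj g A) := by
  refine ⟨?_, ?_, ?_, ?_, ?_, ?_⟩
  · rintro _ ⟨a, ha, rfl⟩
    exact mul_mem (mul_mem hg (hA.le ha)) (inv_mem hg)
  · exact hA.two.map _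
  · intro h
    apply hA.ne
    rw [QO.cj, Subgroup.map_eq_bot_iff_of_injective _ (MulAut.conj g).injective] at h
    exact h
  · rw [val_cj]; exact hA.off
  · intro B h1 h2 h3
    rw [val_cj]; exact hA.max B h1 h2 h3
  · intro B h1 h2 h3 h4
    rw [card_cj]; rw [val_cj] at h4
    exact hA.maxc B h1 h2 h3 h4

theorem Mx.eq {H A B : Subgroup (MulAut V)} (hA : Mx H A) (hB : Mx H B)
    (h : IsPGroup 2 (A ⊔ B : Subgroup (MulAut V))) : A = B := by
  have h1 := val_mul_le A B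
  have h2 : val (A ⊓ B) ≤ val A := by
    by_cases hbot : A ⊓ B = ⊥
    · rw [hbot]
      refine le_trans ?_ hA.off
      rw [val, Subgroup.card_bot, one_mul]
      exact Nat.card_le_card_of_injective _ Subtype.val_injective
    · exact hA.max _ (inf_le_left.trans hA.le) (hA.two.to_le inf_le_left) hbot
  have hne : A ⊔ B ≠ ⊥ := fun h => hA.ne (le_bot_iff.mp (h ▸ le_sup_left))
  have h3 : val (A ⊔ B) ≤ val A := hA.max _ (sup_le hA.le hB.le) h hne
  have h4 : val A ≤ val (A ⊔ B) := by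
    rw [← hA.val_eq hB] at h1
    have h5 : val A * val A ≤ val (A ⊔ B) * val A := h1.trans (Nat.mul_le_mul_left _ h2)
    exact Nat.le_of_mul_le_mul_right h5 (val_pos A)
  have h5 : val (A ⊔ B) = val A := le_antisymm h3 h4
  have h6 := hA.maxc _ (sup_le hA.le hB.le) h hne h5
  have h7 := hB.maxc _ (sup_le hA.le hB.le) h hne (h5.trans (hA.val_eq hB))
  have h8 : A = A ⊔ B := Subgroup.eq_of_le_of_card_ge le_sup_left h6
  have h9 : B = A ⊔ B := Subgroup.eq_of_le_of_card_ge le_sup_right h7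
  rw [h8]; exact h9.symm

/-- a minimal pair of maximal offenders -/
structure Pair (H A B : Subgroup (MulAut V)) : Prop where
  mA : Mx H A
  mB : Mx H B
  not2 : ¬ IsPGroup 2 (A ⊔ B : Subgroup (MulAut V))
  min : ∀ C D : Subgroup (MulAut V), Mx H C → Mx H D → ¬ IsPGroup 2 (C ⊔ D : Subgroup (MulAut V)) →
    Nat.card (A ⊔ B : Subgroup (MulAut V)) ≤ Nat.card (C ⊔ D : Subgroup (MulAut V))

theorem Pair.symm {H A B : Subgroup (MulAut V)} (h : Pair H A B) : Pair H B A := by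
  refine ⟨h.mB, h.mA, ?_, ?_⟩
  · rw [sup_comm]; exact h.not2
  · intro C D hC hD hCD
    rw [sup_comm B A]; exact h.min C D hC hD hCD

theorem exists_Pair {H A : Subgroup (MulAut V)} (hA : Mx H A) (hcore : pCore 2 H = ⊥) : ∃ B C, Pair H B C := by
  have : Fact (Nat.Prime 2) := ⟨Nat.prime_two⟩
  have hex : ∃ g ∈ H, ¬ IsPGroup 2 (A ⊔ cj g A : Subgroup (MulAut V)) := by
    by_contra hcon
    push Not at hcon
    have h1 : ∀ g ∈ H, cj g A = A := fun g hg => (hA.eq (hA.cj hg) (hcon g hg)).symm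
    have h2 : (A.subgroupOf H).Normal := by
      constructor
      intro n hn g
      have h3 : (g : MulAut V) * n * (g : MulAut V)⁻¹ ∈ cj g A := ⟨n, hn, rfl⟩
      rw [h1 g g.2] at h3
      exact h3
    have h3 : IsPGroup 2 (A.subgroupOf H) := hA.two.comap_subtype
    have h4 : A.subgroupOf H ≤ pCore 2 H := Cfsg.Agent.Solv.le_pCore h2 h3
    rw [hcore, le_bot_iff, Subgroup.subgroupOf_eq_bot] at h4
    apply hA.ne
    rw [← inf_eq_left.mpr hA.le]
    exact h4.eq_bot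
  obtain ⟨g, hg, hgA⟩ := hex
  let S : Set (Subgroup (MulAut V) × Subgroup (MulAut V)) :=
    {p | Mx H p.1 ∧ Mx H p.2 ∧ ¬ IsPGroup 2 (p.1 ⊔ p.2 : Subgroup (MulAut V))}
  have hS : S.Finite := Set.toFinite _
  obtain ⟨p, ⟨hp1, hp2, hp3⟩, hpm⟩ := Set.exists_min_image S
    (fun p => Nat.card (p.1 ⊔ p.2 : Subgroup (MulAut V))) hS ⟨(A, cj g A), hA, hA.cj hg, hgA⟩
  exact ⟨p.1, p.2, hp1, hp2, hp3, fun C D hC hD hCD => hpm (C, D) ⟨hC, hD, hCD⟩⟩

theorem Pair.normalizes {H A B : Subgroup (MulAut V)} (h : Pair H A B) {Y C : Subgroup (MulAut V)}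
    (hY : Y < A ⊔ B) (hC : Mx H C) (hCY : C ≤ Y) {y : MulAut V} (hy : y ∈ Y) : cj y C = C := by
  have hYH : Y ≤ H := hY.le.trans (sup_le h.mA.le h.mB.le)
  have h1 : cj y C ≤ Y := by
    rintro _ ⟨a, ha, rfl⟩
    exact mul_mem (mul_mem hy (hCY ha)) (inv_mem hy)
  by_contra hne
  apply hne
  symm
  apply hC.eq (hC.cj (hYH hy))
  by_contra hcon
  have h2 := h.min C (cj y C) hC (hC.cj (hYH hy)) hcon
  have h3 : C ⊔ cj y C < A ⊔ B := lt_of_le_of_lt (sup_le hCY h1) hY
  have h4 : Nat.card (C ⊔ cj y C : Subgroup (MulAut V)) < Nat.card (A ⊔ B : Subgroup (MulAut V)) := by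
    apply lt_of_le_of_ne (Nat.card_le_card_of_injective _ (Subgroup.inclusion_injective h3.le))
    intro h5
    exact h3.ne (Subgroup.eq_of_le_of_card_ge h3.le h5.ge)
  omega

end Cfsg.Agent.Fus.QO
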