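import Cfsg.Agent.Fus.QuadOff

/-!
Quadratic offender theorem, second part.
-/

set_option autoImplicit false
set_option maxHeartbeats 400000

namespace Cfsg.Agent.Fus.QO

open Cfsg Cfsg.Agent.H34

universe u

variable {V : Type u} [CommGroup V] [Finite V]

/-- the central elements of square one -/
def Rr (X : Subgroup (MulAut V)) : Subgroup (MulAut V) where
  carrier := {r | r ∈ X ∧ r * r = 1 ∧ ∀ x ∈ X, r * x = x * r}
  mul_mem' := by
    rintro r s ⟨hr, hr2, hrc⟩ ⟨hs, hs2, hsc⟩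
    refine ⟨mul_mem hr hs, ?_, ?_⟩
    · calc r * s * (r * s) = r * (s * r) * s := by group
        _ = (r * r) * (s * s) := by rw [hsc r hr]; group
        _ = 1 := by rw [hr2, hs2, mul_one]
    · intro x hx
      calc r * s * x = r * (s * x) := by group
        _ = (r * x) * s := by rw [hsc x hx]; group
        _ = x * (r * s) := by rw [hrc x hx]; group
  one_mem' := ⟨one_mem _, mul_one 1, fun x _ => by rw [one_mul, mul_one]⟩
  inv_mem' := by
    rintro r ⟨hr, hr2, hrc⟩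
    have : r⁻¹ = r := inv_eq_of_mul_eq_one_left hr2
    rw [this]
    exact ⟨hr, hr2, hrc⟩

omit [Finite V] in
theorem mem_Rr {X : Subgroup (MulAut V)} {r : MulAut V} :
    r ∈ Rr X ↔ r ∈ X ∧ r * r = 1 ∧ ∀ x ∈ X, r * x = x * r := Iff.rfl

omit [Finite V] in
theorem Rr_two (X : Subgroup (MulAut V)) : IsPGroup 2 (Rr X) := by
  rintro ⟨r, hr, hr2, hrc⟩
  refine ⟨1, Subtype.ext ?_⟩
  show r ^ (2 ^ 1) = 1
  rw [pow_one, sq]; exact hr2

omit [Finite V] in
theorem sup_Rr_two {X A : Subgroup (MulAut V)} (hAX : A ≤ X) (hA : IsPGroup 2 A) :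
    IsPGroup 2 (A ⊔ Rr X : Subgroup (MulAut V)) := by
  apply IsPGroup.to_sup_of_normal_right' hA (Rr_two X)
  intro a ha
  rw [Subgroup.mem_normalizer_iff]
  intro r
  constructor
  · intro hr
    have h1 : a * r * a⁻¹ = r := by rw [← (mem_Rr.mp hr).2.2 a (hAX ha)]; group
    rw [h1]; exact hr
  · intro hr
    have h1 := (mem_Rr.mp hr).2.2 a (hAX ha)
    have h2 : a * (a * r * a⁻¹) = a * (a * r * a⁻¹) := rfl
    have h3 : a * r * a⁻¹ = r := by
      have h4 : a * r * a⁻¹ * a = a * (a * r * a⁻¹) := h1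
      have h5 : a * r = a * (a * r * a⁻¹) := by rw [← h4]; group
      exact (mul_left_cancel h5).symm
    rwa [h3] at hr

/-- the data attached to a subgroup `X` of `H` -/
def U0 (X : Subgroup (MulAut V)) : Subgroup V := fixedBy (Rr X)

omit [Finite V] in
theorem U0_inv {X : Subgroup (MulAut V)} {x : MulAut V} (hx : x ∈ X) {v : V} (hv : v ∈ U0 X) : x v ∈ U0 X := by
  intro r hr
  show (r * x) v = x v
  rw [(mem_Rr.mp hr).2.2 x hx]
  show x (r v) = x v
  rw [hv r hr]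

/-- fixed points of the odd-order elements on `U0 X` -/
def Zz (X : Subgroup (MulAut V)) : Subgroup V where
  carrier := {v | v ∈ U0 X ∧ ∀ x ∈ X, Odd (orderOf x) → x v = v}
  mul_mem' := by
    rintro v w ⟨hv, hv2⟩ ⟨hw, hw2⟩
    exact ⟨mul_mem hv hw, fun x hx ho => by rw [map_mul, hv2 x hx ho, hw2 x hx ho]⟩
  one_mem' := ⟨one_mem _, fun x _ _ => map_one x⟩
  inv_mem' := by
    rintro v ⟨hv, hv2⟩
    exact ⟨inv_mem hv, fun x hx ho => by rw [map_inv, hv2 x hx ho]⟩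

omit [Finite V] in
theorem mem_Zz {X : Subgroup (MulAut V)} {v : V} :
    v ∈ Zz X ↔ v ∈ U0 X ∧ ∀ x ∈ X, Odd (orderOf x) → x v = v := Iff.rfl

omit [Finite V] in
theorem Zz_le (X : Subgroup (MulAut V)) : Zz X ≤ U0 X := fun _ hv => hv.1

omit [Finite V] in
theorem Zz_inv {X : Subgroup (MulAut V)} {x : MulAut V} (hx : x ∈ X) {v : V} (hv : v ∈ Zz X) : x v ∈ Zz X := by
  refine ⟨U0_inv hx hv.1, fun y hy ho => ?_⟩
  have h1 : (x⁻¹ * y * x) v = v := by
    apply hv.2 _ (mul_mem (mul_mem (inv_mem hx) hy) hx)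
    have h2 : orderOf (x⁻¹ * y * x) = orderOf y := by
      have h3 : x⁻¹ * y * x = MulAut.conj x⁻¹ y := by rw [MulAut.conj_apply, inv_inv]
      rw [h3]
      exact orderOf_injective (MulAut.conj x⁻¹).toMonoidHom (MulAut.conj x⁻¹).injective y
    rw [h2]; exact ho
  have h2 : x⁻¹ (y (x v)) = v := h1
  calc y (x v) = x (x⁻¹ (y (x v))) := (MulAut.apply_inv_self V x _).symm
    _ = x v := by rw [h2]

/-- The stabilizer of a vector modulo `Z`. -/
def Yv (X : Subgroup (MulAut V)) (v : V) : Subgroup (MulAut V) where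
  carrier := {x | x ∈ X ∧ x v * v⁻¹ ∈ Zz X}
  mul_mem' := by
    rintro x y ⟨hx, hx2⟩ ⟨hy, hy2⟩
    refine ⟨mul_mem hx hy, ?_⟩
    have h1 : (x * y) v * v⁻¹ = x (y v * v⁻¹) * (x v * v⁻¹) := by
      show x (y v) * v⁻¹ = _
      rw [map_mul, map_inv]; group
    rw [h1]
    exact mul_mem (Zz_inv hx hy2) hx2
  one_mem' := ⟨one_mem _, by
    have : (1 : MulAut V) v * v⁻¹ = 1 := mul_inv_cancel v
    rw [this]; exact one_mem _⟩
  inv_mem' := by
    rintro x ⟨hx, hx2⟩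
    refine ⟨inv_mem hx, ?_⟩
    have h1 : x⁻¹ v * v⁻¹ = (x⁻¹ (x v * v⁻¹))⁻¹ := by
      rw [map_mul, map_inv, MulAut.inv_apply_self]
      group
    rw [h1]
    exact inv_mem (Zz_inv (inv_mem hx) hx2)

omit [Finite V] in
theorem mem_Yv {X : Subgroup (MulAut V)} {v : V} {x : MulAut V} :
    x ∈ Yv X v ↔ x ∈ X ∧ x v * v⁻¹ ∈ Zz X := Iff.rfl

omit [Finite V] in
theorem Yv_le (X : Subgroup (MulAut V)) (v : V) : Yv X v ≤ X := fun _ hx => hx.1

theorem Yv_lt (hV : ∀ v : V, v * v = 1) {X : Subgroup (MulAut V)} {v : V} (hv : v ∈ U0 X) (hvZ : v ∉ Zz X) :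
    Yv X v < X := by
  apply lt_of_le_of_ne (Yv_le X v)
  intro h
  apply hvZ
  refine ⟨hv, fun x hx ho => ?_⟩
  have h1 : x ∈ Yv X v := by rw [h]; exact hx
  have h2 : x (x v * v⁻¹) = x v * v⁻¹ := (mem_Zz.mp h1.2).2 x hx ho
  exact mul_inv_eq_one.mp (fixed_commutator_eq_one hV x ho v h2)

omit [Finite V] in
/-- `[V, A] ≤ U0`. -/
theorem comm_mem_U0 {H X A : Subgroup (MulAut V)} (hq : Quad H) (hX : X ≤ H) (hAX : A ≤ X) (hA : IsPGroup 2 A)
    {a : MulAut V} (ha : a ∈ A) (v : V) : a v * v⁻¹ ∈ U0 X := by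
  intro r hr
  have h1 : A ⊔ Rr X ≤ H := sup_le (hAX.trans hX) (fun r hr => hX (mem_Rr.mp hr).1)
  exact hq (A ⊔ Rr X) h1 (sup_Rr_two hAX hA) r ((le_sup_right : Rr X ≤ A ⊔ Rr X) hr) a
    ((le_sup_left : A ≤ A ⊔ Rr X) ha) v

omit [Finite V] in
theorem comm_mem_U0' {H A B : Subgroup (MulAut V)} (hq : Quad H) (hA : A ≤ H) (hB : B ≤ H) (hA2 : IsPGroup 2 A)
    (hB2 : IsPGroup 2 B) {x : MulAut V} (hx : x ∈ A ⊔ B) (v : V) : x v * v⁻¹ ∈ U0 (A ⊔ B) := by
  let D : Subgroup (MulAut V) :=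
    { carrier := {x | ∀ v, x v * v⁻¹ ∈ U0 (A ⊔ B)}
      mul_mem' := by
        intro x y hx hy v
        have h1 : (x * y) v * v⁻¹ = (x (y v) * (y v)⁻¹) * (y v * v⁻¹) := by
          show x (y v) * v⁻¹ = _
          group
        rw [h1]; exact mul_mem (hx _) (hy _)
      one_mem' := fun v => by
        have : (1 : MulAut V) v * v⁻¹ = 1 := mul_inv_cancel v
        rw [this]; exact one_mem _
      inv_mem' := by
        intro x hx v
        have h1 : x⁻¹ v * v⁻¹ = (x (x⁻¹ v) * (x⁻¹ v)⁻¹)⁻¹ := by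
          rw [MulAut.apply_inv_self]; group
        rw [h1]; exact inv_mem (hx _) }
  have h1 : A ≤ D := fun a ha v => comm_mem_U0 hq (sup_le hA hB) le_sup_left hA2 ha v
  have h2 : B ≤ D := fun a ha v => comm_mem_U0 hq (sup_le hA hB) le_sup_right hB2 ha v
  exact (sup_le h1 h2 : A ⊔ B ≤ D) hx v

theorem two_of_odd_trivial {X : Subgroup (MulAut V)} (h : ∀ x ∈ X, Odd (orderOf x) → x = 1) : IsPGroup 2 X := by
  rintro ⟨x, hx⟩
  have hpos : 0 < orderOf x := orderOf_pos x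
  obtain ⟨k, m, hm, hkm⟩ := Nat.exists_eq_two_pow_mul_odd (n := orderOf x) hpos.ne'
  refine ⟨k, Subtype.ext ?_⟩
  show x ^ 2 ^ k = 1
  apply h _ (pow_mem hx _)
  have h1 : orderOf (x ^ 2 ^ k) = m := by
    rw [orderOf_pow_of_dvd (by positivity) (by rw [hkm]; exact Dvd.intro _ rfl), hkm]
    exact Nat.mul_div_cancel_left m (by positivity)
  rw [h1]; exact hm

theorem exists_not_Zz (hV : ∀ v : V, v * v = 1) {H A B : Subgroup (MulAut V)} (hq : Quad H) (h : Pair H A B) :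
    ∃ v ∈ U0 (A ⊔ B), v ∉ Zz (A ⊔ B) := by
  by_contra hcon
  push Not at hcon
  apply h.not2
  apply two_of_odd_trivial
  intro x hx ho
  ext v
  show x v = v
  have h1 := comm_mem_U0' hq h.mA.le h.mB.le h.mA.two h.mB.two hx v
  have h2 := (mem_Zz.mp (hcon _ h1)).2 x hx ho
  exact mul_inv_eq_one.mp (fixed_commutator_eq_one hV x ho v h2)

/-- The key point: an element of `A` stabilizing, together with `B`, a vector of `U0 / Z` lies in `R`. -/
theorem mem_R_of_Yv (hV : ∀ v : V, v * v = 1) {H A B : Subgroup (MulAut V)} (hq : Quad H) (h : Pair H A B)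
    {v : V} (hv : v ∈ U0 (A ⊔ B)) (hvZ : v ∉ Zz (A ⊔ B)) (hB : ∀ b ∈ B, b v * v⁻¹ ∈ Zz (A ⊔ B))
    {a : MulAut V} (ha : a ∈ A) (hav : a v * v⁻¹ ∈ Zz (A ⊔ B)) : a ∈ Rr (A ⊔ B) := by
  have hlt := Yv_lt hV hv hvZ
  have haY : a ∈ Yv (A ⊔ B) v := ⟨(le_sup_left : A ≤ A ⊔ B) ha, hav⟩
  have hBY : B ≤ Yv (A ⊔ B) v := fun b hb => ⟨(le_sup_right : B ≤ A ⊔ B) hb, hB b hb⟩
  have hn := h.normalizes hlt h.mB hBY haY
  -- `⟨a⟩ B` is a 2-group
  have haa : a * a = 1 := hq.sq hV h.mA.le h.mA.two ha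
  have hcommA : ∀ x ∈ A, a * x = x * a := fun x hx => hq.comm h.mA.le h.mA.two ha hx
  have hzle : Subgroup.zpowers a ≤ Subgroup.normalizer (B : Set (MulAut V)) := by
    rw [Subgroup.zpowers_le, Subgroup.mem_normalizer_iff]
    intro b
    constructor
    · intro hb
      rw [← hn]
      exact ⟨b, hb, rfl⟩
    · intro hb
      have hb' : a * b * a⁻¹ ∈ cj a B := by rw [hn]; exact hb
      obtain ⟨c, hc, hcb⟩ := hb'
      have h5 : a * c * a⁻¹ = a * b * a⁻¹ := hcb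
      have h6 : c = b := by
        have := congrArg (fun t => a⁻¹ * t * a) h5
        simpa [mul_assoc] using this
      rw [← h6]; exact hc
  have h2z : IsPGroup 2 (Subgroup.zpowers a) := by
    rintro ⟨_, k, rfl⟩
    refine ⟨1, Subtype.ext ?_⟩
    show (a ^ k) ^ (2 ^ 1) = 1
    rw [pow_one, ← zpow_natCast, zpow_comm, zpow_natCast, sq, haa, one_zpow]
  have h3 : IsPGroup 2 (Subgroup.zpowers a ⊔ B : Subgroup (MulAut V)) :=
    IsPGroup.to_sup_of_normal_right' h2z h.mB.two hzle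
  have h4 : Subgroup.zpowers a ⊔ B ≤ H := sup_le (by rw [Subgroup.zpowers_le]; exact h.mA.le ha) h.mB.le
  have hcommB : ∀ x ∈ B, a * x = x * a := fun x hx =>
    hq.comm h4 h3 ((le_sup_left : Subgroup.zpowers a ≤ Subgroup.zpowers a ⊔ B) (Subgroup.mem_zpowers a))
      ((le_sup_right : B ≤ Subgroup.zpowers a ⊔ B) hx)
  refine ⟨(le_sup_left : A ≤ A ⊔ B) ha, haa, ?_⟩
  have h7 : A ⊔ B ≤ Subgroup.centralizer {a} := by
    apply sup_le
    · intro x hx
      rw [Subgroup.mem_centralizer_singleton_iff]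
      exact (hcommA x hx).symm
    · intro x hx
      rw [Subgroup.mem_centralizer_singleton_iff]
      exact (hcommB x hx).symm
  intro x hx
  exact (Subgroup.mem_centralizer_singleton_iff.mp (h7 hx)).symm

/-- the vectors of `U0` fixed by `A` modulo `Z` -/
def Ff (X A : Subgroup (MulAut V)) : Subgroup V where
  carrier := {v | v ∈ U0 X ∧ ∀ a ∈ A, a v * v⁻¹ ∈ Zz X}
  mul_mem' := by
    rintro v w ⟨hv, hv2⟩ ⟨hw, hw2⟩
    refine ⟨mul_mem hv hw, fun a ha => ?_⟩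
    have h1 : a (v * w) * (v * w)⁻¹ = (a v * v⁻¹) * (a w * w⁻¹) := by
      rw [map_mul, mul_inv]; ac_rfl
    rw [h1]; exact mul_mem (hv2 a ha) (hw2 a ha)
  one_mem' := ⟨one_mem _, fun a _ => by rw [map_one, mul_inv_cancel]; exact one_mem _⟩
  inv_mem' := by
    rintro v ⟨hv, hv2⟩
    refine ⟨inv_mem hv, fun a ha => ?_⟩
    have h1 : a v⁻¹ * v⁻¹⁻¹ = (a v * v⁻¹)⁻¹ := by rw [map_inv, mul_inv]
    rw [h1]; exact inv_mem (hv2 a ha)

omit [Finite V] in
theorem mem_Ff {X A : Subgroup (MulAut V)} {v : V} :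
    v ∈ Ff X A ↔ v ∈ U0 X ∧ ∀ a ∈ A, a v * v⁻¹ ∈ Zz X := Iff.rfl

omit [Finite V] in
theorem Ff_le (X A : Subgroup (MulAut V)) : Ff X A ≤ U0 X := fun _ hv => hv.1

omit [Finite V] in
theorem Zz_le_Ff {X A : Subgroup (MulAut V)} (hA : A ≤ X) : Zz X ≤ Ff X A := by
  intro v hv
  exact ⟨hv.1, fun a ha => mul_mem (Zz_inv (hA ha) hv) (inv_mem hv)⟩

omit [Finite V] in
theorem fixed_le_Ff (X A : Subgroup (MulAut V)) : fixedBy A ⊓ U0 X ≤ Ff X A := by
  intro v hv
  obtain ⟨h1, h2⟩ := Subgroup.mem_inf.mp hv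
  refine ⟨h2, fun a ha => ?_⟩
  rw [h1 a ha, mul_inv_cancel]
  exact one_mem _

theorem Ff_inf (hV : ∀ v : V, v * v = 1) (A B : Subgroup (MulAut V)) :
    Ff (A ⊔ B) A ⊓ Ff (A ⊔ B) B ≤ Zz (A ⊔ B) := by
  intro v hv
  obtain ⟨h1, h2⟩ := Subgroup.mem_inf.mp hv
  by_contra hvZ
  have h3 := Yv_lt hV h1.1 hvZ
  apply h3.not_ge
  apply sup_le
  · intro a ha
    exact ⟨(le_sup_left : A ≤ A ⊔ B) ha, h1.2 a ha⟩
  · intro b hb
    exact ⟨(le_sup_right : B ≤ A ⊔ B) hb, h2.2 b hb⟩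

/-- (i): offending on `U0` -/
theorem off_U0 {H A B : Subgroup (MulAut V)} (h : Pair H A B) :
    Nat.card (U0 (A ⊔ B)) * Nat.card (A ⊓ Rr (A ⊔ B) : Subgroup (MulAut V)) ≤
      Nat.card A * Nat.card (Ff (A ⊔ B) A) := by
  set X := A ⊔ B with hX
  have h1 : val (A ⊓ Rr X) ≤ val A := by
    by_cases hbot : A ⊓ Rr X = ⊥
    · rw [hbot]
      refine le_trans ?_ h.mA.off
      rw [val, Subgroup.card_bot, one_mul]
      exact Nat.card_le_card_of_injective _ Subtype.val_injective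
    · exact h.mA.max _ (inf_le_left.trans h.mA.le) (h.mA.two.to_le inf_le_left) hbot
  have h2 : U0 X ⊔ fixedBy A ≤ fixedBy (A ⊓ Rr X) :=
    sup_le (fixedBy_anti inf_le_right) (fixedBy_anti inf_le_left)
  have h3 : Nat.card (U0 X ⊔ fixedBy A : Subgroup V) ≤ Nat.card (fixedBy (A ⊓ Rr X)) :=
    Nat.card_le_card_of_injective _ (Subgroup.inclusion_injective h2)
  have h4 := card_mul_le (U0 X) (fixedBy A)
  have h5 : Nat.card (U0 X ⊓ fixedBy A : Subgroup V) ≤ Nat.card (Ff X A) :=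
    Nat.card_le_card_of_injective _ (Subgroup.inclusion_injective (by
      rw [inf_comm]; exact fixed_le_Ff X A))
  have hpos : 0 < Nat.card (fixedBy A) := Nat.card_pos
  apply Nat.le_of_mul_le_mul_right _ hpos
  calc Nat.card (U0 X) * Nat.card (A ⊓ Rr X : Subgroup (MulAut V)) * Nat.card (fixedBy A)
      = Nat.card (A ⊓ Rr X : Subgroup (MulAut V)) * (Nat.card (U0 X) * Nat.card (fixedBy A)) := by ring
    _ ≤ Nat.card (A ⊓ Rr X : Subgroup (MulAut V)) *
        (Nat.card (fixedBy (A ⊓ Rr X)) * Nat.card (Ff X A)) :=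
      Nat.mul_le_mul_left _ (h4.trans (Nat.mul_le_mul h3 h5))
    _ = val (A ⊓ Rr X) * Nat.card (Ff X A) := by rw [val]; ring
    _ ≤ val A * Nat.card (Ff X A) := Nat.mul_le_mul_right _ h1
    _ = _ := by rw [val]; ring

/-- (iii) -/
theorem card_Ff_mul (hV : ∀ v : V, v * v = 1) (A B : Subgroup (MulAut V)) :
    Nat.card (Ff (A ⊔ B) A) * Nat.card (Ff (A ⊔ B) B) ≤ Nat.card (U0 (A ⊔ B)) * Nat.card (Zz (A ⊔ B)) := by
  refine (card_mul_le _ _).trans (Nat.mul_le_mul ?_ ?_)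
  · exact Nat.card_le_card_of_injective _ (Subgroup.inclusion_injective (sup_le (Ff_le _ _) (Ff_le _ _)))
  · exact Nat.card_le_card_of_injective _ (Subgroup.inclusion_injective (Ff_inf hV A B))

/-- the commutator map `a ↦ [a, x] Z` on `A` -/
def phi {H A : Subgroup (MulAut V)} (hq : Quad H) (hA : A ≤ H) (h2 : IsPGroup 2 A) (Z : Subgroup V) (x : V) :
    A →* V ⧸ Z :=
  (QuotientGroup.mk' Z).comp
    { toFun := fun a => (a : MulAut V) x * x⁻¹
      map_one' := mul_inv_cancel x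
      map_mul' := by
        intro a b
        show (a : MulAut V) ((b : MulAut V) x) * x⁻¹ = _
        have h1 := hq A hA h2 a a.2 b b.2 x
        have h3 : (a : MulAut V) ((b : MulAut V) x) = ((b : MulAut V) x * x⁻¹) * (a : MulAut V) x := by
          rw [← h1, map_mul, map_inv]; group
        rw [h3]; rw [mul_assoc, mul_comm] }

omit [Finite V] in
theorem phi_apply {H A : Subgroup (MulAut V)} (hq : Quad H) (hA : A ≤ H) (h2 : IsPGroup 2 A) (Z : Subgroup V)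
    (x : V) (a : A) : phi hq hA h2 Z x a = QuotientGroup.mk ((a : MulAut V) x * x⁻¹) := rfl

theorem phi_range_le {H A B : Subgroup (MulAut V)} (hq : Quad H) (h : Pair H A B) (x : V) :
    (phi hq h.mA.le h.mA.two (Zz (A ⊔ B)) x).range ≤ (Ff (A ⊔ B) A).map (QuotientGroup.mk' (Zz (A ⊔ B))) := by
  rintro _ ⟨a, rfl⟩
  refine ⟨(a : MulAut V) x * x⁻¹, ?_, rfl⟩
  apply fixed_le_Ff
  rw [Subgroup.mem_inf]
  constructor
  · intro b hb
    exact hq A h.mA.le h.mA.two b hb a a.2 x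
  · exact comm_mem_U0 hq (sup_le h.mA.le h.mB.le) le_sup_left h.mA.two a.2 x

/-- cardinality of the image of a subgroup containing `Z` -/
theorem card_map_mk {Z F : Subgroup V} (hZF : Z ≤ F) :
    Nat.card (F.map (QuotientGroup.mk' Z)) * Nat.card Z = Nat.card F := by
  have h1 : (F.map (QuotientGroup.mk' Z)).comap (QuotientGroup.mk' Z) = F := by
    rw [Subgroup.comap_map_eq, QuotientGroup.ker_mk', sup_eq_left.mpr hZF]
  have h2 := Subgroup.card_mul_index F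
  have h3 := Subgroup.card_mul_index (F.map (QuotientGroup.mk' Z))
  have h4 := Subgroup.card_mul_index Z
  have h5 : ((F.map (QuotientGroup.mk' Z)).comap (QuotientGroup.mk' Z)).index = (F.map (QuotientGroup.mk' Z)).index :=
    Subgroup.index_comap_of_surjective _ (QuotientGroup.mk'_surjective Z)
  rw [h1] at h5
  rw [← h5] at h3
  have hpos : 0 < F.index := Nat.pos_of_ne_zero Subgroup.index_ne_zero_of_finite
  apply Nat.eq_of_mul_eq_mul_right hpos
  have h6 : Nat.card (V ⧸ Z) = Z.index := rfl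
  calc Nat.card (F.map (QuotientGroup.mk' Z)) * Nat.card Z * F.index
      = Nat.card (F.map (QuotientGroup.mk' Z)) * F.index * Nat.card Z := by ring
    _ = Z.index * Nat.card Z := by rw [h3, h6]
    _ = Nat.card Z * Z.index := mul_comm _ _
    _ = Nat.card F * F.index := by rw [h4, h2]

/-- (ii) -/
theorem card_A_le (hV : ∀ v : V, v * v = 1) {H A B : Subgroup (MulAut V)} (hq : Quad H) (h : Pair H A B)
    {x : V} (hx : x ∈ Ff (A ⊔ B) B) (hxZ : x ∉ Zz (A ⊔ B)) :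
    Nat.card A ≤ Nat.card (A ⊓ Rr (A ⊔ B) : Subgroup (MulAut V)) *
      Nat.card (phi hq h.mA.le h.mA.two (Zz (A ⊔ B)) x).range := by
  set φ := phi hq h.mA.le h.mA.two (Zz (A ⊔ B)) x with hφ
  have h1 := Subgroup.card_mul_index φ.ker
  rw [Subgroup.index_ker] at h1
  rw [← h1]
  apply Nat.mul_le_mul_right
  have h2 : φ.ker.map A.subtype ≤ A ⊓ Rr (A ⊔ B) := by
    rintro _ ⟨a, ha, rfl⟩
    refine Subgroup.mem_inf.mpr ⟨a.2, ?_⟩
    apply mem_R_of_Yv hV hq h hx.1 hxZ hx.2 a.2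
    have h3 : φ a = 1 := ha
    rw [hφ, phi_apply, QuotientGroup.eq_one_iff] at h3
    exact h3
  have h3 := Nat.card_le_card_of_injective _ (Subgroup.inclusion_injective h2)
  rwa [Subgroup.card_map_of_injective A.subtype_injective] at h3

end Cfsg.Agent.Fus.QO
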