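import Cfsg.Agent.Fus.QuadOff2

/-!
Quadratic offender theorem, third part: the `S₃`.
-/

set_option autoImplicit false
set_option maxHeartbeats 400000

namespace Cfsg.Agent.Fus.QO

open Cfsg Cfsg.Agent.H34

universe u

variable {V : Type u} [CommGroup V] [Finite V]

theorem exists_Ff (hV : ∀ v : V, v * v = 1) {H A B : Subgroup (MulAut V)} (hq : Quad H) (h : Pair H A B) :
    ∃ x ∈ Ff (A ⊔ B) B, x ∉ Zz (A ⊔ B) := by
  obtain ⟨v, hv, hvZ⟩ := exists_not_Zz hV hq h
  by_cases hc : ∃ w ∈ U0 (A ⊔ B), ∃ b ∈ B, b w * w⁻¹ ∉ Zz (A ⊔ B)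
  · obtain ⟨w, hw, b, hb, hbw⟩ := hc
    refine ⟨b w * w⁻¹, ?_, hbw⟩
    apply fixed_le_Ff
    rw [Subgroup.mem_inf]
    refine ⟨fun c hc => hq B h.mB.le h.mB.two c hc b hb w, ?_⟩
    exact comm_mem_U0 hq (sup_le h.mA.le h.mB.le) le_sup_right h.mB.two hb w
  · push Not at hc
    exact ⟨v, ⟨hv, fun b hb => hc v hv b hb⟩, hvZ⟩

theorem half_ineq (hV : ∀ v : V, v * v = 1) {H A B : Subgroup (MulAut V)} (hq : Quad H) (h : Pair H A B) :
    Nat.card (Ff (A ⊔ B) B) ≤ Nat.card (Ff (A ⊔ B) A) := by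
  obtain ⟨x, hx, hxZ⟩ := exists_Ff hV hq h
  have h1 := off_U0 h
  have h2 := card_A_le hV hq h hx hxZ
  have h3 := card_Ff_mul hV A B
  have h4 := card_map_mk (Zz_le_Ff (X := A ⊔ B) (A := A) le_sup_left)
  have h5 : Nat.card (phi hq h.mA.le h.mA.two (Zz (A ⊔ B)) x).range ≤
      Nat.card ((Ff (A ⊔ B) A).map (QuotientGroup.mk' (Zz (A ⊔ B)))) :=
    Nat.card_le_card_of_injective _ (Subgroup.inclusion_injective (phi_range_le hq h x))
  set fA := Nat.card (Ff (A ⊔ B) A)
  set fB := Nat.card (Ff (A ⊔ B) B)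
  set u := Nat.card (U0 (A ⊔ B))
  set z := Nat.card (Zz (A ⊔ B))
  set r := Nat.card (A ⊓ Rr (A ⊔ B) : Subgroup (MulAut V))
  set α := Nat.card A
  set q := Nat.card ((Ff (A ⊔ B) A).map (QuotientGroup.mk' (Zz (A ⊔ B))))
  have hfA : 0 < fA := Nat.card_pos
  have hr : 0 < r := Nat.card_pos
  -- fA fB r ≤ u z r ≤ α fA z ≤ r q z fA = r fA fA
  have h6 : α * z ≤ r * fA := by
    calc α * z ≤ r * q * z := Nat.mul_le_mul_right _ (h2.trans (Nat.mul_le_mul_left _ h5))
      _ = r * fA := by rw [mul_assoc, h4]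
  have h7 : fB * (fA * r) ≤ fA * (fA * r) := by
    calc fB * (fA * r) = fA * fB * r := by ring
      _ ≤ u * z * r := Nat.mul_le_mul_right _ h3
      _ = u * r * z := by ring
      _ ≤ α * fA * z := Nat.mul_le_mul_right _ h1
      _ = α * z * fA := by ring
      _ ≤ r * fA * fA := Nat.mul_le_mul_right _ h6
      _ = fA * (fA * r) := by ring
  exact Nat.le_of_mul_le_mul_right h7 (Nat.mul_pos hfA hr)

theorem phi_surj (hV : ∀ v : V, v * v = 1) {H A B : Subgroup (MulAut V)} (hq : Quad H) (h : Pair H A B)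
    {x : V} (hx : x ∈ Ff (A ⊔ B) B) (hxZ : x ∉ Zz (A ⊔ B)) {y : V} (hy : y ∈ Ff (A ⊔ B) A) :
    ∃ a ∈ A, (a x * x⁻¹) * y⁻¹ ∈ Zz (A ⊔ B) := by
  have h0 : Nat.card (Ff (A ⊔ B) A) = Nat.card (Ff (A ⊔ B) B) := by
    apply le_antisymm
    · have := half_ineq hV hq h.symm
      rw [sup_comm B A] at this
      exact this
    · exact half_ineq hV hq h
  have h1 := off_U0 h
  have h2 := card_A_le hV hq h hx hxZ
  have h3 := card_Ff_mul hV A B
  have h4 := card_map_mk (Zz_le_Ff (X := A ⊔ B) (A := A) le_sup_left)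
  have h8 : Nat.card ((Ff (A ⊔ B) A).map (QuotientGroup.mk' (Zz (A ⊔ B)))) ≤
      Nat.card (phi hq h.mA.le h.mA.two (Zz (A ⊔ B)) x).range := by
    rw [← h0] at h3
    set fA := Nat.card (Ff (A ⊔ B) A)
    set u := Nat.card (U0 (A ⊔ B))
    set z := Nat.card (Zz (A ⊔ B))
    set r := Nat.card (A ⊓ Rr (A ⊔ B) : Subgroup (MulAut V))
    set α := Nat.card A
    set q := Nat.card ((Ff (A ⊔ B) A).map (QuotientGroup.mk' (Zz (A ⊔ B))))
    set s := Nat.card (phi hq h.mA.le h.mA.two (Zz (A ⊔ B)) x).range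
    have hfA : 0 < fA := Nat.card_pos
    have hr : 0 < r := Nat.card_pos
    have hz : 0 < z := Nat.card_pos
    -- r q z fA = r fA fA ≤ r u z ≤ α fA z ≤ r s fA z
    have h7 : q * (r * z * fA) ≤ s * (r * z * fA) := by
      calc q * (r * z * fA) = (q * z) * fA * r := by ring
        _ = fA * fA * r := by rw [h4]
        _ ≤ u * z * r := Nat.mul_le_mul_right _ h3
        _ = u * r * z := by ring
        _ ≤ α * fA * z := Nat.mul_le_mul_right _ h1
        _ ≤ (r * s) * fA * z := Nat.mul_le_mul_right _ (Nat.mul_le_mul_right _ h2)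
        _ = _ := by ring
    exact Nat.le_of_mul_le_mul_right h7 (Nat.mul_pos (Nat.mul_pos hr hz) hfA)
  have h9 : (phi hq h.mA.le h.mA.two (Zz (A ⊔ B)) x).range =
      (Ff (A ⊔ B) A).map (QuotientGroup.mk' (Zz (A ⊔ B))) :=
    Subgroup.eq_of_le_of_card_ge (phi_range_le hq h x) h8
  have h10 : QuotientGroup.mk' (Zz (A ⊔ B)) y ∈ (phi hq h.mA.le h.mA.two (Zz (A ⊔ B)) x).range := by
    rw [h9]; exact ⟨y, hy, rfl⟩
  obtain ⟨a, ha⟩ := h10
  refine ⟨a, a.2, ?_⟩
  rw [phi_apply] at ha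
  have h11 : (QuotientGroup.mk ((a : MulAut V) x * x⁻¹) : V ⧸ Zz (A ⊔ B)) = QuotientGroup.mk y := ha
  rw [QuotientGroup.eq] at h11
  have h12 : (a : MulAut V) x * x⁻¹ * y⁻¹ = (((a : MulAut V) x * x⁻¹)⁻¹ * y)⁻¹ := by
    rw [mul_inv_rev, inv_inv, mul_comm]
  rw [h12]
  exact inv_mem h11

/-- the `S₃` acting on a four-group -/
theorem exists_W (hV : ∀ v : V, v * v = 1) (a d : MulAut V) (ha : a * a = 1) (hd : orderOf d = 3)
    (had : a * d * a⁻¹ = d⁻¹) :
    ∃ W : Subgroup V, Nat.card W = 4 ∧ (∀ w ∈ W, a w ∈ W) ∧ (∀ w ∈ W, d w ∈ W) ∧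
      (∀ w ∈ W, d w = w → w = 1) ∧ ∃ w ∈ W, a w ≠ w := by
  have hainv : a⁻¹ = a := inv_eq_of_mul_eq_one_left ha
  have haa : ∀ v, a (a v) = v := fun v => by
    have h := congrArg (fun g : MulAut V => g v) ha
    exact h
  have hd3 : ∀ v, d (d (d v)) = v := fun v => by
    have h1 : d ^ 3 = 1 := by rw [← hd]; exact pow_orderOf_eq_one d
    have h := congrArg (fun g : MulAut V => g v) h1
    have h2 : (d ^ 3) v = d (d (d v)) := by rw [pow_succ, sq]; rfl
    rw [← h2]; exact h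
  have hdinv : ∀ v, d⁻¹ v = d (d v) := fun v => by
    calc d⁻¹ v = d⁻¹ (d (d (d v))) := by rw [hd3]
      _ = d (d v) := MulAut.inv_apply_self V d _
  have hadv : ∀ v, a (d v) = d (d (a v)) := fun v => by
    rw [← hdinv, ← had, hainv]
    show a (d v) = a (d (a (a v)))
    rw [haa]
  have hvv : ∀ v : V, v⁻¹ = v := fun v => inv_eq hV v
  -- a vector with `w * d w * d² w = 1`
  obtain ⟨v, hv⟩ : ∃ v, d v ≠ v := by
    by_contra hcon
    push Not at hcon
    have : d = 1 := by ext v; exact hcon v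
    rw [this, orderOf_one] at hd
    omega
  let K : V → Prop := fun w => w * d w * d (d w) = 1
  have hK0 : K (v * d v) := by
    show v * d v * d (v * d v) * d (d (v * d v)) = 1
    simp only [map_mul, hd3]
    calc v * d v * (d v * d (d v)) * (d (d v) * v)
        = (v * v) * ((d v * d v) * (d (d v) * d (d v))) := by ac_rfl
      _ = 1 := by rw [hV, hV, hV, one_mul, one_mul]
  have hKa : ∀ w, K w → K (a w) := by
    intro w hw
    show a w * d (a w) * d (d (a w)) = 1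
    have h1 : a (w * d w * d (d w)) = 1 := by rw [hw, map_one]
    rw [map_mul, map_mul, hadv, hadv, hadv, hd3] at h1
    rw [← h1]; ac_rfl
  have hKmul : ∀ w w', K w → K w' → K (w * w') := by
    intro w w' hw hw'
    show w * w' * d (w * w') * d (d (w * w')) = 1
    simp only [map_mul]
    calc w * w' * (d w * d w') * (d (d w) * d (d w'))
        = (w * d w * d (d w)) * (w' * d w' * d (d w')) := by ac_rfl
      _ = 1 := by rw [hw, hw', one_mul]
  have hne0 : v * d v ≠ 1 := by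
    intro h
    apply hv
    have h1 : d v = v⁻¹ := eq_inv_of_mul_eq_one_right h
    rw [h1, hvv]
  obtain ⟨w, hwK, hw1, haw⟩ : ∃ w, K w ∧ w ≠ 1 ∧ a w = w := by
    by_cases hc : a (v * d v) = v * d v
    · exact ⟨_, hK0, hne0, hc⟩
    · refine ⟨v * d v * a (v * d v), hKmul _ _ hK0 (hKa _ hK0), ?_, ?_⟩
      · intro h
        apply hc
        have h1 : a (v * d v) = (v * d v)⁻¹ := eq_inv_of_mul_eq_one_right h
        rw [h1, hvv]
      · rw [map_mul, haa, mul_comm]
  have hdd : d (d w) = w * d w := by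
    have h1 : w * d w * d (d w) = 1 := hwK
    have h2 : d (d w) = (w * d w)⁻¹ := eq_inv_of_mul_eq_one_right h1
    rw [h2, hvv]
  have hdw : d w ≠ w := by
    intro h
    have h1 : w * d w * d (d w) = 1 := hwK
    rw [h, h, hV, one_mul] at h1
    exact hw1 h1
  have hdw1 : d w ≠ 1 := fun h => hw1 ((map_eq_one_iff d d.injective).mp h)
  have hwdw : w * d w ≠ 1 := by
    intro h
    apply hdw
    have h1 : d w = w⁻¹ := eq_inv_of_mul_eq_one_right h
    rw [h1, hvv]
  let W : Subgroup V :=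
    { carrier := {1, w, d w, w * d w}
      mul_mem' := by
        have e1 : w * (w * d w) = d w := by rw [← mul_assoc, hV, one_mul]
        have e2 : d w * (w * d w) = w := by rw [mul_left_comm, hV, mul_one]
        intro x y hx hy
        simp only [Set.mem_insert_iff, Set.mem_singleton_iff] at hx hy ⊢
        rcases hx with rfl | rfl | rfl | rfl <;> rcases hy with rfl | rfl | rfl | rfl
        · left; rw [mul_one]
        · right; left; rw [one_mul]
        · right; right; left; rw [one_mul]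
        · right; right; right; rw [one_mul]
        · right; left; rw [mul_one]
        · left; exact hV _
        · right; right; right; rfl
        · right; right; left; exact e1
        · right; right; left; rw [mul_one]
        · right; right; right; exact mul_comm _ _
        · left; exact hV _
        · right; left; exact e2
        · right; right; right; rw [mul_one]
        · right; right; left; rw [mul_comm, e1]
        · right; left; rw [mul_comm, e2]
        · left; exact hV _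
      one_mem' := Or.inl rfl
      inv_mem' := by
        intro x hx
        rw [hvv]; exact hx }
  have hW : ∀ x, x ∈ W ↔ x = 1 ∨ x = w ∨ x = d w ∨ x = w * d w := fun x => Iff.rfl
  have hcard : Nat.card W = 4 := by
    have h1 : Nat.card W = (W : Set V).ncard := rfl
    have h2 : (W : Set V) = ({1, w, d w, w * d w} : Set V) := rfl
    rw [h1, h2]
    rw [Set.ncard_insert_of_notMem, Set.ncard_insert_of_notMem, Set.ncard_pair]
    · intro h
      apply hw1
      exact (mul_eq_right.mp h.symm)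
    · simp only [Set.mem_insert_iff, Set.mem_singleton_iff]
      rintro (h | h)
      · exact hdw h.symm
      · exact hdw1 (mul_eq_left.mp h.symm)
    · simp only [Set.mem_insert_iff, Set.mem_singleton_iff]
      rintro (h | h | h)
      · exact hw1 h.symm
      · exact hdw1 h.symm
      · exact hwdw h.symm
  refine ⟨W, hcard, ?_, ?_, ?_, d w, (hW _).mpr (Or.inr (Or.inr (Or.inl rfl))), ?_⟩
  · intro x hx
    rw [hW] at hx ⊢
    rcases hx with rfl | rfl | rfl | rfl
    · left; exact map_one a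
    · right; left; exact haw
    · right; right; right; rw [hadv, haw, hdd]
    · right; right; left
      rw [map_mul, hadv, haw, hdd, ← mul_assoc, hV, one_mul]
  · intro x hx
    rw [hW] at hx ⊢
    rcases hx with rfl | rfl | rfl | rfl
    · left; exact map_one d
    · right; right; left; rfl
    · right; right; right; exact hdd
    · right; left
      rw [map_mul, hdd, mul_left_comm, hV, mul_one]
  · intro x hx hdx
    rw [hW] at hx
    rcases hx with rfl | rfl | rfl | rfl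
    · rfl
    · exact absurd hdx hdw
    · exfalso
      rw [hdd] at hdx
      exact hw1 (mul_eq_right.mp hdx)
    · exfalso
      rw [map_mul, hdd] at hdx
      have h1 : d w * (w * d w) = w := by rw [mul_left_comm, hV, mul_one]
      rw [h1] at hdx
      exact hdw1 (mul_eq_left.mp hdx.symm)
  · rw [hadv, haw, hdd]
    intro h
    exact hw1 (mul_eq_right.mp h)

/-- The quadratic offender theorem. -/
theorem main (hV : ∀ v : V, v * v = 1) (H : Subgroup (MulAut V)) (hq : Quad H) (hcore : pCore 2 H = ⊥)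
    (A : Subgroup (MulAut V)) (hAH : A ≤ H) (h2 : IsPGroup 2 A) (hne : A ≠ ⊥)
    (hoff : Nat.card V ≤ Nat.card A * Nat.card (fixedBy A)) :
    ∃ a ∈ H, ∃ d ∈ H, Odd (orderOf d) ∧ a * a = 1 ∧
      ∃ W : Subgroup V, Nat.card W = 4 ∧ (∀ w ∈ W, a w ∈ W) ∧ (∀ w ∈ W, d w ∈ W) ∧
      (∀ w ∈ W, d w = w → w = 1) ∧ ∃ w ∈ W, a w ≠ w := by
  obtain ⟨A₁, hA₁⟩ := exists_Mx hAH h2 hne hoff
  obtain ⟨A, B, hp⟩ := exists_Pair hA₁ hcore
  obtain ⟨x, hx, hxZ⟩ := exists_Ff hV hq hp
  obtain ⟨y, hy, hyZ⟩ : ∃ y ∈ Ff (A ⊔ B) A, y ∉ Zz (A ⊔ B) := by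
    have := exists_Ff hV hq hp.symm
    rwa [sup_comm B A] at this
  obtain ⟨a, ha, hax⟩ := phi_surj hV hq hp hx hxZ hy
  obtain ⟨b, hb, hby⟩ : ∃ b ∈ B, (b y * y⁻¹) * x⁻¹ ∈ Zz (A ⊔ B) := by
    have h1 := phi_surj hV hq hp.symm (x := y) (y := x)
    rw [sup_comm B A] at h1
    exact h1 hy hyZ hx
  set Z := Zz (A ⊔ B) with hZ
  have haX : a ∈ A ⊔ B := (le_sup_left : A ≤ A ⊔ B) ha
  have hbX : b ∈ A ⊔ B := (le_sup_right : B ≤ A ⊔ B) hb
  have hcong : ∀ u v : V, u * v⁻¹ ∈ Z → ∀ g ∈ A ⊔ B, g u * (g v)⁻¹ ∈ Z := by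
    intro u v huv g hg
    rw [← map_inv, ← map_mul]
    exact Zz_inv hg huv
  have htrans : ∀ u v w : V, u * v⁻¹ ∈ Z → v * w⁻¹ ∈ Z → u * w⁻¹ ∈ Z := by
    intro u v w h1 h2
    have : u * w⁻¹ = (u * v⁻¹) * (v * w⁻¹) := by group
    rw [this]; exact mul_mem h1 h2
  have hsymm : ∀ u v : V, u * v⁻¹ ∈ Z → v * u⁻¹ ∈ Z := by
    intro u v h1
    have : v * u⁻¹ = (u * v⁻¹)⁻¹ := by group
    rw [this]; exact inv_mem h1
  have hmul : ∀ u v u' v' : V, u * v⁻¹ ∈ Z → u' * v'⁻¹ ∈ Z → (u * u') * (v * v')⁻¹ ∈ Z := by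
    intro u v u' v' h1 h2
    have : (u * u') * (v * v')⁻¹ = (u * v⁻¹) * (u' * v'⁻¹) := by rw [mul_inv]; ac_rfl
    rw [this]; exact mul_mem h1 h2
  have hvv : ∀ v : V, v⁻¹ = v := fun v => inv_eq hV v
  -- a x ≡ x y, b y ≡ x y, a y ≡ y, b x ≡ x
  have e1 : a x * (x * y)⁻¹ ∈ Z := by
    have : a x * (x * y)⁻¹ = a x * x⁻¹ * y⁻¹ := by rw [mul_inv]; ac_rfl
    rw [this]; exact hax
  have e2 : b y * (x * y)⁻¹ ∈ Z := by
    have : b y * (x * y)⁻¹ = b y * y⁻¹ * x⁻¹ := by rw [mul_inv]; ac_rfl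
    rw [this]; exact hby
  have e3 : a y * y⁻¹ ∈ Z := hy.2 a ha
  have e4 : b x * x⁻¹ ∈ Z := hx.2 b hb
  -- d = a b
  have f1 : (a * b) x * (x * y)⁻¹ ∈ Z := htrans _ _ _ (hcong _ _ e4 a haX) e1
  have f2 : (a * b) y * x⁻¹ ∈ Z := by
    refine htrans _ _ _ (hcong _ _ e2 a haX) ?_
    rw [map_mul]
    have h1 := hmul _ _ _ _ e1 e3
    have h3 : x * y * y = x := by rw [mul_assoc, hV, mul_one]
    rwa [h3] at h1
  have f3 : (a * b) ((a * b) x) * y⁻¹ ∈ Z := by
    refine htrans _ _ _ (hcong _ _ f1 (a * b) (mul_mem haX hbX)) ?_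
    rw [map_mul]
    have h1 := hmul _ _ _ _ f1 f2
    have h3 : x * y * x = y := by rw [mul_comm x y, mul_assoc, hV, mul_one]
    rwa [h3] at h1
  have f4 : (a * b) ((a * b) ((a * b) x)) * x⁻¹ ∈ Z :=
    htrans _ _ _ (hcong _ _ f3 (a * b) (mul_mem haX hbX)) f2
  have hdvd : 3 ∣ orderOf (a * b) := by
    by_contra hcon
    have hcop : Nat.Coprime 3 (orderOf (a * b)) := (Nat.Prime.coprime_iff_not_dvd Nat.prime_three).mpr hcon
    obtain ⟨m, hm⟩ := exists_pow_eq_self_of_coprime hcop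
    have h1 : ∀ k : ℕ, (((a * b) ^ 3) ^ k) x * x⁻¹ ∈ Z := by
      intro k
      induction k with
      | zero =>
        have : (((a * b) ^ 3) ^ 0) x * x⁻¹ = 1 := by rw [pow_zero]; exact mul_inv_cancel x
        rw [this]; exact one_mem _
      | succ k ih =>
        rw [pow_succ']
        have h2 : ((a * b) ^ 3 * ((a * b) ^ 3) ^ k) x = ((a * b) ^ 3) ((((a * b) ^ 3) ^ k) x) := rfl
        rw [h2]
        refine htrans _ _ _ (hcong _ _ ih _ (pow_mem (mul_mem haX hbX) 3)) ?_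
        have h3 : ((a * b) ^ 3) x = (a * b) ((a * b) ((a * b) x)) := by rw [pow_succ, sq]; rfl
        rw [h3]; exact f4
    have h2 := h1 m
    rw [hm] at h2
    apply hyZ
    have h3 := htrans _ _ _ (hsymm _ _ f1) h2
    have h4 : x * y * x⁻¹ = y := by rw [mul_comm x y, mul_inv_cancel_right]
    rwa [h4] at h3
  set d := (a * b) ^ (orderOf (a * b) / 3) with hd
  have hpos : 0 < orderOf (a * b) := orderOf_pos _
  have hd3 : orderOf d = 3 := by
    obtain ⟨k, hk⟩ := hdvd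
    have hk0 : 0 < k := by
      rcases Nat.eq_zero_or_pos k with h | h
      · rw [h] at hk; omega
      · exact h
    have h1 : orderOf (a * b) / 3 = k := by rw [hk]; exact Nat.mul_div_cancel_left k (by norm_num)
    rw [hd, h1, orderOf_pow_of_dvd hk0.ne' (by rw [hk]; exact Dvd.intro_left _ rfl), hk]
    exact Nat.mul_div_cancel _ hk0
  have haa : a * a = 1 := hq.sq hV hp.mA.le hp.mA.two ha
  have hbb : b * b = 1 := hq.sq hV hp.mB.le hp.mB.two hb
  have hainv : a⁻¹ = a := inv_eq_of_mul_eq_one_left haa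
  have hbinv : b⁻¹ = b := inv_eq_of_mul_eq_one_left hbb
  have had : a * d * a⁻¹ = d⁻¹ := by
    rw [hd, ← inv_pow, mul_inv_rev, hainv, hbinv]
    have h1 : a * (a * b) * a⁻¹ = b * a := by rw [← mul_assoc, haa, one_mul, hainv]
    have h2 := (MulAut.conj a).toMonoidHom.map_pow (a * b) (orderOf (a * b) / 3)
    have h3 : a * ((a * b) ^ (orderOf (a * b) / 3)) * a⁻¹ = (a * (a * b) * a⁻¹) ^ (orderOf (a * b) / 3) := h2
    rw [h1, hainv] at h3
    exact h3
  obtain ⟨W, hW⟩ := exists_W hV a d haa hd3 had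
  have hXH : A ⊔ B ≤ H := sup_le hp.mA.le hp.mB.le
  exact ⟨a, hXH haX, d, hXH (pow_mem (mul_mem haX hbX) _), by rw [hd3]; decide, haa, W, hW⟩

end Cfsg.Agent.Fus.QO
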