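import Cfsg.Agent.Fus.QuadOff3
import Cfsg.Agent.H34.ThomFact

/-!
Quadratic offenders in `S₄`-free groups; Thompson factorization for Sylow 2-subgroups of class at most two.
-/

set_option autoImplicit false
set_option maxHeartbeats 400000

namespace Cfsg.Agent.Fus.QO

open Cfsg Cfsg.Agent.H34
open scoped Pointwise

universe u

/-- lifting 2-subgroups of the image -/
theorem exists_lift_two {G : Type u} {K : Type u} [Group G] [Finite G] [Group K] [Finite K] (ρ : G →* K) (P : Subgroup K)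
    (hP : P ≤ ρ.range) (h2 : IsPGroup 2 P) : ∃ T : Subgroup G, IsPGroup 2 T ∧ ∀ a ∈ P, ∃ t ∈ T, ρ t = a := by
  have : Fact (Nat.Prime 2) := ⟨Nat.prime_two⟩
  let f : P.comap ρ →* P := (ρ.comp (P.comap ρ).subtype).codRestrict P (fun x => x.2)
  have hf : Function.Surjective f := by
    rintro ⟨a, ha⟩
    obtain ⟨g, hg⟩ := hP ha
    refine ⟨⟨g, ?_⟩, Subtype.ext hg⟩
    show ρ g ∈ P
    rw [hg]; exact ha
  let T : Sylow 2 (P.comap ρ) := default
  have h3 : ((T.mapSurjective hf : Sylow 2 P) : Subgroup P) = ⊤ := by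
    have htop : IsPGroup 2 (⊤ : Subgroup P) := h2.of_equiv Subgroup.topEquiv.symm
    exact ((T.mapSurjective hf).is_maximal' htop le_top).symm
  refine ⟨(T : Subgroup (P.comap ρ)).map (P.comap ρ).subtype, T.isPGroup'.map _, ?_⟩
  intro a ha
  have h4 : (⟨a, ha⟩ : P) ∈ ((T.mapSurjective hf : Sylow 2 P) : Subgroup P) := by rw [h3]; exact Subgroup.mem_top _
  obtain ⟨t, ht, hta⟩ := h4
  refine ⟨t, ⟨t, ht, rfl⟩, ?_⟩
  exact congrArg Subtype.val hta

theorem offender_centralizes_quad {G : Type u} [Group G] [Finite G]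
    (hS4 : ¬ Involves (Equiv.Perm (Fin 4)) G) (V : Subgroup G) [V.Normal] (hVab : IsElementaryAbelian 2 V)
    (hred : pCore 2 (MulAut.conjNormal : G →* MulAut V).range = ⊥)
    (hquad : ∀ P : Subgroup G, IsPGroup 2 P → ∀ a ∈ P, ∀ b ∈ P, ∀ v ∈ V,
      a * (b * v * b⁻¹ * v⁻¹) * a⁻¹ = b * v * b⁻¹ * v⁻¹)
    (A : Subgroup G) (hA : IsElementaryAbelian 2 A)
    (hcard : Nat.card V * Nat.card (A ⊓ Subgroup.centralizer (V : Set G) : Subgroup G) ≤
      Nat.card A * Nat.card (V ⊓ Subgroup.centralizer (A : Set G) : Subgroup G)) :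
    A ≤ Subgroup.centralizer (V : Set G) := by
  by_contra hnot
  have hVab' := (isElementaryAbelian_iff 2 V).mp hVab
  have hA' := (isElementaryAbelian_iff 2 A).mp hA
  let inst : CommGroup V :=
    { (inferInstance : Group V) with mul_comm := fun a b => Subtype.ext (hVab'.1 a a.2 b b.2) }
  have hV2 : ∀ v : V, v * v = 1 := fun v => Subtype.ext (by
    have := hVab'.2 v v.2
    rw [sq] at this
    exact this)
  let ρ : G →* MulAut V := MulAut.conjNormal
  have hρ : ∀ (x : G) (w : V), ((ρ x w : V) : G) = x * w * x⁻¹ := fun x w => MulAut.conjNormal_apply x w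
  have hker : ρ.ker = Subgroup.centralizer (V : Set G) := by
    ext x
    rw [MonoidHom.mem_ker, Subgroup.mem_centralizer_iff]
    constructor
    · intro h v hv
      have h1 : ((ρ x ⟨v, hv⟩ : V) : G) = v := by rw [h]; rfl
      rw [hρ] at h1
      exact (mul_inv_eq_iff_eq_mul.mp h1).symm
    · intro h
      ext v
      rw [hρ]
      show x * (v : G) * x⁻¹ = v
      rw [← h v v.2, mul_inv_cancel_right]
  have hAle : A.map ρ ≤ ρ.range := by
    rintro _ ⟨a, _, rfl⟩; exact ⟨a, rfl⟩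
  have hcardA : Nat.card (A.map ρ) * Nat.card (A ⊓ Subgroup.centralizer (V : Set G) : Subgroup G) =
      Nat.card A := by
    have h1 := Subgroup.relIndex_ker (K := A) ρ
    rw [hker] at h1
    have h2 := Subgroup.relIndex_mul_relIndex ⊥ (A ⊓ Subgroup.centralizer (V : Set G)) A bot_le inf_le_left
    rw [Subgroup.relIndex_bot_left, Subgroup.relIndex_bot_left, Subgroup.inf_relIndex_left, h1, mul_comm] at h2
    exact h2
  have hfix : Nat.card (fixedBy (A.map ρ)) =
      Nat.card (V ⊓ Subgroup.centralizer (A : Set G) : Subgroup G) := by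
    have h1 : (fixedBy (A.map ρ)).map V.subtype = V ⊓ Subgroup.centralizer (A : Set G) := by
      ext x
      constructor
      · rintro ⟨v, hv, rfl⟩
        refine Subgroup.mem_inf.mpr ⟨v.2, ?_⟩
        rw [Subgroup.mem_centralizer_iff]
        intro a ha
        have h2 := congrArg Subtype.val (hv (ρ a) ⟨a, ha, rfl⟩)
        rw [hρ] at h2
        exact mul_inv_eq_iff_eq_mul.mp h2
      · intro hvx
        obtain ⟨hv, hx⟩ := Subgroup.mem_inf.mp hvx
        refine ⟨⟨x, hv⟩, ?_, rfl⟩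
        rintro _ ⟨a, ha, rfl⟩
        apply Subtype.ext
        rw [hρ]
        rw [Subgroup.mem_centralizer_iff] at hx
        show a * x * a⁻¹ = x
        rw [hx a ha, mul_inv_cancel_right]
    rw [← h1, Subgroup.card_map_of_injective V.subtype_injective]
  have hcard2 : Nat.card V ≤ Nat.card (A.map ρ) * Nat.card (fixedBy (A.map ρ)) := by
    rw [hfix]
    rw [← hcardA] at hcard
    have hpos : 0 < Nat.card (A ⊓ Subgroup.centralizer (V : Set G) : Subgroup G) := Nat.card_pos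
    apply Nat.le_of_mul_le_mul_right _ hpos
    calc _ ≤ _ := hcard
      _ = _ := by ring
  have hne : A.map ρ ≠ ⊥ := by
    intro h
    rw [Subgroup.map_eq_bot_iff, hker] at h
    exact hnot h
  have hA2 : IsPGroup 2 A := by
    rintro ⟨a, ha⟩
    exact ⟨1, Subtype.ext (by rw [pow_one]; exact hA'.2 a ha)⟩
  have hq : Quad ρ.range := by
    intro P hP hP2 a ha b hb v
    obtain ⟨T, hT2, hTl⟩ := exists_lift_two ρ P hP hP2
    obtain ⟨s, hs, rfl⟩ := hTl a ha
    obtain ⟨t, ht, rfl⟩ := hTl b hb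
    apply Subtype.ext
    rw [hρ]
    have h1 : ((ρ t v * v⁻¹ : V) : G) = t * v * t⁻¹ * (v : G)⁻¹ := by
      rw [Subgroup.coe_mul, hρ, Subgroup.coe_inv]
    rw [h1]
    exact hquad T hT2 s hs t ht v v.2
  obtain ⟨a, ha, d, hd, hdodd, ha2, W, hWcard, haW, hdW, hdfix, haw⟩ :=
    main (V := V) hV2 ρ.range hq hred (A.map ρ) hAle (hA2.map ρ) hne hcard2
  obtain ⟨a', rfl⟩ := ha
  obtain ⟨d', rfl⟩ := hd
  apply hS4
  -- the normalizer of W
  let WG : Subgroup G := W.map V.subtype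
  have hWGmem : ∀ x : G, x ∈ WG ↔ ∃ w ∈ W, (w : G) = x := fun x => Iff.rfl
  have hnorm : ∀ x : G, (∀ w ∈ W, ρ x w ∈ W) → x ∈ Subgroup.normalizer (WG : Set G) := by
    intro x hx
    have h1 : ∀ y ∈ WG, x * y * x⁻¹ ∈ WG := by
      rintro _ ⟨w, hw, rfl⟩
      exact ⟨ρ x w, hx w hw, hρ x w⟩
    rw [Subgroup.mem_normalizer_iff]
    intro y
    refine ⟨h1 y, ?_⟩
    -- injectivity on the finite set
    intro hy
    have h2 : WG.map (MulAut.conj x).toMonoidHom = WG := by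
      apply Subgroup.eq_of_le_of_card_ge
      · rintro _ ⟨y, hy, rfl⟩
        exact h1 y hy
      · have hinj : Function.Injective (MulAut.conj x).toMonoidHom := (MulAut.conj x).injective
        exact (Subgroup.card_map_of_injective hinj).ge
    have h3 : x * y * x⁻¹ ∈ WG.map (MulAut.conj x).toMonoidHom := by rw [h2]; exact hy
    obtain ⟨z, hz, hz2⟩ := h3
    have h4 : x * z * x⁻¹ = x * y * x⁻¹ := hz2
    have h5 : z = y := by
      have := congrArg (fun t => x⁻¹ * t * x) h4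
      simpa [mul_assoc] using this
    rwa [← h5]
  let N : Subgroup G := Subgroup.normalizer (WG : Set G)
  have ha'N : a' ∈ N := hnorm a' haW
  have hd'N : d' ∈ N := hnorm d' hdW
  have hWN : WG ≤ N := Subgroup.le_normalizer
  apply involves_of_subgroup N
  have hWnormal : (WG.subgroupOf N).Normal := Subgroup.normal_in_normalizer
  have hcardWN : Nat.card (WG.subgroupOf N) = 4 := by
    rw [Nat.card_congr (Subgroup.subgroupOfEquivOfLe hWN).toEquiv,
      Subgroup.card_map_of_injective V.subtype_injective, hWcard]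
  have hWne : ∃ w ∈ W, w ≠ 1 := by
    obtain ⟨w, hw, hw1⟩ := haw
    refine ⟨w, hw, fun h => hw1 ?_⟩
    rw [h, map_one]
  refine involves_S4_of_normal (WG.subgroupOf N) hcardWN ⟨d', hd'N⟩ ⟨a', ha'N⟩ (orderOf (ρ d')) hdodd ?_ ?_ ?_ ?_
  · rintro ⟨w, hwN⟩ hw
    obtain ⟨v, hv, rfl⟩ := hw
    apply Subtype.ext
    have h1 := hρ (d' ^ orderOf (ρ d')) v
    rw [map_pow, pow_orderOf_eq_one] at h1
    exact h1.symm
  · obtain ⟨w, hw, hw1⟩ := hWne
    have hwG : (w : G) ∈ WG := ⟨w, hw, rfl⟩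
    refine ⟨⟨w, hWN hwG⟩, hwG, ?_⟩
    intro hcon
    apply hw1
    apply hdfix w hw
    apply Subtype.ext
    rw [hρ]
    exact congrArg Subtype.val hcon
  · rintro ⟨w, hwN⟩ hw
    obtain ⟨v, hv, rfl⟩ := hw
    apply Subtype.ext
    have h1 := hρ (a' * a') v
    rw [map_mul, ha2] at h1
    exact h1.symm
  · obtain ⟨w, hw, hw1⟩ := haw
    have hwG : (w : G) ∈ WG := ⟨w, hw, rfl⟩
    refine ⟨⟨w, hWN hwG⟩, hwG, ?_⟩
    intro hcon
    apply hw1
    apply Subtype.ext
    rw [hρ]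
    exact congrArg Subtype.val hcon

/-- `y, w` 2-elements, `x` of odd order with `[x, w] = 1` and `x y x⁻¹ = w y`. -/
theorem thompson_normal_aux {G : Type u} [Group G] [Finite G]
    (hS4 : ¬ Involves (Equiv.Perm (Fin 4)) G)
    (hCQ : Subgroup.centralizer (pCore 2 G : Set G) ≤ pCore 2 G) (S : Sylow 2 G)
    (hcl : ∀ a ∈ S, ∀ b ∈ S, ∀ c ∈ S, (a * b * a⁻¹ * b⁻¹) * c = c * (a * b * a⁻¹ * b⁻¹)) :
    (thompsonSubgroupOf 2 (S : Subgroup G)).Normal := by
  have : Fact (Nat.Prime 2) := ⟨Nat.prime_two⟩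
  set Q := pCore 2 G with hQdef
  have hQS : Q ≤ (S : Subgroup G) := Cfsg.Agent.Solv.pCore_le_sylow S
  have hQp : IsPGroup 2 Q := Cfsg.Agent.Solv.pCore_isPGroup 2
  let ZS : Subgroup G := (S : Subgroup G) ⊓ Subgroup.centralizer ((S : Subgroup G) : Set G)
  have hZS : ∀ a ∈ ZS, ∀ b ∈ ZS, a * b = b * a := by
    intro a ha b hb
    exact (Subgroup.mem_centralizer_iff.mp (Subgroup.mem_inf.mp hb).2) a (Subgroup.mem_inf.mp ha).1
  let Ω : Subgroup G := omegaSq ZS hZS
  let V : Subgroup G := Subgroup.normalClosure (Ω : Set G)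
  have hVn : V.Normal := Subgroup.normalClosure_normal
  let ZQ : Subgroup G := Q ⊓ Subgroup.centralizer (Q : Set G)
  have hZQn : ZQ.Normal := inferInstance
  have hZQ : ∀ a ∈ ZQ, ∀ b ∈ ZQ, a * b = b * a := by
    intro a ha b hb
    exact (Subgroup.mem_centralizer_iff.mp (Subgroup.mem_inf.mp hb).2) a (Subgroup.mem_inf.mp ha).1
  let W : Subgroup G := omegaSq ZQ hZQ
  have hWn : W.Normal := omegaSq_normal hZQ
  have hZSQ : ZS ≤ ZQ := by
    intro z hz
    have h1 : z ∈ Subgroup.centralizer (Q : Set G) := by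
      rw [Subgroup.mem_centralizer_iff]
      intro q hq
      exact (Subgroup.mem_centralizer_iff.mp (Subgroup.mem_inf.mp hz).2) q (hQS hq)
    exact Subgroup.mem_inf.mpr ⟨hCQ h1, h1⟩
  have hΩW : (Ω : Set G) ⊆ W := by
    rintro z ⟨hz, hz2⟩
    exact ⟨hZSQ hz, hz2⟩
  have hVW : V ≤ W := Subgroup.normalClosure_le_normal hΩW
  have hWQ : W ≤ Q := fun v hv => (Subgroup.mem_inf.mp hv.1).1
  have hVab : IsElementaryAbelian 2 V := isElementaryAbelian_mono hVW (omegaSq_elementaryAbelian hZQ)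
  have hVQ : V ≤ Q := hVW.trans hWQ
  have hVS : V ≤ (S : Subgroup G) := hVQ.trans hQS
  have hΩS : Ω ≤ Subgroup.centralizer ((S : Subgroup G) : Set G) := fun z hz => (Subgroup.mem_inf.mp hz.1).2
  have hred := reduced_of_normalClosure S Ω V rfl hΩS
  -- class two for all 2-subgroups, with one argument in `Q`
  have hclP : ∀ P : Subgroup G, IsPGroup 2 P → ∀ a ∈ P, ∀ b ∈ P, ∀ v ∈ Q,
      a * (b * v * b⁻¹ * v⁻¹) * a⁻¹ = b * v * b⁻¹ * v⁻¹ := by
    intro P hP a ha b hb v hv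
    obtain ⟨T, hT⟩ := hP.exists_le_sylow
    obtain ⟨g, hg⟩ := MulAction.exists_smul_eq G S T
    have hmem : ∀ x ∈ T, g⁻¹ * x * g ∈ S := by
      intro x hx
      rw [← hg] at hx
      have h1 : x ∈ MulAut.conj g • (S : Subgroup G) := hx
      rw [Subgroup.mem_pointwise_smul_iff_inv_smul_mem] at h1
      have h2 : (MulAut.conj g)⁻¹ • x = g⁻¹ * x * g := by
        rw [← map_inv, MulAut.smul_def, MulAut.conj_apply, inv_inv]
      rw [h2] at h1; exact h1
    have hvT : v ∈ T := Cfsg.Agent.Solv.pCore_le_sylow T hv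
    have h3 := hcl _ (hmem b (hT hb)) _ (hmem v hvT) _ (hmem a (hT ha))
    have h4 : g⁻¹ * b * g * (g⁻¹ * v * g) * (g⁻¹ * b * g)⁻¹ * (g⁻¹ * v * g)⁻¹ = g⁻¹ * (b * v * b⁻¹ * v⁻¹) * g := by
      group
    rw [h4] at h3
    have h5 : (b * v * b⁻¹ * v⁻¹) * a = a * (b * v * b⁻¹ * v⁻¹) := by
      have := congrArg (fun t => g * t * g⁻¹) h3
      simpa [mul_assoc] using this
    rw [← h5, mul_inv_cancel_right]
  have hquad : ∀ P : Subgroup G, IsPGroup 2 P → ∀ a ∈ P, ∀ b ∈ P, ∀ v ∈ V,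
      a * (b * v * b⁻¹ * v⁻¹) * a⁻¹ = b * v * b⁻¹ * v⁻¹ := fun P hP a ha b hb v hv =>
    hclP P hP a ha b hb v (hVQ hv)
  set C : Subgroup G := Subgroup.centralizer (V : Set G) with hC
  have hCn : C.Normal := inferInstance
  have hAC : ∀ A ∈ maxEA 2 (S : Subgroup G), A ≤ C := by
    intro A hA
    exact offender_centralizes_quad hS4 V hVab hred hquad A hA.2.1 (card_ineq_of_maxEA 2 S V A hVS hVab hA)
  set J := thompsonSubgroupOf 2 (S : Subgroup G) with hJ
  have hJS : J ≤ (S : Subgroup G) := thompsonSubgroupOf_le 2 (S : Subgroup G)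
  have hJC : J ≤ C := by
    have h1 : thompsonSubgroupOf 2 ((S : Subgroup G) ⊓ C) = J :=
      thompsonSubgroupOf_eq_of_le 2 inf_le_left (fun A hA => le_inf hA.1 (hAC A hA))
    rw [← h1]
    exact (thompsonSubgroupOf_le 2 _).trans inf_le_right
  let N : Subgroup G := Subgroup.normalClosure (J : Set G)
  have hNn : N.Normal := Subgroup.normalClosure_normal
  have hNC : N ≤ C := Subgroup.normalClosure_le_normal hJC
  -- `[Q, N] ≤ Z(Q)`
  let D : Subgroup G := Subgroup.centralizer (V : Set G)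
  have hcommQ : ∀ n ∈ N, ∀ q ∈ Q, n * q * n⁻¹ * q⁻¹ ∈ ZQ := by
    -- the set of such `n` is a normal subgroup
    let E : Subgroup G :=
      { carrier := {n | ∀ q ∈ Q, n * q * n⁻¹ * q⁻¹ ∈ ZQ}
        mul_mem' := by
          intro a b ha hb q hq
          have h1 : a * b * q * (a * b)⁻¹ * q⁻¹ =
              (a * (b * q * b⁻¹ * q⁻¹) * a⁻¹) * (a * q * a⁻¹ * q⁻¹) := by group
          rw [h1]
          exact mul_mem (hZQn.conj_mem _ (hb q hq) a) (ha q hq)
        one_mem' := fun q _ => by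
          have : (1 : G) * q * 1⁻¹ * q⁻¹ = 1 := by group
          rw [this]; exact one_mem _
        inv_mem' := by
          intro a ha q hq
          have h1 : a⁻¹ * q * a⁻¹⁻¹ * q⁻¹ = a⁻¹ * (a * q * a⁻¹ * q⁻¹)⁻¹ * a⁻¹⁻¹ := by group
          rw [h1]
          exact hZQn.conj_mem _ (inv_mem (ha q hq)) _ }
    have hEn : E.Normal := by
      constructor
      intro n hn g q hq
      have hQn : Q.Normal := inferInstance
      have h1 : g * n * g⁻¹ * q * (g * n * g⁻¹)⁻¹ * q⁻¹ =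
          g * (n * (g⁻¹ * q * g⁻¹⁻¹) * n⁻¹ * (g⁻¹ * q * g⁻¹⁻¹)⁻¹) * g⁻¹ := by group
      rw [h1]
      exact hZQn.conj_mem _ (hn _ (hQn.conj_mem q hq g⁻¹)) g
    have hJE : J ≤ E := by
      intro j hj q hq
      apply hZSQ
      refine Subgroup.mem_inf.mpr ⟨?_, ?_⟩
      · exact mul_mem (mul_mem (mul_mem (hJS hj) (hQS hq)) (inv_mem (hJS hj))) (inv_mem (hQS hq))
      · rw [Subgroup.mem_centralizer_iff]
        intro s hs
        exact (hcl j (hJS hj) q (hQS hq) s hs).symm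
    have h1 : N ≤ E := Subgroup.normalClosure_le_normal hJE
    exact fun n hn => h1 hn
  -- `[W, N] ≤ V`
  have hcommW : ∀ n ∈ N, ∀ w ∈ W, n * w * n⁻¹ * w⁻¹ ∈ V := by
    let E : Subgroup G :=
      { carrier := {n | ∀ q ∈ W, n * q * n⁻¹ * q⁻¹ ∈ V}
        mul_mem' := by
          intro a b ha hb q hq
          have h1 : a * b * q * (a * b)⁻¹ * q⁻¹ =
              (a * (b * q * b⁻¹ * q⁻¹) * a⁻¹) * (a * q * a⁻¹ * q⁻¹) := by group
          rw [h1]
          exact mul_mem (hVn.conj_mem _ (hb q hq) a) (ha q hq)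
        one_mem' := fun q _ => by
          have : (1 : G) * q * 1⁻¹ * q⁻¹ = 1 := by group
          rw [this]; exact one_mem _
        inv_mem' := by
          intro a ha q hq
          have h1 : a⁻¹ * q * a⁻¹⁻¹ * q⁻¹ = a⁻¹ * (a * q * a⁻¹ * q⁻¹)⁻¹ * a⁻¹⁻¹ := by group
          rw [h1]
          exact hVn.conj_mem _ (inv_mem (ha q hq)) _ }
    have hEn : E.Normal := by
      constructor
      intro n hn g q hq
      have h1 : g * n * g⁻¹ * q * (g * n * g⁻¹)⁻¹ * q⁻¹ =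
          g * (n * (g⁻¹ * q * g⁻¹⁻¹) * n⁻¹ * (g⁻¹ * q * g⁻¹⁻¹)⁻¹) * g⁻¹ := by group
      rw [h1]
      exact hVn.conj_mem _ (hn _ (hWn.conj_mem q hq g⁻¹)) g
    have hJE : J ≤ E := by
      intro j hj q hq
      apply Subgroup.subset_normalClosure
      have hqS : q ∈ (S : Subgroup G) := hQS (hWQ hq)
      refine ⟨Subgroup.mem_inf.mpr ⟨?_, ?_⟩, ?_⟩
      · exact mul_mem (mul_mem (mul_mem (hJS hj) hqS) (inv_mem (hJS hj))) (inv_mem hqS)
      · rw [Subgroup.mem_centralizer_iff]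
        intro s hs
        exact (hcl j (hJS hj) q hqS s hs).symm
      · have h2 : j * q * j⁻¹ * q⁻¹ ∈ W := mul_mem (hWn.conj_mem q hq j) (inv_mem hq)
        exact h2.2
    have h1 : N ≤ E := Subgroup.normalClosure_le_normal hJE
    exact fun n hn => h1 hn
  have htwo : ∀ w ∈ Q, ∃ n : ℕ, w ^ 2 ^ n = 1 := by
    intro w hw
    obtain ⟨n, hn⟩ := hQp ⟨w, hw⟩
    exact ⟨n, congrArg Subtype.val hn⟩
  -- odd order elements of `N` centralize `W`
  have hodd1 : ∀ x ∈ N, Odd (orderOf x) → ∀ w ∈ W, x * w * x⁻¹ = w := by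
    intro x hx ho w hw
    have h1 : x * w * x⁻¹ * w⁻¹ ∈ V := hcommW x hx w hw
    have h2 : x * (x * w * x⁻¹ * w⁻¹) = (x * w * x⁻¹ * w⁻¹) * x :=
      ((Subgroup.mem_centralizer_iff.mp (hNC hx)) _ h1).symm
    have h3 := eq_one_aux x w (x * w * x⁻¹ * w⁻¹) ho (by group) h2 (htwo _ (hVQ h1))
    exact mul_inv_eq_one.mp h3
  -- and `Z(Q)`
  have hodd2 : ∀ x ∈ N, Odd (orderOf x) → ∀ n : ℕ, ∀ z ∈ ZQ, z ^ 2 ^ n = 1 → x * z * x⁻¹ = z := by
    intro x hx ho n
    induction n with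
    | zero =>
      intro z hz h
      rw [pow_zero, pow_one] at h
      rw [h]; group
    | succ n ih =>
      intro z hz h
      have h1 : x * (z * z) * x⁻¹ = z * z := by
        apply ih _ (mul_mem hz hz)
        rw [← sq, ← pow_mul, ← pow_succ']; exact h
      -- w = [x, z] has square one
      have hxz : x * z * x⁻¹ ∈ ZQ := hZQn.conj_mem z hz x
      have h2 : (x * z * x⁻¹ * z⁻¹) * (x * z * x⁻¹ * z⁻¹) = 1 := by
        have h3 : x * z * x⁻¹ * z⁻¹ = z⁻¹ * (x * z * x⁻¹) := hZQ _ hxz _ (inv_mem hz)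
        calc (x * z * x⁻¹ * z⁻¹) * (x * z * x⁻¹ * z⁻¹) = (z⁻¹ * (x * z * x⁻¹)) * (x * z * x⁻¹ * z⁻¹) := by
              rw [h3]
          _ = z⁻¹ * (x * (z * z) * x⁻¹) * z⁻¹ := by group
          _ = 1 := by rw [h1]; group
      have h3 : x * z * x⁻¹ * z⁻¹ ∈ W := ⟨mul_mem hxz (inv_mem hz), h2⟩
      have h4 := hodd1 x hx ho _ h3
      have h5 : x * (x * z * x⁻¹ * z⁻¹) = (x * z * x⁻¹ * z⁻¹) * x := mul_inv_eq_iff_eq_mul.mp h4
      have h6 := eq_one_aux x z (x * z * x⁻¹ * z⁻¹) ho (by group) h5 ⟨1, by rw [pow_one, sq]; exact h2⟩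
      exact mul_inv_eq_one.mp h6
  have hodd3 : ∀ x ∈ N, Odd (orderOf x) → x = 1 := by
    intro x hx ho
    have h1 : x ∈ Subgroup.centralizer (Q : Set G) := by
      rw [Subgroup.mem_centralizer_iff]
      intro q hq
      have h2 : x * q * x⁻¹ * q⁻¹ ∈ ZQ := hcommQ x hx q hq
      obtain ⟨n, hn⟩ := htwo _ (Subgroup.mem_inf.mp h2).1
      have h3 := hodd2 x hx ho n _ h2 hn
      have h4 : x * (x * q * x⁻¹ * q⁻¹) = (x * q * x⁻¹ * q⁻¹) * x := mul_inv_eq_iff_eq_mul.mp h3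
      have h5 := eq_one_aux x q (x * q * x⁻¹ * q⁻¹) ho (by group) h4 ⟨n, hn⟩
      have h6 : x * q * x⁻¹ = q := mul_inv_eq_one.mp h5
      exact (mul_inv_eq_iff_eq_mul.mp h6).symm
    obtain ⟨n, hn⟩ := htwo x (hCQ h1)
    have h2 : orderOf x ∣ 2 ^ n := orderOf_dvd_of_pow_eq_one hn
    have h3 : Nat.Coprime (orderOf x) (2 ^ n) := Nat.Coprime.pow_right _ ((Nat.coprime_two_right).mpr ho)
    exact orderOf_eq_one_iff.mp (h3.eq_one_of_dvd h2)
  have hN2 : IsPGroup 2 N := by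
    rintro ⟨x, hx⟩
    have hpos : 0 < orderOf x := orderOf_pos x
    obtain ⟨k, m, hm, hkm⟩ := Nat.exists_eq_two_pow_mul_odd (n := orderOf x) hpos.ne'
    refine ⟨k, Subtype.ext ?_⟩
    show x ^ 2 ^ k = 1
    apply hodd3 _ (pow_mem hx _)
    have h1 : orderOf (x ^ 2 ^ k) = m := by
      rw [orderOf_pow_of_dvd (by positivity) (by rw [hkm]; exact Dvd.intro _ rfl), hkm]
      exact Nat.mul_div_cancel_left m (by positivity)
    rw [h1]; exact hm
  have hJQ : J ≤ Q := Subgroup.le_normalClosure.trans (Cfsg.Agent.Solv.le_pCore hNn hN2)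
  -- conclusion
  have hJeq : thompsonSubgroupOf 2 Q = J := by
    have h1 : thompsonSubgroupOf 2 ((S : Subgroup G) ⊓ Q) = J := by
      apply thompsonSubgroupOf_eq_of_le 2 inf_le_left
      intro A hA
      refine le_inf hA.1 (le_trans ?_ hJQ)
      rw [hJ, thompsonSubgroupOf_eq]
      exact le_sSup hA
    rwa [inf_eq_right.mpr hQS] at h1
  apply Subgroup.normalizer_eq_top_iff.mp
  rw [eq_top_iff, ← Subgroup.normalizer_eq_top_iff.mpr (inferInstance : Q.Normal), ← hJeq]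
  exact normalizer_le_normalizer_thompson 2 Q

end Cfsg.Agent.Fus.QO
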