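import Cfsg.Agent.Fus.Tate1
import Cfsg.Agent.Fus.PExt2
import Cfsg.Agent.Fus.PPow6
import Cfsg.Agent.Fus.Subnormal
import Cfsg.Prelude.Def_FusionReduction

/-!
# Uniqueness of residual limits; residual limits and subsystems of `p`-power index
-/

set_option autoImplicit false

namespace Cfsg.Agent.Fus

open Cfsg

universe u

variable {Ω : Type u} [Group Ω] {p : ℕ} [Fact p.Prime]

theorem index_self {S : Subgroup Ω} {F : FusionSystem S} (h : F.hyperfocalSubgroup p ≤ S) :
    F.HasPPowerIndexIn F p := by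
  rw [hasPPowerIndexIn_iff]
  exact ⟨fun P => le_rfl, h, fun P hP α hα _ => isMap_ofAut hP hα⟩

/-- `F` and `F'` have the same `p`-residual. -/
def SameRes (p : ℕ) {S S' : Subgroup Ω} (F : FusionSystem S) (F' : FusionSystem S') : Prop :=
  ∃ (U : Subgroup Ω) (D : FusionSystem U), D.IsSaturated p ∧ F.hyperfocalSubgroup p = U ∧
    F'.hyperfocalSubgroup p = U ∧ D.HasPPowerIndexIn F p ∧ D.HasPPowerIndexIn F' p

theorem SameRes.symm {S S' : Subgroup Ω} {F : FusionSystem S} {F' : FusionSystem S'} (h : SameRes p F F') :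
    SameRes p F' F := by
  obtain ⟨U, D, h1, h2, h3, h4, h5⟩ := h
  exact ⟨U, D, h1, h3, h2, h5, h4⟩

theorem SameRes.refl {S : Subgroup Ω} [Finite S] (hS : IsPGroup p S) {F : FusionSystem S} (hF : F.IsSaturated p) :
    SameRes p F F := by
  obtain ⟨E, h1, h2, h3⟩ := exists_ppower (Nat.card S) rfl hS hF (T := F.hyperfocalSubgroup p) hyper_le_S le_rfl
  exact ⟨_, E, h1, rfl, rfl, hasPPowerIndexIn_iff.mpr ⟨h2, le_rfl, h3⟩, hasPPowerIndexIn_iff.mpr ⟨h2, le_rfl, h3⟩⟩

/-- eliminate a system over a propositionally equal group -/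
theorem exists_cast {S U : Subgroup Ω} (h : S = U) (F : FusionSystem S) :
    ∃ F' : FusionSystem U, ∀ P, F'.Hom P = F.Hom P := by
  subst h; exact ⟨F, fun _ => rfl⟩

omit [Fact p.Prime] in
theorem lim_stable {T' S' : Subgroup Ω} {E' : FusionSystem T'} {F' : FusionSystem S'}
    (h : FusionSystem.IsResidualLimitOf E' F' p) : ∀ [Fact p.Prime] {S : Subgroup Ω} (F : FusionSystem S),
      Finite S → IsPGroup p S →
      F.IsSaturated p → Finite S' → IsPGroup p S' → F'.IsSaturated p → F.hyperfocalSubgroup p = S →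
      F.IsPPrimeResidual p F → SameRes p F F' → ∀ P, E'.Hom P = F.Hom P := by
  induction h with
  | stable F' p h1 h2 =>
    rintro _ S F hfS hS hF hfS' hS' hF' hFS hFr ⟨U, D, hD, hU, hU', hi, hi'⟩ P
    have e1 : S = U := hFS.symm.trans hU
    have e2 : T' = U := h1.symm.trans hU'
    subst e1
    subst e2
    have e3 : D = F := ppower_unique hS le_rfl hD hF hi (index_self hFS.le)
    have e4 : D = F' := ppower_unique hS' le_rfl hD hF' hi' (index_self h1.le)
    rw [← e4, ← e3]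
  | step F' p D₁ D₁' h1 h2 h3 ih =>
    rename_i S' _
    rintro _ S F hfS hS hF hfS' hS' hF' hFS hFr ⟨U, D, hD, hU, hU', hi, hi'⟩ P
    have e1 : S = U := hFS.symm.trans hU
    subst e1
    have e3 : D = F := ppower_unique hS le_rfl hD hF hi (index_self hFS.le)
    subst e3
    have hle : F'.hyperfocalSubgroup p ≤ S' := hyper_le_S
    -- `D₁ = D`
    have key : ∀ (V : Subgroup Ω) (hV : V = S) (D₁ D₁' : FusionSystem V), D₁.IsSaturated p → V ≤ S' →
        D₁.HasPPowerIndexIn F' p → D₁.IsPPrimeResidual p D₁' →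
        D₁'.IsSaturated p ∧ IsPGroup p V ∧ Finite V ∧ SameRes p D D₁' := by
      rintro V rfl D₁ D₁' g1 g2 g3 g4
      have e4 : D₁ = D := ppower_unique hS' g2 g1 hD g3 hi'
      subst e4
      rw [isPPrimeResidual_iff hS hD] at g4 hFr
      rw [g4, ← hFr]
      exact ⟨hD, hS, hfS, SameRes.refl hS hD⟩
    obtain ⟨k1, k2, k3, k4⟩ := key _ hU' D₁ D₁' h1.1 hle h1.2 h2
    exact ih D hfS hS hD k3 k2 k1 hFS hFr k4 P

omit [Fact p.Prime] in
theorem lim_unique {T S : Subgroup Ω} {E : FusionSystem T} {F : FusionSystem S}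
    (h : FusionSystem.IsResidualLimitOf E F p) : ∀ [Fact p.Prime] {S' T' : Subgroup Ω} (F' : FusionSystem S')
      (E' : FusionSystem T'), Finite S → IsPGroup p S → F.IsSaturated p → Finite S' → IsPGroup p S' → F'.IsSaturated p → SameRes p F F' →
      FusionSystem.IsResidualLimitOf E' F' p → ∀ P, E.Hom P = E'.Hom P := by
  induction h with
  | stable F p h1 h2 =>
    rintro _ S' T' F' E' hfS hS hF hfS' hS' hF' hrel h' P
    exact (lim_stable h' F hfS hS hF hfS' hS' hF' h1 h2 hrel P).symm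
  | step F p D D' h1 h2 h3 ih =>
    rename_i S _
    rintro _ S' T' F' E' hfS hS hF hfS' hS' hF' hrel h' P
    cases h' with
    | stable _ _ g1 g2 =>
      exact lim_stable (FusionSystem.IsResidualLimitOf.step F p D D' h1 h2 h3) F' hfS' hS' hF' hfS hS hF g1 g2
        hrel.symm P
    | step _ _ D₁ D₁' g1 g2 g3 =>
      obtain ⟨U, D₀, hD, hU, hU', hi, hi'⟩ := hrel
      have hle : F.hyperfocalSubgroup p ≤ S := hyper_le_S
      have hle' : F'.hyperfocalSubgroup p ≤ S' := hyper_le_S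
      have key : ∀ (V V' : Subgroup Ω) (_ : V = U) (_ : V' = U) (D D' : FusionSystem V) (D₁ D₁' : FusionSystem V'),
          V ≤ S → V' ≤ S' → D.IsSaturated p → D.HasPPowerIndexIn F p → D.IsPPrimeResidual p D' →
          D₁.IsSaturated p → D₁.HasPPowerIndexIn F' p → D₁.IsPPrimeResidual p D₁' →
          Finite V ∧ IsPGroup p V ∧ D'.IsSaturated p ∧ Finite V' ∧ IsPGroup p V' ∧ D₁'.IsSaturated p ∧
            SameRes p D' D₁' := by
        rintro V V' rfl rfl D D' D₁ D₁' a1 a2 a3 a4 a5 a6 a7 a8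
        have e1 : D = D₀ := ppower_unique hS a1 a3 hD a4 hi
        have e2 : D₁ = D₀ := ppower_unique hS' a2 a6 hD a7 hi'
        have hfV : Finite V' := finite_of_le a1
        have hpV : IsPGroup p V' := isPGroup_of_le hS a1
        rw [isPPrimeResidual_iff hpV a3] at a5
        rw [isPPrimeResidual_iff hpV a6] at a8
        have e3 : D₁' = D' := by rw [a8, a5, e1, e2]
        have hs : D'.IsSaturated p := by rw [a5]; exact pPrimeRes_saturated hpV a3
        rw [e3]
        exact ⟨hfV, hpV, hs, hfV, hpV, hs, SameRes.refl hpV hs⟩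
      obtain ⟨k1, k2, k3, k4, k5, k6, k7⟩ := key _ _ hU hU' D D' D₁ D₁' hle hle' h1.1 h1.2 h2 g1.1 g1.2 g2
      exact ih D₁' E' k1 k2 k3 k4 k5 k6 k7 g3 P

/-- a saturated subsystem of `p`-power index has the same `p`-residual -/
theorem sameRes_of_ppower {S T : Subgroup Ω} [Finite S] (hS : IsPGroup p S) {F : FusionSystem S} {E : FusionSystem T}
    (hTS : T ≤ S) (hE : E.IsSaturated p) (hi : E.HasPPowerIndexIn F p) : SameRes p F E := by
  have hfT : Finite T := finite_of_le hTS
  have hT : IsPGroup p T := isPGroup_of_le hS hTS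
  rw [hasPPowerIndexIn_iff] at hi
  obtain ⟨i1, i2, i3⟩ := hi
  have heq : F.hyperfocalSubgroup p = E.hyperfocalSubgroup p :=
    le_antisymm (Bi.hyper_le_of_ppower hS hTS i2 i3) (hyper_mono_sys i1 hTS)
  obtain ⟨D, h1, h2, h3⟩ := exists_ppower (Nat.card T) rfl hT hE (T := E.hyperfocalSubgroup p) hyper_le_S le_rfl
  refine ⟨_, D, h1, heq, rfl, ?_, hasPPowerIndexIn_iff.mpr ⟨h2, le_rfl, h3⟩⟩
  rw [hasPPowerIndexIn_iff]
  refine ⟨fun P => (h2 P).trans (i1 P), heq.le, fun P hP α hα hαp => ?_⟩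
  have hPT : P ≤ T := hP.trans hyper_le_S
  exact h3 P hP α ((mem_autGroup_iff hPT).mpr (i3 P hPT α hα hαp)) hαp

end Cfsg.Agent.Fus
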