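import Cfsg.Agent.Fus.Cover
import Cfsg.Agent.ClassBase.SL

/-!
# The `p`-fusion system of `PSL_n(K)`, `char K = p`, `n ≥ 3`, is simple (S5163)
-/

set_option autoImplicit false

namespace Cfsg.Agent.Fus.SLn

open Cfsg Matrix Matrix.SpecialLinearGroup Cfsg.Agent.Fus

variable {K : Type*} [Field K] {m : ℕ}

/-- the group `SL_{m+3}(K)` -/
local notation "SLm" => SpecialLinearGroup (Fin (m + 3)) K

/-- matrices -/
local notation "Mat" => Matrix (Fin (m + 3)) (Fin (m + 3)) K

/-- elementary matrices -/
local notation "tv" => SpecialLinearGroup.transvection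

theorem tv_mul_apply {i j : Fin (m + 3)} (hij : i ≠ j) (c : K) (g : SLm) (a b : Fin (m + 3)) :
    ((tv hij c * g : SLm) : Mat) a b = g a b + if a = i then c * g j b else 0 := by
  show ((Matrix.transvection i j c * (g : Mat) : Mat)) a b = _
  by_cases h : a = i
  · subst h; rw [transvection_mul_apply_same]; simp
  · rw [transvection_mul_apply_of_ne _ _ _ _ h]; simp [h]

theorem mul_tv_apply {i j : Fin (m + 3)} (hij : i ≠ j) (c : K) (g : SLm) (a b : Fin (m + 3)) :
    ((g * tv hij c : SLm) : Mat) a b = g a b + if b = j then c * g a i else 0 := by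
  show ((g : Mat) * Matrix.transvection i j c : Mat) a b = _
  by_cases h : b = j
  · subst h; rw [mul_transvection_apply_same]; simp
  · rw [mul_transvection_apply_of_ne _ _ _ _ h]; simp [h]

theorem tv_apply {i j : Fin (m + 3)} (hij : i ≠ j) (c : K) (a b : Fin (m + 3)) :
    ((tv hij c : SLm) : Mat) a b = (if a = b then 1 else 0) + if a = i ∧ b = j then c else 0 := by
  rw [transvection_coe, Matrix.add_apply, Matrix.one_apply, Matrix.single_apply]
  congr 1
  simp only [eq_comm]

/-- Consequences of commuting with an elementary matrix. -/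
theorem comm_tv {i j : Fin (m + 3)} (hij : i ≠ j) {g : SLm} (h : tv hij (1 : K) * g = g * tv hij 1) :
    g i i = g j j ∧ (∀ b, b ≠ j → g j b = 0) ∧ (∀ a, a ≠ i → g a i = 0) := by
  have key : ∀ a b, (if a = i then g j b else 0) = (if b = j then g a i else 0) := by
    intro a b
    have h1 : ((tv hij (1 : K) * g : SLm) : Mat) a b = ((g * tv hij (1 : K) : SLm) : Mat) a b := by
      rw [h]
    rw [tv_mul_apply, mul_tv_apply, one_mul, one_mul] at h1
    exact add_left_cancel h1
  refine ⟨?_, ?_, ?_⟩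
  · have := key i j
    simpa using this.symm
  · intro b hb
    have := key i b
    simpa [hb] using this
  · intro a ha
    have := key a j
    simpa [ha] using this.symm

/-! ### Upper triangular matrices -/

/-- upper triangular -/
def UT (g : SLm) : Prop := ∀ i j, j < i → g i j = 0

theorem UT.one : UT (1 : SLm) := by
  intro i j h
  show (1 : Mat) i j = 0
  rw [Matrix.one_apply_ne h.ne']

theorem UT.mul {g h : SLm} (hg : UT g) (hh : UT h) : UT (g * h) := by
  intro i j hij
  show ((g : Mat) * (h : Mat) : Mat) i j = 0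
  rw [Matrix.mul_apply]
  refine Finset.sum_eq_zero fun k _ => ?_
  rcases lt_or_ge k i with hk | hk
  · rw [hg i k hk, zero_mul]
  · rw [hh k j (hij.trans_le hk), mul_zero]

theorem UT.mul_diag {g h : SLm} (hg : UT g) (hh : UT h) (i : Fin (m + 3)) : (g * h : SLm) i i = g i i * h i i := by
  show ((g : Mat) * (h : Mat) : Mat) i i = _
  rw [Matrix.mul_apply, Finset.sum_eq_single i]
  · intro k _ hk
    rcases lt_or_gt_of_ne hk with hk | hk
    · rw [hg i k hk, zero_mul]
    · rw [hh k i hk, mul_zero]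
  · intro h; exact absurd (Finset.mem_univ _) h

theorem UT.pow {g : SLm} (hg : UT g) (k : ℕ) : UT (g ^ k) ∧ ∀ i, (g ^ k : SLm) i i = g i i ^ k := by
  induction k with
  | zero =>
    refine ⟨by rw [pow_zero]; exact UT.one, fun i => ?_⟩
    rw [pow_zero, pow_zero]
    show (1 : Mat) i i = 1
    rw [Matrix.one_apply_eq]
  | succ k ih =>
    rw [pow_succ]
    exact ⟨ih.1.mul hg, fun i => by rw [ih.1.mul_diag hg, ih.2, pow_succ]⟩

/-- upper unitriangular -/
def UU (g : SLm) : Prop := UT g ∧ ∀ i, g i i = 1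

theorem UU.mul {g h : SLm} (hg : UU g) (hh : UU h) : UU (g * h) :=
  ⟨hg.1.mul hh.1, fun i => by rw [hg.1.mul_diag hh.1, hg.2, hh.2, mul_one]⟩

theorem UU.pow {g : SLm} (hg : UU g) (k : ℕ) : UU (g ^ k) :=
  ⟨(hg.1.pow k).1, fun i => by rw [(hg.1.pow k).2, hg.2, one_pow]⟩

variable (K m) in
/-- The group of upper unitriangular matrices. -/
def U [Finite K] : Subgroup (SpecialLinearGroup (Fin (m + 3)) K) where
  carrier := {g | UU g}
  mul_mem' ha hb := UU.mul ha hb
  one_mem' := ⟨UT.one, fun i => by show (1 : Mat) i i = 1; rw [Matrix.one_apply_eq]⟩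
  inv_mem' := by
    intro g hg
    have hfin : Finite (SpecialLinearGroup (Fin (m + 3)) K) := inferInstance
    have h1 : g⁻¹ = g ^ (orderOf g - 1) := by
      have hpos := orderOf_pos g
      apply inv_eq_of_mul_eq_one_left
      rw [← pow_succ, Nat.sub_add_cancel hpos, pow_orderOf_eq_one]
    show UU g⁻¹
    rw [h1]
    exact UU.pow hg _

variable [Finite K]

theorem mem_U {g : SLm} : g ∈ U K m ↔ UU g := Iff.rfl

theorem tv_mem_U {i j : Fin (m + 3)} (hij : i < j) (c : K) : tv hij.ne c ∈ U K m := by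
  constructor
  · intro a b hab
    rw [tv_apply]
    have h1 : ¬ (a = b) := hab.ne'
    have h2 : ¬ (a = i ∧ b = j) := by
      rintro ⟨rfl, rfl⟩; exact absurd hij (not_lt.mpr hab.le)
    simp [h1, h2]
  · intro a
    rw [tv_apply]
    have h2 : ¬ (a = i ∧ a = j) := by
      rintro ⟨rfl, h⟩; exact hij.ne h
    simp [h2]

theorem isPGroup_U (p : ℕ) [Fact p.Prime] [CharP K p] : IsPGroup p (U K m) := by
  rintro ⟨g, hg⟩
  refine ⟨m + 3, Subtype.ext ?_⟩
  show g ^ p ^ (m + 3) = 1
  apply Subtype.ext
  rw [Matrix.SpecialLinearGroup.coe_pow, Matrix.SpecialLinearGroup.coe_one]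
  set N : Matrix (Fin (m + 3)) (Fin (m + 3)) K := (g : Mat) - 1 with hN
  have hg1 : (g : Mat) = 1 + N := by rw [hN]; abel
  have hNut : N.IsUpperTriangular := by
    intro i j hij
    have hij' : j < i := hij
    show N i j = 0
    rw [hN, Matrix.sub_apply, hg.1 i j hij', Matrix.one_apply_ne hij'.ne', sub_zero]
  have hNd : ∀ i, N i i = 0 := by
    intro i
    rw [hN, Matrix.sub_apply, hg.2 i, Matrix.one_apply_eq, sub_self]
  have hNn : N ^ (m + 3) = 0 := by
    have h1 := Matrix.charpoly_of_isUpperTriangular N hNut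
    have h2 : N.charpoly = Polynomial.X ^ (m + 3) := by
      rw [h1]
      simp [hNd]
    have h3 := Matrix.aeval_self_charpoly N
    rw [h2] at h3
    simpa using h3
  have hcp : CharP (Matrix (Fin (m + 3)) (Fin (m + 3)) K) p := inferInstance
  rw [hg1, add_pow_char_pow_of_commute p (m + 3) (Commute.one_left N), one_pow]
  have h4 : m + 3 ≤ p ^ (m + 3) := (Nat.lt_pow_self (Fact.out : p.Prime).one_lt).le
  have h5 : N ^ p ^ (m + 3) = 0 := by
    rw [← Nat.sub_add_cancel h4, pow_add, hNn, mul_zero]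
  rw [h5, add_zero]

/-- The normalizer of `U` consists of upper triangular matrices. -/
theorem UT_of_normalizer {g : SLm} (hg : g ∈ Subgroup.normalizer ((U K m : Subgroup SLm) : Set SLm)) : UT g := by
  suffices H : ∀ (n : ℕ) (b : Fin (m + 3)), b.val < n → ∀ l, b < l → g l b = 0 from
    fun i j hij => H (j.val + 1) j (Nat.lt_succ_self _) i hij
  intro n
  induction n with
  | zero => intro b hb; exact absurd hb (Nat.not_lt_zero _)
  | succ n ih =>
    intro b hb l hl
    have h1 : g⁻¹ * tv hl.ne (1 : K) * g⁻¹⁻¹ ∈ U K m :=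
      (Subgroup.mem_normalizer_iff.mp (Subgroup.inv_mem _ hg) _).mp (tv_mem_U hl 1)
    rw [inv_inv] at h1
    set u := g⁻¹ * tv hl.ne (1 : K) * g with hu
    have h2 : tv hl.ne (1 : K) * g = g * u := by rw [hu]; group
    have h3 : ((tv hl.ne (1 : K) * g : SLm) : Mat) b b = ((g * u : SLm) : Mat) b b := by rw [h2]
    rw [tv_mul_apply] at h3
    have h4 : ((g * u : SLm) : Mat) b b = g b b := by
      show ((g : Mat) * (u : Mat) : Mat) b b = _
      rw [Matrix.mul_apply, Finset.sum_eq_single b]
      · rw [h1.2, mul_one]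
      · intro c _ hc
        rcases lt_or_gt_of_ne hc with hc | hc
        · rw [ih c (by have := Fin.lt_def.mp hc; omega) b hc, zero_mul]
        · rw [h1.1 c b hc, mul_zero]
      · intro h; exact absurd (Finset.mem_univ _) h
    rw [h4] at h3
    simpa using h3

theorem pElement_mem_U (p : ℕ) [Fact p.Prime] [CharP K p] {g : SLm}
    (hg : g ∈ Subgroup.normalizer ((U K m : Subgroup SLm) : Set SLm)) (hk : ∃ k : ℕ, g ^ p ^ k = 1) : g ∈ U K m := by
  have h1 := UT_of_normalizer hg
  refine ⟨h1, fun i => ?_⟩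
  obtain ⟨k, hk⟩ := hk
  have h2 := (h1.pow (p ^ k)).2 i
  rw [hk] at h2
  have h3 : (g i i) ^ p ^ k = 1 := by
    rw [← h2]
    show (1 : Mat) i i = 1
    rw [Matrix.one_apply_eq]
  have h4 : (g i i - 1) ^ p ^ k = 0 := by
    rw [sub_pow_char_pow, one_pow, h3, sub_self]
  exact sub_eq_zero.mp (pow_eq_zero_iff (pow_ne_zero _ (Fact.out : p.Prime).ne_zero) |>.mp h4)

/-! ### Generation of `U` -/

theorem le_of_tv_mem {T : Subgroup SLm}
    (hT : ∀ (i j : Fin (m + 3)) (hij : i < j) (c : K), tv hij.ne c ∈ T) : U K m ≤ T := by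
  intro u hu
  -- row matrices
  have hrow : ∀ (i : Fin (m + 3)) (s : Finset (Fin (m + 3))), (∀ j ∈ s, i < j) →
      ∃ r ∈ T, ∀ a b, (r : Mat) a b = (if a = b then 1 else 0) + if a = i ∧ b ∈ s then u i b else 0 := by
    intro i s
    induction s using Finset.induction_on with
    | empty =>
      intro _
      refine ⟨1, T.one_mem, fun a b => ?_⟩
      rw [Matrix.SpecialLinearGroup.coe_one, Matrix.one_apply]
      simp
    | insert j s hj ih =>
      intro hs
      obtain ⟨r, hr, he⟩ := ih fun k hk => hs k (Finset.mem_insert_of_mem hk)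
      have hij : i < j := hs j (Finset.mem_insert_self _ _)
      refine ⟨tv hij.ne (u i j) * r, T.mul_mem (hT i j hij _) hr, fun a b => ?_⟩
      rw [tv_mul_apply, he, he]
      have h1 : ¬ (j = i) := hij.ne'
      by_cases ha : a = i
      · subst ha
        by_cases hb : b = j
        · subst hb
          simp [hj, h1]
        · have hb' : ¬ (j = b) := fun h => hb h.symm
          simp [hb, hb', h1]
      · simp [ha]
  have key : ∀ k : ℕ, ∃ r ∈ T, ∀ a b : Fin (m + 3), (r : Mat) a b =
      if a.val < k then u a b else (if a = b then 1 else 0) := by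
    intro k
    induction k with
    | zero =>
      refine ⟨1, T.one_mem, fun a b => ?_⟩
      rw [Matrix.SpecialLinearGroup.coe_one, Matrix.one_apply]
      simp
    | succ k ih =>
      obtain ⟨r, hr, he⟩ := ih
      by_cases hk : k < m + 3
      · obtain ⟨r', hr', he'⟩ := hrow ⟨k, hk⟩ (Finset.univ.filter fun j => (⟨k, hk⟩ : Fin (m + 3)) < j)
          (fun j hj => (Finset.mem_filter.mp hj).2)
        refine ⟨r' * r, T.mul_mem hr' hr, fun a b => ?_⟩
        rw [Matrix.SpecialLinearGroup.coe_mul, Matrix.mul_apply]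
        by_cases ha : a = ⟨k, hk⟩
        · subst ha
          have h1 : ∀ c, (r' : Mat) ⟨k, hk⟩ c = u ⟨k, hk⟩ c := by
            intro c
            rw [he']
            rcases lt_trichotomy (⟨k, hk⟩ : Fin (m + 3)) c with hc | hc | hc
            · simp [hc, hc.ne]
            · subst hc; simp [hu.2]
            · simp [hu.1 _ _ hc, hc.ne', not_lt.mpr hc.le]
          have h2 : ∀ c, (r' : Mat) ⟨k, hk⟩ c * (r : Mat) c b =
              if c = b then u ⟨k, hk⟩ c else 0 := by
            intro c
            rw [h1, he]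
            rcases lt_or_ge c.val k with hc | hc
            · have h3 : u ⟨k, hk⟩ c = 0 := hu.1 _ _ hc
              rw [h3]; simp
            · simp [not_lt.mpr hc]
          rw [Finset.sum_congr rfl fun c _ => h2 c]
          simp
        · have h1 : ∀ c, (r' : Mat) a c = if a = c then 1 else 0 := by
            intro c
            rw [he']; simp [ha]
          rw [Finset.sum_congr rfl fun c _ => by rw [h1 c]]
          simp only [ite_mul, one_mul, zero_mul, Finset.sum_ite_eq, Finset.mem_univ, if_true]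
          rw [he]
          have h2 : a.val ≠ k := fun h => ha (Fin.ext h)
          have h3 : a.val < k ↔ a.val < k + 1 := by omega
          simp only [h3]
      · refine ⟨r, hr, fun a b => ?_⟩
        rw [he]
        have h1 : a.val < k := by omega
        have h2 : a.val < k + 1 := by omega
        simp [h1, h2]
  obtain ⟨r, hr, he⟩ := key (m + 3)
  have : r = u := by
    apply Subtype.ext
    ext a b
    rw [he]; simp [a.2]
  rwa [← this]

/-! ### Conjugacy of elementary matrices -/

theorem zero_ne_last : (0 : Fin (m + 3)) ≠ Fin.last (m + 2) := by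
  intro h; have := congrArg Fin.val h; simp at this

theorem one_ne_last : (1 : Fin (m + 3)) ≠ Fin.last (m + 2) := by
  intro h; have := congrArg Fin.val h; simp at this

theorem one_ne_zero' : (1 : Fin (m + 3)) ≠ 0 := by
  intro h; have := congrArg Fin.val h; simp at this

omit [Finite K] in
/-- All elementary matrices are conjugate to `x_{0,last}(a)`. -/
theorem exists_conj_tv {i j : Fin (m + 3)} (hij : i ≠ j) {t a : K} (ht : t ≠ 0) (ha : a ≠ 0) :
    ∃ g : SLm, g * tv (zero_ne_last (m := m)) a * g⁻¹ = tv hij t := by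
  have h0l := zero_ne_last (m := m)
  have h10 := one_ne_zero' (m := m)
  have h1l := one_ne_last (m := m)
  set l := Fin.last (m + 2) with hl
  -- a permutation with `σ i = 0`, `σ j = l`
  obtain ⟨σ, hσi, hσj⟩ : ∃ σ : Equiv.Perm (Fin (m + 3)), σ i = 0 ∧ σ j = l := by
    have hk0 : Equiv.swap i 0 j ≠ 0 := by
      intro h
      have h1 : Equiv.swap i 0 j = Equiv.swap i 0 i := by rw [Equiv.swap_apply_left, h]
      exact hij ((Equiv.swap i 0).injective h1).symm
    refine ⟨Equiv.swap (Equiv.swap i 0 j) l * Equiv.swap i 0, ?_, ?_⟩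
    · rw [Equiv.Perm.mul_apply, Equiv.swap_apply_left, Equiv.swap_apply_of_ne_of_ne hk0.symm h0l]
    · rw [Equiv.Perm.mul_apply, Equiv.swap_apply_left]
  -- the diagonal part
  set s : K := ((Equiv.Perm.sign σ : ℤ) : K) with hs
  have hs0 : s ≠ 0 := by
    rcases Int.units_eq_one_or (Equiv.Perm.sign σ) with h | h <;> simp [hs, h]
  set d : Fin (m + 3) → K := fun k => (if k = 0 then t / a else 1) * (if k = 1 then (s * (t / a))⁻¹ else 1) with hd
  have hta : t / a ≠ 0 := div_ne_zero ht ha
  have hdet : ((Matrix.diagonal d).submatrix σ id : Mat).det = 1 := by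
    rw [Matrix.det_permute, Matrix.det_diagonal, hd, Finset.prod_mul_distrib]
    simp only [Finset.prod_ite_eq', Finset.mem_univ, if_true]
    rw [← hs, ← mul_assoc]
    exact mul_inv_cancel₀ (mul_ne_zero hs0 hta)
  obtain ⟨g, hval⟩ : ∃ g : SLm, ∀ x y, (g : Mat) x y = if σ x = y then d (σ x) else 0 := by
    refine ⟨⟨_, hdet⟩, fun x y => ?_⟩
    show (Matrix.diagonal d) (σ x) y = _
    rw [Matrix.diagonal_apply]
  refine ⟨g, ?_⟩
  rw [mul_inv_eq_iff_eq_mul]
  apply Subtype.ext
  ext x y
  rw [mul_tv_apply, tv_mul_apply]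
  simp only [hval]
  congr 1
  rw [hσj, ← hl]
  have hd0 : d 0 = t / a := by simp [hd, h10.symm]
  have hdl : d l = 1 := by simp [hd, h0l.symm, h1l.symm]
  have h1 : σ x = 0 ↔ x = i := by rw [← hσi, σ.injective.eq_iff]
  by_cases hx : x = i
  · subst hx
    by_cases hy : y = l
    · subst hy; simp [hσi, hd0, hdl]; field_simp
    · have hy' : ¬ (l = y) := fun h => hy h.symm
      simp [hy, hy']
  · have h2 : ¬ (σ x = 0) := fun h => hx (h1.mp h)
    simp [hx, h2]

/-! ### The radicals -/

omit [Finite K] in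
theorem coe_mul_apply (g h : SLm) (a b : Fin (m + 3)) : (g * h : SLm) a b = ∑ c, g a c * h c b := by
  show ((g : Mat) * (h : Mat) : Mat) a b = _
  rw [Matrix.mul_apply]

omit [Finite K] in
theorem coe_one_apply (a b : Fin (m + 3)) : ((1 : SLm) : Mat) a b = if a = b then 1 else 0 := by
  rw [Matrix.SpecialLinearGroup.coe_one, Matrix.one_apply]

variable (K m) in
/-- radical of the stabilizer of a point -/
def R1 : Subgroup (SpecialLinearGroup (Fin (m + 3)) K) where
  carrier := {g | ∀ a b, a ≠ 0 → g a b = if a = b then 1 else 0}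
  mul_mem' {g h} hg hh a b ha := by
    rw [coe_mul_apply, Finset.sum_congr rfl fun c _ => by rw [hg a c ha]]
    simp [hh a b ha]
  one_mem' a b _ := coe_one_apply a b
  inv_mem' {g} hg a b ha := by
    have h1 := coe_mul_apply g g⁻¹ a b
    rw [mul_inv_cancel, coe_one_apply, Finset.sum_congr rfl fun c _ => by rw [hg a c ha]] at h1
    simpa using h1.symm

variable (K m) in
/-- radical of the stabilizer of a hyperplane -/
def R2 : Subgroup (SpecialLinearGroup (Fin (m + 3)) K) where
  carrier := {g | ∀ a b, b ≠ Fin.last (m + 2) → g a b = if a = b then 1 else 0}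
  mul_mem' {g h} hg hh a b hb := by
    rw [coe_mul_apply, Finset.sum_congr rfl fun c _ => by rw [hh c b hb]]
    simp [hg a b hb]
  one_mem' a b _ := coe_one_apply a b
  inv_mem' {g} hg a b hb := by
    have h1 := coe_mul_apply g⁻¹ g a b
    rw [inv_mul_cancel, coe_one_apply, Finset.sum_congr rfl fun c _ => by rw [hg c b hb]] at h1
    simpa using h1.symm

omit [Finite K] in
theorem det_eq_prod {g : SLm} (hg : UT g) : ∏ i, g i i = 1 := by
  rw [← Matrix.det_of_isUpperTriangular (M := (g : Mat)) (fun i j h => hg i j h)]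
  exact g.2

theorem R1_le : R1 K m ≤ U K m := by
  intro g hg
  have hut : UT g := by
    intro i j hij
    have hi : i ≠ 0 := fun h => by subst h; exact absurd hij (Fin.not_lt_zero _)
    rw [hg i j hi, if_neg hij.ne']
  refine ⟨hut, fun i => ?_⟩
  by_cases hi : i = 0
  · subst hi
    have h1 := det_eq_prod hut
    rw [Fin.prod_univ_succ] at h1
    have h2 : ∏ i : Fin (m + 2), g i.succ i.succ = 1 := by
      refine Finset.prod_eq_one fun i _ => ?_
      rw [hg _ _ (Fin.succ_ne_zero i), if_pos rfl]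
    rwa [h2, mul_one] at h1
  · rw [hg i i hi, if_pos rfl]

theorem R2_le : R2 K m ≤ U K m := by
  intro g hg
  have hut : UT g := by
    intro i j hij
    have hj : j ≠ Fin.last (m + 2) := fun h => by
      subst h; exact absurd hij (not_lt.mpr (Fin.le_last _))
    rw [hg i j hj, if_neg hij.ne']
  refine ⟨hut, fun i => ?_⟩
  by_cases hi : i = Fin.last (m + 2)
  · subst hi
    have h1 := det_eq_prod hut
    rw [Fin.prod_univ_castSucc] at h1
    have h2 : ∏ i : Fin (m + 2), g i.castSucc i.castSucc = 1 := by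
      refine Finset.prod_eq_one fun i _ => ?_
      rw [hg _ _ (Fin.castSucc_lt_last i).ne, if_pos rfl]
    rwa [h2, one_mul] at h1
  · rw [hg i i hi, if_pos rfl]

omit [Finite K] in
theorem tv_mem_R1 {l : Fin (m + 3)} (h : (0 : Fin (m + 3)) ≠ l) (c : K) : tv h c ∈ R1 K m := by
  intro a b ha
  rw [tv_apply]
  simp [ha]

omit [Finite K] in
theorem tv_mem_R2 {l : Fin (m + 3)} (h : l ≠ Fin.last (m + 2)) (c : K) : tv h c ∈ R2 K m := by
  intro a b hb
  rw [tv_apply]
  simp [hb]

omit [Finite K] in
/-- Centralizer of `R1`. -/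
theorem exists_of_comm_R1 {c : SLm} (hc : ∀ x ∈ R1 K m, x * c = c * x) :
    ∃ r ∈ R1 K m, r⁻¹ * c ∈ Subgroup.center SLm := by
  have h1 : ∀ a b, a ≠ 0 → c a b = if a = b then c 0 0 else 0 := by
    intro a b ha
    obtain ⟨e1, e2, -⟩ := comm_tv (Ne.symm ha) (hc _ (tv_mem_R1 (Ne.symm ha) 1))
    by_cases hab : a = b
    · subst hab; rw [if_pos rfl, e1]
    · rw [if_neg hab, e2 b (Ne.symm hab)]
  have hut : UT c := by
    intro i j hij
    have hi : i ≠ 0 := fun h => by subst h; exact absurd hij (Fin.not_lt_zero _)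
    rw [h1 i j hi, if_neg hij.ne']
  have hdet : (c 0 0) ^ (m + 3) = 1 := by
    have h2 := det_eq_prod hut
    have h3 : ∀ i, c i i = c 0 0 := by
      intro i
      by_cases hi : i = 0
      · rw [hi]
      · rw [h1 i i hi, if_pos rfl]
    rw [Finset.prod_congr rfl fun i _ => h3 i, Finset.prod_const, Finset.card_univ, Fintype.card_fin] at h2
    exact h2
  have hne : c 0 0 ≠ 0 := fun h => by rw [h, zero_pow (by omega)] at hdet; exact zero_ne_one hdet
  set z : SLm := ⟨Matrix.scalar (Fin (m + 3)) (c 0 0), by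
    rw [Matrix.scalar_apply, Matrix.det_diagonal, Finset.prod_const, Finset.card_univ, Fintype.card_fin, hdet]⟩ with hz
  have hzc : z ∈ Subgroup.center SLm := by
    rw [Matrix.SpecialLinearGroup.mem_center_iff]
    exact ⟨c 0 0, by rw [Fintype.card_fin]; exact hdet, rfl⟩
  refine ⟨c * z⁻¹, ?_, ?_⟩
  · have h2 : ∀ x : SLm, ∀ a b, (x * z : SLm) a b = x a b * c 0 0 := by
      intro x a b
      rw [coe_mul_apply, Finset.sum_eq_single b]
      · show x a b * (Matrix.scalar (Fin (m + 3)) (c 0 0)) b b = _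
        rw [Matrix.scalar_apply, Matrix.diagonal_apply_eq]
      · intro k _ hk
        show x a k * (Matrix.scalar (Fin (m + 3)) (c 0 0)) k b = _
        rw [Matrix.scalar_apply, Matrix.diagonal_apply_ne _ hk, mul_zero]
      · intro h; exact absurd (Finset.mem_univ _) h
    intro a b ha
    have h3 := h2 (c * z⁻¹) a b
    rw [inv_mul_cancel_right, h1 a b ha] at h3
    have h4 : (c * z⁻¹ : SLm) a b * c 0 0 = (if a = b then 1 else 0) * c 0 0 := by
      rw [← h3]; split_ifs <;> simp
    exact mul_right_cancel₀ hne h4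
  · have h2 : (c * z⁻¹)⁻¹ * c = z := by
      have h3 := Subgroup.mem_center_iff.mp hzc (c⁻¹)
      calc (c * z⁻¹)⁻¹ * c = z * c⁻¹ * c := by group
        _ = z := by group
    rw [h2]; exact hzc

omit [Finite K] in
/-- Centralizer of `R2`. -/
theorem exists_of_comm_R2 {c : SLm} (hc : ∀ x ∈ R2 K m, x * c = c * x) :
    ∃ r ∈ R2 K m, r⁻¹ * c ∈ Subgroup.center SLm := by
  set l := Fin.last (m + 2) with hl
  have h1 : ∀ a b, b ≠ l → c a b = if a = b then c l l else 0 := by
    intro a b hb
    obtain ⟨e1, -, e3⟩ := comm_tv hb (hc _ (tv_mem_R2 hb 1))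
    by_cases hab : a = b
    · subst hab; rw [if_pos rfl, e1]
    · rw [if_neg hab, e3 a hab]
  have hut : UT c := by
    intro i j hij
    have hj : j ≠ l := fun h => by
      subst h; exact absurd hij (not_lt.mpr (Fin.le_last _))
    rw [h1 i j hj, if_neg hij.ne']
  have hdet : (c l l) ^ (m + 3) = 1 := by
    have h2 := det_eq_prod hut
    have h3 : ∀ i, c i i = c l l := by
      intro i
      by_cases hi : i = l
      · rw [hi]
      · rw [h1 i i hi, if_pos rfl]
    rw [Finset.prod_congr rfl fun i _ => h3 i, Finset.prod_const, Finset.card_univ, Fintype.card_fin] at h2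
    exact h2
  have hne : c l l ≠ 0 := fun h => by rw [h, zero_pow (by omega)] at hdet; exact zero_ne_one hdet
  set z : SLm := ⟨Matrix.scalar (Fin (m + 3)) (c l l), by
    rw [Matrix.scalar_apply, Matrix.det_diagonal, Finset.prod_const, Finset.card_univ, Fintype.card_fin, hdet]⟩ with hz
  have hzc : z ∈ Subgroup.center SLm := by
    rw [Matrix.SpecialLinearGroup.mem_center_iff]
    exact ⟨c l l, by rw [Fintype.card_fin]; exact hdet, rfl⟩
  refine ⟨c * z⁻¹, ?_, ?_⟩
  · have h2 : ∀ x : SLm, ∀ a b, (x * z : SLm) a b = x a b * c l l := by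
      intro x a b
      rw [coe_mul_apply, Finset.sum_eq_single b]
      · show x a b * (Matrix.scalar (Fin (m + 3)) (c l l)) b b = _
        rw [Matrix.scalar_apply, Matrix.diagonal_apply_eq]
      · intro k _ hk
        show x a k * (Matrix.scalar (Fin (m + 3)) (c l l)) k b = _
        rw [Matrix.scalar_apply, Matrix.diagonal_apply_ne _ hk, mul_zero]
      · intro h; exact absurd (Finset.mem_univ _) h
    intro a b hb
    have h3 := h2 (c * z⁻¹) a b
    rw [inv_mul_cancel_right, h1 a b hb] at h3
    have h4 : (c * z⁻¹ : SLm) a b * c l l = (if a = b then 1 else 0) * c l l := by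
      rw [← h3]; split_ifs <;> simp
    exact mul_right_cancel₀ hne h4
  · have h2 : (c * z⁻¹)⁻¹ * c = z := by
      calc (c * z⁻¹)⁻¹ * c = z * c⁻¹ * c := by group
        _ = z := by group
    rw [h2]; exact hzc

theorem tv_normalizes_R1 {i j : Fin (m + 3)} (hij : i ≠ j) (hi : i ≠ 0) (hj : j ≠ 0) (c : K) :
    tv hij c ∈ Subgroup.normalizer ((R1 K m : Subgroup SLm) : Set SLm) := by
  apply mem_normalizer_of_conj
  intro r hr a b ha
  have h1 : ∀ d, (tv hij c * r : SLm) a d = (tv hij c : SLm) a d := by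
    intro d
    rw [tv_mul_apply, hr a d ha, hr j d hj, tv_apply]
    by_cases h : a = i
    · simp [h, eq_comm]
    · simp [h]
  rw [coe_mul_apply, Finset.sum_congr rfl fun d _ => by rw [h1 d], ← coe_mul_apply, mul_inv_cancel, coe_one_apply]

theorem tv_normalizes_R2 {i j : Fin (m + 3)} (hij : i ≠ j) (hi : i ≠ Fin.last (m + 2)) (hj : j ≠ Fin.last (m + 2))
    (c : K) : tv hij c ∈ Subgroup.normalizer ((R2 K m : Subgroup SLm) : Set SLm) := by
  apply mem_normalizer_of_conj
  intro r hr a b hb
  have h1 : ∀ d, (r * (tv hij c)⁻¹ : SLm) d b = ((tv hij c)⁻¹ : SLm) d b := by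
    intro d
    rw [transvection_inv, mul_tv_apply, hr d b hb, hr d i hi, tv_apply]
    by_cases h : b = j
    · simp [h]
    · simp [h]
  rw [mul_assoc, coe_mul_apply, Finset.sum_congr rfl fun d _ => by rw [h1 d], ← coe_mul_apply, mul_inv_cancel,
    coe_one_apply]

omit [Finite K] in
theorem tv_pow {i j : Fin (m + 3)} (hij : i ≠ j) (c : K) (k : ℕ) : (tv hij c : SLm) ^ k = tv hij (k * c) := by
  induction k with
  | zero => rw [pow_zero, Nat.cast_zero, zero_mul, transvection_coeff_zero]
  | succ k ih => rw [pow_succ, ih, ← transvection_add]; congr 1; push_cast; ring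

omit [Finite K] in
theorem tv_pElement (p : ℕ) [CharP K p] {i j : Fin (m + 3)} (hij : i ≠ j) (c : K) :
    ∃ k : ℕ, (tv hij c : SLm) ^ p ^ k = 1 := by
  refine ⟨1, ?_⟩
  rw [pow_one, tv_pow, CharP.cast_eq_zero, zero_mul, transvection_coeff_zero]

theorem UT.inv {g : SLm} (hg : UT g) : UT g⁻¹ := by
  have h1 : g⁻¹ = g ^ (orderOf g - 1) := by
    have hpos := orderOf_pos g
    apply inv_eq_of_mul_eq_one_left
    rw [← pow_succ, Nat.sub_add_cancel hpos, pow_orderOf_eq_one]
  rw [h1]; exact (hg.pow _).1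

theorem UT.ne_zero {g : SLm} (hg : UT g) (i : Fin (m + 3)) : g i i ≠ 0 := by
  have h1 := hg.mul_diag hg.inv i
  rw [mul_inv_cancel, coe_one_apply, if_pos rfl] at h1
  exact left_ne_zero_of_mul_eq_one h1.symm

theorem UT.mem_normalizer {g : SLm} (hg : UT g) : g ∈ Subgroup.normalizer ((U K m : Subgroup SLm) : Set SLm) := by
  apply mem_normalizer_of_conj
  intro u hu
  have h1 : UT (g * u * g⁻¹) := (hg.mul hu.1).mul hg.inv
  refine ⟨h1, fun i => ?_⟩
  have h2 := h1.mul_diag hg i
  rw [inv_mul_cancel_right, hg.mul_diag hu.1, hu.2, mul_one] at h2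
  exact (mul_right_cancel₀ (hg.ne_zero i) (by rw [one_mul]; exact h2)).symm

omit [Finite K] in
theorem diag2n_UT {i j : Fin (m + 3)} (hij : i ≠ j) (a : K) (ha : a ≠ 0) : UT (diag2n hij a ha) := by
  intro x y hxy
  rw [diag2n_coe, Matrix.diagonal_apply_ne _ hxy.ne']

/-- **S5163** for `n = m + 3`. -/
theorem psl_simple (p : ℕ) [Fact p.Prime] [CharP K p]
    (S : Sylow p (Matrix.ProjectiveSpecialLinearGroup (Fin (m + 3)) K)) :
    (groupFusionSystem (S : Subgroup (Matrix.ProjectiveSpecialLinearGroup (Fin (m + 3)) K))).IsSimple p := by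
  classical
  have hfG : Finite (Matrix.ProjectiveSpecialLinearGroup (Fin (m + 3)) K) := inferInstance
  let φ : SLm →* Matrix.ProjectiveSpecialLinearGroup (Fin (m + 3)) K := QuotientGroup.mk' (Subgroup.center SLm)
  have hker : φ.ker = Subgroup.center SLm := QuotientGroup.ker_mk' _
  have hφeq : ∀ r c : SLm, r⁻¹ * c ∈ Subgroup.center SLm → φ r = φ c := by
    intro r c h
    rw [← hker, MonoidHom.mem_ker, map_mul, map_inv] at h
    exact inv_mul_eq_one.mp h
  refine isSimple_of_cover φ (QuotientGroup.mk'_surjective _) ?_ ?_ (U K m) (isPGroup_U p) ?_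
    (fun g hg hk => pElement_mem_U p hg hk) ?_ ?_ S
  · intro z hz x
    rw [hker] at hz
    exact Subgroup.mem_center_iff.mp hz x
  · rintro z hz ⟨k, hk⟩
    rw [hker, Matrix.SpecialLinearGroup.mem_center_iff] at hz
    obtain ⟨r, -, hr⟩ := hz
    have hrk : r ^ p ^ k = 1 := by
      have h1 : ((z ^ p ^ k : SLm) : Mat) 0 0 = 1 := by rw [hk, coe_one_apply, if_pos rfl]
      rw [Matrix.SpecialLinearGroup.coe_pow, ← hr, ← map_pow, Matrix.scalar_apply, Matrix.diagonal_apply_eq] at h1
      exact h1
    have h4 : (r - 1) ^ p ^ k = 0 := by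
      rw [sub_pow_char_pow, one_pow, hrk, sub_self]
    have h5 : r = 1 := sub_eq_zero.mp (pow_eq_zero_iff (pow_ne_zero _ (Fact.out : p.Prime).ne_zero) |>.mp h4)
    apply Subtype.ext
    rw [← hr, h5, map_one]; rfl
  · intro h
    have h1 := tv_mem_U (K := K) (m := m) (i := 0) (j := Fin.last (m + 2))
      (lt_of_le_of_ne (Fin.zero_le _) zero_ne_last) 1
    rw [h, Subgroup.mem_bot] at h1
    have h2 : (tv (zero_ne_last (m := m)) (1 : K) : SLm) 0 (Fin.last (m + 2)) = 0 := by
      rw [h1, coe_one_apply, if_neg zero_ne_last]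
    rw [tv_apply] at h2
    simp [zero_ne_last] at h2
  · -- strongly closed subgroups
    intro T hTU hT1 hT
    have hfin : Finite (U K m) := inferInstance
    obtain ⟨z, hz, hz1, hzc⟩ := exists_central_of_normal (isPGroup_U p) hTU (fun s hs t ht => hT t ht s
      ((U K m).mul_mem ((U K m).mul_mem hs (hTU ht)) ((U K m).inv_mem hs))) hT1
    have hzU := hTU hz
    set l := Fin.last (m + 2) with hl
    have hent : ∀ a b, a ≠ b → ¬ (a = 0 ∧ b = l) → z a b = 0 := by
      intro a b hab hn
      rcases lt_or_gt_of_ne hab with h | h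
      · by_cases ha : a = 0
        · have hb : b ≠ l := fun hb => hn ⟨ha, hb⟩
          have hbl : b < l := lt_of_le_of_ne (Fin.le_last _) hb
          obtain ⟨-, -, e3⟩ := comm_tv hbl.ne (hzc _ (tv_mem_U hbl 1))
          exact e3 a hab
        · have h0a : 0 < a := Fin.pos_of_ne_zero ha
          obtain ⟨-, e2, -⟩ := comm_tv h0a.ne (hzc _ (tv_mem_U h0a 1))
          exact e2 b hab.symm
      · exact hzU.1 a b h
    have hzt : z = tv (zero_ne_last (m := m)) (z 0 l) := by
      apply Subtype.ext
      ext a b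
      rw [tv_apply]
      by_cases hab : a = b
      · subst hab
        have h2 : ¬ (a = 0 ∧ a = l) := by
          rintro ⟨h3, h4⟩; exact zero_ne_last (h3.symm.trans h4)
        rw [hzU.2, if_pos rfl, if_neg h2, add_zero]
      · by_cases h2 : a = 0 ∧ b = l
        · rw [if_neg hab, if_pos h2, zero_add, h2.1, h2.2]
        · rw [if_neg hab, if_neg h2, hent a b hab h2, add_zero]
    have hz0 : z 0 l ≠ 0 := by
      intro h
      apply hz1
      rw [hzt, h, transvection_coeff_zero]
    apply le_of_tv_mem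
    intro i j hij c
    by_cases hc : c = 0
    · rw [hc, transvection_coeff_zero]; exact T.one_mem
    · obtain ⟨g, hg⟩ := exists_conj_tv hij.ne hc hz0
      rw [← hzt] at hg
      rw [← hg]
      exact hT z hz g (by rw [hg]; exact tv_mem_U hij c)
  · -- the normalizer
    intro g hg
    have hut := UT_of_normalizer hg
    have hD : Matrix.det (Matrix.diagonal fun i => g i i) = 1 := by
      rw [Matrix.det_diagonal]; exact det_eq_prod hut
    set h : SLm := ⟨Matrix.diagonal fun i => g i i, hD⟩ with hh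
    have hhut : UT h := by
      intro i j hij
      show (Matrix.diagonal fun i => g i i) i j = 0
      rw [Matrix.diagonal_apply_ne _ hij.ne']
    have hu : g * h⁻¹ ∈ U K m := by
      refine ⟨hut.mul hhut.inv, fun i => ?_⟩
      have h1 := (hut.mul hhut.inv).mul_diag hhut i
      rw [inv_mul_cancel_right] at h1
      have h2 : h i i = g i i := Matrix.diagonal_apply_eq _ _
      rw [h2] at h1
      exact (mul_right_cancel₀ (hut.ne_zero i) (by rw [one_mul]; exact h1)).symm
    have hgu : g = (g * h⁻¹) * h := by group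
    rw [hgu]
    apply Subgroup.mul_mem
    · refine Subgroup.subset_closure ⟨Subgroup.le_normalizer hu, U K m, le_rfl, ?_,
        Subgroup.subset_closure ⟨Subgroup.le_normalizer hu, Or.inr (Or.inr hu)⟩⟩
      intro c hc
      obtain ⟨r, hr, hrc⟩ := exists_of_comm_R1 (c := c) fun x hx => hc x (R1_le hx)
      exact ⟨r, R1_le hr, hφeq r c hrc⟩
    · rw [hh, diag_eq_diag2n_prod 1 _ hD]
      apply Subgroup.noncommProd_mem
      intro i hi
      have hi1 : i ≠ 1 := (Finset.mem_filter.mp hi).2
      rw [dif_pos hi1]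
      have hdiag : ∀ H : Subgroup SLm, (∀ (a b : Fin (m + 3)) (hab : a ≠ b) (c : K),
          (a = i ∨ a = 1) → (b = i ∨ b = 1) → tv hab c ∈ H) → diag2n hi1 (g i i) (diagonal_neZero _ hD i) ∈ H := by
        intro H hH
        rw [Cfsg.Agent.ClassBase.diag2n_decompose]
        exact H.mul_mem (H.mul_mem (H.mul_mem (H.mul_mem (H.mul_mem
          (hH _ _ _ _ (Or.inl rfl) (Or.inr rfl)) (hH _ _ _ _ (Or.inr rfl) (Or.inl rfl)))
          (hH _ _ _ _ (Or.inl rfl) (Or.inr rfl))) (hH _ _ _ _ (Or.inl rfl) (Or.inr rfl)))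
          (hH _ _ _ _ (Or.inr rfl) (Or.inl rfl))) (hH _ _ _ _ (Or.inl rfl) (Or.inr rfl))
      refine Subgroup.subset_closure ⟨(diag2n_UT hi1 _ _).mem_normalizer, ?_⟩
      by_cases hi0 : i = 0
      · refine ⟨R2 K m, R2_le, ?_, ?_⟩
        · intro c hc
          obtain ⟨r, hr, hrc⟩ := exists_of_comm_R2 hc
          exact ⟨r, hr, hφeq r c hrc⟩
        · apply hdiag
          intro a b hab c ha hb
          have hl : ∀ a, (a = i ∨ a = 1) → a ≠ Fin.last (m + 2) := by
            rintro a (rfl | rfl)
            · rw [hi0]; exact zero_ne_last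
            · exact one_ne_last
          exact Subgroup.subset_closure ⟨tv_normalizes_R2 hab (hl a ha) (hl b hb) c, Or.inl (tv_pElement p hab c)⟩
      · refine ⟨R1 K m, R1_le, ?_, ?_⟩
        · intro c hc
          obtain ⟨r, hr, hrc⟩ := exists_of_comm_R1 hc
          exact ⟨r, hr, hφeq r c hrc⟩
        · apply hdiag
          intro a b hab c ha hb
          have hl : ∀ a, (a = i ∨ a = 1) → a ≠ 0 := by
            rintro a (rfl | rfl)
            · exact hi0
            · exact one_ne_zero'
          exact Subgroup.subset_closure ⟨tv_normalizes_R1 hab (hl a ha) (hl b hb) c, Or.inl (tv_pElement p hab c)⟩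

end Cfsg.Agent.Fus.SLn
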