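import Cfsg.Agent.Fus.TCen
import Cfsg.Agent.Fus.WJoin

set_option autoImplicit false

/-!
# Subgroups meeting a normal subsystem non-centrically are not radical (helper35)
-/

namespace Cfsg.Agent.Fus

open Cfsg Cfsg.FusionSystem

variable {Ω : Type*} [Group Ω] {S T : Subgroup Ω} {F : FusionSystem S} {E : FusionSystem T} {p : ℕ}

/-- If `C_T(P ∩ T)` is not inside `P`, then some `c ∈ N_T(P)` outside `P` induces an element of `O_p(Aut_F(P))`. -/
theorem exists_opAut_of_not_cent [Finite S] [Fact p.Prime] (hS : IsPGroup p S) (hT : F.StronglyClosed T)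
    {P : Subgroup Ω} (hPS : P ≤ S) (hcon : ¬ centralizerIn T (P ⊓ T) ≤ P) :
    ∃ (c : Ω) (hcn : c ∈ Subgroup.normalizer (P : Set Ω)), c ∈ S ∧ c ∉ P ∧ conjAut c hcn ∈ opAut F p P := by
  have hTS := hT.1
  set C := centralizerIn T (P ⊓ T) with hC
  have hlt : P < P ⊔ C := lt_of_le_of_ne le_sup_left fun h => hcon (by rw [h]; exact le_sup_right)
  have hPCS : P ⊔ C ≤ S := sup_le hPS ((centralizerIn_le _).trans hTS)
  have hfin := finite_of_le hPCS
  obtain ⟨n, hn, hnP⟩ := SetLike.exists_of_lt (lt_inf_normalizer (isPGroup_of_le hS hPCS) hlt)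
  -- `P` normalizes `C`
  have hPn : P ≤ Subgroup.normalizer (C : Set Ω) := by
    intro x hx
    have key : ∀ x ∈ P, ∀ y ∈ C, x * y * x⁻¹ ∈ C := by
      intro x hx y hy
      rw [hC, mem_centralizerIn] at hy ⊢
      refine ⟨sc_conj_mem hT (hPS hx) hy.1, fun z hz => ?_⟩
      have hz' : x⁻¹ * z * x ∈ P ⊓ T := ⟨P.mul_mem (P.mul_mem (P.inv_mem hx) hz.1) hx, by
        have := sc_conj_mem hT (S.inv_mem (hPS hx)) hz.2
        rwa [inv_inv] at this⟩
      have h1 := hy.2 _ hz'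
      calc z * (x * y * x⁻¹) = x * ((x⁻¹ * z * x) * y) * x⁻¹ := by group
        _ = x * (y * (x⁻¹ * z * x)) * x⁻¹ := by rw [h1]
        _ = x * y * x⁻¹ * z := by group
    rw [Subgroup.mem_normalizer_iff]
    intro y
    refine ⟨key x hx y, fun h => ?_⟩
    have := key x⁻¹ (P.inv_mem hx) _ h
    have e : x⁻¹ * (x * y * x⁻¹) * x⁻¹⁻¹ = y := by group
    rwa [e] at this
  obtain ⟨c', hc', y', hy', hn'⟩ := (Cfsg.Agent.H85.mem_sup_iff_of_normalizes (N := C) (A := P) hPn).mp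
    ((Subgroup.inv_mem _ hn.1 : n⁻¹ ∈ P ⊔ C) |> fun h => by rwa [sup_comm] at h)
  obtain ⟨y, hy, c, hc, rfl⟩ : ∃ y ∈ P, ∃ c ∈ C, y * c = n :=
    ⟨y'⁻¹, P.inv_mem hy', c'⁻¹, C.inv_mem hc', by rw [← mul_inv_rev, hn', inv_inv]⟩
  have hcn : c ∈ Subgroup.normalizer (P : Set Ω) := by
    have h1 := (Subgroup.normalizer (P : Set Ω)).mul_mem
      ((Subgroup.normalizer (P : Set Ω)).inv_mem (Subgroup.le_normalizer hy)) hn.2
    rwa [inv_mul_cancel_left] at h1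
  have hcP : c ∉ P := fun h => hnP (P.mul_mem hy h)
  have hcT : c ∈ T := hc.1
  have hcc : ∀ x ∈ P ⊓ T, x * c = c * x := (mem_centralizerIn.mp hc).2
  -- the normal `p`-subgroup of automorphisms trivial on `P ∩ T` and modulo it
  let N : Subgroup (MulAut P) :=
    { carrier := {κ | κ ∈ F.autGroup P ∧ (∀ x ∈ P ⊓ T, ofAut κ x = x) ∧ ∀ x ∈ P, x⁻¹ * ofAut κ x ∈ P ⊓ T}
      one_mem' := ⟨Subgroup.one_mem _, fun x hx => ofAut_one hx.1, fun x hx => by
        rw [ofAut_one hx, inv_mul_cancel]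
        exact Subgroup.one_mem _⟩
      mul_mem' := by
        rintro κ μ ⟨h1, h2, h3⟩ ⟨k1, k2, k3⟩
        refine ⟨Subgroup.mul_mem _ h1 k1, fun x hx => ?_, fun x hx => ?_⟩
        · rw [ofAut_mul _ _ hx.1, k2 x hx, h2 x hx]
        · rw [ofAut_mul _ _ hx]
          have e : x⁻¹ * ofAut κ (ofAut μ x) = (x⁻¹ * ofAut μ x) * ((ofAut μ x)⁻¹ * ofAut κ (ofAut μ x)) := by
            group
          rw [e]
          exact Subgroup.mul_mem _ (k3 x hx) (h3 _ (ofAut_mem μ hx))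
      inv_mem' := by
        rintro κ ⟨h1, h2, h3⟩
        have h4 : ∀ x ∈ P ⊓ T, ofAut κ⁻¹ x = x := fun x hx => by
          conv_lhs => rw [← h2 x hx]
          exact ofAut_inv_apply κ hx.1
        refine ⟨Subgroup.inv_mem _ h1, h4, fun x hx => ?_⟩
        have h5 := h3 _ (ofAut_mem κ⁻¹ hx)
        rw [ofAut_apply_inv κ hx] at h5
        have e : x⁻¹ * ofAut κ⁻¹ x = ((ofAut κ⁻¹ x)⁻¹ * x)⁻¹ := by group
        rw [e]
        exact Subgroup.inv_mem _ h5 }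
  have hNle : N ≤ F.autGroup P := fun _ h => h.1
  have hNp : IsPGroup p N := by
    rintro ⟨κ, h1, h2, h3⟩
    obtain ⟨k, hk⟩ := pow_eq_one_of_stab hS hPS inf_le_left h2 h3
    exact ⟨k, Subtype.ext hk⟩
  have hNn : ∀ α ∈ F.autGroup P, ∀ ν ∈ N, α * ν * α⁻¹ ∈ N := by
    rintro α hα ν ⟨h1, h2, h3⟩
    have hα' := isMap_ofAut hPS hα
    have hαi := isMap_ofAut hPS (Subgroup.inv_mem _ hα)
    have hinv : ∀ x ∈ P ⊓ T, ofAut α x ∈ P ⊓ T := fun x hx => ⟨ofAut_mem α hx.1, sc_map_mem hT hα' hx.1 hx.2⟩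
    have hinv' : ∀ x ∈ P ⊓ T, ofAut α⁻¹ x ∈ P ⊓ T :=
      fun x hx => ⟨ofAut_mem _ hx.1, sc_map_mem hT hαi hx.1 hx.2⟩
    refine ⟨Subgroup.mul_mem _ (Subgroup.mul_mem _ hα h1) (Subgroup.inv_mem _ hα), fun x hx => ?_, fun x hx => ?_⟩
    · rw [ofAut_mul _ _ hx.1, ofAut_mul _ _ (ofAut_mem _ hx.1), h2 _ (hinv' x hx), ofAut_apply_inv α hx.1]
    · have hy := ofAut_mem α⁻¹ hx
      have h4 := hinv _ (h3 _ hy)
      rw [ofAut_map_mul α (P.inv_mem hy) (ofAut_mem ν hy), ofAut_map_inv' α hy, ofAut_apply_inv α hx] at h4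
      rw [ofAut_mul _ _ hx, ofAut_mul _ _ hy]
      exact h4
  have hcN : conjAut c hcn ∈ N := by
    refine ⟨conjAut_mem_autGroup hPS (hTS hcT) hcn, fun x hx => ?_, fun x hx => ?_⟩
    · rw [ofAut_conjAut _ _ hx.1, ← hcc x hx, mul_inv_cancel_right]
    · rw [ofAut_conjAut _ _ hx]
      have h5 : c * x * c⁻¹ ∈ P := (Subgroup.mem_normalizer_iff.mp hcn x).mp hx
      refine ⟨P.mul_mem (P.inv_mem hx) h5, ?_⟩
      have e : x⁻¹ * (c * x * c⁻¹) = (x⁻¹ * c * x⁻¹⁻¹) * c⁻¹ := by group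
      rw [e]
      exact T.mul_mem (sc_conj_mem hT (S.inv_mem (hPS hx)) hcT) (T.inv_mem hcT)
  exact ⟨c, hcn, hTS hcT, hcP, le_opAut hNle hNp hNn hcN⟩

/-- `P` centric with `P ∩ T` not `TCen`: some conjugate of `P` has outer automorphisms from `N_S` in `O_p`. -/
theorem exists_conj_of_not_tcen [Finite S] [Fact p.Prime] (hS : IsPGroup p S) (hF : F.IsSaturated p)
    (hT : F.StronglyClosed T) {P : Subgroup Ω} (hPS : P ≤ S) (hcon : ¬ TCen F T (P ⊓ T)) :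
    ∃ g, IsMap F P g ∧ ∃ (c : Ω) (hcn : c ∈ Subgroup.normalizer (img P g : Set Ω)), c ∈ S ∧ c ∉ img P g ∧
      conjAut c hcn ∈ opAut F p (img P g) := by
  obtain ⟨Q, hPQ, hQ⟩ := exists_fullyNormalized (F := F) (inf_le_left.trans hPS : P ⊓ T ≤ S)
  obtain ⟨g, hg, hgi, -⟩ := sat_exists_normalizer_map hS hF hQ hPQ
  have hPN : P ≤ normalizerIn S (P ⊓ T) := by
    intro x hx
    refine ⟨hPS hx, ?_⟩
    have h1 := Subgroup.le_normalizer hx
    have h2 := sc_le_normalizer hT (hPS hx)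
    rw [Subgroup.mem_normalizer_iff] at h1 h2
    refine Subgroup.mem_normalizer_iff.mpr fun y => ?_
    exact and_congr (h1 y) (h2 y)
  have hgP := hg.mono hPN
  have e1 : img P g ⊓ T = Q := by rw [← img_inf_sc hT hgP, hgi]
  refine ⟨g, hgP, exists_opAut_of_not_cent hS hT hgP.img_le fun hcen => hcon ?_⟩
  rw [e1] at hcen
  refine ⟨inf_le_right, fun R hR => ?_⟩
  have hQT : Q ≤ T := by rw [← e1]; exact inf_le_right
  have h1 : centralizerIn T Q ≤ Q := by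
    intro x hx
    rw [← e1]
    exact ⟨hcen hx, hx.1⟩
  obtain ⟨k, hk, hki, -⟩ := sat_exists_normalizer_map hS hF hQ (isConj_trans (isConj_symm hR) hPQ)
  have hRT : R ≤ T := isConj_le_sc hT inf_le_right hR
  intro x hx
  have hx' := mem_centralizerIn.mp hx
  have hxN : x ∈ normalizerIn S R := centralizerIn_le_normalizerIn R (mem_centralizerIn.mpr ⟨hT.1 hx'.1, hx'.2⟩)
  have hRN : R ≤ normalizerIn S R := le_normalizerIn (hRT.trans hT.1)
  have h2 : k x ∈ centralizerIn T Q := by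
    rw [mem_centralizerIn]
    refine ⟨sc_map_mem hT hk hxN hx'.1, ?_⟩
    rw [← hki]
    exact hk.map_centralizer hRN hxN hx'.2
  have h3 := h1 h2
  rw [← hki] at h3
  obtain ⟨y, hy, hyx⟩ := (hk.mono hRN).mem_img.mp h3
  rw [← hk.inj (hRN hy) hxN hyx]
  exact hy

end Cfsg.Agent.Fus
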