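import Cfsg.Agent.Fus.Quot
import Cfsg.Agent.Fus.Abelian
set_option autoImplicit false

/-!
# Saturated fusion systems on 2-groups all of whose elements are conjugate into the centre (helper35)

`abelian_of_conj_center`: `F` saturated on the finite 2-group `S`, every element of `S` is `F`-conjugate to an element
of `Z(S)`: then `S` is abelian.  Elementary proof by an exponent argument.
-/

namespace Cfsg.Agent.TwoCen

open Cfsg Cfsg.FusionSystem Cfsg.Agent.Fus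

variable {Ω : Type*} [Group Ω] {S : Subgroup Ω}

/-- the centralizer of an element in `S` -/
def cS (S : Subgroup Ω) (x : Ω) : Subgroup Ω := S ⊓ Subgroup.centralizer ({x} : Set Ω)

theorem mem_cS {x y : Ω} : y ∈ cS S x ↔ y ∈ S ∧ y * x = x * y := by
  unfold cS
  rw [Subgroup.mem_inf, Subgroup.mem_centralizer_singleton_iff]

theorem cS_le (x : Ω) : cS S x ≤ S := inf_le_left

theorem self_mem_cS {x : Ω} (hx : x ∈ S) : x ∈ cS S x := mem_cS.2 ⟨hx, rfl⟩

/-- Elements conjugate to a central element: the map extends to the centralizer. -/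
theorem exists_extend_cS [Finite S] {p : ℕ} [Fact p.Prime] (hS : IsPGroup p S) {F : FusionSystem S}
    (hF : F.IsSaturated p) {x : Ω} {f : Ω → Ω} (hf : IsMap F (Subgroup.zpowers x) f)
    (hz : ∀ s ∈ S, s * f x = f x * s) : ∃ g, IsMap F (cS S x) g ∧ g x = f x := by
  have hxS : x ∈ S := hf.le (Subgroup.mem_zpowers x)
  have himg : ∀ y ∈ img (Subgroup.zpowers x) f, ∀ s ∈ S, s * y = y * s := by
    intro y hy s hs
    obtain ⟨w, hw, rfl⟩ := hf.mem_img.1 hy
    obtain ⟨k, rfl⟩ := Subgroup.mem_zpowers_iff.1 hw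
    rw [hf.map_zpow (Subgroup.mem_zpowers x)]
    exact (Commute.zpow_right (show Commute s (f x) from hz s hs) k).eq
  have hc : F.IsFullyCentralized (img (Subgroup.zpowers x) f) := by
    refine ⟨hf.img_le, fun Q _ => ?_⟩
    have : FusionSystem.centralizerIn S (img (Subgroup.zpowers x) f) = S := by
      refine inf_eq_left.mpr fun s hs => ?_
      rw [Subgroup.mem_centralizer_iff]
      intro y hy
      exact (himg y hy s hs).symm
    rw [this]
    exact Subgroup.card_le_of_le inf_le_left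
  obtain ⟨g, hg, hgf, -⟩ := sat_exists_extend_centralizer hS hF hc hf rfl
  refine ⟨g, hg.mono ?_, hgf x (Subgroup.mem_zpowers x)⟩
  refine le_trans ?_ le_sup_right
  intro y hy
  rw [mem_cS] at hy
  rw [mem_centralizerIn]
  refine ⟨hy.1, ?_⟩
  intro w hw
  obtain ⟨k, rfl⟩ := Subgroup.mem_zpowers_iff.1 hw
  exact (Commute.zpow_left (show Commute x y from hy.2.symm) k).eq

/-- the subgroup `V` of `2^n`-th powers of elements of `Z(S)` -/
def powCen (S : Subgroup Ω) (m : ℕ) : Subgroup Ω where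
  carrier := {v | ∃ y ∈ S, (∀ s ∈ S, s * y = y * s) ∧ y ^ m = v}
  one_mem' := ⟨1, S.one_mem, fun s _ => by simp, one_pow m⟩
  mul_mem' := by
    rintro _ _ ⟨a, ha, ha2, rfl⟩ ⟨b, hb, hb2, rfl⟩
    refine ⟨a * b, S.mul_mem ha hb, fun s hs => ?_, ?_⟩
    · exact ((show Commute s a from ha2 s hs).mul_right (show Commute s b from hb2 s hs)).eq
    · exact (show Commute a b from hb2 a ha).mul_pow m
  inv_mem' := by
    rintro _ ⟨a, ha, ha2, rfl⟩
    exact ⟨a⁻¹, S.inv_mem ha, fun s hs => ((show Commute s a from ha2 s hs).inv_right).eq, inv_pow a m⟩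

theorem mem_powCen {m : ℕ} {v : Ω} : v ∈ powCen S m ↔ ∃ y ∈ S, (∀ s ∈ S, s * y = y * s) ∧ y ^ m = v := Iff.rfl

theorem powCen_le (m : ℕ) : powCen S m ≤ S := by
  rintro _ ⟨a, ha, -, rfl⟩
  exact S.pow_mem ha m

theorem powCen_comm {m : ℕ} {v : Ω} (hv : v ∈ powCen S m) {s : Ω} (hs : s ∈ S) : s * v = v * s := by
  obtain ⟨a, ha, ha2, rfl⟩ := hv
  exact (Commute.pow_right (show Commute s a from ha2 s hs) m).eq

/-- A surjective map `S → S` preserves `powCen`. -/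
theorem powCen_of_map [Finite S] {F : FusionSystem S} {m : ℕ} {g : Ω → Ω} (hg : IsMap F S g) {v : Ω}
    (hv : v ∈ powCen S m) : g v ∈ powCen S m := by
  obtain ⟨a, ha, ha2, rfl⟩ := hv
  refine ⟨g a, hg.mem ha, fun s hs => ?_, (hg.map_pow ha m).symm⟩
  have himg : img S g = S := hg.img_eq fun x hx => hg.mem hx
  rw [← himg] at hs
  obtain ⟨t, ht, rfl⟩ := hg.mem_img.1 hs
  rw [← hg.map_mul ht ha, ha2 t ht, hg.map_mul ha ht]

/-- the key exponent computation -/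
theorem key_comm {G : Type*} [Group G] {s a v : G} {n : ℕ} (ha : Commute (s ^ 2) a)
    (hta : Commute (s⁻¹ * a * s) a) (hst : Commute (s ^ 2) (s⁻¹ * a * s)) (hv : a ^ 2 ^ n = v)
    (h1 : (s * a) ^ 2 ^ (n + 1) = 1) (h2 : s ^ 2 ^ (n + 1) = 1) (h3 : a ^ 2 ^ (n + 1) = 1) :
    s * v = v * s := by
  set t := s⁻¹ * a * s with ht
  have e1 : (s * a) ^ 2 = s ^ 2 * (t * a) := by
    rw [ht, pow_two, pow_two]; group
  have e2 : (s * a) ^ 2 ^ (n + 1) = s ^ 2 ^ (n + 1) * (t ^ 2 ^ n * a ^ 2 ^ n) := by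
    have hp : 2 ^ (n + 1) = 2 * 2 ^ n := by rw [pow_succ]; ring
    rw [hp, pow_mul, e1, (hst.mul_right ha).mul_pow, ← pow_mul, hta.mul_pow]
  rw [h1, h2, one_mul] at e2
  have h4 : v * v = 1 := by
    rw [← hv, ← pow_add, ← h3]; congr 1; rw [pow_succ]; ring
  have h5 : t ^ 2 ^ n = s⁻¹ * v * s := by
    rw [ht, ← hv]
    have := conj_pow (i := 2 ^ n) (a := s⁻¹) (b := a)
    rwa [inv_inv] at this
  rw [h5, hv] at e2
  have h6 : s⁻¹ * v * s = v := by
    have h7 : s⁻¹ * v * s = v⁻¹ := eq_inv_of_mul_eq_one_left e2.symm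
    rw [h7]; exact inv_eq_of_mul_eq_one_left h4
  calc s * v = s * (s⁻¹ * v * s) := by rw [h6]
    _ = v * s := by group

theorem img_eq_of_card [Finite S] {F : FusionSystem S} {P : Subgroup Ω} {f : Ω → Ω} (hf : IsMap F P f)
    {Q : Subgroup Ω} (hQ : Finite Q) (h : ∀ x ∈ P, f x ∈ Q) (hc : Nat.card Q ≤ Nat.card P) : img P f = Q := by
  have h1 : img P f ≤ Q := hf.img_le_iff.2 h
  exact Subgroup.eq_of_le_of_card_ge h1 (by rw [hf.card_img]; exact hc)

/-- Step 1: `V` is strongly closed. -/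
theorem stronglyClosed_powCen [Finite S] (hS : IsPGroup 2 S) {F : FusionSystem S} (hF : F.IsSaturated 2)
    {n : ℕ} (hexp : ∀ x ∈ S, x ^ 2 ^ (n + 1) = 1) : F.StronglyClosed (powCen S (2 ^ n)) := by
  classical
  have := Fact.mk Nat.prime_two
  set V := powCen S (2 ^ n) with hV
  -- elementwise reduction
  suffices H : ∀ v ∈ V, ∀ f, IsMap F (Subgroup.zpowers v) f → f v ∈ V by
    rw [stronglyClosed_iff]
    refine ⟨powCen_le _, fun P f hf hPV x hx => H x (hPV hx) f (hf.mono ?_)⟩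
    rwa [Subgroup.zpowers_le]
  by_contra hcon
  push Not at hcon
  -- the bad elements
  let bad : Ω → Prop := fun w => w ∉ V ∧ ∃ v ∈ V, ∃ f, IsMap F (Subgroup.zpowers v) f ∧ f v = w
  have hbadS : ∀ w, bad w → w ∈ S := by
    rintro w ⟨-, v, hv, f, hf, rfl⟩
    exact hf.mem (Subgroup.mem_zpowers v)
  obtain ⟨w, hw, hmax⟩ : ∃ w, bad w ∧ ∀ w', bad w' → Nat.card (cS S w') ≤ Nat.card (cS S w) := by
    obtain ⟨v, hv, f, hf, hfv⟩ := hcon
    have hne : ∃ k, ∃ w, bad w ∧ Nat.card S - Nat.card (cS S w) = k := ⟨_, f v, ⟨hfv, v, hv, f, hf, rfl⟩, rfl⟩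
    obtain ⟨w, hw, hk⟩ := Nat.find_spec hne
    refine ⟨w, hw, fun w' hw' => ?_⟩
    have h1 := Nat.find_min' hne ⟨w', hw', rfl⟩
    rw [← hk] at h1
    have h2 : Nat.card (cS S w') ≤ Nat.card S := Subgroup.card_le_of_le (cS_le w')
    have h3 : Nat.card (cS S w) ≤ Nat.card S := Subgroup.card_le_of_le (cS_le w)
    omega
  -- bad elements are not central
  have hnc : ∀ w, bad w → cS S w < S := by
    rintro w ⟨hwV, v, hv, f, hf, rfl⟩
    refine lt_of_le_of_ne (cS_le _) fun h => hwV ?_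
    have hc : ∀ s ∈ S, s * f v = f v * s := by
      intro s hs
      rw [← h] at hs
      exact (mem_cS.1 hs).2
    obtain ⟨g, hg, hgf⟩ := exists_extend_cS hS hF hf hc
    have hcv : cS S v = S := le_antisymm (cS_le _) fun s hs => mem_cS.2 ⟨hs, powCen_comm hv hs⟩
    rw [hcv] at hg
    rw [← hgf]
    exact powCen_of_map hg hv
  -- reduce to `cS S w` fully normalized
  obtain ⟨Q₀, hPQ, hQ₀⟩ := exists_fullyNormalized (F := F) (cS_le (S := S) w)
  obtain ⟨χ, hχ, hχP, hχN⟩ := sat_exists_normalizer_map hS hF hQ₀ hPQ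
  have hwS := hbadS w hw
  have hPN : cS S w ≤ FusionSystem.normalizerIn S (cS S w) := le_normalizerIn (cS_le w)
  have hχw : bad (χ w) := by
    refine ⟨fun hV' => ?_, ?_⟩
    · obtain ⟨s, hs, hsP⟩ := SetLike.exists_of_lt (lt_normalizerIn hS (hnc w hw))
      apply hsP
      rw [mem_cS]
      refine ⟨normalizerIn_le _ hs, ?_⟩
      have hwN := hPN (self_mem_cS hwS)
      refine hχ.inj (Subgroup.mul_mem _ hs hwN) (Subgroup.mul_mem _ hwN hs) ?_
      rw [hχ.map_mul hs hwN, hχ.map_mul hwN hs]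
      exact powCen_comm hV' (hχ.mem hs)
    · obtain ⟨-, v, hv, f, hf, hfv⟩ := hw
      refine ⟨v, hv, fun x => χ (f x), (hχ.mono hPN).comp hf ?_, by show χ (f v) = _; rw [hfv]⟩
      intro x hx
      obtain ⟨k, rfl⟩ := Subgroup.mem_zpowers_iff.1 hx
      rw [hf.map_zpow (Subgroup.mem_zpowers v), hfv]
      exact Subgroup.zpow_mem _ (self_mem_cS hwS) k
  have hcard₀ : Nat.card (cS S (χ w)) ≤ Nat.card Q₀ := by
    rw [isConj_card_eq hPQ]; exact hmax _ hχw
  have hle₀ : Q₀ ≤ cS S (χ w) := by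
    intro y hy
    rw [← hχP] at hy
    obtain ⟨x, hx, rfl⟩ := (hχ.mono hPN).mem_img.1 hy
    have hwN := hPN (self_mem_cS hwS)
    rw [mem_cS]
    refine ⟨hχ.mem (hPN hx), ?_⟩
    rw [← hχ.map_mul (hPN hx) hwN, (mem_cS.1 hx).2, hχ.map_mul hwN (hPN hx)]
  have hQ₀e : Q₀ = cS S (χ w) := eq_of_le_of_card_le (cS_le _) hle₀ hcard₀
  have hmax' : ∀ w', bad w' → Nat.card (cS S w') ≤ Nat.card Q₀ := by
    intro w' hw'
    rw [isConj_card_eq hPQ]; exact hmax _ hw'
  obtain ⟨w₁, hw₁, hw₁P, hmax₁, hfn₁⟩ : ∃ w₁, bad w₁ ∧ w₁ ∈ cS S w₁ ∧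
      (∀ w', bad w' → Nat.card (cS S w') ≤ Nat.card (cS S w₁)) ∧ F.IsFullyNormalized (cS S w₁) :=
    ⟨χ w, hχw, self_mem_cS (hbadS _ hχw), by rw [← hQ₀e]; exact hmax', by rw [← hQ₀e]; exact hQ₀⟩
  clear hmax' hQ₀e hle₀ hcard₀ hχw hPN hwS hχN hχP hχ hQ₀ hPQ hmax hw χ Q₀ w
  -- the map `φ` with `φ w₁ = v ∈ V`
  obtain ⟨v, hv, φ, hφ, hφv⟩ : ∃ v ∈ V, ∃ φ, IsMap F (cS S w₁) φ ∧ φ w₁ = v := by
    obtain ⟨-, v, hv, f, hf, hfv⟩ := hw₁
    have hvz : v ∈ Subgroup.zpowers v := Subgroup.mem_zpowers v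
    have hg : IsMap F (Subgroup.zpowers w₁) (minv (Subgroup.zpowers v) f) :=
      hf.minv_isMap.mono (by rw [Subgroup.zpowers_le, ← hfv]; exact subset_img hvz)
    have hgv : minv (Subgroup.zpowers v) f w₁ = v := by rw [← hfv, hf.minv_apply hvz]
    obtain ⟨φ, hφ, hφw⟩ := exists_extend_cS hS hF hg (by
      rw [hgv]; exact fun s hs => powCen_comm hv hs)
    exact ⟨v, hv, φ, hφ, hφw.trans hgv⟩
  set P := cS S w₁ with hP
  have hPS : P < S := hnc _ hw₁
  have hQS : img P φ < S := by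
    refine lt_of_le_of_ne hφ.img_le fun h => ?_
    have h1 := hφ.card_img
    rw [h] at h1
    have h2 := card_lt_of_lt le_rfl hPS
    omega
  obtain ⟨χ, hχ, hχP, hχN⟩ := sat_exists_normalizer_map hS hF hfn₁ (isConj_symm hφ.isConj)
  have hQN : img P φ ≤ FusionSystem.normalizerIn S (img P φ) := le_normalizerIn hφ.img_le
  have hvQ : v ∈ img P φ := by rw [← hφv]; exact subset_img hw₁P
  have hv₁ : χ v ∈ V := by
    by_contra hv₁
    have hbad : bad (χ v) := by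
      refine ⟨hv₁, v, hv, χ, hχ.mono ?_, rfl⟩
      rw [Subgroup.zpowers_le]; exact hQN hvQ
    have h1 := hmax₁ _ hbad
    have h2 : img (FusionSystem.normalizerIn S (img P φ)) χ ≤ cS S (χ v) := by
      rw [hχ.img_le_iff]
      intro x hx
      rw [mem_cS]
      refine ⟨hχ.mem hx, ?_⟩
      rw [← hχ.map_mul hx (hQN hvQ), ← hχ.map_mul (hQN hvQ) hx, powCen_comm hv (normalizerIn_le _ hx)]
    have := finite_of_le (cS_le (S := S) (χ v))
    have h3 := Subgroup.card_le_of_le h2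
    rw [hχ.card_img] at h3
    have h4 := card_lt_of_lt (normalizerIn_le _) (lt_normalizerIn hS hQS)
    rw [hφ.card_img] at h4
    omega
  obtain ⟨y₁, hy₁S, hy₁c, hy₁⟩ := hv₁
  have hy₁P : y₁ ∈ P := mem_cS.2 ⟨hy₁S, (hy₁c w₁ (hbadS _ hw₁)).symm⟩
  -- the automorphism `h = χ φ` of `P`
  have hh : IsMap F P (fun x => χ (φ x)) := (hχ.mono hQN).comp hφ fun x hx => subset_img hx
  have hhP : img P (fun x => χ (φ x)) = P := by rw [hφ.img_comp, hχP]
  obtain ⟨a, haP, hay⟩ : ∃ a ∈ P, χ (φ a) = y₁ := by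
    rw [← hhP] at hy₁P
    exact hh.mem_img.1 hy₁P
  have hav : a ^ 2 ^ n = w₁ := by
    refine hh.inj (P.pow_mem haP _) hw₁P ?_
    rw [hh.map_pow haP]
    show (χ (φ a)) ^ 2 ^ n = χ (φ w₁)
    rw [hay, hφv, hy₁]
  have hac : ∀ x ∈ P, x * a = a * x := by
    intro x hx
    refine hh.inj (P.mul_mem hx haP) (P.mul_mem haP hx) ?_
    rw [hh.map_mul hx haP, hh.map_mul haP hx]
    show χ (φ x) * χ (φ a) = χ (φ a) * χ (φ x)
    rw [hay]
    exact hy₁c _ (hh.mem hx)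
  obtain ⟨s, hsN, hsP, hs2⟩ : ∃ s ∈ FusionSystem.normalizerIn S P, s ∉ P ∧ s ^ 2 ∈ P := by
    obtain ⟨s, hsN, hsP⟩ := SetLike.exists_of_lt (lt_normalizerIn hS hPS)
    -- least `k` with `s^(2^k) ∈ P`
    have hex : ∃ k, s ^ 2 ^ k ∈ P := ⟨n + 1, by rw [hexp s (normalizerIn_le _ hsN)]; exact P.one_mem⟩
    have hk := Nat.find_spec hex
    have hk0 : Nat.find hex ≠ 0 := by
      intro h0
      rw [h0, pow_zero, pow_one] at hk
      exact hsP hk
    obtain ⟨k, hk'⟩ := Nat.exists_eq_succ_of_ne_zero hk0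
    refine ⟨s ^ 2 ^ k, Subgroup.pow_mem _ hsN _, Nat.find_min hex (by omega), ?_⟩
    rw [hk'] at hk
    rw [← pow_mul, ← pow_succ]
    exact hk
  have hsS : s ∈ S := normalizerIn_le _ hsN
  have haS : a ∈ S := hPS.le haP
  have hconj : ∀ x ∈ P, s * x * s⁻¹ ∈ P := fun x hx =>
    (Subgroup.mem_normalizer_iff.1 (mem_normalizerIn.1 hsN).2 x).1 hx
  have hconj' : ∀ x ∈ P, s⁻¹ * x * s ∈ P := fun x hx => by
    have := (Subgroup.mem_normalizer_iff.1 (Subgroup.inv_mem _ (mem_normalizerIn.1 hsN).2) x).1 hx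
    rwa [inv_inv] at this
  have htc : ∀ x ∈ P, x * (s⁻¹ * a * s) = (s⁻¹ * a * s) * x := by
    intro x hx
    have h1 := hac _ (hconj x hx)
    calc x * (s⁻¹ * a * s) = s⁻¹ * (s * x * s⁻¹ * a) * s := by group
      _ = s⁻¹ * (a * (s * x * s⁻¹)) * s := by rw [h1]
      _ = (s⁻¹ * a * s) * x := by group
  have hfin : s * w₁ = w₁ * s := by
    refine key_comm (n := n) (a := a) (hac _ hs2) ?_ (htc _ hs2) hav (hexp _ (S.mul_mem hsS haS)) (hexp _ hsS)
      (hexp _ haS)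
    exact hac _ (hconj' a haP)
  exact hsP (mem_cS.2 ⟨hsS, hfin⟩)

/-- A finite 2-group has an `n` with exponent `2^(n+1)`. -/
theorem exists_exp [Finite S] (hS : IsPGroup 2 S) (hne : S ≠ ⊥) :
    ∃ n, (∀ x ∈ S, x ^ 2 ^ (n + 1) = 1) ∧ ∃ x ∈ S, x ^ 2 ^ n ≠ 1 := by
  classical
  have := Fact.mk Nat.prime_two
  obtain ⟨k, hk⟩ := IsPGroup.iff_card.1 hS
  have hex : ∃ k, ∀ x ∈ S, x ^ 2 ^ k = 1 := by
    refine ⟨k, fun x hx => ?_⟩
    have h1 : (⟨x, hx⟩ : S) ^ Nat.card S = 1 := pow_card_eq_one'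
    rw [hk] at h1
    exact congrArg Subtype.val h1
  have hs := Nat.find_spec hex
  have h0 : Nat.find hex ≠ 0 := by
    intro h0
    rw [h0] at hs
    apply hne
    rw [eq_bot_iff]
    intro x hx
    have := hs x hx
    rwa [pow_zero, pow_one] at this
  obtain ⟨n, hn⟩ := Nat.exists_eq_succ_of_ne_zero h0
  refine ⟨n, by rw [hn] at hs; exact hs, ?_⟩
  have := Nat.find_min hex (m := n) (by omega)
  push Not at this
  exact this

universe u

/-- `F` saturated on a finite 2-group `S`, all elements of `S` conjugate into `Z(S)`: `S` is abelian. -/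
theorem abelian_of_conj_center_aux (N : ℕ) : ∀ (Ω : Type u) [Group Ω] (S : Subgroup Ω) [Finite S]
    (_ : Nat.card S = N) (_ : IsPGroup 2 S) (F : FusionSystem S) (_ : F.IsSaturated 2)
    (_ : ∀ x ∈ S, ∃ f, IsMap F (Subgroup.zpowers x) f ∧ ∀ s ∈ S, s * f x = f x * s),
    ∀ x ∈ S, ∀ y ∈ S, x * y = y * x := by
  induction N using Nat.strong_induction_on with
  | _ N IH =>
  intro Ω _ S _ hN hS F hF hc
  have := Fact.mk Nat.prime_two
  by_cases hne : S = ⊥
  · intro x hx y hy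
    subst hne
    rw [Subgroup.mem_bot.1 hx, Subgroup.mem_bot.1 hy]
  obtain ⟨n, hexp, x₀, hx₀, hx₀n⟩ := exists_exp hS hne
  have hsc := stronglyClosed_powCen hS hF hexp
  set V := powCen S (2 ^ n) with hV
  have hVne : ∃ v ∈ V, v ≠ 1 := by
    obtain ⟨f, hf, hfc⟩ := hc x₀ hx₀
    have hm := Subgroup.mem_zpowers x₀
    refine ⟨(f x₀) ^ 2 ^ n, ⟨f x₀, hf.mem hm, hfc, rfl⟩, ?_⟩
    rw [← hf.map_pow hm]
    intro h
    exact hx₀n ((hf.eq_one_iff (Subgroup.pow_mem _ hm _)).1 h)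
  -- the factor system
  have hVn : (V.subgroupOf S).Normal := by
    constructor
    intro a ha g
    rw [Subgroup.mem_subgroupOf] at ha ⊢
    have h1 := powCen_comm ha g.2
    have h2 : ((g * a * g⁻¹ : S) : Ω) = (a : Ω) := by
      show (g : Ω) * a * (g : Ω)⁻¹ = a
      rw [h1, mul_inv_cancel_right]
    rw [h2]; exact ha
  let θ : S →* (S ⧸ V.subgroupOf S) := QuotientGroup.mk' (V.subgroupOf S)
  have hker : ∀ x ∈ S, ext θ x = 1 ↔ x ∈ V := by
    intro x hx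
    rw [ext_apply θ hx]
    show ((⟨x, hx⟩ : S) : S ⧸ V.subgroupOf S) = 1 ↔ _
    rw [QuotientGroup.eq_one_iff, Subgroup.mem_subgroupOf]
  obtain ⟨E, hE⟩ := exists_isFactorSystem F hsc θ hker rfl
  have hfac := isFac_of_isFactorSystem hsc hE
  have hfin : Finite θ.range := hfac.finite
  have hcard : Nat.card θ.range < N := by
    have h1 : θ.range = ⊤ := MonoidHom.range_eq_top.2 (QuotientGroup.mk'_surjective _)
    rw [h1, Nat.card_congr Subgroup.topEquiv.toEquiv, ← hN]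
    have h2 := Subgroup.card_eq_card_quotient_mul_card_subgroup (V.subgroupOf S)
    have h3 : 1 < Nat.card (V.subgroupOf S) := by
      rw [Subgroup.one_lt_card_iff_ne_bot]
      intro h
      obtain ⟨v, hv, hv1⟩ := hVne
      apply hv1
      have h4 : (⟨v, hsc.1 hv⟩ : S) ∈ V.subgroupOf S := hv
      rw [h, Subgroup.mem_bot] at h4
      exact congrArg Subtype.val h4
    have h4 : 0 < Nat.card (S ⧸ V.subgroupOf S) := Nat.card_pos
    rw [h2]
    nlinarith
  -- maps on centralizers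
  have hVc : ∀ x ∈ S, V ≤ cS S x := fun x hx v hv => mem_cS.2 ⟨hsc.1 hv, (powCen_comm hv hx).symm⟩
  have key : ∀ x ∈ S, ∃ φ, IsMap F (cS S x) φ ∧ (∀ s ∈ S, s * φ x = φ x * s) ∧
      ∃ φ', IsMap E (imageAlong θ (cS S x)) φ' ∧ φ' (ext θ x) = ext θ (φ x) := by
    intro x hx
    obtain ⟨f, hf, hfc⟩ := hc x hx
    obtain ⟨φ, hφ, hφf⟩ := exists_extend_cS hS hF hf hfc
    obtain ⟨φ', hφ', hi⟩ := hfac.induce hφ (hVc x hx)
    exact ⟨φ, hφ, by rw [hφf]; exact hfc, φ', hφ', hi x (self_mem_cS hx)⟩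
  have hab := IH _ hcard (S ⧸ V.subgroupOf S) θ.range rfl (hfac.isPGroup hS) E (hfac.isSaturated hS hF) (by
    intro y hy
    obtain ⟨x, hx, rfl⟩ := hfac.exists_ext hy
    obtain ⟨φ, hφ, hφc, φ', hφ', hi⟩ := key x hx
    refine ⟨φ', hφ'.mono ?_, ?_⟩
    · rw [Subgroup.zpowers_le]
      exact ext_mem_imageAlong θ (cS_le x) (self_mem_cS hx)
    · intro s hs
      obtain ⟨t, ht, rfl⟩ := hfac.exists_ext hs
      have hm := hφ.mem (self_mem_cS hx)
      rw [hi, ← ext_mul θ ht hm, hφc t ht, ext_mul θ hm ht])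
  -- conclusion
  have hcen : ∀ x ∈ S, ∀ s ∈ S, s * x = x * s := by
    intro x hx
    obtain ⟨φ, hφ, hφc, φ', hφ', hi⟩ := key x hx
    obtain ⟨g', hg', hgφ⟩ := exists_extend_of_abelian (hfac.isPGroup hS) (hfac.isSaturated hS hF) hab hφ'
    obtain ⟨g, hg, hgi⟩ := hfac.lift hg'
    have hpre : preimageAlong θ θ.range = S := by
      ext z
      rw [mem_preimageAlong]
      exact ⟨fun h => h.1, fun h => ⟨h, ext_mem_range θ h⟩⟩
    rw [hpre] at hg hgi
    have h1 : ext θ (g x) = ext θ (φ x) := by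
      rw [← hgi x hx, hgφ _ (ext_mem_imageAlong θ (cS_le x) (self_mem_cS hx)), hi]
    have hφS := hφ.mem (self_mem_cS hx)
    have h2 : g x * (φ x)⁻¹ ∈ V := (hfac.eq_iff (hg.mem hx) hφS).1 h1
    have h3 : ∀ s ∈ S, s * g x = g x * s := by
      intro s hs
      have e1 : Commute s (g x * (φ x)⁻¹) := powCen_comm h2 hs
      have e2 : Commute s (φ x) := hφc s hs
      have e3 := e1.mul_right e2
      rw [inv_mul_cancel_right] at e3
      exact e3.eq
    intro s hs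
    refine hg.inj (S.mul_mem hs hx) (S.mul_mem hx hs) ?_
    rw [hg.map_mul hs hx, hg.map_mul hx hs]
    exact h3 _ (hg.mem hs)
  exact fun x hx y hy => hcen y hy x hx

theorem abelian_of_conj_center {Ω : Type u} [Group Ω] {S : Subgroup Ω} [Finite S] (hS : IsPGroup 2 S)
    {F : FusionSystem S} (hF : F.IsSaturated 2)
    (hc : ∀ x ∈ S, ∃ f, IsMap F (Subgroup.zpowers x) f ∧ ∀ s ∈ S, s * f x = f x * s) :
    ∀ x ∈ S, ∀ y ∈ S, x * y = y * x :=
  abelian_of_conj_center_aux _ Ω S rfl hS F hF hc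

end Cfsg.Agent.TwoCen
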