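import Cfsg.Agent.Fus.TwoCen
import Cfsg.Agent.Fus.Group
set_option autoImplicit false

/-!
# Sylow 2-subgroups are abelian iff every 2-element is 2-central (helper35)
-/

namespace Cfsg.Agent.TwoCen

open Cfsg Cfsg.FusionSystem Cfsg.Agent.Fus

universe u

theorem mem_sylow_of_commute {G : Type u} [Group G] [Finite G] {p : ℕ} [Fact p.Prime] {x : G} {k : ℕ}
    (hx : orderOf x = p ^ k) (Q : Sylow p G) (hQ : (Q : Subgroup G) ≤ Subgroup.centralizer ({x} : Set G)) :
    x ∈ (Q : Subgroup G) := by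
  have h1 : IsPGroup p (Subgroup.zpowers x) := IsPGroup.iff_card.2 ⟨k, by rw [Nat.card_zpowers, hx]⟩
  have h2 := IsPGroup.inf_normalizer_sylow h1 Q
  have h3 : x ∈ Subgroup.normalizer ((Q : Subgroup G) : Set G) := by
    rw [Subgroup.mem_normalizer_iff]
    have hc : ∀ y ∈ (Q : Subgroup G), y * x = x * y := fun y hy =>
      (Subgroup.mem_centralizer_singleton_iff.1 (hQ hy))
    intro y
    constructor
    · intro hy
      rw [← hc y hy, mul_inv_cancel_right]; exact hy
    · intro hy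
      have h4 := hc _ hy
      have h5 : y = x * y * x⁻¹ := by
        have : x * y * x⁻¹ * x = x * (x * y * x⁻¹) := h4
        have h6 : x * y = x * (x * y * x⁻¹) := by rw [← this]; group
        exact mul_left_cancel h6
      rw [h5]; exact hy
  have h4 : x ∈ Subgroup.zpowers x ⊓ Subgroup.normalizer ((Q : Subgroup G) : Set G) :=
    ⟨Subgroup.mem_zpowers x, h3⟩
  have h5 : x ∈ Subgroup.zpowers x ⊓ (Q : Subgroup G) := h2 ▸ h4
  exact h5.2

/-- If every 2-element of `G` is centralized by a Sylow 2-subgroup, the Sylow 2-subgroups are abelian. -/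
theorem sylow_abelian {G : Type u} [Group G] [Finite G]
    (h : ∀ x : G, (∃ k : ℕ, orderOf x = 2 ^ k) →
      ∃ Q : Sylow 2 G, (Q : Subgroup G) ≤ Subgroup.centralizer ({x} : Set G)) (P : Sylow 2 G) :
    ∀ x ∈ (P : Subgroup G), ∀ y ∈ (P : Subgroup G), x * y = y * x := by
  have := Fact.mk Nat.prime_two
  refine abelian_of_conj_center P.isPGroup' (group_saturated P) fun x hx => ?_
  have hx2 : ∃ k : ℕ, orderOf x = 2 ^ k := by
    obtain ⟨k, hk⟩ := IsPGroup.iff_orderOf.1 P.isPGroup' ⟨x, hx⟩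
    exact ⟨k, by rw [← hk, Subgroup.orderOf_mk]⟩
  obtain ⟨Q, hQ⟩ := h x hx2
  obtain ⟨k, hk⟩ := hx2
  have hxQ := mem_sylow_of_commute hk Q hQ
  obtain ⟨g, hg⟩ := MulAction.exists_smul_eq G Q P
  have hgQ : ∀ y ∈ (Q : Subgroup G), g * y * g⁻¹ ∈ (P : Subgroup G) := by
    intro y hy
    rw [← hg]
    exact Subgroup.smul_mem_pointwise_smul y (MulAut.conj g) _ hy
  have hgP : ∀ s ∈ (P : Subgroup G), g⁻¹ * s * g ∈ (Q : Subgroup G) := by
    intro s hs
    rw [← hg] at hs
    obtain ⟨y, hy, rfl⟩ := hs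
    have : g⁻¹ * (MulAut.conj g y) * g = y := by
      rw [MulAut.conj_apply]; group
    show g⁻¹ * (MulAut.conj g y) * g ∈ (Q : Subgroup G)
    rw [this]; exact hy
  refine ⟨fun y => g * y * g⁻¹, isMap_group.2 ⟨?_, ?_, g, fun y _ => rfl⟩, ?_⟩
  · rw [Subgroup.zpowers_le]; exact hx
  · intro y hy
    refine hgQ y ?_
    obtain ⟨j, rfl⟩ := Subgroup.mem_zpowers_iff.1 hy
    exact Subgroup.zpow_mem _ hxQ j
  · intro s hs
    have h1 := Subgroup.mem_centralizer_singleton_iff.1 (hQ (hgP s hs))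
    calc s * (g * x * g⁻¹) = g * ((g⁻¹ * s * g) * x) * g⁻¹ := by group
      _ = g * (x * (g⁻¹ * s * g)) * g⁻¹ := by rw [h1]
      _ = (g * x * g⁻¹) * s := by group

theorem exists_sylow_centralizer {G : Type u} [Group G] [Finite G] {x : G}
    (h : ¬ 2 ∣ (Subgroup.centralizer ({x} : Set G)).index) :
    ∃ Q : Sylow 2 G, (Q : Subgroup G) ≤ Subgroup.centralizer ({x} : Set G) := by
  have := Fact.mk Nat.prime_two
  obtain ⟨R⟩ : Nonempty (Sylow 2 (Subgroup.centralizer ({x} : Set G))) := inferInstance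
  set Q : Subgroup G := (R : Subgroup (Subgroup.centralizer ({x} : Set G))).map (Subgroup.subtype _) with hQ
  have h1 : IsPGroup 2 Q := R.isPGroup'.map _
  have h2 : ¬ 2 ∣ Q.index := by
    have h3 : Q.index = (R : Subgroup (Subgroup.centralizer ({x} : Set G))).index *
        (Subgroup.centralizer ({x} : Set G)).index := by
      have h4 := Subgroup.relIndex_mul_index (show Q ≤ Subgroup.centralizer ({x} : Set G) from by
        rw [hQ]; exact Subgroup.map_subtype_le _)
      rw [← h4]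
      congr 1
      rw [Subgroup.relIndex, hQ, Subgroup.subgroupOf,
        Subgroup.comap_map_eq_self_of_injective (Subgroup.subtype_injective _)]
    rw [h3]
    intro h4
    rcases (Nat.Prime.dvd_mul Nat.prime_two).1 h4 with h5 | h5
    · exact R.not_dvd_index h5
    · exact h h5
  refine ⟨h1.toSylow h2, ?_⟩
  show Q ≤ _
  rw [hQ]; exact Subgroup.map_subtype_le _

end Cfsg.Agent.TwoCen
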