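import Cfsg.Agent.Fus.PolarGen

/-!
# Imprimitive affine permutations and Sylow subgroups of symmetric groups

`wa s l f : (b, v) ↦ (s b, l b * v + f b)` on `(A × ZMod p) ⊕ R`; `W P = {wa s 1 f | s ∈ P}`.
-/

set_option autoImplicit false
set_option linter.unusedSectionVars false

namespace Cfsg.Agent.Fus.WrP

open Equiv Equiv.Perm Cfsg.Agent.Fus

variable {p : ℕ} {A R : Type*}

/-- affine imprimitive permutation -/
def wa (s : Perm A) (l : A → (ZMod p)ˣ) (f : A → ZMod p) : Perm ((A × ZMod p) ⊕ R) :=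
  Equiv.sumCongr
    { toFun := fun x => (s x.1, (l x.1 : ZMod p) * x.2 + f x.1)
      invFun := fun y => (s.symm y.1, ((l (s.symm y.1))⁻¹ : (ZMod p)ˣ) * (y.2 - f (s.symm y.1)))
      left_inv := fun x => by
        rcases x with ⟨b, v⟩
        simp [← mul_assoc]
      right_inv := fun x => by
        rcases x with ⟨b, v⟩
        simp [← mul_assoc] }
    (Equiv.refl R)

@[simp] theorem wa_inl (s : Perm A) (l : A → (ZMod p)ˣ) (f : A → ZMod p) (b : A) (v : ZMod p) :
    (wa s l f : Perm ((A × ZMod p) ⊕ R)) (Sum.inl (b, v)) = Sum.inl (s b, l b * v + f b) := rfl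

@[simp] theorem wa_inr (s : Perm A) (l : A → (ZMod p)ˣ) (f : A → ZMod p) (x : R) :
    (wa s l f : Perm ((A × ZMod p) ⊕ R)) (Sum.inr x) = Sum.inr x := rfl

theorem ext_inl {g h : Perm ((A × ZMod p) ⊕ R)} (h1 : ∀ b v, g (Sum.inl (b, v)) = h (Sum.inl (b, v)))
    (h2 : ∀ x, g (Sum.inr x) = h (Sum.inr x)) : g = h := by
  ext1 x
  rcases x with ⟨b, v⟩ | x
  · exact h1 b v
  · exact h2 x

theorem wa_mul (s s' : Perm A) (l l' : A → (ZMod p)ˣ) (f f' : A → ZMod p) :
    (wa s l f * wa s' l' f' : Perm ((A × ZMod p) ⊕ R)) =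
      wa (s * s') (fun b => l (s' b) * l' b) (fun b => l (s' b) * f' b + f (s' b)) := by
  apply ext_inl
  · intro b v
    rw [Perm.mul_apply, wa_inl, wa_inl, wa_inl, Perm.mul_apply, Units.val_mul]
    congr 2
    ring
  · intro x; rfl

theorem wa_one : (wa 1 1 0 : Perm ((A × ZMod p) ⊕ R)) = 1 := by
  apply ext_inl
  · intro b v
    rw [wa_inl]; simp
  · intro x; rfl

theorem wa_inj {s s' : Perm A} {l l' : A → (ZMod p)ˣ} {f f' : A → ZMod p}
    (h : (wa s l f : Perm ((A × ZMod p) ⊕ R)) = wa s' l' f') : s = s' ∧ l = l' ∧ f = f' := by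
  have h0 : ∀ b, s b = s' b ∧ f b = f' b := by
    intro b
    have := congrArg (fun g : Perm ((A × ZMod p) ⊕ R) => g (Sum.inl (b, 0))) h
    simpa using this
  have hf : f = f' := funext fun b => (h0 b).2
  subst hf
  refine ⟨Equiv.ext fun b => (h0 b).1, ?_, rfl⟩
  funext b
  have := congrArg (fun g : Perm ((A × ZMod p) ⊕ R) => g (Sum.inl (b, 1))) h
  simp only [wa_inl, Sum.inl.injEq, Prod.mk.injEq, mul_one, add_left_inj] at this
  exact Units.ext this.2

theorem wa_inv (s : Perm A) (l : A → (ZMod p)ˣ) (f : A → ZMod p) :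
    (wa s l f : Perm ((A × ZMod p) ⊕ R))⁻¹ = wa s⁻¹ (fun b => (l (s⁻¹ b))⁻¹)
      (fun b => -((l (s⁻¹ b))⁻¹ : (ZMod p)ˣ) * f (s⁻¹ b)) := by
  rw [inv_eq_iff_mul_eq_one, wa_mul, ← wa_one]
  congr 1
  · simp
  · funext b; simp
  · funext b; simp [← mul_assoc]

/-- conjugation of base elements -/
theorem wa_conj_base (s : Perm A) (l : A → (ZMod p)ˣ) (f h : A → ZMod p) :
    (wa s l f * wa 1 1 h * (wa s l f)⁻¹ : Perm ((A × ZMod p) ⊕ R)) =
      wa 1 1 (fun b => (l (s⁻¹ b) : ZMod p) * h (s⁻¹ b)) := by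
  rw [mul_inv_eq_iff_eq_mul, wa_mul, wa_mul]
  congr 1
  · funext b; simp
  · funext b; simp; ring

theorem wa_base_mul (f h : A → ZMod p) :
    (wa 1 1 f * wa 1 1 h : Perm ((A × ZMod p) ⊕ R)) = wa 1 1 (f + h) := by
  rw [wa_mul]
  congr 1
  · funext b; simp
  · funext b; simp; ring

theorem wa_base_pow (f : A → ZMod p) (k : ℕ) : (wa 1 1 f : Perm ((A × ZMod p) ⊕ R)) ^ k = wa 1 1 (k • f) := by
  induction k with
  | zero => rw [pow_zero, zero_smul, wa_one]
  | succ k ih => rw [pow_succ, ih, wa_base_mul, succ_nsmul]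

theorem wa_base_inv (f : A → ZMod p) : (wa 1 1 f : Perm ((A × ZMod p) ⊕ R))⁻¹ = wa 1 1 (-f) := by
  rw [inv_eq_iff_mul_eq_one, wa_base_mul, add_neg_cancel, wa_one]

theorem wa_base_pow_p (f : A → ZMod p) : (wa 1 1 f : Perm ((A × ZMod p) ⊕ R)) ^ p = 1 := by
  rw [wa_base_pow]
  have : p • f = 0 := by
    funext b
    simp
  rw [this, wa_one]

/-- block permutations -/
theorem wa_blk_mul (s s' : Perm A) : (wa s 1 0 * wa s' 1 0 : Perm ((A × ZMod p) ⊕ R)) = wa (s * s') 1 0 := by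
  rw [wa_mul]
  congr 1
  · funext b; simp
  · funext b; simp

theorem wa_split (s : Perm A) (l : A → (ZMod p)ˣ) (f : A → ZMod p) :
    (wa s l f : Perm ((A × ZMod p) ⊕ R)) = wa 1 1 (f ∘ s.symm) * wa 1 (l ∘ s.symm) 0 * wa s 1 0 := by
  rw [wa_mul, wa_mul]
  congr 1
  · funext b; simp
  · funext b; simp

/-- the wreath product subgroup -/
def W (R : Type*) (P : Subgroup (Perm A)) : Subgroup (Perm ((A × ZMod p) ⊕ R)) where
  carrier := {g | ∃ s ∈ P, ∃ f : A → ZMod p, g = wa s 1 f}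
  mul_mem' := by
    rintro _ _ ⟨s, hs, f, rfl⟩ ⟨s', hs', f', rfl⟩
    refine ⟨s * s', P.mul_mem hs hs', fun b => f' b + f (s' b), ?_⟩
    rw [wa_mul]
    congr 1
    · funext b; simp
    · funext b; simp
  one_mem' := ⟨1, P.one_mem, 0, wa_one.symm⟩
  inv_mem' := by
    rintro _ ⟨s, hs, f, rfl⟩
    refine ⟨s⁻¹, P.inv_mem hs, fun b => -f (s⁻¹ b), ?_⟩
    rw [wa_inv]
    congr 1
    funext b; simp

theorem mem_W {P : Subgroup (Perm A)} {g : Perm ((A × ZMod p) ⊕ R)} :
    g ∈ W R P ↔ ∃ s ∈ P, ∃ f : A → ZMod p, g = wa s 1 f := Iff.rfl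

variable [Fintype A] [DecidableEq A] [Fintype R] [DecidableEq R] [Fact p.Prime]

theorem card_W (P : Subgroup (Perm A)) :
    Nat.card (W (p := p) R P) = Nat.card P * p ^ Fintype.card A := by
  have e : P × (A → ZMod p) ≃ W (p := p) R P := by
    refine Equiv.ofBijective (fun x => ⟨wa x.1.1 1 x.2, x.1.1, x.1.2, x.2, rfl⟩) ⟨?_, ?_⟩
    · rintro ⟨⟨s, hs⟩, f⟩ ⟨⟨s', hs'⟩, f'⟩ h
      have h1 := wa_inj (congrArg Subtype.val h)
      simp only at h1
      obtain ⟨rfl, -, rfl⟩ := h1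
      rfl
    · rintro ⟨_, s, hs, f, rfl⟩
      exact ⟨⟨⟨s, hs⟩, f⟩, rfl⟩
  rw [← Nat.card_congr e, Nat.card_prod, Nat.card_eq_fintype_card (α := A → ZMod p), Fintype.card_fun, ZMod.card]

theorem card_base : Fintype.card ((A × ZMod p) ⊕ R) = p * Fintype.card A + Fintype.card R := by
  rw [Fintype.card_sum, Fintype.card_prod, ZMod.card, mul_comm]

theorem sylIn_W (hR : Fintype.card R < p) {P : Subgroup (Perm A)} (hP : SylIn p P ⊤) :
    SylIn p (W (p := p) R P) ⊤ := by
  have hp := (Fact.out : p.Prime)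
  have hPW := card_W (p := p) (R := R) P
  have hPp : IsPGroup p P := hP.isPGroup
  obtain ⟨k, hk⟩ := hPp.exists_card_eq
  refine ⟨le_top, ?_, ?_⟩
  · apply IsPGroup.of_card (n := k + Fintype.card A)
    rw [hPW, hk, pow_add]
  · rw [Subgroup.relIndex_top_right]
    intro hd
    have h1 := Subgroup.card_mul_index (W (p := p) R P)
    rw [Nat.card_eq_fintype_card (α := Perm ((A × ZMod p) ⊕ R)), Fintype.card_perm, card_base, hPW] at h1
    have h2 := Subgroup.card_mul_index P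
    rw [Nat.card_eq_fintype_card (α := Perm A), Fintype.card_perm] at h2
    have h3 : ¬ p ∣ P.index := by
      have := hP.2.2
      rwa [Subgroup.relIndex_top_right] at this
    have hfac : ∀ n : ℕ, n.factorial ≠ 0 := fun n => Nat.factorial_ne_zero n
    have hi0 : P.index ≠ 0 := by
      intro h; rw [h, mul_zero] at h2; exact hfac _ h2.symm
    have hi1 : (W (p := p) R P).index ≠ 0 := by
      intro h; rw [h, mul_zero] at h1; exact hfac _ h1.symm
    have hk0 : p ^ k ≠ 0 := pow_ne_zero _ hp.ne_zero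
    have e1 := congrArg (padicValNat p) h2
    rw [hk, padicValNat.mul hk0 hi0, padicValNat.prime_pow, padicValNat.eq_zero_of_not_dvd h3, add_zero] at e1
    have e2 := congrArg (padicValNat p) h1
    rw [hk, ← pow_add, padicValNat.mul (pow_ne_zero _ hp.ne_zero) hi1, padicValNat.prime_pow,
      padicValNat_factorial_mul_add _ hR, padicValNat_factorial_mul, ← e1] at e2
    have e3 : 1 ≤ padicValNat p (W (p := p) R P).index :=
      one_le_padicValNat_of_dvd hi1 hd
    omega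

/-! ### signs -/

theorem sign_blk (s : Perm A) : Perm.sign (wa s 1 0 : Perm ((A × ZMod p) ⊕ R)) = Perm.sign s ^ p := by
  have h : (wa s 1 0 : Perm ((A × ZMod p) ⊕ R)) =
      Perm.sumCongr (Equiv.prodCongrLeft fun _ : ZMod p => s) 1 := by
    apply ext_inl
    · intro b v
      rw [wa_inl]
      simp [Equiv.prodCongrLeft]
    · intro x; rfl
  rw [h, Perm.sign_sumCongr, Perm.sign_prodCongrLeft, Finset.prod_const, Finset.card_univ, ZMod.card, map_one,
    mul_one]

/-- affine permutation of `ZMod p` -/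
def aff (l : (ZMod p)ˣ) (c : ZMod p) : Perm (ZMod p) where
  toFun v := l * v + c
  invFun v := (l⁻¹ : (ZMod p)ˣ) * (v - c)
  left_inv v := by
    show ((l⁻¹ : (ZMod p)ˣ) : ZMod p) * (l * v + c - c) = v
    rw [add_sub_cancel_right, ← mul_assoc, Units.inv_mul, one_mul]
  right_inv v := by
    show (l : ZMod p) * (((l⁻¹ : (ZMod p)ˣ) : ZMod p) * (v - c)) + c = v
    rw [← mul_assoc, Units.mul_inv, one_mul, sub_add_cancel]

theorem sign_one (l : A → (ZMod p)ˣ) (f : A → ZMod p) :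
    Perm.sign (wa 1 l f : Perm ((A × ZMod p) ⊕ R)) = ∏ b, Perm.sign (aff (l b) (f b)) := by
  have h : (wa 1 l f : Perm ((A × ZMod p) ⊕ R)) =
      Perm.sumCongr (Equiv.prodCongrRight fun b : A => aff (l b) (f b)) 1 := by
    apply ext_inl
    · intro b v; rfl
    · intro x; rfl
  rw [h, Perm.sign_sumCongr, Perm.sign_prodCongrRight, map_one, mul_one]

/-- odd-order elements are even -/
theorem sign_eq_one_of_pow {B : Type*} [Fintype B] [DecidableEq B] (hp2 : p ≠ 2) {x : Perm B} {k : ℕ}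
    (h : x ^ p ^ k = 1) : Perm.sign x = 1 := by
  have hodd : Odd (p ^ k) := ((Fact.out : p.Prime).odd_of_ne_two hp2).pow
  have h1 : Perm.sign x ^ p ^ k = 1 := by rw [← map_pow, h, map_one]
  rcases Int.units_eq_one_or (Perm.sign x) with h2 | h2
  · exact h2
  · rw [h2, hodd.neg_one_pow] at h1
    exact absurd h1 (by decide)

/-! ### supports -/

theorem support_base (f : A → ZMod p) : (wa 1 1 f : Perm ((A × ZMod p) ⊕ R)).support.card =
    p * (Finset.univ.filter fun b => f b ≠ 0).card := by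
  have h : (wa 1 1 f : Perm ((A × ZMod p) ⊕ R)).support =
      (((Finset.univ.filter fun b => f b ≠ 0) ×ˢ (Finset.univ : Finset (ZMod p))).map
        ⟨Sum.inl, Sum.inl_injective⟩) := by
    ext x
    rw [Perm.mem_support]
    rcases x with ⟨b, v⟩ | x
    · simp
    · simp
  rw [h, Finset.card_map, Finset.card_product, Finset.card_univ, ZMod.card, mul_comm]

/-! ### transport to wreath form -/

theorem SylIn_map {G G' : Type*} [Group G] [Group G'] {P : Subgroup G} (h : SylIn p P ⊤) (e : G ≃* G') :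
    SylIn p (P.map e.toMonoidHom) ⊤ := by
  refine ⟨le_top, h.isPGroup.map _, ?_⟩
  rw [Subgroup.relIndex_top_right]
  have h1 : (P.map e.toMonoidHom).index = P.index := Subgroup.index_map_of_bijective e.bijective P
  rw [h1]
  have := h.2.2
  rwa [Subgroup.relIndex_top_right] at this

theorem exists_equiv_W {B : Type*} [Fintype B] [DecidableEq B] {P : Subgroup (Perm B)} (hP : SylIn p P ⊤)
    {P' : Subgroup (Perm A)} (hP' : SylIn p P' ⊤) (hR : Fintype.card R < p)
    (hc : Fintype.card B = p * Fintype.card A + Fintype.card R) :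
    ∃ e : Perm B ≃* Perm ((A × ZMod p) ⊕ R), P.map e.toMonoidHom = W R P' := by
  have e0 : B ≃ (A × ZMod p) ⊕ R := Fintype.equivOfCardEq (by rw [hc, card_base])
  let ψ : Perm B ≃* Perm ((A × ZMod p) ⊕ R) := e0.permCongrHom
  have hW := sylIn_W (R := R) hR hP'
  have h1 := SylIn_map hP ψ
  obtain ⟨g, -, hg⟩ := hW.exists_conj (K := P.map ψ.toMonoidHom) le_top h1.isPGroup
  have h2 := SylIn_map h1 (MulAut.conj g)
  refine ⟨ψ.trans (MulAut.conj g), ?_⟩
  have h3 : (P.map (ψ.trans (MulAut.conj g)).toMonoidHom) = (P.map ψ.toMonoidHom).map (MulAut.conj g).toMonoidHom := by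
    rw [Subgroup.map_map]; rfl
  rw [h3]
  apply h2.eq_of_le _ le_top hW.isPGroup
  rintro _ ⟨x, hx, rfl⟩
  exact hg x hx

/-- block permutation homomorphism -/
def blk (p : ℕ) (A R : Type*) : Perm A →* Perm ((A × ZMod p) ⊕ R) where
  toFun s := wa s 1 0
  map_one' := wa_one
  map_mul' s s' := (wa_blk_mul s s').symm

theorem W_le_closure {P : Subgroup (Perm A)} (hP : P ≤ Subgroup.closure {x | x ∈ P ∧ x ^ p = 1})
    {C : Subgroup (Perm ((A × ZMod p) ⊕ R))} (h2 : ∀ s ∈ P, s ^ p = 1 → (wa s 1 0 : Perm ((A × ZMod p) ⊕ R)) ∈ C)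
    {s : Perm A} (hs : s ∈ P) : (wa s 1 0 : Perm ((A × ZMod p) ⊕ R)) ∈ C := by
  have h3 : Subgroup.closure {x | x ∈ P ∧ x ^ p = 1} ≤ C.comap (blk p A R) := by
    rw [Subgroup.closure_le]
    rintro x ⟨hx, hxp⟩
    exact h2 x hx hxp
  exact h3 (hP hs)

/-- Sylow subgroups of symmetric groups are generated by elements of order `p`. -/
theorem gen_order_p : ∀ (n : ℕ) (B : Type) [Fintype B] [DecidableEq B], Fintype.card B = n →
    ∀ P : Subgroup (Perm B), SylIn p P ⊤ → P ≤ Subgroup.closure {x | x ∈ P ∧ x ^ p = 1} := by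
  intro n
  induction n using Nat.strong_induction_on with
  | _ n ih =>
    intro B _ _ hB P hP
    have hp := (Fact.out : p.Prime)
    by_cases hn : n < p
    · have h1 : P = ⊥ := by
        obtain ⟨k, hk⟩ := hP.isPGroup.exists_card_eq
        have h2 : Nat.card P ∣ n.factorial := by
          have := Subgroup.card_subgroup_dvd_card P
          rwa [Nat.card_eq_fintype_card (α := Perm B), Fintype.card_perm, hB] at this
        rcases Nat.eq_zero_or_pos k with rfl | hk0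
        · rw [pow_zero] at hk
          exact Subgroup.eq_bot_of_card_eq _ hk
        · exfalso
          have h3 : p ∣ n.factorial := (dvd_pow_self p hk0.ne').trans (hk ▸ h2)
          exact absurd ((hp.dvd_factorial).mp h3) (by omega)
      rw [h1]; exact bot_le
    · have ha : n / p < n := Nat.div_lt_self (by have := hp.pos; omega) hp.one_lt
      have hr : n % p < p := Nat.mod_lt _ hp.pos
      obtain ⟨P', hP', -⟩ := exists_sylIn_ge (p := p) (K := (⊥ : Subgroup (Perm (Fin (n / p))))) (L := ⊤) bot_le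
        IsPGroup.of_bot
      have hgen := ih _ ha (Fin (n / p)) (Fintype.card_fin _) P' hP'
      obtain ⟨e, he⟩ := exists_equiv_W (R := Fin (n % p)) hP hP' (by rw [Fintype.card_fin]; exact hr)
        (by rw [hB, Fintype.card_fin, Fintype.card_fin]; exact (Nat.div_add_mod n p).symm)
      intro x hx
      have h1 : e x ∈ (Subgroup.closure {x | x ∈ P ∧ x ^ p = 1}).map e.toMonoidHom := by
        have hex : e x ∈ W (p := p) (Fin (n % p)) P' := by rw [← he]; exact ⟨x, hx, rfl⟩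
        have hlift : ∀ y ∈ W (p := p) (Fin (n % p)) P', y ^ p = 1 →
            y ∈ (Subgroup.closure {x | x ∈ P ∧ x ^ p = 1}).map e.toMonoidHom := by
          intro y hy hyp
          rw [← he] at hy
          obtain ⟨z, hz, rfl⟩ := hy
          refine ⟨z, Subgroup.subset_closure ⟨hz, ?_⟩, rfl⟩
          apply e.injective
          rw [map_pow, map_one]; exact hyp
        obtain ⟨s, hs, f, hsf⟩ := hex
        rw [hsf, wa_split]
        refine Subgroup.mul_mem _ (Subgroup.mul_mem _ ?_ ?_) ?_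
        · exact hlift _ ⟨1, P'.one_mem, _, rfl⟩ (wa_base_pow_p _)
        · exact hlift _ ⟨1, P'.one_mem, _, rfl⟩ (wa_base_pow_p _)
        · apply W_le_closure hgen _ hs
          intro s' hs' hsp
          apply hlift _ ⟨s', hs', 0, rfl⟩
          have := map_pow (blk p (Fin (n / p)) (Fin (n % p))) s' p
          rw [hsp, map_one] at this
          exact this.symm
      obtain ⟨z, hz, hzx⟩ := h1
      rw [← e.injective hzx]; exact hz

/-! ### normalizers -/

theorem blocks_of_normalizer {P : Subgroup (Perm A)} {U : Subgroup (Perm ((A × ZMod p) ⊕ R))} (hUW : U ≤ W R P)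
    (hR : Subsingleton R)
    (hmove : ∀ c : A, ∃ f : A → ZMod p, f c ≠ 0 ∧ (wa 1 1 f : Perm ((A × ZMod p) ⊕ R)) ∈ U)
    (hsep : ∀ c c' : A, c ≠ c' → ∃ f : A → ZMod p, f c = 0 ∧ f c' ≠ 0 ∧ (wa 1 1 f : Perm ((A × ZMod p) ⊕ R)) ∈ U)
    {g : Perm ((A × ZMod p) ⊕ R)} (hg : g ∈ Subgroup.normalizer (U : Set (Perm ((A × ZMod p) ⊕ R)))) :
    ∃ (π : Perm A) (γ : A → ZMod p → ZMod p), (∀ b v, g (Sum.inl (b, v)) = Sum.inl (π b, γ b v)) ∧
      ∀ x, g (Sum.inr x) = Sum.inr x := by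
  have hinr : ∀ g ∈ Subgroup.normalizer (U : Set (Perm ((A × ZMod p) ⊕ R))), ∀ x : R, g (Sum.inr x) = Sum.inr x := by
    intro g hg x
    have h1 : ∀ w ∈ U, w (g (Sum.inr x)) = g (Sum.inr x) := by
      intro w hw
      have h2 : g⁻¹ * w * g⁻¹⁻¹ ∈ U := (Subgroup.mem_normalizer_iff.mp (Subgroup.inv_mem _ hg) w).mp hw
      rw [inv_inv] at h2
      obtain ⟨s, -, f, hsf⟩ := hUW h2
      have h3 : (g⁻¹ * w * g) (Sum.inr x) = Sum.inr x := by rw [hsf]; rfl
      rw [Perm.mul_apply, Perm.mul_apply, Perm.inv_eq_iff_eq] at h3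
      exact h3
    rcases hgx : g (Sum.inr x) with ⟨b, v⟩ | y
    · exfalso
      obtain ⟨f, hf, hfU⟩ := hmove b
      have := h1 _ hfU
      rw [hgx, wa_inl] at this
      simp at this
      exact hf this
    · rw [Subsingleton.elim y x]
  have hinl : ∀ g ∈ Subgroup.normalizer (U : Set (Perm ((A × ZMod p) ⊕ R))), ∀ (b : A) (v : ZMod p),
      ∃ c u, g (Sum.inl (b, v)) = Sum.inl (c, u) := by
    intro g hg b v
    rcases hgx : g (Sum.inl (b, v)) with ⟨c, u⟩ | y
    · exact ⟨c, u, rfl⟩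
    · exfalso
      have h1 := hinr g hg y
      have := g.injective (hgx.trans h1.symm)
      exact Sum.inl_ne_inr this
  have hblk : ∀ g ∈ Subgroup.normalizer (U : Set (Perm ((A × ZMod p) ⊕ R))), ∀ (b : A) (v v' : ZMod p) (c c' : A)
      (u u' : ZMod p), g (Sum.inl (b, v)) = Sum.inl (c, u) → g (Sum.inl (b, v')) = Sum.inl (c', u') → c = c' := by
    intro g hg b v v' c c' u u' h h'
    by_contra hne
    obtain ⟨f, hf, hf', hfU⟩ := hsep c c' hne
    have h2 : g⁻¹ * wa 1 1 f * g⁻¹⁻¹ ∈ U := (Subgroup.mem_normalizer_iff.mp (Subgroup.inv_mem _ hg) _).mp hfU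
    rw [inv_inv] at h2
    obtain ⟨w, hw⟩ : ∃ w : Perm ((A × ZMod p) ⊕ R), w = g⁻¹ * wa 1 1 f * g := ⟨_, rfl⟩
    rw [← hw] at h2
    obtain ⟨s, -, k, hsk⟩ := hUW h2
    have h3 : w (Sum.inl (b, v)) = Sum.inl (b, v) := by
      rw [hw, Perm.mul_apply, Perm.mul_apply, h, wa_inl, hf, Perm.inv_eq_iff_eq, h]
      simp
    rw [hsk, wa_inl] at h3
    simp only [Sum.inl.injEq, Prod.mk.injEq, Pi.one_apply, Units.val_one, one_mul, add_eq_left] at h3
    have h4 : w (Sum.inl (b, v')) = Sum.inl (b, v') := by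
      rw [hsk, wa_inl, h3.1, h3.2]
      simp
    rw [hw, Perm.mul_apply, Perm.mul_apply, h', wa_inl, Perm.inv_eq_iff_eq, h'] at h4
    simp at h4
    exact hf' h4
  have hfun : ∀ g ∈ Subgroup.normalizer (U : Set (Perm ((A × ZMod p) ⊕ R))), ∃ (π : A → A) (γ : A → ZMod p → ZMod p),
      ∀ b v, g (Sum.inl (b, v)) = Sum.inl (π b, γ b v) := by
    intro g hg
    choose c u hcu using hinl g hg
    refine ⟨fun b => c b 0, u, fun b v => ?_⟩
    rw [hcu, hblk g hg b v 0 _ _ _ _ (hcu b v) (hcu b 0)]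
  obtain ⟨π, γ, h1⟩ := hfun g hg
  obtain ⟨π', γ', h2⟩ := hfun g⁻¹ (Subgroup.inv_mem _ hg)
  have h3 : ∀ b, π' (π b) = b := by
    intro b
    have h4 : g⁻¹ (g (Sum.inl (b, (0 : ZMod p)))) = Sum.inl (b, 0) := g.symm_apply_apply _
    rw [h1, h2] at h4
    exact (Prod.mk.injEq .. ▸ Sum.inl_injective h4 : _ ∧ _).1
  have h3' : ∀ b, π (π' b) = b := by
    intro b
    have h4 : g (g⁻¹ (Sum.inl (b, (0 : ZMod p)))) = Sum.inl (b, 0) := g.apply_symm_apply _
    rw [h2, h1] at h4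
    exact (Prod.mk.injEq .. ▸ Sum.inl_injective h4 : _ ∧ _).1
  exact ⟨⟨π, π', h3, h3'⟩, γ, h1, hinr g hg⟩

end Cfsg.Agent.Fus.WrP
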