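import Cfsg.Agent.Fus.ThomTr
import Cfsg.Agent.Fus.Wreath2
import Cfsg.Agent.Fus.Local
set_option autoImplicit false
set_option maxHeartbeats 400000

/-!
# Yoshida's theorem for fusion systems (helper88)
-/

namespace Cfsg.Agent.Fus.Bi

open Cfsg Cfsg.Agent.Fus Cfsg.Agent.Fus.Burn

variable {Ω : Type*} [Group Ω] {S : Subgroup Ω} {F : FusionSystem S} {p : ℕ}

theorem index_dvd_of_ne_top {G : Type*} [Group G] [Finite G] [Fact p.Prime] (hG : IsPGroup p G) {H : Subgroup G}
    (hH : H ≠ ⊤) : p ∣ H.index := by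
  obtain ⟨k, hk⟩ := IsPGroup.iff_card.mp hG
  have h1 : H.index ∣ p ^ k := by
    rw [← hk]; exact Subgroup.index_dvd_card H
  obtain ⟨m, -, hm⟩ := (Nat.dvd_prime_pow Fact.out).mp h1
  rcases Nat.eq_zero_or_pos m with rfl | hm0
  · rw [pow_zero, Subgroup.index_eq_one] at hm
    exact absurd hm hH
  · rw [hm]
    exact dvd_pow_self p (by omega)

theorem yoshida_aux [Finite S] [hp : Fact p.Prime] (hS : IsPGroup p S) (hF : F.IsSaturated p)
    (l : S →* Multiplicative (ZMod p))
    (hl : ∀ (f : Ω → Ω) (h : IsMap F S f) (x : Ω) (hx : x ∈ S), l ⟨f x, h.mem hx⟩ = l ⟨x, hx⟩)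
    (hne : ¬ Stable F l) :
    ∃ (W : Sylow p (Equiv.Perm (Fin (p ^ 2)))) (f : S →* ↥(W : Subgroup (Equiv.Perm (Fin (p ^ 2))))),
      Function.Surjective f := by
  classical
  -- the minimal element
  let E : Set S := {w | (w : Ω) ∈ F.focalSubgroup ∧ l w ≠ 1}
  have hE : E.Nonempty := by
    rw [stable_iff] at hne
    push Not at hne
    obtain ⟨x, hx, hxf, hxl⟩ := hne
    exact ⟨⟨x, hx⟩, hxf, hxl⟩
  obtain ⟨w, hwE, hwmin⟩ := Set.exists_min_image E orderOf (Set.toFinite _) hE
  obtain ⟨hwf, hwl⟩ := hwE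
  -- the biset
  obtain ⟨c, hc⟩ := exists_isChar hS hF
  have hX : Finite (carr c) := (finite_carr c).to_subtype
  have hα := charAct_carr hc
  set α := restr (uact (S × S)) (carr c) (carr_inv c) with hαd
  obtain ⟨h, hh⟩ := Tr.exists_gauge (r := ract α) hα.toRealAct.free l
  let _ : Fintype (Tr.Orb (ract α)) := Fintype.ofFinite _
  let D : S → Tr.Orb (ract α) → ZMod p := fun u o => Multiplicative.toAdd (h (α (u, 1) o.out) / h o.out)
  have hval : ∀ (u : S) (x : carr c), D u (Tr.omk (ract α) x) = Multiplicative.toAdd (h (α (u, 1) x) / h x) := by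
    intro u x
    show Multiplicative.toAdd _ = _
    rw [hh.div_congr (left_mem_cen α u) (Tr.omk_out (Tr.omk (ract α) x))]
  have hD : ∀ u v o, D (u * v) o = D u (lorb α v o) + D v o := by
    intro u v o
    obtain ⟨x, rfl⟩ := Tr.exists_omk o
    rw [lorb_omk, hval, hval, hval, ← toAdd_mul, div_mul_div_cancel, ← Equiv.Perm.mul_apply, ← map_mul, mulp, one_mul]
  have hDfix : ∀ (u b : S) (x : carr c), α (u, b) x = x → D u (Tr.omk (ract α) x) = - Multiplicative.toAdd (l b) := by
    intro u b x hx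
    rw [hval]
    have h3 : α (u, 1) x = ract α b⁻¹ x := by
      have h4 : ((u, 1) : S × S) = (1, b⁻¹) * (u, b) := by rw [mulp, one_mul, inv_mul_cancel]
      rw [h4, map_mul, Equiv.Perm.mul_apply, hx, ract_apply]
    rw [h3, hh, mul_div_assoc, div_self', mul_one, map_inv]
    rfl
  set s := (Finset.univ : Finset (Tr.Orb (ract α))).filter (fun o => ∃ g, lorb α g o ≠ o) with hs
  have hsinv : ∀ g, ∀ o ∈ s, lorb α g o ∈ s := by
    intro g o ho
    obtain ⟨-, k, hk⟩ := Finset.mem_filter.mp ho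
    refine Finset.mem_filter.mpr ⟨Finset.mem_univ _, g * k * g⁻¹, fun h => hk ?_⟩
    rw [map_mul, map_mul, Equiv.Perm.mul_apply, Equiv.Perm.mul_apply, Wr.act_inv_act] at h
    exact (lorb α g).injective h
  refine Wr.wreath_of_cocycle hS (lorb α) D hD s hsinv (fun o ho => (Finset.mem_filter.mp ho).2) (w := w) ?_ ?_
  · -- short cycles
    intro o ho hwo k hko
    obtain ⟨x, rfl⟩ := Tr.exists_omk o
    obtain ⟨b, hb⟩ := lorb_fix_iff.mp hko
    rw [hDfix _ _ _ hb, neg_eq_zero]
    by_contra hbl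
    have hbl' : l b ≠ 1 := fun h => hbl (by rw [h]; rfl)
    obtain ⟨P, φ, hφ, hP⟩ := hα.supp x
    have h1 : ((w ^ k, b) : S × S) ∈ graph hφ := by rw [← hP]; exact hb
    have hwP : ((w ^ k : S) : Ω) ∈ P := h1.1
    have hbφ : (b : Ω) = φ (w ^ k : S) := h1.2
    have hwkf : ((w ^ k : S) : Ω) ∈ F.focalSubgroup := by
      rw [Subgroup.coe_zpow]
      exact Subgroup.zpow_mem _ hwf k
    have hbE : b ∈ E := by
      refine ⟨?_, hbl'⟩
      have h2 := mem_focal_of_isMap hφ hwP
      have h3 := F.focalSubgroup.mul_mem hwkf h2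
      rw [mul_inv_cancel_left, ← hbφ] at h3
      exact h3
    have h2 := hwmin b hbE
    have h3 : orderOf b = orderOf (w ^ k) := by
      rw [← Subgroup.orderOf_coe b, ← Subgroup.orderOf_coe (w ^ k), hbφ]
      refine orderOf_eq_orderOf_iff.mpr fun n => ?_
      rw [← hφ.map_pow hwP, hφ.eq_one_iff (Subgroup.pow_mem _ hwP n)]
    have h4 : Subgroup.zpowers (w ^ k) = Subgroup.zpowers w := by
      refine Subgroup.eq_of_le_of_card_ge (Subgroup.zpowers_le.mpr ⟨k, rfl⟩) ?_
      rw [Nat.card_zpowers, Nat.card_zpowers, ← h3]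
      exact h2
    have h5 : w ∈ Subgroup.zpowers (w ^ k) := by rw [h4]; exact Subgroup.mem_zpowers w
    obtain ⟨j, hj⟩ := h5
    apply hwo
    have h6 : w ^ k ∈ Burn.stab (lorb α) (Tr.omk (ract α) x) := hko
    have h7 := Subgroup.zpow_mem _ h6 j
    have h8 : (w ^ k) ^ j = w := hj
    rw [h8] at h7
    exact h7
  · -- the sum
    have htot : ∑ o, D w o = 0 := by
      have h1 : V hh w = 1 := by
        obtain ⟨v, hv, hvw⟩ := V_focal hα.toRealAct hh hwf
        have h2 : v = w := Subtype.ext hvw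
        rw [← h2]
        exact hv
      rw [V_apply] at h1
      unfold Tr.trg at h1
      simp only at h1
      have h2 := congrArg Multiplicative.toAdd h1
      rw [toAdd_prod, toAdd_one] at h2
      exact h2
    have hsplit := Finset.sum_filter_add_sum_filter_not (Finset.univ : Finset (Tr.Orb (ract α)))
      (fun o => ∃ g, lorb α g o ≠ o) (fun o => D w o)
    rw [htot] at hsplit
    set t := (Finset.univ : Finset (Tr.Orb (ract α))).filter (fun o => ¬ ∃ g, lorb α g o ≠ o) with ht
    have htsum : ∑ o ∈ t, D w o = - (t.card : ZMod p) * Multiplicative.toAdd (l w) := by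
      have h1 : ∀ o ∈ t, D w o = - Multiplicative.toAdd (l w) := by
        intro o ho
        obtain ⟨-, hfix⟩ := Finset.mem_filter.mp ho
        push Not at hfix
        obtain ⟨x, rfl⟩ := Tr.exists_omk o
        obtain ⟨b, hb⟩ := lorb_fix_iff.mp (hfix w)
        rw [hDfix _ _ _ hb]
        obtain ⟨P, φ, hφ, hP⟩ := hα.supp x
        have hmem : ∀ {u b : S}, α (u, b) x = x → (u : Ω) ∈ P ∧ (b : Ω) = φ u := by
          intro u b h
          have h1 : ((u, b) : S × S) ∈ graph hφ := by rw [← hP]; exact h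
          exact h1
        have hPS : P = S := by
          refine le_antisymm hφ.le fun y hy => ?_
          obtain ⟨d, hd⟩ := lorb_fix_iff.mp (hfix ⟨y, hy⟩)
          exact (hmem hd).1
        subst hPS
        have h2 := hl φ hφ w w.2
        have h3 : b = ⟨φ w, hφ.mem w.2⟩ := Subtype.ext (hmem hb).2
        rw [h3, h2]
      rw [Finset.sum_congr rfl h1, Finset.sum_const, nsmul_eq_mul]
      ring
    have hcards : p ∣ s.card := by
      have h1 := dvd_ncard (lorb α) p _ (s : Set (Tr.Orb (ract α))) (Set.toFinite _) rfl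
        (fun g o ho => hsinv g o ho) (by
          intro o ho
          obtain ⟨-, g, hg⟩ := Finset.mem_filter.mp ho
          refine index_dvd_of_ne_top hS fun h => hg ?_
          have h2 : g ∈ Burn.stab (lorb α) o := by rw [h]; trivial
          exact h2)
      rwa [Set.ncard_coe_finset] at h1
    have hcardt : ¬ p ∣ t.card := by
      intro h2
      have h3 : s.card + t.card = Nat.card (Tr.Orb (ract α)) := by
        rw [Nat.card_eq_fintype_card, ← Finset.card_univ]
        exact Finset.card_filter_add_card_filter_not _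
      exact hα.not_dvd (by rw [← h3]; exact Dvd.dvd.add hcards h2)
    intro h0
    rw [h0, zero_add, htsum] at hsplit
    have h3 : (t.card : ZMod p) ≠ 0 := by
      intro h
      exact hcardt ((ZMod.natCast_eq_zero_iff _ _).mp h)
    have h4 : Multiplicative.toAdd (l w) ≠ 0 := fun h => hwl h
    exact (mul_ne_zero (neg_ne_zero.mpr h3) h4) hsplit

open scoped commutatorElement in
/-- Yoshida's theorem. -/
theorem yoshida [Finite S] [hp : Fact p.Prime] (hS : IsPGroup p S) (hF : F.IsSaturated p)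
    (N : FusionSystem (FusionSystem.normalizerIn S S)) (hN : F.IsNormalizerSystem S N)
    (hne : N.focalSubgroup ≠ F.focalSubgroup) :
    ∃ (W : Sylow p (Equiv.Perm (Fin (p ^ 2)))) (f : S →* ↥(W : Subgroup (Equiv.Perm (Fin (p ^ 2))))),
      Function.Surjective f := by
  have hK := isKSystem_top_iff.mpr hN
  have hmap := hK.2
  have hNF : N.focalSubgroup ≤ F.focalSubgroup := by
    refine focal_le fun P f hf x hx => ?_
    exact mem_focal_of_isMap ((hmap P f).mp hf).isMap hx
  have htop : ∀ (f : Ω → Ω), IsMap F S f → IsMap N S f := by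
    intro f hf
    rw [hmap]
    have himg : img S f = S := hf.img_eq fun x hx => hf.mem hx
    refine ⟨?_, ?_, f, ?_, fun x _ => rfl, ?_⟩
    · rw [kNorm_top]; exact le_normalizerIn le_rfl
    · intro x hx
      rw [kNorm_top]
      exact le_normalizerIn le_rfl (hf.mem hx)
    · rwa [sup_idem]
    · exact ⟨hf.aut himg, trivial, fun x hx => (hf.ofAut_aut himg hx).symm⟩
  have hSN : ⁅S, S⁆ ≤ N.focalSubgroup := by
    rw [Subgroup.commutator_le]
    intro x hx y hy
    have h := mem_focal_of_isMap (htop _ (isMap_conj (F := F) le_rfl hy)) (S.inv_mem hx)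
    have e : ⁅x, y⁆ = x⁻¹⁻¹ * (y * x⁻¹ * y⁻¹) := by rw [commutatorElement_def]; group
    rw [e]; exact h
  have hNS : N.focalSubgroup ≤ S := hNF.trans (focal_le fun P f hf x hx =>
    S.mul_mem (S.inv_mem (hf.le hx)) (hf.mem hx))
  by_contra hno
  apply hne
  refine le_antisymm hNF (focal_le_of_elementary hS hF hNS hSN hNF ?_)
  -- every `N`-stable homomorphism is `F`-stable
  intro x hxf
  by_contra hx
  have hxS : x ∈ S := focal_le (F := F) (fun P f hf x hx => S.mul_mem (S.inv_mem (hf.le hx)) (hf.mem hx)) hxf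
  set M : Subgroup S := N.focalSubgroup.subgroupOf S ⊔ frattini S with hM
  have hxM : (⟨x, hxS⟩ : S) ∉ M := by
    intro h
    apply hx
    have h1 : (x : Ω) ∈ M.map S.subtype := ⟨_, h, rfl⟩
    rw [hM, Subgroup.map_sup] at h1
    have h2 : (N.focalSubgroup.subgroupOf S).map S.subtype ≤ N.focalSubgroup := by
      rintro _ ⟨y, hy, rfl⟩
      exact hy
    exact (sup_le_sup_right h2 ((frattini S).map S.subtype)) h1
  obtain ⟨l, hlM, hlx⟩ := Wr.exists_sep (p := p) (N := M)
    ((Cfsg.Agent.Solv.commutator_le_frattini_of_pGroup hS).trans le_sup_right)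
    (fun y => (le_sup_right : frattini S ≤ M) (Cfsg.Agent.Solv.pow_mem_frattini_of_pGroup hS y)) hxM
  apply hno
  refine yoshida_aux hS hF l ?_ ?_
  · intro f hf x hx
    have h1 := mem_focal_of_isMap (htop f hf) hx
    have h2 : (⟨x, hx⟩⁻¹ * ⟨f x, hf.mem hx⟩ : S) ∈ l.ker := hlM ((le_sup_left : N.focalSubgroup.subgroupOf S ≤ M) h1)
    rw [MonoidHom.mem_ker, map_mul, map_inv, inv_mul_eq_one] at h2
    exact h2.symm
  · intro hst
    exact hlx (stable_iff.mp hst x hxS hxf)

end Cfsg.Agent.Fus.Bi
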